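import Mathlib

/-! S2987, piece L2: the trace argument (helper50). -/

set_option autoImplicit false
set_option maxHeartbeats 400000

namespace H50.BZ

theorem fixpt {F : Type*} [Field F] [Fintype F] {R M : Type*} [Group R] [Finite R] [CommGroup M]
    (a : R →* MulAut M) (φ : M → F) (hφm : ∀ x y, φ (x * y) = φ x + φ y) (hφs : Function.Surjective φ)
    (σ : R → (F ≃+* F)) (hσ : ∀ r s, σ (r * s) = (σ s).trans (σ r)) (c : R → F) (hc : ∀ r, c r ≠ 0)
    (hac : ∀ r m, φ (a r m) = c r * σ r (φ m)) (hK : ∀ r, σ r = RingEquiv.refl F → ∀ m, a r m = m) :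
    ∃ m, (∀ r, a r m = m) ∧ φ m ≠ 0 := by
  classical
  haveI : Fintype R := Fintype.ofFinite R
  have h1 : σ 1 = RingEquiv.refl F := by
    have h2 := hσ 1 1
    rw [mul_one] at h2
    ext x
    have h3 := congrArg (fun τ : F ≃+* F => τ x) h2
    simp only [RingEquiv.trans_apply] at h3
    exact ((σ 1).injective h3).symm
  have hinv : ∀ r s, σ r = σ s → ∀ m, a r m = a s m := by
    intro r s hrs m
    have h2 : σ (s⁻¹ * r) = RingEquiv.refl F := by
      rw [hσ, hrs, ← hσ, inv_mul_cancel, h1]
    have h3 := hK _ h2 m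
    calc a r m = a (s * (s⁻¹ * r)) m := by rw [mul_inv_cancel_left]
      _ = a s (a (s⁻¹ * r) m) := by rw [map_mul]; rfl
      _ = a s m := by rw [h3]
  let I : Type _ := {τ : F ≃+* F // ∃ r, σ r = τ}
  haveI : Finite (F ≃+* F) := Finite.of_injective (fun τ : F ≃+* F => (τ : F → F)) (fun x y h => by
    ext v; exact congrFun h v)
  haveI : Fintype I := Fintype.ofFinite I
  let rep : I → R := fun τ => Classical.choose τ.2
  have hrep : ∀ τ : I, σ (rep τ) = τ.1 := fun τ => Classical.choose_spec τ.2
  let τr : M → M := fun m => ∏ i : I, a (rep i) m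
  have hτφ : ∀ m, φ (τr m) = ∑ i : I, c (rep i) * i.1 (φ m) := by
    intro m
    have h2 : φ 1 = 0 := by
      have h3 := hφm 1 1
      rw [mul_one] at h3
      exact left_eq_add.1 h3
    let Φ : M →* Multiplicative F :=
      { toFun := fun x => Multiplicative.ofAdd (φ x)
        map_one' := by rw [h2]; rfl
        map_mul' := fun x y => by rw [hφm]; rfl }
    have h4 : Multiplicative.ofAdd (φ (τr m)) = ∏ i : I, Multiplicative.ofAdd (φ (a (rep i) m)) := map_prod Φ _ _
    have h5 : φ (τr m) = ∑ i : I, φ (a (rep i) m) := h4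
    rw [h5]
    apply Finset.sum_congr rfl
    intro i _
    rw [hac, hrep]
  have hτf : ∀ r m, a r (τr m) = τr m := by
    intro r m
    have h2 : a r (τr m) = ∏ i : I, a r (a (rep i) m) := map_prod (a r) _ _
    rw [h2]
    let e : I → I := fun i => ⟨i.1.trans (σ r), ⟨r * rep i, by rw [hσ, hrep]⟩⟩
    have he : Function.Injective e := by
      intro i j hij
      have h3 := congrArg Subtype.val hij
      apply Subtype.ext
      ext x
      have h4 := congrArg (fun τ : F ≃+* F => τ x) h3
      exact (σ r).injective h4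
    have he2 : Function.Bijective e := ⟨he, Finite.surjective_of_injective he⟩
    have h3 : ∀ i : I, a r (a (rep i) m) = a (rep (e i)) m := by
      intro i
      have h4 : a r (a (rep i) m) = a (r * rep i) m := by rw [map_mul]; rfl
      rw [h4]
      apply hinv
      rw [hσ, hrep, hrep]
    calc ∏ i : I, a r (a (rep i) m) = ∏ i : I, a (rep (e i)) m := Finset.prod_congr rfl (fun i _ => h3 i)
      _ = τr m := Function.Bijective.prod_comp he2 (fun i => a (rep i) m)
  by_contra hcon
  push Not at hcon
  have h2 : ∀ l : F, ∑ i : I, c (rep i) * i.1 l = 0 := by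
    intro l
    obtain ⟨m, rfl⟩ := hφs l
    rw [← hτφ]
    exact hcon _ (fun r => hτf r m)
  -- Dedekind
  have h3 : LinearIndependent F (fun i : I => ((i.1 : F →+* F) : F → F)) := by
    have h4 := linearIndependent_monoidHom F F
    have h5 : Function.Injective (fun i : I => ((i.1 : F →+* F) : F →* F)) := by
      intro i j hij
      apply Subtype.ext
      ext x
      exact congrArg (fun τ : F →* F => τ x) hij
    exact h4.comp _ h5
  rw [Fintype.linearIndependent_iff] at h3
  have h4 := h3 (fun i => c (rep i)) (by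
    ext l
    simp only [Finset.sum_apply, Pi.smul_apply, smul_eq_mul, Pi.zero_apply]
    exact h2 l)
  exact hc _ (h4 ⟨σ 1, 1, rfl⟩)

end H50.BZ
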