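import Cfsg.Agent.Lib.H50.OrthField

/-!
Class counts and centralizers of field automorphisms of `Ω_{2m+1}(q)`.
-/

set_option autoImplicit false
set_option linter.unusedSectionVars false

namespace H50.OrthOddCount

open Matrix H48.OutO H50.PSLBasic H50.PSLField H50.H90 H50.ClassCount H50.PSLCount H48.QuadSplit H48.QuadStd
  H50.OrthPsi H50.OrthDesc H48.OmegaPlus H50.OrthSim H50.OrthField

variable {F : Type*} [Field F] [Fintype F] {ι : Type} [Fintype ι] [DecidableEq ι] {Q : QuadraticForm F (ι → F)}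

/-! ### products of reflections, odd characteristic -/

section

variable (h2 : (2 : F) ≠ 0) (hQ : (QuadraticMap.polarBilin Q).Nondegenerate)
include h2 hQ

lemma even_of_det {vs : List (ι → F)} (hvs : ∀ v ∈ vs, Q v ≠ 0) (hdet : (rprod Q vs).det = 1) : Even vs.length := by
  rw [H48.OmegaTwo.det_rprod Q vs hvs] at hdet
  by_contra h
  rw [Nat.not_even_iff_odd] at h
  rw [h.neg_one_pow] at hdet
  apply h2
  linear_combination (1 : F) - hdet - 1

lemma refl2_mem_iff (hn : 2 ≤ Fintype.card ι) {v w : ι → F} (hv : Q v ≠ 0) (hw : Q w ≠ 0) :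
    H17.OrthDet.refl Q v hv * H17.OrthDet.refl Q w hw ∈ Cfsg.Omega F (⇑Q) ↔ IsSquare (Q v * Q w) := by
  have hlist : ∀ u ∈ [v, w], Q u ≠ 0 := by
    intro u hu
    rcases List.mem_cons.mp hu with rfl | hu
    · exact hv
    · rw [List.mem_singleton.mp hu]; exact hw
  rw [H48.OmegaQ.mem_Omega_iff h2 hn Q hQ _ [v, w] hlist (by simp [H17.OrthDet.refl_coe])]
  simp

lemma omega_dich (hn : 7 ≤ Fintype.card ι) (s : ↥(Cfsg.isometryGroup F (⇑Q)))
    (hdet : ((s : GL ι F) : Matrix ι ι F).det = 1) {v w : ι → F} (hv : Q v ≠ 0) (hw : Q w ≠ 0)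
    (hvw : ¬ IsSquare (Q v * Q w)) :
    s ∈ Cfsg.Omega F (⇑Q) ∨ s * (H17.OrthDet.refl Q v hv * H17.OrthDet.refl Q w hw) ∈ Cfsg.Omega F (⇑Q) := by
  obtain ⟨vs, hvs, hs⟩ := H48.MaxSing.exists_rprod_all (nd_iff.mpr hQ) (Or.inr (by omega)) s
  have heven : Even vs.length := even_of_det h2 hQ hvs (by rw [← hs]; exact hdet)
  by_cases hsq : IsSquare (vs.map (fun v => Q v)).prod
  · left
    rw [H48.OmegaQ.mem_Omega_iff h2 (by omega) Q hQ s vs hvs hs]
    exact ⟨heven, hsq⟩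
  · right
    have hlist : ∀ u ∈ vs ++ [v, w], Q u ≠ 0 := by
      intro u hu
      rcases List.mem_append.mp hu with h | hu
      · exact hvs u h
      rcases List.mem_cons.mp hu with rfl | hu
      · exact hv
      · rw [List.mem_singleton.mp hu]; exact hw
    rw [H48.OmegaQ.mem_Omega_iff h2 (by omega) Q hQ _ (vs ++ [v, w]) hlist (by
      have e1 := rprod_append Q vs [v, w]
      have e2 : (List.map (fun v => Cfsg.reflectionMatrix (⇑Q) v) (vs ++ [v, w])).prod = rprod Q (vs ++ [v, w]) := rfl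
      rw [e2, e1, ← hs]
      change ((s : GL ι F) : Matrix ι ι F) * (Cfsg.reflectionMatrix (⇑Q) v * Cfsg.reflectionMatrix (⇑Q) w) = _
      simp [rprod])]
    refine ⟨?_, ?_⟩
    · rw [List.length_append]
      exact heven.add even_two
    · rw [List.map_append, List.prod_append]
      apply H48.FinFieldSq.isSquare_mul_of_not hsq
      simpa using hvw

lemma det_of_omega (hn : 7 ≤ Fintype.card ι) {s : ↥(Cfsg.isometryGroup F (⇑Q))} (hs : s ∈ Cfsg.Omega F (⇑Q)) :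
    ((s : GL ι F) : Matrix ι ι F).det = 1 := by
  obtain ⟨vs, hvs, h1⟩ := H48.MaxSing.exists_rprod_all (nd_iff.mpr hQ) (Or.inr (by omega)) s
  rw [H48.OmegaQ.mem_Omega_iff h2 (by omega) Q hQ s vs hvs h1] at hs
  rw [h1, H48.OmegaTwo.det_rprod Q vs hvs, hs.1.neg_one_pow]

lemma det_refl2 {v w : ι → F} (hv : Q v ≠ 0) (hw : Q w ≠ 0) :
    (((H17.OrthDet.refl Q v hv * H17.OrthDet.refl Q w hw : ↥(Cfsg.isometryGroup F (⇑Q))) : GL ι F) :
      Matrix ι ι F).det = 1 := by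
  change (Cfsg.reflectionMatrix (⇑Q) v * Cfsg.reflectionMatrix (⇑Q) w).det = 1
  rw [Matrix.det_mul, H17.OrthMat.reflection_det _ v hv, H17.OrthMat.reflection_det _ w hw]
  ring

/-- in odd dimension the image of `refl v * refl w` is not inner if `Q v * Q w` is not a square -/
lemma not_inn_odd (hn : 7 ≤ Fintype.card ι) (hodd : Odd (Fintype.card ι)) {v w : ι → F} (hv : Q v ≠ 0) (hw : Q w ≠ 0)
    (hvw : ¬ IsSquare (Q v * Q w)) :
    psi1 Q (isoG Q (H17.OrthDet.refl Q v hv * H17.OrthDet.refl Q w hw)) ∉ Cfsg.Inn (Cfsg.POmega F (⇑Q)) := by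
  intro h
  obtain ⟨u, s, hs, h1⟩ := (inn_iff hQ hn _).mp h
  have h3 := congrArg (fun z : ↥(simG Q) => ((z : GL ι F) : Matrix ι ι F)) h1
  have h4 : (((H17.OrthDet.refl Q v hv * H17.OrthDet.refl Q w hw : ↥(Cfsg.isometryGroup F (⇑Q))) : GL ι F) :
      Matrix ι ι F) = (u : F) • ((s : GL ι F) : Matrix ι ι F) := by
    refine h3.trans ?_
    change ((sc u : GL ι F) : Matrix ι ι F) * ((s : GL ι F) : Matrix ι ι F) = _
    rw [sc_coe, Matrix.smul_mul, Matrix.one_mul]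
  have h5 : (u : F) ^ 2 = 1 := by
    have h6 := (H17.OrthDet.mem_isometryGroup_iff _ _).mp
      (H17.OrthDet.refl Q v hv * H17.OrthDet.refl Q w hw : ↥(Cfsg.isometryGroup F (⇑Q))).2 v
    have h7 := (H17.OrthDet.mem_isometryGroup_iff _ _).mp s.2 v
    rw [h4, Matrix.smul_mulVec, QuadraticMap.map_smul, h7, smul_eq_mul] at h6
    rw [pow_two]
    exact mul_right_cancel₀ hv (by rw [h6, one_mul])
  have h8 := congrArg Matrix.det h4
  rw [det_refl2 h2 hQ hv hw, Matrix.det_smul, det_of_omega h2 hQ hn hs, mul_one] at h8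
  obtain ⟨k, hk⟩ := hodd
  rw [hk, pow_succ, pow_mul, h5, one_pow, one_mul] at h8
  rw [← h8, one_smul] at h4
  have h9 : H17.OrthDet.refl Q v hv * H17.OrthDet.refl Q w hw = s := Subtype.ext (Units.ext h4)
  rw [← h9, refl2_mem_iff h2 hQ (by omega)] at hs
  exact hvw hs

/-- the inner-diagonal group modulo inner automorphisms has order two -/
lemma inn_or_odd (hn : 7 ≤ Fintype.card ι) (hodd : Odd (Fintype.card ι)) {v w : ι → F} (hv : Q v ≠ 0) (hw : Q w ≠ 0)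
    (hvw : ¬ IsSquare (Q v * Q w)) (g : ↥(simG Q)) :
    psi1 Q g ∈ Cfsg.Inn (Cfsg.POmega F (⇑Q)) ∨
      psi1 Q (g * isoG Q (H17.OrthDet.refl Q v hv * H17.OrthDet.refl Q w hw)) ∈ Cfsg.Inn (Cfsg.POmega F (⇑Q)) := by
  obtain ⟨u, s, hs, rfl⟩ := odd_decomp (nd_iff.mpr hQ) hodd g
  rcases omega_dich h2 hQ hn s hs hv hw hvw with h | h
  · left
    exact (inn_iff hQ hn _).mpr ⟨u, s, h, rfl⟩
  · right
    refine (inn_iff hQ hn _).mpr ⟨u, _, h, ?_⟩
    rw [map_mul (isoG Q) s, mul_assoc]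

end

/-! ### class counts in index two -/

lemma mem_inn_sup {x₀ α : MulAut (Cfsg.POmega F (⇑Q))} :
    α ∈ Cfsg.Inn (Cfsg.POmega F (⇑Q)) ⊔ Subgroup.centralizer {x₀} ↔
      ∃ k ∈ Cfsg.Inn (Cfsg.POmega F (⇑Q)), k * α ∈ Subgroup.centralizer {x₀} := by
  rw [← SetLike.mem_coe, Subgroup.normal_mul, Set.mem_mul]
  constructor
  · rintro ⟨a, ha, b, hb, rfl⟩
    exact ⟨a⁻¹, inv_mem ha, by rw [inv_mul_cancel_left]; exact hb⟩
  · rintro ⟨k, hk, h⟩
    exact ⟨k⁻¹, inv_mem hk, k * α, h, by rw [inv_mul_cancel_left]⟩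

/-- the class count as an index -/
lemma count_eq (x₀ : MulAut (Cfsg.POmega F (⇑Q))) (D : Subgroup ↥(simG Q)) :
    Cfsg.splitClassCount (D.map (psi1 Q)) (Cfsg.Inn (Cfsg.POmega F (⇑Q))) x₀ =
      ((Cfsg.Inn (Cfsg.POmega F (⇑Q)) ⊔ Subgroup.centralizer {x₀}).comap ((psi1 Q).comp D.subtype)).index := by
  apply splitClassCount_eq (D.map (psi1 Q)) (Cfsg.Inn (Cfsg.POmega F (⇑Q))) x₀ ((psi1 Q).comp D.subtype)
  · intro a
    exact ⟨a.1, a.2, rfl⟩
  · rintro _ ⟨g, hg, rfl⟩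
    exact ⟨1, one_mem _, ⟨g, hg⟩, (one_mul _).symm⟩
  · intro a
    exact mem_inn_sup

theorem count_odd (h2 : (2 : F) ≠ 0) (hQ : (QuadraticMap.polarBilin Q).Nondegenerate) (hn : 7 ≤ Fintype.card ι)
    (hodd : Odd (Fintype.card ι)) (x₀ : MulAut (Cfsg.POmega F (⇑Q))) :
    ((∃ c, psi1 Q c ∈ Subgroup.centralizer {x₀} ∧ psi1 Q c ∉ Cfsg.Inn (Cfsg.POmega F (⇑Q))) →
      Cfsg.splitClassCount (psi1 Q).range (Cfsg.Inn (Cfsg.POmega F (⇑Q))) x₀ = 1) ∧
    ((∀ c, psi1 Q c ∈ Subgroup.centralizer {x₀} → psi1 Q c ∈ Cfsg.Inn (Cfsg.POmega F (⇑Q))) →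
      Cfsg.splitClassCount (psi1 Q).range (Cfsg.Inn (Cfsg.POmega F (⇑Q))) x₀ = 2) := by
  have hfr : Module.finrank F (ι → F) = Fintype.card ι := Module.finrank_fintype_fun_eq_card F
  obtain ⟨a, ha⟩ := H48.FinFieldSq.exists_not_isSquare h2
  have ha0 : a ≠ 0 := by
    rintro rfl
    exact ha IsSquare.zero
  obtain ⟨v, hv⟩ := exists_eq (nd_iff.mpr hQ) (by omega) (one_ne_zero (α := F))
  obtain ⟨w, hw⟩ := exists_eq (nd_iff.mpr hQ) (by omega) ha0
  have hv0 : Q v ≠ 0 := by rw [hv]; exact one_ne_zero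
  have hw0 : Q w ≠ 0 := by rw [hw]; exact ha0
  have hvw : ¬ IsSquare (Q v * Q w) := by rw [hv, hw, one_mul]; exact ha
  have hor := inn_or_odd h2 hQ hn hodd hv0 hw0 hvw
  have hnot := not_inn_odd h2 hQ hn hodd hv0 hw0 hvw
  set t := isoG Q (H17.OrthDet.refl Q v hv0 * H17.OrthDet.refl Q w hw0) with ht
  have hN : (Cfsg.Inn (Cfsg.POmega F (⇑Q))).Normal := inferInstance
  rw [MonoidHom.range_eq_map, count_eq]
  constructor
  · rintro ⟨c, hc1, hc2⟩
    rw [Subgroup.index_eq_one, eq_top_iff]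
    rintro ⟨g, hg⟩ -
    change psi1 Q g ∈ Cfsg.Inn (Cfsg.POmega F (⇑Q)) ⊔ Subgroup.centralizer {x₀}
    rcases hor g with h | h
    · exact (le_sup_left : Cfsg.Inn (Cfsg.POmega F (⇑Q)) ≤ _) h
    · have h3 := (hor c).resolve_left hc2
      rw [map_mul] at h h3
      have h4 : psi1 Q g * (psi1 Q c)⁻¹ ∈ Cfsg.Inn (Cfsg.POmega F (⇑Q)) := by
        have : psi1 Q g * (psi1 Q c)⁻¹ = (psi1 Q g * psi1 Q t) * (psi1 Q c * psi1 Q t)⁻¹ := by group
        rw [this]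
        exact mul_mem h (inv_mem h3)
      rw [mem_inn_sup]
      refine ⟨(psi1 Q g * (psi1 Q c)⁻¹)⁻¹, inv_mem h4, ?_⟩
      rw [_root_.mul_inv_rev, inv_inv, mul_assoc, inv_mul_cancel, mul_one]
      exact hc1
  · intro hc
    have hmem : ∀ g : ↥(⊤ : Subgroup ↥(simG Q)),
        g ∈ (Cfsg.Inn (Cfsg.POmega F (⇑Q)) ⊔ Subgroup.centralizer {x₀}).comap
          ((psi1 Q).comp (⊤ : Subgroup ↥(simG Q)).subtype) ↔ psi1 Q g.1 ∈ Cfsg.Inn (Cfsg.POmega F (⇑Q)) := by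
      intro g
      change psi1 Q g.1 ∈ Cfsg.Inn (Cfsg.POmega F (⇑Q)) ⊔ Subgroup.centralizer {x₀} ↔ psi1 Q g.1 ∈ Cfsg.Inn (Cfsg.POmega F (⇑Q))
      constructor
      · intro h
        obtain ⟨_, ⟨k, rfl⟩, hk⟩ := mem_inn_sup.mp h
        obtain ⟨s, rfl⟩ := QuotientGroup.mk_surjective k
        rw [← psi1_isoG, ← map_mul] at hk
        have h5 := hc _ hk
        rw [map_mul, psi1_isoG] at h5
        have h6 : (MulAut.conj (QuotientGroup.mk s : Cfsg.POmega F (⇑Q))) ∈ Cfsg.Inn (Cfsg.POmega F (⇑Q)) := ⟨_, rfl⟩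
        exact (Subgroup.mul_mem_cancel_left _ h6).mp h5
      · intro h
        exact (le_sup_left : Cfsg.Inn (Cfsg.POmega F (⇑Q)) ≤ _) h
    rw [Subgroup.index_eq_two_iff]
    refine ⟨⟨t, trivial⟩, fun b => ?_⟩
    rw [hmem, hmem]
    change Xor (psi1 Q (b.1 * t) ∈ Cfsg.Inn (Cfsg.POmega F (⇑Q))) (psi1 Q b.1 ∈ Cfsg.Inn (Cfsg.POmega F (⇑Q)))
    by_cases hb : psi1 Q b.1 ∈ Cfsg.Inn (Cfsg.POmega F (⇑Q))
    · right
      refine ⟨hb, ?_⟩
      rw [map_mul]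
      intro h
      exact hnot ((Subgroup.mul_mem_cancel_left _ hb).mp h)
    · left
      exact ⟨(hor b.1).resolve_left hb, hb⟩

/-! ### isometries over the small field -/

section small

variable {F₀ : Type*} [Field F₀] [Fintype F₀] {j : F₀ →+* F} {Q₀ : QuadraticForm F₀ (ι → F₀)}

lemma trP_refl (g : GL ι F) : trP (LinearEquiv.refl F (ι → F)) g = g := by
  apply gl_ext
  intro v
  exact trP_mulVec (LinearEquiv.refl F (ι → F)) g v

lemma qrefl (Q : QuadraticForm F (ι → F)) : ∃ ν : Fˣ, ∀ v, Q ((LinearEquiv.refl F (ι → F)) v) = (ν : F) * Q v :=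
  ⟨1, fun v => by rw [Units.val_one, one_mul]; rfl⟩

lemma desc_std {σ : F ≃+* F} (h : FixAt Q σ) : Desc Q ((std h : ↥(Gam Q)) : GA ι F) Q (LinearEquiv.refl F (ι → F)) :=
  ⟨⟨1, fun v => by rw [Units.val_one, one_smul]; exact std_ap h v⟩, qrefl Q⟩

/-- base change of isometries which are products of reflections -/
lemma exists_isoG (ho : Ovr j Q₀ Q) (hne : ∃ v, Q₀ v ≠ 0) (s₀ : ↥(Cfsg.isometryGroup F₀ (⇑Q₀)))
    (vs : List (ι → F₀)) (hs₀ : ((s₀ : GL ι F₀) : Matrix ι ι F₀) = rprod Q₀ vs) :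
    ∃ s : ↥(Cfsg.isometryGroup F (⇑Q)), fHom ho hne (qrefl Q) (isoG Q₀ s₀) = isoG Q s ∧
      ((s : GL ι F) : Matrix ι ι F) = rprod Q (vs.map (jv j)) := by
  have h1 : ((glHom j s₀.1 : GL ι F) : Matrix ι ι F) = rprod Q (vs.map (jv j)) := by
    rw [glHom_coe, hs₀, rprod_map ho]
  have h2 : glHom j s₀.1 ∈ Cfsg.isometryGroup F (⇑Q) := by
    rw [H17.OrthDet.mem_isometryGroup_iff]
    intro v
    have h3 : Ovr j Q₀ (Q.comp (glE (glHom j s₀.1) : (ι → F) →ₗ[F] (ι → F))) := by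
      intro u
      change Q (((glHom j s₀.1 : GL ι F) : Matrix ι ι F) *ᵥ (jv j u)) = j (Q₀ u)
      rw [glHom_mulVec_jv, ho, (H17.OrthDet.mem_isometryGroup_iff _ _).mp s₀.2]
    exact Ovr.unique h3 ho v
  refine ⟨⟨_, h2⟩, ?_, h1⟩
  apply Subtype.ext
  rw [fHom_coe, isoG_coe, isoG_coe, trP_refl]

end small

/-! ### the odd-dimensional family -/

section odd

variable {F₀ : Type*} [Field F₀] [Fintype F₀] {j : F₀ →+* F} {m : ℕ}

lemma hne_odd (h2 : (2 : F₀) ≠ 0) (hm : 3 ≤ m) : ∃ v, qOdd m F₀ 1 v ≠ 0 := by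
  obtain ⟨v, hv⟩ := exists_eq (nd_qOdd m h2 one_ne_zero) (by
    rw [Module.finrank_fintype_fun_eq_card]; have := card_odd hm; omega) (one_ne_zero (α := F₀))
  exact ⟨v, by rw [hv]; exact one_ne_zero⟩

theorem count_field_odd (h2 : (2 : F) ≠ 0) (hm : 3 ≤ m) {σ : F ≃+* F} {r : ℕ} (hσ : orderOf σ = r) (hr0 : 0 < r)
    (hj : ∀ x, (∃ c, j c = x) ↔ σ x = x) (hc : Fintype.card F = Fintype.card F₀ ^ r) :
    (Odd r → Cfsg.splitClassCount (psi1 (qOdd m F 1)).range (Cfsg.Inn (Cfsg.POmega F (⇑(qOdd m F 1))))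
      (Psi _ (std (fix_qOdd m σ))) = 1) ∧
    (r = 2 → Cfsg.splitClassCount (psi1 (qOdd m F 1)).range (Cfsg.Inn (Cfsg.POmega F (⇑(qOdd m F 1))))
      (Psi _ (std (fix_qOdd m σ))) = 2) := by
  have h20 : (2 : F₀) ≠ 0 := by
    intro h
    apply h2
    have := congrArg j h
    rwa [map_ofNat, map_zero] at this
  have hQ := nd_odd' h2 m
  have hQ₀ := nd_odd' h20 m
  have ho := ovr_qOdd j m
  have hne := hne_odd h20 hm
  have hfr : Module.finrank F₀ (Unit ⊕ (Fin m ⊕ Fin m) → F₀) = Fintype.card (Unit ⊕ (Fin m ⊕ Fin m)) :=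
    Module.finrank_fintype_fun_eq_card F₀
  have hcard := card_odd hm
  obtain ⟨c1, c2⟩ := count_odd h2 hQ hcard (card_odd' m) (Psi _ (std (fix_qOdd m σ)))
  have hcent := fun g => cent_iff hQ hcard (y := std (fix_qOdd m σ)) (r := r) hσ hr0 hj ho hne
    (desc_std (fix_qOdd m σ)) g
  constructor
  · intro hrodd
    apply c1
    obtain ⟨a, ha⟩ := H48.FinFieldSq.exists_not_isSquare h20
    have ha0 : a ≠ 0 := by
      rintro rfl
      exact ha IsSquare.zero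
    obtain ⟨v, hv⟩ := exists_eq (nd_iff.mpr hQ₀) (by omega) (one_ne_zero (α := F₀))
    obtain ⟨w, hw⟩ := exists_eq (nd_iff.mpr hQ₀) (by omega) ha0
    have hv0 : qOdd m F₀ 1 v ≠ 0 := by rw [hv]; exact one_ne_zero
    have hw0 : qOdd m F₀ 1 w ≠ 0 := by rw [hw]; exact ha0
    have hv1 : qOdd m F 1 (jv j v) ≠ 0 := by rw [ho]; exact (map_ne_zero j).mpr hv0
    have hw1 : qOdd m F 1 (jv j w) ≠ 0 := by rw [ho]; exact (map_ne_zero j).mpr hw0
    obtain ⟨s, hs1, hs2⟩ := exists_isoG ho hne (H17.OrthDet.refl _ v hv0 * H17.OrthDet.refl _ w hw0) [v, w] (by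
      change Cfsg.reflectionMatrix _ v * Cfsg.reflectionMatrix _ w = _
      simp [rprod])
    have hs3 : s = H17.OrthDet.refl _ (jv j v) hv1 * H17.OrthDet.refl _ (jv j w) hw1 := by
      apply Subtype.ext
      apply Units.ext
      rw [hs2]
      change _ = Cfsg.reflectionMatrix _ (jv j v) * Cfsg.reflectionMatrix _ (jv j w)
      simp [rprod]
    refine ⟨isoG _ s, ?_, ?_⟩
    · rw [hcent]
      exact ⟨1, _, by rw [map_one, one_mul, ← hs1]⟩
    · rw [hs3]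
      apply not_inn_odd h2 hQ hcard (card_odd' m) hv1 hw1
      rw [ho, ho, ← map_mul, isSquare_iff_of_odd j hrodd hc, hv, hw, one_mul]
      exact ha
  · rintro rfl
    apply c2
    intro c hc'
    rw [hcent] at hc'
    obtain ⟨u, k, rfl⟩ := hc'
    obtain ⟨u₀, s₀, hdet, rfl⟩ := odd_decomp (nd_iff.mpr hQ₀) (card_odd' m) k
    obtain ⟨vs, hvs, hs₀⟩ := H48.MaxSing.exists_rprod_all (nd_iff.mpr hQ₀) (Or.inr (by omega)) s₀
    have heven : Even vs.length := even_of_det h20 hQ₀ hvs (by rw [← hs₀]; exact hdet)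
    obtain ⟨s, hs1, hs2⟩ := exists_isoG ho hne s₀ vs hs₀
    obtain ⟨u₁, hu₁⟩ := (fHom_eq_sc_iff (Q := qOdd m F 1) ho hne (qrefl (qOdd m F 1)) (scG _ u₀)).mpr ⟨u₀, rfl⟩
    rw [inn_iff hQ hcard]
    refine ⟨u * u₁, s, ?_, ?_⟩
    · rw [H48.OmegaQ.mem_Omega_iff h2 (by omega) _ hQ s (vs.map (jv j)) ?_ hs2]
      · refine ⟨by rw [List.length_map]; exact heven, ?_⟩
        have h3 : ((vs.map (jv j)).map (fun v => qOdd m F 1 v)).prod = j (vs.map (fun v => qOdd m F₀ 1 v)).prod := by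
          rw [map_list_prod, List.map_map, List.map_map]
          congr 1
          apply List.map_congr_left
          intro v _
          exact ho v
        rw [h3]
        exact isSquare_of_sq j hc _
      · intro v hv
        obtain ⟨w, hw, rfl⟩ := List.mem_map.mp hv
        rw [ho]
        exact (map_ne_zero j).mpr (hvs w hw)
    · have h4 : fHom ho hne (desc_std (fix_qOdd m σ)).q (scG _ u₀ * isoG _ s₀) =
          fHom ho hne (qrefl (qOdd m F 1)) (scG _ u₀ * isoG _ s₀) := rfl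
      rw [h4, map_mul, hu₁, hs1, map_mul (scG (qOdd m F 1)), mul_assoc]

theorem s2714 (hodd : Odd (Fintype.card F)) (hm : 3 ≤ m) {p f : ℕ} [Fact p.Prime] (hF : Fintype.card F = p ^ f)
    (hF₀ : ∀ r, r ∣ f → Fintype.card F₀ = p ^ (f / r) → Fintype.card F = Fintype.card F₀ ^ r) :
    ∀ (x : MulAut (Cfsg.POmega F (⇑(qOdd m F 1)))) (_ : Cfsg.IsFieldAutClassPOmega (⇑(qOdd m F 1)) x) {r : ℕ}
      (_ : r.Prime) (_ : orderOf x = r) (_ : Fintype.card F₀ = p ^ (f / r)),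
      r ∣ f ∧ Nonempty (↥(Cfsg.pgoAut F (⇑(qOdd m F 1)) ⊓ Subgroup.centralizer {x}) ≃*
        ↥(Cfsg.pgoAut F₀ (⇑(qOdd m F₀ 1)))) ∧
      (Odd r → Cfsg.splitClassCount (Cfsg.pgoAut F (⇑(qOdd m F 1))) (Cfsg.Inn (Cfsg.POmega F (⇑(qOdd m F 1)))) x = 1) ∧
      (r = 2 → Cfsg.splitClassCount (Cfsg.pgoAut F (⇑(qOdd m F 1))) (Cfsg.Inn (Cfsg.POmega F (⇑(qOdd m F 1)))) x = 2) := by
  intro x hx r hr hxr hc
  have hcard := card_odd hm
  have h2 : (2 : F) ≠ 0 := H7.OmegaIso.two_ne_zero_of_odd hodd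
  have hQ := nd_odd' h2 m
  obtain ⟨α, σ, -, hα, hσ⟩ := field_class_std (fix_qOdd m) hQ hcard hx
  rw [hxr] at hσ
  have hFn : Nat.card F = p ^ f := by rw [Nat.card_eq_fintype_card, hF]
  have hchar : CharP F p := H50.FieldAut.charP_of_card p hFn
  have hrf : r ∣ f := by
    rw [← hσ, ← H50.FieldAut.card_ringAut p hFn]
    exact orderOf_dvd_natCard σ
  have hfix : Nat.card (H49.FixedField.fixedField σ) = p ^ (f / r) :=
    H49.FixedField.card_fixedField σ hr.ne_zero (by rw [hFn, ← pow_mul, Nat.div_mul_cancel hrf]) hσ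
  obtain ⟨j, hj⟩ := exists_embedding (F₀ := F₀) σ (by rw [Nat.card_eq_fintype_card, hc, hfix])
  have h20 : (2 : F₀) ≠ 0 := by
    intro h
    apply h2
    have := congrArg j h
    rwa [map_ofNat, map_zero] at this
  have hN : ((psi1 (qOdd m F 1)).range).Normal := range_normal (aut_odd hodd hm)
  rw [range_psi1, range_psi1]
  refine ⟨hrf, ?_, ?_⟩
  · obtain ⟨e⟩ := cent_equiv hQ hcard (nd_odd' h20 m) hcard (y := std (fix_qOdd m σ)) (r := r) hσ hr.pos hj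
      (ovr_qOdd j m) (hne_odd h20 hm) (desc_std (fix_qOdd m σ)) ⊤ (fun _ => trivial)
    have e' := centralizerConj ((psi1 (qOdd m F 1)).range) α x
    rw [hα] at e'
    rw [Subgroup.comap_top, ← MonoidHom.range_eq_map, ← MonoidHom.range_eq_map] at e
    exact ⟨e'.symm.trans e⟩
  · rw [← splitClassCount_conj _ _ α x, hα]
    exact count_field_odd h2 hm hσ hr.pos hj (hF₀ r hrf hc)

end odd

end H50.OrthOddCount
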