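import Cfsg.Agent.Lib.H50.OrthInn
import Cfsg.Agent.Lib.H50.OrthOddCount
import Cfsg.Agent.Lib.H48.QuadSim

/-!
Even-dimensional orthogonal groups: proper similarities have index two, conjugacy of descended
elements, transport of automorphisms along similarities.
-/

set_option autoImplicit false
set_option linter.unusedSectionVars false

namespace H50.OrthEven

open Matrix H48.OutO H50.PSLBasic H50.PSLField H50.H90 H50.ClassCount H50.PSLCount H48.QuadSplit H48.QuadStd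
  H50.OrthPsi H50.OrthDesc H48.OmegaPlus H50.OrthSim H18.MaxSing H50.OrthPar H50.OrthProper H50.OrthMinusK H50.OrthField
  H50.OrthInn H50.OrthOddCount

section index

variable {F : Type*} [Field F] [Fintype F] {ι : Type} [Fintype ι] [DecidableEq ι] {Q : QuadraticForm F (ι → F)} {n : ℕ}

lemma det_isoG_refl {v : ι → F} (hv : Q v ≠ 0) :
    (((isoG Q (H17.OrthDet.refl Q v hv) : ↥(simG Q)) : GL ι F) : Matrix ι ι F).det = -1 :=
  H17.OrthMat.reflection_det _ v hv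

/-- the proper similarities have index at most two -/
lemma DP_or (hQ : (QuadraticMap.polarBilin Q).Nondegenerate) (hc : Fintype.card ι = 2 * n) (hn : 7 ≤ Fintype.card ι)
    (t : ↥(simG Q)) {v : ι → F} (hv : Q v ≠ 0) :
    t ∈ DP Q n ∨ t * isoG Q (H17.OrthDet.refl Q v hv) ∈ DP Q n := by
  by_cases h2 : (2 : F) = 0
  · obtain ⟨u, s, rfl⟩ := exists_iso_two h2 t
    obtain ⟨vs, hvs, hs⟩ := H48.MaxSing.exists_rprod_all (nd_iff.mpr hQ) (Or.inr (by omega)) s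
    have hne : ∃ v, Q v ≠ 0 := ⟨v, hv⟩
    rw [DP_two h2, Subgroup.mem_comap, Subgroup.mem_comap, inn_iff_two h2 hQ hn hne u s vs hvs hs]
    by_cases heven : Even vs.length
    · exact Or.inl heven
    · right
      rw [mul_assoc, ← map_mul (isoG Q) s]
      have hlist : ∀ u ∈ vs ++ [v], Q u ≠ 0 := by
        intro u hu
        rcases List.mem_append.mp hu with h | hu
        · exact hvs u h
        · rw [List.mem_singleton.mp hu]; exact hv
      have h3 : (((s * H17.OrthDet.refl Q v hv : ↥(Cfsg.isometryGroup F (⇑Q))) : GL ι F) : Matrix ι ι F) =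
          rprod Q (vs ++ [v]) := by
        rw [rprod_append, ← hs]
        change ((s : GL ι F) : Matrix ι ι F) * Cfsg.reflectionMatrix (⇑Q) v = _
        simp [rprod]
      rw [inn_iff_two h2 hQ hn hne u _ (vs ++ [v]) hlist h3, List.length_append]
      rw [Nat.not_even_iff_odd] at heven
      exact heven.add_odd (by simp)
  · rw [DP_odd h2]
    obtain ⟨c, hc1⟩ := t.2
    have hr : ((toGam Q t : ↥(Gam Q)) : GA ι F).right = 1 := rfl
    rcases proper_or hc hQ hr (x := ((toGam Q t : ↥(Gam Q)) : GA ι F)) (c := (c : F)) hc1 with h | h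
    · exact Or.inl ⟨c, hc1, h⟩
    · right
      refine ⟨c, fun w => ?_, ?_⟩
      · rw [Subgroup.coe_mul, Units.val_mul, ← Matrix.mulVec_mulVec, hc1, isoG_coe,
          (H17.OrthDet.mem_isometryGroup_iff _ _).mp (H17.OrthDet.refl Q v hv).2]
      · rw [Subgroup.coe_mul, Units.val_mul, Matrix.det_mul, det_isoG_refl]
        have h' : ((t : GL ι F) : Matrix ι ι F).det = -(c : F) ^ n := h
        rw [h']; ring

lemma Rf_smul {v : ι → F} (hv : Q v ≠ 0) {w : F} (hw : w ≠ 0) (hwv : Q (w • v) ≠ 0) : Rf Q (w • v) hwv = Rf Q v hv := by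
  apply Subtype.ext
  apply ext_ap
  · rfl
  · intro x
    rw [Rf_ap, Rf_ap, QuadraticMap.map_smul, QuadraticMap.polar_smul_left, smul_smul]
    congr 2
    rw [smul_eq_mul, smul_eq_mul]
    field_simp

lemma Rf_comm {y : ↥(Gam Q)} {v : ι → F} (hv : Q v ≠ 0) {w : Fˣ} (h : ap (y : GA ι F) v = (w : F) • v) :
    y * Rf Q v hv * y⁻¹ = Rf Q v hv := by
  rw [Rf_conj]
  have h1 : Q ((w : F) • v) ≠ 0 := by rw [← h]; exact Q_ap_ne hv
  have h2 : Rf Q (ap (y : GA ι F) v) (Q_ap_ne hv) = Rf Q ((w : F) • v) h1 := by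
    congr 1
  rw [h2, Rf_smul hv w.ne_zero]

lemma psi1_refl {v : ι → F} (hv : Q v ≠ 0) : psi1 Q (isoG Q (H17.OrthDet.refl Q v hv)) = Psi Q (Rf Q v hv) := rfl

variable {F₀ : Type*} [Field F₀] {ι' : Type} [Fintype ι'] [DecidableEq ι'] {j : F₀ →+* F}
  {Q₁₀ : QuadraticForm F₀ (ι' → F₀)} {Q₁ : QuadraticForm F (ι' → F)} {P P₀ : (ι' → F) ≃ₗ[F] (ι → F)} {y y₀ : ↥(Gam Q)}

/-- elements with the same descent data are conjugate under the proper similarities -/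
theorem conj_DP (hQ : (QuadraticMap.polarBilin Q).Nondegenerate) (hc : Fintype.card ι = 2 * n) (hn : 7 ≤ Fintype.card ι)
    (hr : (y : GA ι F).right = (y₀ : GA ι F).right) (hj : ∀ c, (y₀ : GA ι F).right (j c) = j c) (ho : Ovr j Q₁₀ Q₁)
    (hne : ∃ v, Q₁₀ v ≠ 0) (hd : Desc Q (y : GA ι F) Q₁ P) (hd₀ : Desc Q (y₀ : GA ι F) Q₁ P₀) :
    ∃ t ∈ DP Q n, Psi Q y = psi1 Q t * Psi Q y₀ * (psi1 Q t)⁻¹ := by
  obtain ⟨w, hw⟩ := hd.a
  obtain ⟨w₀, hw₀⟩ := hd₀.a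
  obtain ⟨ν, hν⟩ := hd.q
  obtain ⟨ν₀, hν₀⟩ := hd₀.q
  obtain ⟨t, -, ht⟩ := conj_of_desc (Q := Q) (y := y) (z := y₀) hr (P := P₀.symm.trans P)
    ⟨ν * ν₀⁻¹, fun v => by
      obtain ⟨u, rfl⟩ := P₀.surjective v
      rw [LinearEquiv.trans_apply, LinearEquiv.symm_apply_apply, hν, hν₀, Units.val_mul, Units.val_inv_eq_inv_val]
      have := ν₀.ne_zero
      field_simp⟩
    ⟨w * w₀⁻¹, fun v => by
      obtain ⟨u, rfl⟩ := P₀.surjective v
      rw [LinearEquiv.trans_apply, LinearEquiv.symm_apply_apply, hw, hw₀, map_smul, LinearEquiv.trans_apply,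
        LinearEquiv.symm_apply_apply, smul_smul, hr, Units.val_mul, Units.val_inv_eq_inv_val]
      have := w₀.ne_zero
      congr 1
      field_simp⟩
  obtain ⟨v₀, hv₀⟩ := hne
  have h1 : Q (P₀ (jv j v₀)) ≠ 0 := by
    rw [hν₀, ho]
    exact mul_ne_zero ν₀.ne_zero ((map_ne_zero j).mpr hv₀)
  have h2 : ap (y₀ : GA ι F) (P₀ (jv j v₀)) = (w₀ : F) • P₀ (jv j v₀) := by
    rw [hw₀]
    congr 2
    funext i
    exact hj _
  rcases DP_or hQ hc hn t h1 with h | h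
  · exact ⟨t, h, ht⟩
  · refine ⟨_, h, ?_⟩
    have h3 := congrArg (Psi Q) (Rf_comm h1 h2)
    rw [map_mul, map_mul, map_inv] at h3
    rw [ht, map_mul, psi1_refl]
    have h4 : Psi Q (Rf Q _ h1) * Psi Q y₀ * (Psi Q (Rf Q _ h1))⁻¹ = Psi Q y₀ := by
      rw [mul_inv_eq_iff_eq_mul]
      nth_rewrite 1 [← h3]
      group
    calc psi1 Q t * Psi Q y₀ * (psi1 Q t)⁻¹ = psi1 Q t * (Psi Q (Rf Q _ h1) * Psi Q y₀ * (Psi Q (Rf Q _ h1))⁻¹) * (psi1 Q t)⁻¹ := by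
          rw [h4]
      _ = _ := by group

end index

/-! ### transport along similarities -/

section transport

variable {F : Type*} [Field F] {ι ι' : Type} [Fintype ι] [DecidableEq ι] [Fintype ι'] [DecidableEq ι']
  {Q : QuadraticForm F (ι → F)} {Q₁ : QuadraticForm F (ι' → F)} {P : (ι' → F) ≃ₗ[F] (ι → F)}

lemma trP_isom (hq : ∃ ν : Fˣ, ∀ v, Q (P v) = (ν : F) * Q₁ v) {g : GL ι' F} (hg : g ∈ Cfsg.isometryGroup F (⇑Q₁)) :
    trP P g ∈ Cfsg.isometryGroup F (⇑Q) := by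
  obtain ⟨ν, hν⟩ := hq
  rw [H17.OrthDet.mem_isometryGroup_iff] at hg ⊢
  intro v
  obtain ⟨u, rfl⟩ := P.surjective v
  rw [trP_mulVec, hν, hν, hg]

lemma hq_symm (hq : ∃ ν : Fˣ, ∀ v, Q (P v) = (ν : F) * Q₁ v) : ∃ ν : Fˣ, ∀ v, Q₁ (P.symm v) = (ν : F) * Q v := by
  obtain ⟨ν, hν⟩ := hq
  refine ⟨ν⁻¹, fun v => ?_⟩
  obtain ⟨u, rfl⟩ := P.surjective v
  rw [LinearEquiv.symm_apply_apply, hν, Units.val_inv_eq_inv_val]
  have := ν.ne_zero
  field_simp

/-- isometry groups of similar forms -/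
noncomputable def tI (hq : ∃ ν : Fˣ, ∀ v, Q (P v) = (ν : F) * Q₁ v) :
    ↥(Cfsg.isometryGroup F (⇑Q₁)) ≃* ↥(Cfsg.isometryGroup F (⇑Q)) where
  toFun g := ⟨trP P g.1, trP_isom hq g.2⟩
  invFun g := ⟨trP P.symm g.1, trP_isom (hq_symm hq) g.2⟩
  left_inv g := by
    apply Subtype.ext
    apply gl_ext
    intro v
    change ((trP P.symm (trP P g.1) : GL ι' F) : Matrix ι' ι' F) *ᵥ v = _
    have h1 := trP_mulVec P.symm (trP P g.1) (P v)
    rw [P.symm_apply_apply] at h1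
    rw [h1, trP_mulVec, P.symm_apply_apply]
  right_inv g := by
    apply Subtype.ext
    exact trP_symm P g.1
  map_mul' g h := by
    apply Subtype.ext
    exact map_mul (trP P) g.1 h.1

lemma tI_coe (hq : ∃ ν : Fˣ, ∀ v, Q (P v) = (ν : F) * Q₁ v) (g : ↥(Cfsg.isometryGroup F (⇑Q₁))) :
    ((tI hq g : ↥(Cfsg.isometryGroup F (⇑Q))) : GL ι F) = trP P g.1 := rfl

/-- isomorphisms restrict to commutator subgroups -/
noncomputable def comE {G H : Type*} [Group G] [Group H] (e : G ≃* H) : ↥(commutator G) ≃* ↥(commutator H) :=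
  ((commutator G).equivMapOfInjective e.toMonoidHom e.injective).trans
    (MulEquiv.subgroupCongr (H17.OrthTrans2.commutator_map e))

lemma comE_coe {G H : Type*} [Group G] [Group H] (e : G ≃* H) (g : ↥(commutator G)) :
    ((comE e g : ↥(commutator H)) : H) = e (g : G) := rfl

/-- the groups `PΩ` of similar forms -/
noncomputable def tPO (hq : ∃ ν : Fˣ, ∀ v, Q (P v) = (ν : F) * Q₁ v) :
    Cfsg.POmega F (⇑Q₁) ≃* Cfsg.POmega F (⇑Q) := H7.OmegaIso.quotCenterCongr (comE (tI hq))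

lemma tPO_mk (hq : ∃ ν : Fˣ, ∀ v, Q (P v) = (ν : F) * Q₁ v) (s : ↥(Cfsg.Omega F (⇑Q₁))) :
    tPO hq (QuotientGroup.mk s : Cfsg.POmega F (⇑Q₁)) = (QuotientGroup.mk (comE (tI hq) s) : Cfsg.POmega F (⇑Q)) := rfl

/-- **transport** -/
theorem tPO_Psi (hq : ∃ ν : Fˣ, ∀ v, Q (P v) = (ν : F) * Q₁ v) {y : ↥(Gam Q)} {y₁ : ↥(Gam Q₁)}
    (hy : ∃ w : Fˣ, ∀ v, ap (y : GA ι F) (P v) = (w : F) • P (ap (y₁ : GA ι' F) v)) (a : Cfsg.POmega F (⇑Q₁)) :
    Psi Q y (tPO hq a) = tPO hq (Psi Q₁ y₁ a) := by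
  obtain ⟨s, rfl⟩ := QuotientGroup.mk_surjective a
  rw [tPO_mk, Psi_mk, Psi_mk, tPO_mk]
  congr 1
  apply Subtype.ext
  apply (emb_injective Q)
  rw [conjW_coe, emb_conjO]
  obtain ⟨w, hw⟩ := hy
  apply Subtype.ext
  apply ext_ap
  · rw [Subgroup.coe_mul, Subgroup.coe_mul, SemidirectProduct.mul_right, SemidirectProduct.mul_right]
    change (y : GA ι F).right * 1 * ((y : GA ι F)⁻¹).right = 1
    rw [SemidirectProduct.inv_right, mul_one, mul_inv_cancel]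
  · intro v
    obtain ⟨u, rfl⟩ : ∃ u, v = ap (y : GA ι F) (P u) := by
      refine ⟨P.symm (ap (y : GA ι F)⁻¹ v), ?_⟩
      rw [P.apply_symm_apply, ap_ap_inv]
    rw [Subgroup.coe_mul, Subgroup.coe_mul, Subgroup.coe_inv, ap_mul, ap_mul, ap_inv_ap, emb_coe, emb_coe, ap_inl, ap_inl]
    have h1 : ((((comE (tI hq) s : ↥(Cfsg.Omega F (⇑Q))) : ↥(Cfsg.isometryGroup F (⇑Q))) : GL ι F) : Matrix ι ι F) *ᵥ P u =
        P ((((s : ↥(Cfsg.isometryGroup F (⇑Q₁))) : GL ι' F) : Matrix ι' ι' F) *ᵥ u) := trP_mulVec P s.1.1 u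
    rw [h1, hw, hw, Matrix.mulVec_smul]
    congr 1
    have h2 : ((((comE (tI hq) (conjW Q₁ y₁ s) : ↥(Cfsg.Omega F (⇑Q))) : ↥(Cfsg.isometryGroup F (⇑Q))) : GL ι F) :
        Matrix ι ι F) *ᵥ P (ap (y₁ : GA ι' F) u) =
        P (((((conjW Q₁ y₁ s : ↥(Cfsg.Omega F (⇑Q₁))) : ↥(Cfsg.isometryGroup F (⇑Q₁))) : GL ι' F) :
          Matrix ι' ι' F) *ᵥ (ap (y₁ : GA ι' F) u)) := trP_mulVec P _ _
    rw [h2, conjW_coe]
    congr 1
    have h3 := congrArg (fun z : ↥(Gam Q₁) => ap (z : GA ι' F) (ap (y₁ : GA ι' F) u)) (emb_conjO y₁ s.1)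
    beta_reduce at h3
    rw [emb_coe, ap_inl] at h3
    rw [h3, Subgroup.coe_mul, Subgroup.coe_mul, Subgroup.coe_inv, ap_mul, ap_mul, ap_inv_ap, emb_coe, ap_inl]

end transport

end H50.OrthEven
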