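import Cfsg.Agent.Lib.H50.ReflBal

/-!
Subgroups of three-dimensional orthogonal groups normalized by all reflections and without involutions.
-/

set_option autoImplicit false
set_option linter.unusedSectionVars false
set_option maxHeartbeats 400000

namespace H50.ReflBal

open QuadraticMap H48.QuadSplit H48.QuadStd

variable {L U : Type*} [Field L] [AddCommGroup U] [Module L U] {q : QuadraticForm L U} [FiniteDimensional L U]

lemma polar_ne_of_sing (hQ : ND q) (hd : Module.finrank L U = 3) {z z' : U} (hz : z ≠ 0) (hqz : q z = 0) (hqz' : q z' = 0)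
    (hne : ∀ a : L, z' ≠ a • z) : polar q z z' ≠ 0 := by
  intro h
  have hli : LinearIndependent L ![z, z'] := by
    rw [LinearIndependent.pair_iff' hz]
    intro a ha
    exact hne a ha.symm
  have h3 : Module.finrank L (Submodule.span L {z, z'}) = 2 := by
    have := finrank_span_eq_card hli
    rw [Fintype.card_fin, Matrix.range_cons, Matrix.range_cons, Matrix.range_empty, Set.union_empty] at this
    exact this
  have h4 : Submodule.span L {z, z'} ≤ orth q (Submodule.span L {z, z'}) := by
    intro x hx u hu
    obtain ⟨a, b, rfl⟩ := Submodule.mem_span_pair.mp hx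
    obtain ⟨c, d, rfl⟩ := Submodule.mem_span_pair.mp hu
    simp only [polar_add_left, polar_add_right, polar_smul_left, polar_smul_right, polar_self', hqz, hqz',
      polar_comm q z' z, h, smul_eq_mul, mul_zero, add_zero]
  have h5 := Submodule.finrank_mono h4
  have h6 := finrank_orth hQ (Submodule.span L {z, z'})
  omega

lemma frame (hQ : ND q) (hd : Module.finrank L U = 3) {z z' : U} (hqz : q z = 0) (hqz' : q z' = 0)
    (hβ : polar q z z' ≠ 0) : ∃ w, q w ≠ 0 ∧ polar q z w = 0 ∧ polar q z' w = 0 ∧
      ∀ x, ∃ a b c : L, x = a • z + b • z' + c • w := by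
  obtain ⟨W, hW, hnd, hfr⟩ := perp2 hQ (u := z) (v := z') (by
    rw [hqz, hqz']
    have : 4 * 0 * 0 - polar q z z' ^ 2 = -(polar q z z' ^ 2) := by ring
    rw [this]
    exact neg_ne_zero.mpr (pow_ne_zero 2 hβ))
  have hW1 : Module.finrank L W = 1 := by omega
  have : Nontrivial W := Module.nontrivial_of_finrank_pos (R := L) (by omega)
  obtain ⟨w, hw0⟩ := exists_ne (0 : W)
  have hspan := (finrank_eq_one_iff_of_nonzero' w hw0).mp hW1
  have hwW := (hW _).mp w.2
  refine ⟨w, ?_, hwW.1, hwW.2, ?_⟩
  · intro hq
    apply hw0
    apply hnd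
    intro y
    obtain ⟨c, rfl⟩ := hspan y
    rw [polar_smul_right, polar_self']
    have : q.restrict W w = 0 := hq
    rw [this, mul_zero, smul_zero]
  · intro x
    have hx : x - (polar q z' x / polar q z z') • z - (polar q z x / polar q z z') • z' ∈ W := by
      rw [hW]
      constructor
      · rw [polar_sub_right, polar_sub_right, polar_smul_right, polar_smul_right, polar_self', hqz, smul_eq_mul, smul_eq_mul]
        field_simp
        ring
      · rw [polar_sub_right, polar_sub_right, polar_smul_right, polar_smul_right, polar_self', hqz', polar_comm q z' z, smul_eq_mul,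
          smul_eq_mul]
        field_simp
        ring
    obtain ⟨c, hc⟩ := hspan ⟨_, hx⟩
    refine ⟨polar q z' x / polar q z z', polar q z x / polar q z z', c, ?_⟩
    have h1 : c • (w : U) = x - (polar q z' x / polar q z z') • z - (polar q z x / polar q z z') • z' := congrArg Subtype.val hc
    rw [h1]
    abel

lemma rf_smul {v : U} {c : L} (hc : c ≠ 0) : rf q (c • v) = rf q v := by
  apply LinearMap.ext
  intro x
  rw [rf_apply, rf_apply, QuadraticMap.map_smul, polar_smul_left, smul_smul, smul_eq_mul, smul_eq_mul]
  congr 2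
  by_cases hv : q v = 0
  · rw [hv]; simp
  · field_simp

variable [Finite L]

theorem refl_bal3 (hQ : ND q) (h2 : (2 : L) ≠ 0) (hd : Module.finrank L U = 3)
    {P : Type*} [Group P] (ρ : P →* Module.End L U) (hρ : ∀ p x, q (ρ p x) = q x)
    (hb : ∀ v, q v ≠ 0 → ∀ p, ∃ p', ρ p' = rf q v * ρ p * rf q v)
    (hinv : ∀ p, ρ p * ρ p = 1 → ρ p = 1 ∨ ρ p = -1) : ∀ p, ρ p = 1 ∨ ρ p = -1 := by
  have hρi : ∀ p, ρ p * ρ p⁻¹ = 1 := fun p => by rw [← map_mul, mul_inv_cancel, map_one]
  have hpol : ∀ p x y, polar q (ρ p x) (ρ p y) = polar q x y := fun p => polar_of_isom (hρ p)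
  have hinj : ∀ p x, ρ p x = 0 → x = 0 := by
    intro p x hx
    have h1 : ρ (p⁻¹ * p) x = x := by rw [inv_mul_cancel, map_one]; rfl
    rw [map_mul] at h1
    rw [← h1]
    change ρ p⁻¹ (ρ p x) = 0
    rw [hx, map_zero]
  -- singular points are fixed
  have key : ∀ p z, z ≠ 0 → q z = 0 → ∃ a : L, ρ p z = a • z := by
    intro p z hz hqz
    by_contra hcon
    push Not at hcon
    set z' := ρ p z with hz'
    have hqz' : q z' = 0 := by rw [hz', hρ, hqz]
    have hβ := polar_ne_of_sing hQ hd hz hqz hqz' hcon
    obtain ⟨w, hw, hzw, hz'w, hdec⟩ := frame hQ hd hqz hqz' hβ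
    obtain ⟨a, b, c, hpw⟩ := hdec (ρ p w)
    have ha : a = 0 := by
      have h1 := hpol p w z
      rw [← hz', hpw, polar_comm q w z, hzw] at h1
      simp only [polar_add_left, polar_smul_left, polar_self', hqz', polar_comm q w z', hz'w, smul_eq_mul, mul_zero,
        add_zero] at h1
      exact (mul_eq_zero.mp h1).resolve_right hβ
    rw [ha, zero_smul, zero_add] at hpw
    have hc : (c - 1) * (c + 1) = 0 := by
      have h1 := hρ p w
      rw [hpw, QuadraticMap.map_add q, QuadraticMap.map_smul, QuadraticMap.map_smul, polar_smul_left, polar_smul_right, hz'w,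
        hqz'] at h1
      simp only [smul_eq_mul, mul_zero, add_zero, zero_add] at h1
      have h3 : (c * c - 1) * q w = 0 := by linear_combination h1
      have h4 := (mul_eq_zero.mp h3).resolve_right hw
      linear_combination h4
    have hcc : c * c = 1 := by linear_combination hc
    have hc0 : c ≠ 0 := by
      rintro rfl
      rw [mul_zero] at hcc
      exact zero_ne_one hcc
    by_cases hb0 : b = 0
    · -- an element of order two
      rw [hb0, zero_smul, zero_add] at hpw
      obtain ⟨a', b', c', hpz⟩ := hdec (ρ p z')
      have hc' : c' = 0 := by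
        have h1 := hpol p z' w
        rw [hpw, hpz, hz'w] at h1
        simp only [polar_add_left, polar_smul_left, polar_smul_right, polar_self', hzw, hz'w, smul_eq_mul, mul_zero,
          add_zero, zero_add] at h1
        have h3 : c' * (c * (2 * q w)) = 0 := by linear_combination h1
        exact (mul_eq_zero.mp h3).resolve_right (mul_ne_zero hc0 (mul_ne_zero h2 hw))
      rw [hc', zero_smul, add_zero] at hpz
      have ha' : a' = 1 := by
        have h1 := hpol p z' z
        rw [← hz', hpz, polar_comm q z' z] at h1
        simp only [polar_add_left, polar_smul_left, polar_self', hqz', smul_eq_mul, mul_zero, add_zero] at h1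
        have h3 : (a' - 1) * polar q z z' = 0 := by linear_combination h1
        exact sub_eq_zero.mp ((mul_eq_zero.mp h3).resolve_right hβ)
      have hb' : b' = 0 := by
        have h1 := hρ p z'
        rw [hpz, ha', one_smul, hqz', QuadraticMap.map_add q, QuadraticMap.map_smul, polar_smul_right, hqz, hqz'] at h1
        simp only [smul_eq_mul, mul_zero, add_zero, zero_add] at h1
        exact (mul_eq_zero.mp h1).resolve_right hβ
      rw [ha', hb', one_smul, zero_smul, add_zero] at hpz
      have hsq : ρ p * ρ p = 1 := by
        apply LinearMap.ext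
        intro x
        obtain ⟨x1, x2, x3, rfl⟩ := hdec x
        change ρ p (ρ p _) = _
        simp only [map_add, map_smul, ← hz', hpz, hpw, smul_smul]
        rw [mul_assoc, hcc, mul_one]
        rfl
      rcases hinv p hsq with h | h
      · apply hcon 1
        rw [hz', h, one_smul]
        rfl
      · apply hcon (-1)
        rw [hz', h, neg_one_smul]
        rfl
    · -- unipotent elements
      have hpw' : ρ p w = c • (w + (c * b) • z') := by
        rw [hpw, smul_add, smul_smul, ← mul_assoc, hcc, one_mul, add_comm]
      set l := c * b with hl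
      have hl0 : l ≠ 0 := mul_ne_zero hc0 hb0
      have hrw : rf q (w + l • z') = ρ p * rf q w * ρ p⁻¹ := by
        rw [rf_conj (T := ρ p) (T' := ρ p⁻¹) (hρ p) (hρi p) w, hpw', rf_smul hc0]
      obtain ⟨p₂, hp₂⟩ := hb w hw p⁻¹
      have he₁ : ρ (p * p₂) = rf q (w + l • z') * rf q w := by
        rw [map_mul, hp₂, hrw]
        simp only [mul_assoc]
      -- the reflection exchanging the two points
      set β := polar q z z' with hβdef
      set t := -(l ^ 2 * β / (2 * q w)) with ht
      have ht0 : t ≠ 0 := neg_ne_zero.mpr (div_ne_zero (mul_ne_zero (pow_ne_zero 2 hl0) hβ) (mul_ne_zero h2 hw))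
      set s := z - t • z' with hs
      have hqs : q s = -(t * β) := by
        rw [hs, sub_eq_add_neg, QuadraticMap.map_add q, QuadraticMap.map_neg, QuadraticMap.map_smul, polar_neg_right,
          polar_smul_right, hqz, hqz', smul_eq_mul, smul_eq_mul]
        ring
      have hqs0 : q s ≠ 0 := by rw [hqs]; exact neg_ne_zero.mpr (mul_ne_zero ht0 hβ)
      have hsw : rf q s w = w := by
        apply rf_orth
        rw [hs, polar_sub_left, polar_smul_left, hzw, hz'w, smul_zero, sub_zero]
      have hsz' : rf q s z' = t⁻¹ • z := by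
        rw [rf_apply, hqs, hs, polar_sub_left, polar_smul_left, polar_self', hqz', ← hβdef, mul_zero, smul_zero, sub_zero]
        have h1 : (-(t * β))⁻¹ * β = -t⁻¹ := by field_simp
        rw [h1, neg_smul, sub_neg_eq_add, smul_sub, smul_smul, inv_mul_cancel₀ ht0, one_smul]
        abel
      obtain ⟨p₃, hp₃⟩ := hb s hqs0 (p * p₂)
      have he₂ : ρ p₃ = rf q (w + (l * t⁻¹) • z) * rf q w := by
        rw [hp₃, he₁]
        have h1 : rf q s * rf q (w + l • z') * rf q s = rf q (w + (l * t⁻¹) • z) := by
          rw [rf_conj (T := rf q s) (rf_isom hqs0) (rf_mul_self hqs0), map_add, map_smul, hsw, hsz', smul_smul]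
        have h3 : rf q s * rf q w * rf q s = rf q w := by
          rw [rf_conj (T := rf q s) (rf_isom hqs0) (rf_mul_self hqs0), hsw]
        calc rf q s * (rf q (w + l • z') * rf q w) * rf q s
            = rf q s * rf q (w + l • z') * (rf q s * rf q s) * rf q w * rf q s := by
              rw [rf_mul_self hqs0]; simp only [mul_assoc, one_mul]
          _ = (rf q s * rf q (w + l • z') * rf q s) * (rf q s * rf q w * rf q s) := by simp only [mul_assoc]
          _ = _ := by rw [h1, h3]
      have hq1 : q (w + l • z') ≠ 0 := by
        rw [QuadraticMap.map_add q, QuadraticMap.map_smul, polar_smul_right, polar_comm q w z', hz'w, hqz', smul_zero, smul_zero, add_zero,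
          add_zero]
        exact hw
      have hq2 : q (w + (l * t⁻¹) • z) ≠ 0 := by
        rw [QuadraticMap.map_add q, QuadraticMap.map_smul, polar_smul_right, polar_comm q w z, hzw, hqz, smul_zero, smul_zero, add_zero,
          add_zero]
        exact hw
      refine no_pair hQ h2 (by omega) hq1 hq2 ?_ hinv (merge hq2 hw he₁ he₂)
      rw [polar_add_left, polar_add_right, polar_add_right, polar_self', polar_smul_left, polar_smul_left, polar_smul_right,
        polar_smul_right, hz'w, polar_comm q w z, hzw, polar_comm q z' z, ← hβdef]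
      simp only [smul_eq_mul, mul_zero, add_zero, zero_add]
      rw [ht]
      have := pow_ne_zero 2 hl0
      field_simp
      ring
  -- conclusion
  intro p
  obtain ⟨z, hz, hqz⟩ := exists_singular q (by omega)
  obtain ⟨z', hqz', hzz'⟩ := exists_partner hQ hz hqz
  have hz'0 : z' ≠ 0 := by
    rintro rfl
    rw [polar_zero_right] at hzz'
    exact zero_ne_one hzz'
  obtain ⟨w, hw, hzw, hz'w, hdec⟩ := frame hQ hd hqz hqz' (by rw [hzz']; exact one_ne_zero)
  obtain ⟨a, ha⟩ := key p z hz hqz
  obtain ⟨a', ha'⟩ := key p z' hz'0 hqz'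
  have haa : a * a' = 1 := by
    have h1 := hpol p z z'
    rw [ha, ha', polar_smul_left, polar_smul_right, hzz'] at h1
    simpa using h1
  have ha0 : a ≠ 0 := left_ne_zero_of_mul_eq_one haa
  have ha'0 : a' ≠ 0 := right_ne_zero_of_mul_eq_one haa
  obtain ⟨b₁, b₂, c, hpw⟩ := hdec (ρ p w)
  have hb1 : b₁ = 0 := by
    have h1 := hpol p w z'
    rw [ha', hpw, polar_comm q w z', hz'w] at h1
    simp only [polar_add_left, polar_smul_left, polar_smul_right, polar_self', hqz', hzz', polar_comm q w z', hz'w, smul_eq_mul,
      mul_zero, mul_one, add_zero] at h1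
    exact (mul_eq_zero.mp h1).resolve_left ha'0
  have hb2 : b₂ = 0 := by
    have h1 := hpol p w z
    rw [ha, hpw, polar_comm q w z, hzw] at h1
    simp only [polar_add_left, polar_smul_left, polar_smul_right, polar_self', hqz, polar_comm q z' z, hzz', polar_comm q w z, hzw,
      smul_eq_mul, mul_zero, mul_one, add_zero, zero_add] at h1
    exact (mul_eq_zero.mp h1).resolve_left ha0
  rw [hb1, hb2, zero_smul, zero_smul, zero_add, zero_add] at hpw
  -- a further singular vector
  set y := z + w + (-(q w)) • z' with hy
  have hqy : q y = 0 := by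
    rw [hy, QuadraticMap.map_add q, QuadraticMap.map_add q, QuadraticMap.map_smul, polar_add_left, polar_smul_right, polar_smul_right,
      hqz, hqz', hzw, hzz', polar_comm q w z', hz'w]
    simp
  have hyz' : polar q y z' = 1 := by
    rw [hy, polar_add_left, polar_add_left, polar_smul_left, hzz', polar_self', hqz', polar_comm q w z', hz'w]
    simp
  have hy0 : y ≠ 0 := by
    intro h
    rw [h, polar_zero_left] at hyz'
    exact zero_ne_one hyz'
  obtain ⟨l, hl⟩ := key p y hy0 hqy
  have hpy : ρ p y = a • z + c • w + (-(q w) * a') • z' := by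
    rw [hy, map_add, map_add, map_smul, ha, ha', hpw, smul_smul]
  rw [hpy] at hl
  have e1 : a = l := by
    have h1 := congrArg (fun x => polar q x z') hl
    simp only [hy, polar_add_left, polar_smul_left, hzz', polar_self', hqz', polar_comm q w z', hz'w, smul_eq_mul, mul_zero,
      mul_one, add_zero, smul_add] at h1
    exact h1
  have e2 : c = l := by
    have h1 := congrArg (fun x => polar q x w) hl
    simp only [hy, polar_add_left, polar_smul_left, hzw, hz'w, polar_self', smul_eq_mul, mul_zero, add_zero, zero_add,
      smul_add] at h1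
    have h3 : (c - l) * (2 * q w) = 0 := by linear_combination h1
    exact sub_eq_zero.mp ((mul_eq_zero.mp h3).resolve_right (mul_ne_zero h2 hw))
  have e3 : a' = l := by
    have h1 := congrArg (fun x => polar q x z) hl
    simp only [hy, polar_add_left, polar_smul_left, polar_self', hqz, polar_comm q w z, hzw, polar_comm q z' z, hzz', smul_eq_mul,
      mul_zero, mul_one, add_zero, zero_add, smul_add] at h1
    have h3 : (a' - l) * (-(q w)) = 0 := by linear_combination h1
    exact sub_eq_zero.mp ((mul_eq_zero.mp h3).resolve_right (neg_ne_zero.mpr hw))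
  have hall : ρ p = l • (1 : Module.End L U) := by
    apply LinearMap.ext
    intro x
    obtain ⟨x1, x2, x3, rfl⟩ := hdec x
    rw [map_add, map_add, map_smul, map_smul, map_smul, ha, ha', hpw, e1, e2, e3]
    change _ = l • (x1 • z + x2 • z' + x3 • w)
    rw [smul_add, smul_add, smul_comm x1, smul_comm x2, smul_comm x3]
  have hl2 : (l - 1) * (l + 1) = 0 := by
    rw [e1, e3] at haa
    linear_combination haa
  rcases mul_eq_zero.mp hl2 with h | h
  · left
    rw [hall, sub_eq_zero.mp h, one_smul]
  · right
    rw [hall, eq_neg_of_add_eq_zero_left h, neg_smul, one_smul]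

end H50.ReflBal
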