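import Cfsg.Agent.Lib.H50.OrthBal3
import Cfsg.Agent.Lib.H50.OrthEven
import Cfsg.Agent.Lib.H50.ReflBal3

/-!
Local balance for orthogonal groups: reduction for graph involutions.
-/

set_option autoImplicit false
set_option linter.unusedSectionVars false
set_option maxHeartbeats 400000

namespace H50.GraphBal

open Matrix H48.OutO H50.PSLBasic H50.PSLField H50.H90 H50.ClassCount H50.PSLCount H48.QuadSplit H48.QuadStd
  H50.OrthPsi H50.OrthDesc H50.OrthField H50.OrthSim H50.OrthOddCount H50.OrthProper H50.OrthEven H50.OrthBal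

variable {F : Type*} [Field F] {ι : Type} [Fintype ι] [DecidableEq ι] {Q : QuadraticForm F (ι → F)}

lemma odd_pow {G : Type*} [Group G] [Finite G] {N : Subgroup G} (h : (Nat.card N).Coprime 2) {n : G} (hn : n ∈ N) :
    ∃ k, Odd k ∧ n ^ k = 1 := by
  refine ⟨Nat.card N, Nat.coprime_two_right.mp h, ?_⟩
  have h1 : (⟨n, hn⟩ : N) ^ Nat.card N = 1 := pow_card_eq_one'
  exact congrArg Subtype.val h1

lemma eq_one_of_odd {G : Type*} [Group G] {n : G} {k : ℕ} (hk : Odd k) (h1 : n ^ k = 1) (h2 : n * n = 1) : n = 1 := by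
  obtain ⟨m, rfl⟩ := hk
  rw [pow_succ, pow_mul, pow_two, h2, one_pow, one_mul] at h1
  exact h1

lemma scG_injective [Nonempty ι] : Function.Injective (scG Q) := by
  intro u v h
  exact sc_injective (ι := ι) (congrArg (fun z : ↥(simG Q) => z.1) h)

lemma comm_mem_inn {K : Type*} [Group K] {C : Subgroup (MulAut K)} (n d : ↥C) (hd : (d : MulAut K) ∈ Cfsg.Inn K) :
    ((n * (d * n⁻¹ * d⁻¹) : ↥C) : MulAut K) ∈ Cfsg.Inn K := by
  have h5 : ((n * (d * n⁻¹ * d⁻¹) : ↥C) : MulAut K) =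
      ((n : MulAut K) * d * (n : MulAut K)⁻¹) * (d : MulAut K)⁻¹ := by
    rw [Subgroup.coe_mul, Subgroup.coe_mul, Subgroup.coe_mul, Subgroup.coe_inv, Subgroup.coe_inv]
    simp only [mul_assoc]
  rw [h5]
  have hI : (Cfsg.Inn K).Normal := inferInstance
  exact Subgroup.mul_mem _ (hI.conj_mem _ hd _) (Subgroup.inv_mem _ hd)

lemma comm_of_one {G : Type*} [Group G] {n d : G} (h : n * (d * n⁻¹ * d⁻¹) = 1) : n * d = d * n := by
  have h6 : n * d * (d * n)⁻¹ = n * (d * (n⁻¹ * d⁻¹)) := by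
    rw [_root_.mul_inv_rev]; simp only [mul_assoc]
  rw [← mul_inv_eq_one, h6, ← mul_assoc d, h]

/-- the elements of `Ω` commuting with `g` -/
def Cg (g : ↥(simG Q)) : Subgroup ↥(Cfsg.Omega F (⇑Q)) :=
  (Subgroup.centralizer {g}).comap ((isoG Q).comp (Subgroup.subtype _))

lemma mem_Cg {g : ↥(simG Q)} {s : ↥(Cfsg.Omega F (⇑Q))} : s ∈ Cg g ↔ isoG Q s.1 * g = g * isoG Q s.1 := by
  rw [Cg, Subgroup.mem_comap, Bal.mem_cent_iff]
  rfl

variable [Fintype F]

/-- **reduction for the core of the centralizer of a graph involution** -/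
theorem red (hQ : (QuadraticMap.polarBilin Q).Nondegenerate) (hn : 7 ≤ Fintype.card ι)
    (hAut : ∀ α : MulAut (Cfsg.POmega F (⇑Q)), ∃ y : ↥(Gam Q), α = Psi Q y)
    {g : ↥(simG Q)} {c : Fˣ} (hg2 : g * g = scG Q c)
    (A : Subgroup (MulAut (Cfsg.POmega F (⇑Q)))) (hinn : ∀ k : Cfsg.POmega F (⇑Q), MulAut.conj k ∈ A)
    (hA : ∀ P : Subgroup ↥(Cfsg.Omega F (⇑Q)), P ≤ Cg g → (∀ t ∈ Cg g, ∀ s ∈ P, t * s * t⁻¹ ∈ P) →
      (∀ s ∈ P, ∃ k, Odd k ∧ ∃ ε : F, (ε = 1 ∨ ε = -1) ∧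
        ∀ v, (((s ^ k).1.1 : GL ι F) : Matrix ι ι F) *ᵥ v = ε • v) →
      ∀ s ∈ P, s * s = 1)
    (hB : ∀ z : ↥(Gam Q), (∃ u : Fˣ, z * toGam Q g = toGam Q (scG Q u) * (toGam Q g * z)) →
      (∀ t ∈ Cg g, ∃ u : Fˣ, z * emb Q t.1 = toGam Q (scG Q u) * (emb Q t.1 * z)) →
      ∃ μ : Fˣ, z * z = toGam Q (scG Q μ)) :
    Cfsg.pPrimeCore 2 ↥(A ⊓ Subgroup.centralizer {psi1 Q g}) = ⊥ := by
  classical
  have hne : Nonempty ι := by
    rw [← Fintype.card_pos_iff]; omega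
  have hneQ : ∃ v, Q v ≠ 0 := by
    by_contra hcon
    push Not at hcon
    have hND : ND Q := nd_iff.mpr hQ
    obtain ⟨i⟩ := hne
    have h8 : (Pi.single i 1 : ι → F) = 0 := hND _ (fun z => by
      rw [QuadraticMap.polar, hcon, hcon, hcon]; ring)
    have h9 := congrFun h8 i
    rw [Pi.single_eq_same] at h9
    exact one_ne_zero h9
  have hZ := center_pom hQ hn
  have hcinj := Bal.conj_injective hZ
  set x := psi1 Q g with hx
  apply Bal.core_eq_bot
  intro N hNn hNc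
  -- elements of `Ω` commuting with `g`
  have hmem : ∀ t : ↥(Cg g), MulAut.conj (QuotientGroup.mk (t : ↥(Cfsg.Omega F (⇑Q))) : Cfsg.POmega F (⇑Q)) ∈
      A ⊓ Subgroup.centralizer {x} := by
    intro t
    refine Subgroup.mem_inf.mpr ⟨hinn _, Bal.mem_cent_iff.mpr ?_⟩
    rw [hx, ← psi1_isoG, ← map_mul, ← map_mul, mem_Cg.mp t.2]
  let f : ↥(Cg g) →* ↥(A ⊓ Subgroup.centralizer {x}) := MonoidHom.codRestrict
    ((MulAut.conj.comp (QuotientGroup.mk' (Subgroup.center ↥(Cfsg.Omega F (⇑Q))))).comp (Subgroup.subtype (Cg g))) _ hmem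
  have hf : ∀ t, ((f t : ↥(A ⊓ Subgroup.centralizer {x})) : MulAut (Cfsg.POmega F (⇑Q))) =
      MulAut.conj (QuotientGroup.mk (t : ↥(Cfsg.Omega F (⇑Q))) : Cfsg.POmega F (⇑Q)) := fun _ => rfl
  let P : Subgroup ↥(Cfsg.Omega F (⇑Q)) := (N.comap f).map (Subgroup.subtype _)
  have hP : ∀ s, s ∈ P ↔ ∃ h : s ∈ Cg g, f ⟨s, h⟩ ∈ N := by
    intro s
    constructor
    · rintro ⟨t, ht, rfl⟩
      exact ⟨t.2, ht⟩
    · rintro ⟨h, hs⟩
      exact ⟨⟨s, h⟩, hs, rfl⟩
  -- the scalars among isometries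
  have hsc : ∀ (s : ↥(Cfsg.isometryGroup F (⇑Q))) (w : Fˣ), isoG Q s = scG Q w → (w : F) = 1 ∨ (w : F) = -1 := by
    intro s w hs
    obtain ⟨v, hv⟩ := hneQ
    have h1 : Q (((s : GL ι F) : Matrix ι ι F) *ᵥ v) = Q v := (H17.OrthDet.mem_isometryGroup_iff _ _).mp s.2 v
    have h3 : ((s : GL ι F) : Matrix ι ι F) *ᵥ v = (w : F) • v := by
      have h4 : ((isoG Q s : ↥(simG Q)) : GL ι F) = ((scG Q w : ↥(simG Q)) : GL ι F) := by rw [hs]
      rw [isoG_coe, scG_coe] at h4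
      rw [h4, sc_mulVec]
    rw [h3, QuadraticMap.map_smul, smul_eq_mul] at h1
    have h5 : ((w : F) - 1) * ((w : F) + 1) * Q v = 0 := by linear_combination h1
    rcases mul_eq_zero.mp ((mul_eq_zero.mp h5).resolve_right hv) with h | h
    · exact Or.inl (sub_eq_zero.mp h)
    · exact Or.inr (eq_neg_of_add_eq_zero_left h)
  -- odd powers
  have hoddS : ∀ (s : ↥(Cfsg.Omega F (⇑Q))) (k : ℕ), (MulAut.conj (QuotientGroup.mk s : Cfsg.POmega F (⇑Q))) ^ k = 1 →
      ∃ w : Fˣ, (isoG Q s.1) ^ k = scG Q w := by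
    intro s k hs
    rw [← psi1_isoG, ← map_pow, psi1_eq_one_iff hQ hn] at hs
    exact hs
  -- step A
  have hPone : ∀ s ∈ P, s * s = 1 := by
    apply hA P
    · intro s hs
      exact ((hP s).mp hs).choose
    · intro t ht s hs
      obtain ⟨h1, h3⟩ := (hP s).mp hs
      refine (hP _).mpr ⟨(Cg g).mul_mem ((Cg g).mul_mem ht h1) ((Cg g).inv_mem ht), ?_⟩
      have h4 := hNn.conj_mem _ h3 (f ⟨t, ht⟩)
      rw [← map_mul, ← map_inv, ← map_mul] at h4
      exact h4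
    · intro s hs
      obtain ⟨h1, h3⟩ := (hP s).mp hs
      obtain ⟨k, hk, hk1⟩ := odd_pow hNc h3
      have h4 : (MulAut.conj (QuotientGroup.mk s : Cfsg.POmega F (⇑Q))) ^ k = 1 := congrArg Subtype.val hk1
      obtain ⟨w, hw⟩ := hoddS s k h4
      have h5 : isoG Q (s.1 ^ k) = scG Q w := by rw [map_pow]; exact hw
      refine ⟨k, hk, w, hsc _ w h5, fun v => ?_⟩
      have h6 : ((isoG Q (s.1 ^ k) : ↥(simG Q)) : GL ι F) = ((scG Q w : ↥(simG Q)) : GL ι F) := by rw [h5]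
      rw [isoG_coe, scG_coe] at h6
      have h7 : (((s ^ k).1.1 : GL ι F) : Matrix ι ι F) = ((sc w : GL ι F) : Matrix ι ι F) := by
        rw [← h6]; rfl
      rw [h7, sc_mulVec]
  have stepA : ∀ n ∈ N, (n : MulAut (Cfsg.POmega F (⇑Q))) ∈ Cfsg.Inn (Cfsg.POmega F (⇑Q)) → n = 1 := by
    rintro n hnN ⟨k, hk⟩
    obtain ⟨s, rfl⟩ := QuotientGroup.mk_surjective k
    obtain ⟨m, hm, hm1⟩ := odd_pow hNc hnN
    have hm1' : (MulAut.conj (QuotientGroup.mk s : Cfsg.POmega F (⇑Q))) ^ m = 1 := by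
      have : MulAut.conj (QuotientGroup.mk s : Cfsg.POmega F (⇑Q)) = (n : MulAut (Cfsg.POmega F (⇑Q))) := hk
      rw [this]
      exact congrArg Subtype.val hm1
    -- `s` commutes with `g`
    have hsg : s ∈ Cg g := by
      have h1 : (n : MulAut (Cfsg.POmega F (⇑Q))) * x = x * n := Bal.mem_cent_iff.mp (Subgroup.mem_inf.mp n.2).2
      have hk' : (n : MulAut (Cfsg.POmega F (⇑Q))) = psi1 Q (isoG Q s.1) := by rw [psi1_isoG]; exact hk.symm
      rw [hk', hx, ← map_mul, ← map_mul, psi1_eq_iff hQ hn] at h1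
      obtain ⟨u, hu⟩ := h1
      obtain ⟨w, hw⟩ := hoddS s m hm1'
      have hpow : ∀ j : ℕ, (isoG Q s.1) ^ j * g = scG Q (u ^ j) * (g * (isoG Q s.1) ^ j) := by
        intro j
        induction j with
        | zero => rw [pow_zero, pow_zero, one_mul, map_one, one_mul, mul_one]
        | succ j ih =>
          calc (isoG Q s.1) ^ (j + 1) * g = (isoG Q s.1) ^ j * (isoG Q s.1 * g) := by rw [pow_succ, mul_assoc]
            _ = (isoG Q s.1) ^ j * (scG Q u * (g * isoG Q s.1)) := by rw [hu]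
            _ = scG Q u * ((isoG Q s.1) ^ j * g) * isoG Q s.1 := by
                rw [← mul_assoc ((isoG Q s.1) ^ j), ← scG_comm]; simp only [mul_assoc]
            _ = _ := by rw [ih, pow_succ u, map_mul, pow_succ (isoG Q s.1), scG_comm (u ^ j) (scG Q u)]; simp only [mul_assoc]
      have hum : u ^ m = 1 := by
        have h3 := hpow m
        rw [hw, ← scG_comm w g] at h3
        have h4 : scG Q (u ^ m) = 1 := by
          have h5 : (1 : ↥(simG Q)) * (scG Q w * g) = scG Q (u ^ m) * (scG Q w * g) := by rw [one_mul]; exact h3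
          exact (mul_right_cancel h5).symm
        exact scG_injective (by rw [h4, map_one])
      have hu2 : u * u = 1 := by
        have h3 : isoG Q s.1 * (g * g) = scG Q (u * u) * ((g * g) * isoG Q s.1) := by
          calc isoG Q s.1 * (g * g) = (isoG Q s.1 * g) * g := by rw [mul_assoc]
            _ = (scG Q u * (g * isoG Q s.1)) * g := congrArg (fun z => z * g) hu
            _ = scG Q u * (g * (isoG Q s.1 * g)) := by simp only [mul_assoc]
            _ = scG Q u * (g * (scG Q u * (g * isoG Q s.1))) := congrArg (fun z => scG Q u * (g * z)) hu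
            _ = scG Q u * (scG Q u * (g * (g * isoG Q s.1))) := by rw [← mul_assoc g (scG Q u), ← scG_comm u g]; simp only [mul_assoc]
            _ = _ := by rw [map_mul]; simp only [mul_assoc]
        rw [hg2, ← scG_comm c (isoG Q s.1)] at h3
        have h4 : scG Q (u * u) = 1 := by
          have h5 : (1 : ↥(simG Q)) * (scG Q c * isoG Q s.1) = scG Q (u * u) * (scG Q c * isoG Q s.1) := by rw [one_mul]; exact h3
          exact (mul_right_cancel h5).symm
        exact scG_injective (by rw [h4, map_one])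
      have hu1 : u = 1 := eq_one_of_odd hm hum hu2
      rw [mem_Cg, hu, hu1, map_one, one_mul]
    have hsP : s ∈ P := (hP s).mpr ⟨hsg, by
      have h1 : f ⟨s, hsg⟩ = n := Subtype.ext hk
      rw [h1]; exact hnN⟩
    have h1 := hPone s hsP
    have h3 : n * n = 1 := by
      apply Subtype.ext
      have hk' : (n : MulAut (Cfsg.POmega F (⇑Q))) = MulAut.conj (QuotientGroup.mk s : Cfsg.POmega F (⇑Q)) := hk.symm
      rw [Subgroup.coe_mul, hk', ← map_mul]
      have h4 : (QuotientGroup.mk s : Cfsg.POmega F (⇑Q)) * QuotientGroup.mk s = QuotientGroup.mk (s * s) := rfl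
      rw [h4, h1]
      exact map_one _
    exact eq_one_of_odd hm hm1 h3
  -- step B
  rw [Subgroup.eq_bot_iff_forall]
  intro n hnN
  obtain ⟨m, hm, hm1⟩ := odd_pow hNc hnN
  obtain ⟨z, hz⟩ := hAut n
  have hcomm : ∀ t ∈ Cg g, ∃ u : Fˣ, z * emb Q t.1 = toGam Q (scG Q u) * (emb Q t.1 * z) := by
    intro t ht
    obtain ⟨d, hd⟩ : ∃ d : ↥(A ⊓ Subgroup.centralizer {x}), (d : MulAut (Cfsg.POmega F (⇑Q))) =
      MulAut.conj (QuotientGroup.mk t : Cfsg.POmega F (⇑Q)) := ⟨f ⟨t, ht⟩, rfl⟩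
    have hdI : (d : MulAut (Cfsg.POmega F (⇑Q))) ∈ Cfsg.Inn (Cfsg.POmega F (⇑Q)) := ⟨_, hd.symm⟩
    have h1 : n * (d * n⁻¹ * d⁻¹) = 1 := by
      apply stepA
      · exact N.mul_mem hnN (hNn.conj_mem _ (N.inv_mem hnN) _)
      · exact comm_mem_inn n d hdI
    have h3 : (n : MulAut (Cfsg.POmega F (⇑Q))) * psi1 Q (isoG Q t.1) = psi1 Q (isoG Q t.1) * n := by
      rw [psi1_isoG, ← hd]
      exact congrArg Subtype.val (comm_of_one h1)
    rw [hz, psi1_apply, ← map_mul, ← map_mul, Psi_eq_iff hQ hn] at h3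
    exact h3
  have hcg : ∃ u : Fˣ, z * toGam Q g = toGam Q (scG Q u) * (toGam Q g * z) := by
    have h1 : (n : MulAut (Cfsg.POmega F (⇑Q))) * x = x * n := Bal.mem_cent_iff.mp (Subgroup.mem_inf.mp n.2).2
    rw [hz, hx, psi1_apply, ← map_mul, ← map_mul, Psi_eq_iff hQ hn] at h1
    exact h1
  obtain ⟨μ, hμ⟩ := hB z hcg hcomm
  have h2 : n * n = 1 := by
    apply Subtype.ext
    rw [Subgroup.coe_mul, hz, ← map_mul, hμ]
    exact psi1_scG μ
  exact eq_one_of_odd hm hm1 h2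

end H50.GraphBal
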