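import Cfsg.Agent.Lib.H50.GraphBal

/-!
Local balance for orthogonal groups: products of two reflections, restriction to modules.
-/

set_option autoImplicit false
set_option linter.unusedSectionVars false
set_option maxHeartbeats 400000

namespace H50.GraphBal

open Matrix H48.OutO H50.PSLBasic H50.PSLField H50.H90 H50.ClassCount H50.PSLCount H48.QuadSplit H48.QuadStd
  H50.OrthPsi H50.OrthDesc H50.OrthField H50.OrthSim H50.OrthOddCount H50.OrthProper H50.OrthEven H50.OrthBal H50.ReflBal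

variable {F : Type*} [Field F] {ι : Type} [Fintype ι] [DecidableEq ι] {Q : QuadraticForm F (ι → F)}

/-- action of elements of `Ω` -/
def mv (s : ↥(Cfsg.Omega F (⇑Q))) (v : ι → F) : ι → F := ((s.1.1 : GL ι F) : Matrix ι ι F) *ᵥ v

lemma mv_mul (s t : ↥(Cfsg.Omega F (⇑Q))) (v : ι → F) : mv (s * t) v = mv s (mv t v) := by
  change (((s.1.1 * t.1.1 : GL ι F)) : Matrix ι ι F) *ᵥ v = _
  rw [Units.val_mul, ← Matrix.mulVec_mulVec]
  rfl

lemma mv_one (v : ι → F) : mv (1 : ↥(Cfsg.Omega F (⇑Q))) v = v := by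
  change (((1 : GL ι F)) : Matrix ι ι F) *ᵥ v = _
  rw [Units.val_one, Matrix.one_mulVec]

lemma mv_add (s : ↥(Cfsg.Omega F (⇑Q))) (v w : ι → F) : mv s (v + w) = mv s v + mv s w := Matrix.mulVec_add _ _ _

lemma mv_neg (s : ↥(Cfsg.Omega F (⇑Q))) (v : ι → F) : mv s (-v) = -mv s v := Matrix.mulVec_neg _ _

lemma mv_smul (s : ↥(Cfsg.Omega F (⇑Q))) (a : F) (v : ι → F) : mv s (a • v) = a • mv s v := Matrix.mulVec_smul _ _ _

lemma mv_Q (s : ↥(Cfsg.Omega F (⇑Q))) (v : ι → F) : Q (mv s v) = Q v := (H17.OrthDet.mem_isometryGroup_iff _ _).mp s.1.2 v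

lemma mv_inv (s : ↥(Cfsg.Omega F (⇑Q))) (v : ι → F) : mv s⁻¹ (mv s v) = v := by
  rw [← mv_mul, inv_mul_cancel, mv_one]

lemma mv_inv' (s : ↥(Cfsg.Omega F (⇑Q))) (v : ι → F) : mv s (mv s⁻¹ v) = v := by
  rw [← mv_mul, mul_inv_cancel, mv_one]

lemma mv_ext {s t : ↥(Cfsg.Omega F (⇑Q))} (h : ∀ v, mv s v = mv t v) : s = t :=
  Subtype.ext (Subtype.ext (gl_ext h))

lemma ap_emb (s : ↥(Cfsg.Omega F (⇑Q))) (v : ι → F) : ap ((emb Q s.1 : ↥(Gam Q)) : GA ι F) v = mv s v := by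
  rw [emb_coe, ap_inl]
  rfl

lemma ap_toGam (g : ↥(simG Q)) (v : ι → F) : ap ((toGam Q g : ↥(Gam Q)) : GA ι F) v = ((g : GL ι F) : Matrix ι ι F) *ᵥ v := rfl

lemma ap_sc (u : Fˣ) (y : ↥(Gam Q)) (v : ι → F) :
    ap ((toGam Q (scG Q u) * y : ↥(Gam Q)) : GA ι F) v = (u : F) • ap (y : GA ι F) v := by
  rw [Subgroup.coe_mul, ap_mul, ap_toGam, scG_coe, sc_mulVec]

/-- commuting with `g`, on vectors -/
lemma mem_Cg_iff {g : ↥(simG Q)} {s : ↥(Cfsg.Omega F (⇑Q))} :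
    s ∈ Cg g ↔ ∀ v, mv s (((g : GL ι F) : Matrix ι ι F) *ᵥ v) = ((g : GL ι F) : Matrix ι ι F) *ᵥ (mv s v) := by
  rw [mem_Cg]
  constructor
  · intro h v
    have h1 := congrArg (fun z : ↥(simG Q) => ((z : GL ι F) : Matrix ι ι F) *ᵥ v) h
    simp only [Subgroup.coe_mul, Units.val_mul, ← Matrix.mulVec_mulVec] at h1
    exact h1
  · intro h
    apply Subtype.ext
    apply gl_ext
    intro v
    rw [Subgroup.coe_mul, Subgroup.coe_mul, Units.val_mul, Units.val_mul, ← Matrix.mulVec_mulVec, ← Matrix.mulVec_mulVec]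
    exact h v

/-! ### restriction to modules -/

section restr

variable {L U : Type*} [Field L] [AddCommGroup U] [Module L U] {q : QuadraticForm L U}

lemma hinv_of {P : Subgroup ↥(Cfsg.Omega F (⇑Q))}
    (hodd : ∀ s ∈ P, ∃ k, Odd k ∧ ∃ ε : F, (ε = 1 ∨ ε = -1) ∧ ∀ v, (((s ^ k).1.1 : GL ι F) : Matrix ι ι F) *ᵥ v = ε • v)
    (ρ : ↥P →* Module.End L U) (i : U →+ (ι → F)) (hi : Function.Injective i)
    (hρ : ∀ (p : ↥P) u, i (ρ p u) = mv p.1 (i u)) : ∀ p, ρ p * ρ p = 1 → ρ p = 1 ∨ ρ p = -1 := by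
  intro p hp
  obtain ⟨k, ⟨m, hm⟩, ε, hε, hk⟩ := hodd p.1 p.2
  have h1 : ρ p = ρ (p ^ k) := by
    rw [map_pow, hm, pow_succ, pow_mul, pow_two, hp, one_pow, one_mul]
  have h2 : ∀ u, i (ρ p u) = ε • i u := by
    intro u
    rw [h1, hρ]
    exact hk _
  rcases hε with rfl | rfl
  · left
    apply LinearMap.ext
    intro u
    apply hi
    rw [h2, one_smul]
    rfl
  · right
    apply LinearMap.ext
    intro u
    apply hi
    rw [h2, neg_one_smul]
    exact (map_neg i u).symm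

lemma hb_of {g : ↥(simG Q)} {P : Subgroup ↥(Cfsg.Omega F (⇑Q))} (hP : ∀ t ∈ Cg g, ∀ s ∈ P, t * s * t⁻¹ ∈ P)
    (ρ : ↥P →* Module.End L U) (i : U →+ (ι → F)) (hi : Function.Injective i)
    (hρ : ∀ (p : ↥P) u, i (ρ p u) = mv p.1 (i u)) {t : ↥(Cfsg.Omega F (⇑Q))} (ht : t ∈ Cg g) {v : U} (hv : q v ≠ 0)
    (htv : ∀ u, mv t (i u) = i (rf q v u)) : ∀ p, ∃ p', ρ p' = rf q v * ρ p * rf q v := by
  intro p
  refine ⟨⟨t * p.1 * t⁻¹, hP t ht p.1 p.2⟩, ?_⟩
  apply LinearMap.ext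
  intro u
  apply hi
  have h1 : mv t⁻¹ (i u) = i (rf q v u) := by
    rw [← mv_inv t (i (rf q v u)), htv, rf_rf hv]
  rw [hρ, mv_mul, mv_mul, h1, ← hρ, htv]
  rfl

end restr

/-! ### products of two reflections -/

section two

variable [Fintype F] (h2 : (2 : F) ≠ 0) (hQ : (QuadraticMap.polarBilin Q).Nondegenerate) (hn : 7 ≤ Fintype.card ι)
include h2 hQ hn

lemma exists_tt {v w : ι → F} (hv : Q v ≠ 0) (hw : Q w ≠ 0) (hsq : IsSquare (Q v * Q w)) (hvw : QuadraticMap.polar Q v w = 0) :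
    ∃ t : ↥(Cfsg.Omega F (⇑Q)), ∀ x, mv t x = x - ((Q v)⁻¹ * QuadraticMap.polar Q v x) • v -
      ((Q w)⁻¹ * QuadraticMap.polar Q w x) • w := by
  refine ⟨⟨_, (refl2_mem_iff h2 hQ (by omega) hv hw).mpr hsq⟩, fun x => ?_⟩
  change (((H17.OrthDet.refl Q v hv).1 * (H17.OrthDet.refl Q w hw).1 : GL ι F) : Matrix ι ι F) *ᵥ x = _
  rw [Units.val_mul, ← Matrix.mulVec_mulVec, H17.OrthDet.refl_coe, H17.OrthDet.refl_coe, H17.OrthMat.reflectionMatrix_mulVec,
    H17.OrthMat.reflectionMatrix_mulVec, QuadraticMap.polar_sub_right, QuadraticMap.polar_smul_right, hvw, smul_zero, sub_zero]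
  abel

omit [Fintype F] h2 in
lemma exists_perp4 (a b c d : ι → F) : ∃ y, y ≠ 0 ∧ QuadraticMap.polar Q a y = 0 ∧ QuadraticMap.polar Q b y = 0 ∧
    QuadraticMap.polar Q c y = 0 ∧ QuadraticMap.polar Q d y = 0 := by
  classical
  have h1 := finrank_orth (nd_iff.mpr hQ) (Submodule.span F (({a, b, c, d} : Finset (ι → F)) : Set (ι → F)))
  have h3 : Module.finrank F (Submodule.span F (({a, b, c, d} : Finset (ι → F)) : Set (ι → F))) ≤ 4 :=
    (finrank_span_finset_le_card _).trans Finset.card_le_four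
  rw [Module.finrank_fintype_fun_eq_card] at h1
  have : Nontrivial (orth Q (Submodule.span F (({a, b, c, d} : Finset (ι → F)) : Set (ι → F)))) :=
    Module.nontrivial_of_finrank_pos (R := F) (by omega)
  obtain ⟨⟨y, hy⟩, hy0⟩ := exists_ne (0 : orth Q (Submodule.span F (({a, b, c, d} : Finset (ι → F)) : Set (ι → F))))
  refine ⟨y, fun h => hy0 (Subtype.ext h), ?_, ?_, ?_, ?_⟩ <;>
    exact mem_orth.mp hy _ (Submodule.subset_span (by simp))

omit [Fintype F] in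
/-- semisimilarities commuting with a product of two reflections -/
lemma D_lemma {v w : ι → F} {t : ↥(Cfsg.Omega F (⇑Q))}
    (ht : ∀ x, mv t x = x - ((Q v)⁻¹ * QuadraticMap.polar Q v x) • v - ((Q w)⁻¹ * QuadraticMap.polar Q w x) • w)
    {z : ↥(Gam Q)} (hz : ∃ u : Fˣ, z * emb Q t.1 = toGam Q (scG Q u) * (emb Q t.1 * z)) {y : ι → F} (hy : mv t y = -y) :
    ∃ a b : F, ap (z : GA ι F) y = a • v + b • w := by
  obtain ⟨u, hu⟩ := hz
  have hz' : ∀ x, ap (z : GA ι F) (mv t x) = (u : F) • mv t (ap (z : GA ι F) x) := by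
    intro x
    have h1 := congrArg (fun y : ↥(Gam Q) => ap (y : GA ι F) x) hu
    beta_reduce at h1
    rw [ap_sc, Subgroup.coe_mul, Subgroup.coe_mul, ap_mul, ap_mul, ap_emb, ap_emb] at h1
    exact h1
  obtain ⟨c, hc, hm⟩ := exists_mult z
  obtain ⟨y₀, hy₀, e1, e2, e3, e4⟩ := exists_perp4 hQ hn v w (ap (z : GA ι F)⁻¹ v) (ap (z : GA ι F)⁻¹ w)
  have hperp : ∀ x, QuadraticMap.polar Q (ap (z : GA ι F)⁻¹ x) y₀ = 0 → QuadraticMap.polar Q x (ap (z : GA ι F) y₀) = 0 := by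
    intro x hx
    have h1 := hm.polar (ap (z : GA ι F)⁻¹ x) y₀
    rw [ap_ap_inv, hx, map_zero, mul_zero] at h1
    exact h1
  have h1 : mv t y₀ = y₀ := by rw [ht, e1, e2]; simp
  have h3 : mv t (ap (z : GA ι F) y₀) = ap (z : GA ι F) y₀ := by
    rw [ht, hperp v e3, hperp w e4]; simp
  have hu1 : (u : F) = 1 := by
    have h4 := hz' y₀
    rw [h1, h3] at h4
    have h5 : ((u : F) - 1) • ap (z : GA ι F) y₀ = 0 := by
      rw [sub_smul, one_smul, ← h4, sub_self]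
    rcases smul_eq_zero.mp h5 with h6 | h6
    · exact sub_eq_zero.mp h6
    · exfalso
      apply hy₀
      apply ap_injective (z : GA ι F)
      rw [h6, ap_zero]
  have h4 := hz' y
  rw [hy, hu1, one_smul, ht] at h4
  have h5 : ap (z : GA ι F) (-y) = -ap (z : GA ι F) y := by
    have h6 := ap_add (z : GA ι F) (-y) y
    rw [neg_add_cancel, ap_zero] at h6
    exact eq_neg_of_add_eq_zero_left h6.symm
  rw [h5] at h4
  set x := ap (z : GA ι F) y
  set α := (Q v)⁻¹ * QuadraticMap.polar Q v x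
  set β := (Q w)⁻¹ * QuadraticMap.polar Q w x
  refine ⟨α / 2, β / 2, ?_⟩
  have h6 : (2 : F) • x = α • v + β • w := by
    rw [two_smul]
    have h7 : x + x - (α • v + β • w) = 0 := by
      have h8 : x - α • v - β • w + x = 0 := by rw [← h4]; exact neg_add_cancel x
      rw [← h8]; abel
    exact sub_eq_zero.mp h7
  have h7 : x = (2 : F)⁻¹ • ((2 : F) • x) := by rw [smul_smul, inv_mul_cancel₀ h2, one_smul]
  rw [h7, h6, smul_add, smul_smul, smul_smul]
  congr 2 <;> field_simp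

/-- preserved lines -/
lemma line_of {v w w' : ι → F} (hv : Q v ≠ 0) (hw : Q w ≠ 0) (hw' : Q w' ≠ 0) (hvw : QuadraticMap.polar Q v w = 0)
    (hvw' : QuadraticMap.polar Q v w' = 0) (hww' : QuadraticMap.polar Q w w' = 0) {y : ι → F}
    (h1 : ∃ a b : F, y = a • v + b • w) (h3 : ∃ a b : F, y = a • v + b • w') : ∃ a : F, y = a • v := by
  obtain ⟨a, b, hab⟩ := h1
  obtain ⟨a', b', hab'⟩ := h3
  have h4 : b = 0 := by
    have h5 : QuadraticMap.polar Q y w = b * (2 * Q w) := by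
      rw [hab, QuadraticMap.polar_add_left, QuadraticMap.polar_smul_left, QuadraticMap.polar_smul_left, hvw, polar_self']
      simp
    have h6 : QuadraticMap.polar Q y w = 0 := by
      rw [hab', QuadraticMap.polar_add_left, QuadraticMap.polar_smul_left, QuadraticMap.polar_smul_left, hvw,
        QuadraticMap.polar_comm Q w' w, hww']
      simp
    rw [h5] at h6
    exact (mul_eq_zero.mp h6).resolve_right (mul_ne_zero h2 hw)
  exact ⟨a, by rw [hab, h4, zero_smul, add_zero]⟩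

end two

end H50.GraphBal
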