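import Cfsg.Agent.Lib.H50.GraphBal2

/-!
Local balance for orthogonal groups: graph involutions with an eigenspace decomposition.
-/

set_option autoImplicit false
set_option linter.unusedSectionVars false
set_option maxHeartbeats 400000

namespace H50.GraphBal

open Matrix H48.OutO H50.PSLBasic H50.PSLField H50.H90 H50.ClassCount H50.PSLCount H48.QuadSplit H48.QuadStd
  H50.OrthPsi H50.OrthDesc H50.OrthField H50.OrthSim H50.OrthOddCount H50.OrthProper H50.OrthEven H50.OrthBal H50.ReflBal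

variable {F : Type*} [Field F] {ι : Type} [Fintype ι] [DecidableEq ι] {Q : QuadraticForm F (ι → F)}

/-- eigenspaces -/
def eig (g : ↥(simG Q)) (a : F) : Submodule F (ι → F) where
  carrier := {v | ((g : GL ι F) : Matrix ι ι F) *ᵥ v = a • v}
  zero_mem' := by
    change _ *ᵥ 0 = a • 0
    rw [Matrix.mulVec_zero, smul_zero]
  add_mem' := by
    intro v w hv hw
    change _ *ᵥ (v + w) = a • (v + w)
    rw [Matrix.mulVec_add, smul_add]
    exact congrArg₂ (· + ·) hv hw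
  smul_mem' := by
    intro c v hv
    change _ *ᵥ (c • v) = a • (c • v)
    rw [Matrix.mulVec_smul, smul_comm a c]
    exact congrArg (c • ·) hv

lemma mem_eig {g : ↥(simG Q)} {a : F} {v : ι → F} : v ∈ eig g a ↔ ((g : GL ι F) : Matrix ι ι F) *ᵥ v = a • v := Iff.rfl

/-- restriction to an invariant subspace -/
def rhoW (P : Subgroup ↥(Cfsg.Omega F (⇑Q))) (W : Submodule F (ι → F)) (hW : ∀ s ∈ P, ∀ v ∈ W, mv s v ∈ W) :
    ↥P →* Module.End F W where
  toFun p :=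
    { toFun := fun w => ⟨mv p.1 w, hW _ p.2 _ w.2⟩
      map_add' := fun _ _ => Subtype.ext (mv_add _ _ _)
      map_smul' := fun _ _ => Subtype.ext (mv_smul _ _ _) }
  map_one' := by
    apply LinearMap.ext
    intro w
    exact Subtype.ext (mv_one _)
  map_mul' p p' := by
    apply LinearMap.ext
    intro w
    exact Subtype.ext (mv_mul _ _ _)

lemma rhoW_apply (P : Subgroup ↥(Cfsg.Omega F (⇑Q))) (W : Submodule F (ι → F)) (hW : ∀ s ∈ P, ∀ v ∈ W, mv s v ∈ W)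
    (p : ↥P) (w : W) : ((rhoW P W hW p w : W) : ι → F) = mv p.1 w := rfl

lemma Cg_eig {g : ↥(simG Q)} {s : ↥(Cfsg.Omega F (⇑Q))} (hs : s ∈ Cg g) {a : F} {v : ι → F} (hv : v ∈ eig g a) :
    mv s v ∈ eig g a := by
  rw [mem_eig, ← mem_Cg_iff.mp hs, mem_eig.mp hv, mv_smul]

section invol

variable {g : ↥(simG Q)} (hg2 : ∀ v, ((g : GL ι F) : Matrix ι ι F) *ᵥ (((g : GL ι F) : Matrix ι ι F) *ᵥ v) = v)
  (hgQ : ∀ v, Q (((g : GL ι F) : Matrix ι ι F) *ᵥ v) = Q v) (h2 : (2 : F) ≠ 0)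

include hg2 in
lemma split (h2 : (2 : F) ≠ 0) (v : ι → F) : ∃ v₁ ∈ eig g 1, ∃ v₂ ∈ eig g (-1), v = v₁ + v₂ := by
  refine ⟨(2 : F)⁻¹ • (v + ((g : GL ι F) : Matrix ι ι F) *ᵥ v), ?_, (2 : F)⁻¹ • (v - ((g : GL ι F) : Matrix ι ι F) *ᵥ v), ?_, ?_⟩
  · rw [mem_eig, Matrix.mulVec_smul, Matrix.mulVec_add, hg2, one_smul, add_comm]
  · rw [mem_eig, Matrix.mulVec_smul, Matrix.mulVec_sub, hg2, neg_one_smul, ← smul_neg, neg_sub]
  · rw [← smul_add, add_add_sub_cancel, ← two_smul F v, smul_smul, inv_mul_cancel₀ h2, one_smul]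

include hgQ in
lemma polar_g (v w : ι → F) : QuadraticMap.polar Q (((g : GL ι F) : Matrix ι ι F) *ᵥ v) (((g : GL ι F) : Matrix ι ι F) *ᵥ w) =
    QuadraticMap.polar Q v w := by
  rw [QuadraticMap.polar, QuadraticMap.polar, ← Matrix.mulVec_add, hgQ, hgQ, hgQ]

include hgQ in
lemma polar_eig {a : F} (ha : a = 1 ∨ a = -1) {v x : ι → F} (hv : v ∈ eig g a) :
    QuadraticMap.polar Q v (((g : GL ι F) : Matrix ι ι F) *ᵥ x) = a * QuadraticMap.polar Q v x := by
  have h1 := polar_g hgQ v x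
  rw [mem_eig.mp hv, QuadraticMap.polar_smul_left, smul_eq_mul] at h1
  rcases ha with rfl | rfl
  · rw [one_mul] at h1 ⊢; exact h1
  · linear_combination -h1

include hgQ h2 in
lemma eig_orth {v w : ι → F} (hv : v ∈ eig g 1) (hw : w ∈ eig g (-1)) : QuadraticMap.polar Q v w = 0 := by
  have h1 := polar_eig hgQ (Or.inl rfl) (x := w) hv
  rw [mem_eig.mp hw, QuadraticMap.polar_smul_right, smul_eq_mul] at h1
  have h3 : 2 * QuadraticMap.polar Q v w = 0 := by linear_combination -h1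
  exact (mul_eq_zero.mp h3).resolve_left h2

include hgQ h2 in
lemma eig_orth' {a : F} (ha : a = 1 ∨ a = -1) {v w : ι → F} (hv : v ∈ eig g a) (hw : w ∈ eig g (-a)) :
    QuadraticMap.polar Q v w = 0 := by
  rcases ha with rfl | rfl
  · exact eig_orth hgQ h2 hv hw
  · rw [neg_neg] at hw
    rw [QuadraticMap.polar_comm]
    exact eig_orth hgQ h2 hw hv

include hg2 hgQ h2 in
lemma nd_eig (hQ : (QuadraticMap.polarBilin Q).Nondegenerate) {a : F} (ha : a = 1 ∨ a = -1) : ND (Q.restrict (eig g a)) := by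
  rintro ⟨x, hx⟩ h
  apply Subtype.ext
  apply nd_iff.mpr hQ
  intro y
  obtain ⟨y₁, hy₁, y₂, hy₂, rfl⟩ := split hg2 h2 y
  rw [QuadraticMap.polar_add_right]
  rcases ha with rfl | rfl
  · rw [eig_orth hgQ h2 hx hy₂, add_zero]
    exact h ⟨y₁, hy₁⟩
  · rw [QuadraticMap.polar_comm _ x y₁, eig_orth hgQ h2 hy₁ hx, zero_add]
    exact h ⟨y₂, hy₂⟩

variable [Fintype F]

include hgQ h2 in
/-- products of two reflections commuting with `g` -/
lemma exists_tC (hQ : (QuadraticMap.polarBilin Q).Nondegenerate) (hn : 7 ≤ Fintype.card ι) {a b : F} (ha : a = 1 ∨ a = -1)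
    (hb : b = 1 ∨ b = -1) {v w : ι → F} (hva : v ∈ eig g a) (hwb : w ∈ eig g b) (hv : Q v ≠ 0) (hvw : Q v = Q w)
    (hperp : QuadraticMap.polar Q v w = 0) :
    ∃ t ∈ Cg g, ∀ x, mv t x = x - ((Q v)⁻¹ * QuadraticMap.polar Q v x) • v -
      ((Q w)⁻¹ * QuadraticMap.polar Q w x) • w := by
  obtain ⟨t, ht⟩ := exists_tt h2 hQ hn hv (w := w) (by rw [← hvw]; exact hv) ⟨Q w, by rw [hvw]⟩ hperp
  refine ⟨t, mem_Cg_iff.mpr fun x => ?_, ht⟩
  rw [ht, ht, Matrix.mulVec_sub, Matrix.mulVec_sub, Matrix.mulVec_smul, Matrix.mulVec_smul, mem_eig.mp hva, mem_eig.mp hwb,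
    polar_eig hgQ ha hva, polar_eig hgQ hb hwb, smul_smul, smul_smul]
  have e : ∀ k c p : F, k * (c * p) = k * p * c := by intros; ring
  rw [e, e]

include hgQ h2 in
lemma tW (hQ : (QuadraticMap.polarBilin Q).Nondegenerate) (hn : 7 ≤ Fintype.card ι) {a : F} (ha : a = 1 ∨ a = -1)
    {v : eig g a} {w : ι → F} (hw : w ∈ eig g (-a)) (hv : Q (v : ι → F) ≠ 0) (hvw : Q (v : ι → F) = Q w) :
    ∃ t ∈ Cg g, ∀ u : eig g a, mv t ((eig g a).subtype.toAddMonoidHom u) = (eig g a).subtype.toAddMonoidHom (rf (Q.restrict (eig g a)) v u) := by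
  obtain ⟨t, ht, htx⟩ := exists_tC hgQ h2 hQ hn ha (b := -a) (by rcases ha with rfl | rfl <;> simp) v.2 hw hv hvw (eig_orth' hgQ h2 ha v.2 hw)
  refine ⟨t, ht, fun u => ?_⟩
  have h1 : mv t (u : ι → F) = _ := htx u
  have h3 : QuadraticMap.polar Q w (u : ι → F) = 0 := by
    rw [QuadraticMap.polar_comm]
    exact eig_orth' hgQ h2 ha u.2 hw
  rw [h3, mul_zero, zero_smul, sub_zero] at h1
  change mv t (u : ι → F) = ((rf (Q.restrict (eig g a)) v u : eig g a) : ι → F)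
  rw [h1, rf_apply]
  rfl

include hg2 hgQ h2 in
/-- step A -/
theorem hA_I (hQ : (QuadraticMap.polarBilin Q).Nondegenerate) (hn : 7 ≤ Fintype.card ι)
    (h5 : 5 ≤ Module.finrank F (eig g (-1)))
    (hp : Module.finrank F (eig g 1) = 1 ∨ Module.finrank F (eig g 1) = 3 ∨ 5 ≤ Module.finrank F (eig g 1))
    (P : Subgroup ↥(Cfsg.Omega F (⇑Q))) (hPC : P ≤ Cg g) (hPn : ∀ t ∈ Cg g, ∀ s ∈ P, t * s * t⁻¹ ∈ P)
    (hodd : ∀ s ∈ P, ∃ k, Odd k ∧ ∃ ε : F, (ε = 1 ∨ ε = -1) ∧ ∀ v, (((s ^ k).1.1 : GL ι F) : Matrix ι ι F) *ᵥ v = ε • v) :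
    ∀ s ∈ P, s * s = 1 := by
  have hW : ∀ a : F, ∀ s ∈ P, ∀ v ∈ eig g a, mv s v ∈ eig g a := fun a s hs v hv => Cg_eig (hPC hs) hv
  have hND1 := nd_eig hg2 hgQ h2 hQ (a := 1) (Or.inl rfl)
  have hNDm := nd_eig hg2 hgQ h2 hQ (a := -1) (Or.inr rfl)
  have hinj : ∀ a : F, Function.Injective (eig g a).subtype.toAddMonoidHom := fun a => Subtype.val_injective
  have hinv : ∀ a : F, ∀ p, rhoW P (eig g a) (hW a) p * rhoW P (eig g a) (hW a) p = 1 →
      rhoW P (eig g a) (hW a) p = 1 ∨ rhoW P (eig g a) (hW a) p = -1 := fun a =>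
    hinv_of hodd (rhoW P (eig g a) (hW a)) (eig g a).subtype.toAddMonoidHom (hinj a) (fun _ _ => rfl)
  have hiso : ∀ (a : F) (p : ↥P) (x : eig g a), Q.restrict (eig g a) (rhoW P (eig g a) (hW a) p x) = Q.restrict (eig g a) x :=
    fun a p x => mv_Q p.1 x
  -- a nonsingular vector in the positive part
  obtain ⟨w₀, hw₀⟩ : ∃ w₀ : eig g 1, Q (w₀ : ι → F) ≠ 0 := by
    by_contra hcon
    push Not at hcon
    have : Nontrivial (eig g 1) := Module.nontrivial_of_finrank_pos (R := F) (by omega)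
    obtain ⟨x, hx⟩ := exists_ne (0 : eig g 1)
    apply hx
    apply hND1
    intro y
    rw [QuadraticMap.polar]
    change Q ((x + y : eig g 1) : ι → F) - Q (x : ι → F) - Q (y : ι → F) = 0
    rw [hcon, hcon, hcon]; ring
  have hm : ∀ p, rhoW P (eig g (-1)) (hW _) p = 1 ∨ rhoW P (eig g (-1)) (hW _) p = -1 := by
    apply refl_bal hNDm h2 h5 (c := Q (w₀ : ι → F)) hw₀ _ (hiso _) _ (hinv _)
    intro v hv
    have hv' : Q (v : ι → F) = Q (w₀ : ι → F) := hv
    have hv0 : Q (v : ι → F) ≠ 0 := by rw [hv']; exact hw₀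
    obtain ⟨t, ht, htx⟩ := tW hgQ h2 hQ hn (a := -1) (Or.inr rfl) (v := v) (w := w₀) (by rw [neg_neg]; exact w₀.2) hv0 hv'
    exact hb_of (q := Q.restrict (eig g (-1))) hPn _ (eig g (-1)).subtype.toAddMonoidHom (hinj _) (fun _ _ => rfl) ht hv0 htx
  have hbp : ∀ v : eig g 1, Q (v : ι → F) ≠ 0 → ∀ p, ∃ p', rhoW P (eig g 1) (hW 1) p' =
      rf (Q.restrict (eig g 1)) v * rhoW P (eig g 1) (hW 1) p * rf (Q.restrict (eig g 1)) v := by
    intro v hv
    obtain ⟨w, hw⟩ := exists_val hNDm (by omega) (Q (v : ι → F))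
    obtain ⟨t, ht, htx⟩ := tW hgQ h2 hQ hn (a := 1) (Or.inl rfl) (v := v) (w := w) w.2 hv hw.symm
    exact hb_of (q := Q.restrict (eig g 1)) hPn _ (eig g 1).subtype.toAddMonoidHom (hinj _) (fun _ _ => rfl) ht hv htx
  have hpl : ∀ p, rhoW P (eig g 1) (hW _) p = 1 ∨ rhoW P (eig g 1) (hW _) p = -1 := by
    rcases hp with hp | hp | hp
    · -- lines
      intro p
      apply hinv
      have hw₀0 : w₀ ≠ 0 := by
        rintro rfl
        exact hw₀ (QuadraticMap.map_zero _)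
      have hspan := (finrank_eq_one_iff_of_nonzero' w₀ hw₀0).mp hp
      obtain ⟨c, hc⟩ := hspan (rhoW P (eig g 1) (hW _) p w₀)
      have hcc : c * c = 1 := by
        have h1 := hiso 1 p w₀
        rw [← hc, QuadraticMap.map_smul] at h1
        have h3 : (c * c - 1) * Q (w₀ : ι → F) = 0 := by
          have h4 : (c * c) * Q (w₀ : ι → F) = Q (w₀ : ι → F) := h1
          linear_combination h4
        have h4 := (mul_eq_zero.mp h3).resolve_right hw₀
        linear_combination h4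
      apply LinearMap.ext
      intro x
      obtain ⟨d, rfl⟩ := hspan x
      change rhoW P (eig g 1) (hW _) p (rhoW P (eig g 1) (hW _) p (d • w₀)) = d • w₀
      rw [map_smul, map_smul, ← hc, map_smul, ← hc, smul_smul c c, hcc, one_smul]
    · exact refl_bal3 hND1 h2 hp _ (hiso _) hbp (hinv _)
    · exact refl_bal hND1 h2 hp (c := Q (w₀ : ι → F)) hw₀ _ (hiso _) (fun v hv => hbp v (by
        have hv' : Q (v : ι → F) = Q (w₀ : ι → F) := hv
        rw [hv']; exact hw₀)) (hinv _)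
  -- conclusion
  intro s hs
  apply mv_ext
  intro x
  obtain ⟨x₁, hx₁, x₂, hx₂, rfl⟩ := split hg2 h2 x
  have key : ∀ (a : F), (rhoW P (eig g a) (hW a) ⟨s, hs⟩ = 1 ∨ rhoW P (eig g a) (hW a) ⟨s, hs⟩ = -1) →
      ∀ x ∈ eig g a, mv s (mv s x) = x := by
    intro a ha x hx
    rcases ha with h | h
    · have h1 : mv s x = x := by
        have := congrArg (fun T : Module.End F (eig g a) => ((T ⟨x, hx⟩ : eig g a) : ι → F)) h
        exact this
      rw [h1, h1]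
    · have h1 : mv s x = -x := by
        have := congrArg (fun T : Module.End F (eig g a) => ((T ⟨x, hx⟩ : eig g a) : ι → F)) h
        exact this
      rw [h1, mv_neg, h1, neg_neg]
  rw [mv_mul, mv_one, mv_add, mv_add, key 1 (hpl _) _ hx₁, key (-1) (hm _) _ hx₂]

end invol

end H50.GraphBal
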