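import Cfsg.Agent.Lib.H50.GraphBal3

/-!
Local balance for orthogonal groups: graph involutions with an eigenspace decomposition, conclusion.
-/

set_option autoImplicit false
set_option linter.unusedSectionVars false
set_option maxHeartbeats 400000

namespace H50.GraphBal

open Matrix H48.OutO H50.PSLBasic H50.PSLField H50.H90 H50.ClassCount H50.PSLCount H48.QuadSplit H48.QuadStd
  H50.OrthPsi H50.OrthDesc H50.OrthField H50.OrthSim H50.OrthOddCount H50.OrthProper H50.OrthEven H50.OrthBal H50.ReflBal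

variable {F : Type*} [Field F] {ι : Type} [Fintype ι] [DecidableEq ι] {Q : QuadraticForm F (ι → F)}

section invol

variable {g : ↥(simG Q)} (hg2 : ∀ v, ((g : GL ι F) : Matrix ι ι F) *ᵥ (((g : GL ι F) : Matrix ι ι F) *ᵥ v) = v)
  (hgQ : ∀ v, Q (((g : GL ι F) : Matrix ι ι F) *ᵥ v) = Q v) (h2 : (2 : F) ≠ 0)

lemma tt_self {v w : ι → F} (hv : Q v ≠ 0) (hvw : QuadraticMap.polar Q v w = 0) {t : ↥(Cfsg.Omega F (⇑Q))}
    (ht : ∀ x, mv t x = x - ((Q v)⁻¹ * QuadraticMap.polar Q v x) • v - ((Q w)⁻¹ * QuadraticMap.polar Q w x) • w) :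
    mv t v = -v := by
  rw [ht, polar_self', QuadraticMap.polar_comm Q w v, hvw, mul_zero, zero_smul, sub_zero, mul_comm 2, ← mul_assoc,
    inv_mul_cancel₀ hv, one_mul, two_smul]
  abel

lemma zz_eq {z : ↥(Gam Q)} (hσ : ∀ a, (z : GA ι F).right a = a) {c : F} (hc : c ≠ 0)
    (h : ∀ x, ap (z : GA ι F) (ap (z : GA ι F) x) = c • x) : ∃ μ : Fˣ, z * z = toGam Q (scG Q μ) := by
  refine ⟨Units.mk0 c hc, ?_⟩
  apply Subtype.ext
  apply ext_ap
  · rw [Subgroup.coe_mul, SemidirectProduct.mul_right]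
    have h1 : (z : GA ι F).right = 1 := RingEquiv.ext hσ
    rw [h1]
    rfl
  · intro v
    rw [Subgroup.coe_mul, ap_mul, h, ap_toGam, scG_coe, sc_mulVec]
    rfl

variable [Fintype F]

include hg2 hgQ h2 in
/-- step B -/
theorem hB_I (hQ : (QuadraticMap.polarBilin Q).Nondegenerate) (hn : 7 ≤ Fintype.card ι)
    (h5 : 5 ≤ Module.finrank F (eig g (-1))) (hp : 0 < Module.finrank F (eig g 1)) (z : ↥(Gam Q))
    (hzg : ∃ u : Fˣ, z * toGam Q g = toGam Q (scG Q u) * (toGam Q g * z))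
    (hzt : ∀ t ∈ Cg g, ∃ u : Fˣ, z * emb Q t.1 = toGam Q (scG Q u) * (emb Q t.1 * z)) :
    ∃ μ : Fˣ, z * z = toGam Q (scG Q μ) := by
  have hND1 := nd_eig hg2 hgQ h2 hQ (a := 1) (Or.inl rfl)
  have hNDm := nd_eig hg2 hgQ h2 hQ (a := -1) (Or.inr rfl)
  obtain ⟨c, hc, hm⟩ := exists_mult z
  -- pairs in the negative part
  have hpair : ∀ d : F, d ≠ 0 → ∀ w : eig g (-1), Q (w : ι → F) = d → ∃ w' : eig g (-1), Q (w' : ι → F) = d ∧
      QuadraticMap.polar Q (w : ι → F) (w' : ι → F) = 0 := by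
    intro d hd w hw
    obtain ⟨W₁, hW₁, hnd₁, hfr₁⟩ := perp1 hNDm h2 (v := w) (by
      change Q (w : ι → F) ≠ 0
      rw [hw]; exact hd)
    obtain ⟨w', hw'⟩ := exists_val hnd₁ (by omega) d
    exact ⟨w', hw', (hW₁ _).mp w'.2⟩
  -- vectors of the negative part
  have hline : ∀ v : eig g (-1), Q (v : ι → F) = 1 → ∃ a : F, ap (z : GA ι F) v = a • (v : ι → F) := by
    intro v hv
    have hv0 : Q (v : ι → F) ≠ 0 := by rw [hv]; exact one_ne_zero
    obtain ⟨w, hw, hvw⟩ := hpair 1 one_ne_zero v hv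
    have hw0 : Q (w : ι → F) ≠ 0 := by rw [hw]; exact one_ne_zero
    obtain ⟨W₂, hW₂, hnd₂, hfr₂⟩ := perp2 hNDm (u := v) (v := w) (by
      have e1 : Q.restrict (eig g (-1)) v = 1 := hv
      have e2 : Q.restrict (eig g (-1)) w = 1 := hw
      have e3 : QuadraticMap.polar (Q.restrict (eig g (-1))) v w = 0 := hvw
      rw [e1, e2, e3]
      have : (4 : F) * 1 * 1 - 0 ^ 2 = 2 * 2 := by norm_num
      rw [this]
      exact mul_ne_zero h2 h2)
    obtain ⟨w', hw'⟩ := exists_val hnd₂ (by omega) 1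
    have hw'1 : Q (w' : ι → F) = 1 := hw'
    have hw'0 : Q (w' : ι → F) ≠ 0 := by rw [hw'1]; exact one_ne_zero
    obtain ⟨e1, e2⟩ := (hW₂ _).mp w'.2
    have e1' : QuadraticMap.polar Q (v : ι → F) (w' : ι → F) = 0 := e1
    have e2' : QuadraticMap.polar Q (w : ι → F) (w' : ι → F) = 0 := e2
    obtain ⟨t, ht, htx⟩ := exists_tC hgQ h2 hQ hn (Or.inr rfl) (Or.inr rfl) v.2 w.2 hv0 (by rw [hv, hw]) hvw
    obtain ⟨t', ht', htx'⟩ := exists_tC hgQ h2 hQ hn (Or.inr rfl) (Or.inr rfl) v.2 w'.1.2 hv0 (by rw [hv, hw'1]) e1'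
    exact line_of h2 hQ hn hv0 hw0 hw'0 hvw e1' e2'
      (D_lemma h2 hQ hn htx (hzt t ht) (tt_self hv0 hvw htx)) (D_lemma h2 hQ hn htx' (hzt t' ht') (tt_self hv0 e1' htx'))
  -- commutation
  have hcomm : ∀ x, ap (z : GA ι F) (((g : GL ι F) : Matrix ι ι F) *ᵥ x) = ((g : GL ι F) : Matrix ι ι F) *ᵥ (ap (z : GA ι F) x) := by
    obtain ⟨u, hu⟩ := hzg
    have hu' : ∀ x, ap (z : GA ι F) (((g : GL ι F) : Matrix ι ι F) *ᵥ x) = (u : F) • (((g : GL ι F) : Matrix ι ι F) *ᵥ (ap (z : GA ι F) x)) := by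
      intro x
      have h1 := congrArg (fun y : ↥(Gam Q) => ap (y : GA ι F) x) hu
      beta_reduce at h1
      rw [ap_sc, Subgroup.coe_mul, Subgroup.coe_mul, ap_mul, ap_mul, ap_toGam, ap_toGam] at h1
      exact h1
    obtain ⟨v, hv⟩ := exists_val hNDm (by omega) 1
    have hv1 : Q (v : ι → F) = 1 := hv
    obtain ⟨a, ha⟩ := hline v hv
    have ha0 : a ≠ 0 := by
      rintro rfl
      rw [zero_smul] at ha
      have h1 : (v : ι → F) = 0 := ap_injective (z : GA ι F) (by rw [ha, ap_zero])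
      rw [h1, QuadraticMap.map_zero] at hv1
      exact zero_ne_one hv1
    have h1 := hu' v
    rw [ha, Matrix.mulVec_smul, mem_eig.mp v.2, ap_smul, ha, map_neg, map_one, smul_smul, smul_smul, smul_smul] at h1
    have hv0 : (v : ι → F) ≠ 0 := by
      intro h
      rw [h, QuadraticMap.map_zero] at hv1
      exact zero_ne_one hv1
    have h3 := smul_left_injective F hv0 h1
    have h4 : (u : F) = 1 := by
      have h5 : ((u : F) - 1) * a = 0 := by
        have h6 : -1 * a = (u : F) * a * -1 := h3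
        linear_combination h6
      exact sub_eq_zero.mp ((mul_eq_zero.mp h5).resolve_right ha0)
    intro x
    rw [hu', h4, one_smul]
  have hpres : ∀ (a : F), (a = 1 ∨ a = -1) → ∀ v ∈ eig g a, ap (z : GA ι F) v ∈ eig g a := by
    intro a ha v hv
    rw [mem_eig, ← hcomm, mem_eig.mp hv, ap_smul]
    rcases ha with rfl | rfl
    · rw [map_one]
    · rw [map_neg, map_one]
  -- the negative part
  obtain ⟨hσ, hzm⟩ := line_bal hNDm h2 (by omega) (c := 1) one_ne_zero (z := fun x : eig g (-1) => ⟨ap (z : GA ι F) x, hpres _ (Or.inr rfl) _ x.2⟩)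
    (σ := ((z : GA ι F).right : F →+* F)) (μ := c) hc (fun x y => Subtype.ext (ap_add _ _ _)) (fun a x => Subtype.ext (ap_smul _ _ _))
    (fun x => hm x) (fun v hv => by
      obtain ⟨a, ha⟩ := hline v hv
      exact ⟨a, Subtype.ext ha⟩)
  have hσ : ∀ a, (z : GA ι F).right a = a := hσ
  have hzm' : ∀ x ∈ eig g (-1), ap (z : GA ι F) (ap (z : GA ι F) x) = c • x := fun x hx => congrArg Subtype.val (hzm ⟨x, hx⟩)
  -- the positive part, non-singular vectors
  have hns : ∀ v ∈ eig g 1, Q v ≠ 0 → ap (z : GA ι F) (ap (z : GA ι F) v) = c • v := by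
    intro v hv hv0
    obtain ⟨w, hw⟩ := exists_val hNDm (by omega) (Q v)
    have hw1 : Q (w : ι → F) = Q v := hw
    have hw0 : Q (w : ι → F) ≠ 0 := by rw [hw1]; exact hv0
    obtain ⟨w', hw', hww'⟩ := hpair (Q v) hv0 w hw1
    have hw'0 : Q (w' : ι → F) ≠ 0 := by rw [hw']; exact hv0
    have e1 := eig_orth hgQ h2 hv w.2
    have e2 := eig_orth hgQ h2 hv w'.2
    obtain ⟨t, ht, htx⟩ := exists_tC hgQ h2 hQ hn (Or.inl rfl) (Or.inr rfl) hv w.2 hv0 hw1.symm e1
    obtain ⟨t', ht', htx'⟩ := exists_tC hgQ h2 hQ hn (Or.inl rfl) (Or.inr rfl) hv w'.2 hv0 hw'.symm e2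
    obtain ⟨a, ha⟩ := line_of h2 hQ hn hv0 hw0 hw'0 e1 e2 hww'
      (D_lemma h2 hQ hn htx (hzt t ht) (tt_self hv0 e1 htx)) (D_lemma h2 hQ hn htx' (hzt t' ht') (tt_self hv0 e2 htx'))
    have h1 := hm v
    rw [ha, QuadraticMap.map_smul, hσ, smul_eq_mul] at h1
    have h3 := mul_right_cancel₀ hv0 h1
    rw [ha, ap_smul, ha, hσ, smul_smul, h3]
  have hpos : ∀ v ∈ eig g 1, ap (z : GA ι F) (ap (z : GA ι F) v) = c • v := by
    intro v hv
    by_cases hv0 : Q v = 0
    · -- a nonsingular vector in the positive part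
      obtain ⟨w₀, hw₀⟩ : ∃ w₀ : eig g 1, Q (w₀ : ι → F) ≠ 0 := by
        by_contra hcon
        push Not at hcon
        have : Nontrivial (eig g 1) := Module.nontrivial_of_finrank_pos (R := F) hp
        obtain ⟨x, hx⟩ := exists_ne (0 : eig g 1)
        apply hx
        apply hND1
        intro y
        rw [QuadraticMap.polar]
        change Q ((x + y : eig g 1) : ι → F) - Q (x : ι → F) - Q (y : ι → F) = 0
        rw [hcon, hcon, hcon]; ring
      have h1 := hns w₀ w₀.2 hw₀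
      by_cases h3 : Q (v + w₀) = 0
      · have h4 : Q (v - w₀) ≠ 0 := by
          intro h5
          rw [QuadraticMap.map_add Q, hv0] at h3
          rw [sub_eq_add_neg, QuadraticMap.map_add Q, QuadraticMap.map_neg, QuadraticMap.polar_neg_right, hv0] at h5
          have h6 : 2 * Q (w₀ : ι → F) = 0 := by linear_combination h3 + h5
          exact hw₀ ((mul_eq_zero.mp h6).resolve_left h2)
        have h5 := hns _ ((eig g 1).sub_mem hv w₀.2) h4
        rw [ap_sub, ap_sub, h1, smul_sub, sub_left_inj] at h5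
        exact h5
      · have h5 := hns _ ((eig g 1).add_mem hv w₀.2) h3
        rw [ap_add, ap_add, h1, smul_add, add_left_inj] at h5
        exact h5
    · exact hns v hv hv0
  apply zz_eq hσ hc
  intro x
  obtain ⟨x₁, hx₁, x₂, hx₂, rfl⟩ := split hg2 h2 x
  rw [ap_add, ap_add, hpos _ hx₁, hzm' _ hx₂, smul_add]

include hgQ in
omit [Fintype F] in
lemma finrank_add (hg2 : ∀ v, ((g : GL ι F) : Matrix ι ι F) *ᵥ (((g : GL ι F) : Matrix ι ι F) *ᵥ v) = v) (h2 : (2 : F) ≠ 0)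
    (hQ : (QuadraticMap.polarBilin Q).Nondegenerate) :
    Module.finrank F (eig g 1) + Module.finrank F (eig g (-1)) = Fintype.card ι := by
  have h1 := finrank_orth (nd_iff.mpr hQ) (eig g (-1))
  have h3 : orth Q (eig g (-1)) = eig g 1 := by
    apply le_antisymm
    · intro x hx
      obtain ⟨x₁, hx₁, x₂, hx₂, rfl⟩ := split hg2 h2 x
      have hx₂0 : (⟨x₂, hx₂⟩ : eig g (-1)) = 0 := by
        apply nd_eig hg2 hgQ h2 hQ (a := -1) (Or.inr rfl)
        intro y
        have h5 := mem_orth.mp hx y y.2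
        rw [QuadraticMap.polar_add_right, QuadraticMap.polar_comm Q y x₁, eig_orth hgQ h2 hx₁ y.2, zero_add] at h5
        change QuadraticMap.polar Q x₂ y = 0
        rw [QuadraticMap.polar_comm]
        exact h5
      have h6 : x₂ = 0 := congrArg Subtype.val hx₂0
      rw [h6, add_zero]
      exact hx₁
    · intro x hx u hu
      rw [QuadraticMap.polar_comm]
      exact eig_orth hgQ h2 hx hu
  rw [h3, Module.finrank_fintype_fun_eq_card] at h1
  exact h1

end invol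

lemma det_eig {g : ↥(simG Q)} (hg2 : ∀ v, ((g : GL ι F) : Matrix ι ι F) *ᵥ (((g : GL ι F) : Matrix ι ι F) *ᵥ v) = v) :
    ((g : GL ι F) : Matrix ι ι F).det = (-1) ^ Module.finrank F (eig g (-1)) := by
  have he : eig g (-1) ≤ (eig g (-1)).comap (Matrix.toLin' ((g : GL ι F) : Matrix ι ι F)) := by
    intro v hv
    rw [Submodule.mem_comap, Matrix.toLin'_apply, mem_eig.mp hv]
    exact Submodule.smul_mem _ _ hv
  have h1 := LinearMap.det_eq_det_mul_det (eig g (-1)) (Matrix.toLin' ((g : GL ι F) : Matrix ι ι F)) he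
  have h3 : (Matrix.toLin' ((g : GL ι F) : Matrix ι ι F)).restrict he = (-1 : F) • (LinearMap.id : eig g (-1) →ₗ[F] eig g (-1)) := by
    apply LinearMap.ext
    intro v
    apply Subtype.ext
    exact mem_eig.mp v.2
  have h4 : (eig g (-1)).mapQ (eig g (-1)) (Matrix.toLin' ((g : GL ι F) : Matrix ι ι F)) he = LinearMap.id := by
    apply LinearMap.ext
    intro v
    obtain ⟨v, rfl⟩ := Submodule.Quotient.mk_surjective _ v
    rw [Submodule.mapQ_apply, LinearMap.id_apply, Submodule.Quotient.eq, Matrix.toLin'_apply, mem_eig, Matrix.mulVec_sub, hg2,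
      neg_one_smul, neg_sub]
  rw [LinearMap.det_toLin', h3, h4, LinearMap.det_smul, LinearMap.det_id, LinearMap.det_id, mul_one, mul_one] at h1
  exact h1

variable [Fintype F]

/-- **graph involutions, first kind** -/
theorem typeI (hQ : (QuadraticMap.polarBilin Q).Nondegenerate) (hn : 7 ≤ Fintype.card ι) (h2 : (2 : F) ≠ 0)
    (hAut : ∀ α : MulAut (Cfsg.POmega F (⇑Q)), ∃ y : ↥(Gam Q), α = Psi Q y) {g : ↥(simG Q)} (hg2 : g * g = 1)
    (hgQ : ∀ v, Q (((g : GL ι F) : Matrix ι ι F) *ᵥ v) = Q v) (h5 : 5 ≤ Module.finrank F (eig g (-1)))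
    (hp : Module.finrank F (eig g 1) = 1 ∨ Module.finrank F (eig g 1) = 3 ∨ 5 ≤ Module.finrank F (eig g 1))
    (A : Subgroup (MulAut (Cfsg.POmega F (⇑Q)))) (hinn : ∀ k : Cfsg.POmega F (⇑Q), MulAut.conj k ∈ A) :
    Cfsg.pPrimeCore 2 ↥(A ⊓ Subgroup.centralizer {psi1 Q g}) = ⊥ := by
  have hg2' : ∀ v, ((g : GL ι F) : Matrix ι ι F) *ᵥ (((g : GL ι F) : Matrix ι ι F) *ᵥ v) = v := by
    intro v
    rw [Matrix.mulVec_mulVec, ← Units.val_mul, ← Subgroup.coe_mul, hg2]
    change (1 : Matrix ι ι F) *ᵥ v = v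
    rw [Matrix.one_mulVec]
  exact red hQ hn hAut (c := 1) (by rw [hg2, map_one]) A hinn (hA_I hg2' hgQ h2 hQ hn h5 hp)
    (fun z => hB_I hg2' hgQ h2 hQ hn h5 (by omega) z)

/-- **graph involutions, first kind**, in terms of the determinant -/
theorem typeI' (hQ : (QuadraticMap.polarBilin Q).Nondegenerate) (hn : 7 ≤ Fintype.card ι) (heven : Even (Fintype.card ι))
    (h2 : (2 : F) ≠ 0)
    (hAut : ∀ α : MulAut (Cfsg.POmega F (⇑Q)), ∃ y : ↥(Gam Q), α = Psi Q y) {g : ↥(simG Q)} (hg2 : g * g = 1)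
    (hgQ : ∀ v, Q (((g : GL ι F) : Matrix ι ι F) *ᵥ v) = Q v) (hdet : ((g : GL ι F) : Matrix ι ι F).det ≠ 1)
    (A : Subgroup (MulAut (Cfsg.POmega F (⇑Q)))) (hinn : ∀ k : Cfsg.POmega F (⇑Q), MulAut.conj k ∈ A) :
    Cfsg.pPrimeCore 2 ↥(A ⊓ Subgroup.centralizer {psi1 Q g}) = ⊥ := by
  have hg2' : ∀ v, ((g : GL ι F) : Matrix ι ι F) *ᵥ (((g : GL ι F) : Matrix ι ι F) *ᵥ v) = v := by
    intro v
    rw [Matrix.mulVec_mulVec, ← Units.val_mul, ← Subgroup.coe_mul, hg2]
    change (1 : Matrix ι ι F) *ᵥ v = v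
    rw [Matrix.one_mulVec]
  have hsum := finrank_add hgQ hg2' h2 hQ
  have hodd : Odd (Module.finrank F (eig g (-1))) := by
    by_contra hcon
    rw [Nat.not_odd_iff_even] at hcon
    apply hdet
    rw [det_eig hg2', hcon.neg_one_pow]
  have hodd' : Odd (Module.finrank F (eig g 1)) := by
    rw [← hsum, Nat.even_add'] at heven
    exact heven.mpr hodd
  obtain ⟨k, hk⟩ := hodd
  obtain ⟨l, hl⟩ := hodd'
  by_cases h5 : 5 ≤ Module.finrank F (eig g (-1))
  · exact typeI hQ hn h2 hAut hg2 hgQ h5 (by omega) A hinn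
  · -- replace `g` by `-g`
    set g' := scG Q (-1) * g with hg'
    have hg'v : ∀ v, ((g' : GL ι F) : Matrix ι ι F) *ᵥ v = -(((g : GL ι F) : Matrix ι ι F) *ᵥ v) := by
      intro v
      rw [hg', Subgroup.coe_mul, Units.val_mul, ← Matrix.mulVec_mulVec, scG_coe, sc_mulVec]
      simp
    have heig : ∀ a : F, eig g' a = eig g (-a) := by
      intro a
      ext v
      rw [mem_eig, mem_eig, hg'v, neg_smul, neg_eq_iff_eq_neg]
    have hpsi : psi1 Q g = psi1 Q g' := by rw [hg', map_mul, psi1_scG, one_mul]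
    rw [hpsi]
    refine typeI hQ hn h2 hAut ?_ ?_ ?_ ?_ A hinn
    · have e1 : g' * g' = (scG Q (-1) * scG Q (-1)) * (g * g) := by
        rw [hg']
        calc scG Q (-1) * g * (scG Q (-1) * g) = scG Q (-1) * (g * scG Q (-1)) * g := by simp only [mul_assoc]
          _ = scG Q (-1) * (scG Q (-1) * g) * g := by rw [← scG_comm]
          _ = _ := by simp only [mul_assoc]
      rw [e1, hg2, mul_one, ← map_mul]
      have : (-1 : Fˣ) * -1 = 1 := by simp
      rw [this, map_one]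
    · intro v
      rw [hg'v, QuadraticMap.map_neg, hgQ]
    · rw [heig, neg_neg]; omega
    · rw [heig]; omega

end H50.GraphBal
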