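import Cfsg.Agent.Lib.H50.GraphBal4

/-!
Local balance for orthogonal groups: graph involutions defined over a quadratic extension.
-/

set_option autoImplicit false
set_option linter.unusedSectionVars false
set_option maxHeartbeats 400000

namespace H50.GraphBal

open Matrix H48.OutO H50.PSLBasic H50.PSLField H50.H90 H50.ClassCount H50.PSLCount H48.QuadSplit H48.QuadStd
  H50.OrthPsi H50.OrthDesc H50.OrthField H50.OrthSim H50.OrthOddCount H50.OrthProper H50.OrthEven H50.OrthBal H50.ReflBal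

variable {F : Type*} [Field F] {ι : Type} [Fintype ι] [DecidableEq ι] {Q : QuadraticForm F (ι → F)}

section ext

variable {g : ↥(simG Q)} {c : F} (hg : ∀ v : ι → F, ((g : GL ι F) : Matrix ι ι F) *ᵥ (((g : GL ι F) : Matrix ι ι F) *ᵥ v) = c • v)

/-- the space, as a module over the quadratic algebra -/
def VE (_hg : ∀ v : ι → F, ((g : GL ι F) : Matrix ι ι F) *ᵥ (((g : GL ι F) : Matrix ι ι F) *ᵥ v) = c • v) : Type _ := ι → F

instance : AddCommGroup (VE hg) := inferInstanceAs (AddCommGroup (ι → F))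

instance : Module F (VE hg) := inferInstanceAs (Module F (ι → F))

instance : Module.Finite F (VE hg) := inferInstanceAs (Module.Finite F (ι → F))

/-- the underlying vector -/
def toV (v : VE hg) : ι → F := v

/-- multiplication by `g` -/
def gE : Module.End F (VE hg) := Matrix.toLin' ((g : GL ι F) : Matrix ι ι F)

lemma gE_apply (v : VE hg) : gE hg v = (((g : GL ι F) : Matrix ι ι F) *ᵥ (v : ι → F) : ι → F) := rfl

lemma gE_gE (v : VE hg) : gE hg (gE hg v) = c • v := hg v

/-- the quadratic algebra acts -/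
noncomputable def phiE : QuadraticAlgebra F c 0 →ₐ[F] Module.End F (VE hg) :=
  QuadraticAlgebra.lift ⟨gE hg, by
    rw [zero_smul, add_zero]
    apply LinearMap.ext
    intro v
    exact gE_gE hg v⟩

noncomputable instance : Module (QuadraticAlgebra F c 0) (VE hg) := Module.compHom (VE hg) (phiE hg).toRingHom

lemma smulE (e : QuadraticAlgebra F c 0) (v : VE hg) : e • v = e.re • v + e.im • gE hg v := by
  change phiE hg e v = _
  have h1 : phiE hg e = e.re • (1 : Module.End F (VE hg)) + e.im • gE hg := by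
    change algebraMap F (Module.End F (VE hg)) e.re + e.im • gE hg = _
    rw [Algebra.algebraMap_eq_smul_one]
  rw [h1]
  rfl

noncomputable instance : IsScalarTower F (QuadraticAlgebra F c 0) (VE hg) where
  smul_assoc a e v := by
    rw [smulE, smulE, QuadraticAlgebra.re_smul, QuadraticAlgebra.im_smul, smul_add, smul_smul, smul_smul, smul_eq_mul, smul_eq_mul]

variable (hc : c ≠ 0) (hgQ : ∀ v, Q (((g : GL ι F) : Matrix ι ι F) *ᵥ v) = c * Q v)

/-- the form on the space -/
def qF (Q : QuadraticForm F (ι → F)) : QuadraticForm F (VE hg) := Q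

include hgQ in
lemma qF_g (v : VE hg) : qF hg Q (gE hg v) = c * qF hg Q v := hgQ v

include hgQ in
lemma polar_gg (v w : VE hg) : QuadraticMap.polar (qF hg Q) (gE hg v) (gE hg w) = c * QuadraticMap.polar (qF hg Q) v w := by
  rw [QuadraticMap.polar, QuadraticMap.polar, ← map_add, qF_g hg hgQ, qF_g hg hgQ, qF_g hg hgQ]
  ring

include hc hgQ in
lemma polar_sa (v w : VE hg) : QuadraticMap.polar (qF hg Q) (gE hg v) w = QuadraticMap.polar (qF hg Q) v (gE hg w) := by
  have h1 := polar_gg hg hgQ v (gE hg w)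
  rw [gE_gE, QuadraticMap.polar_smul_right, smul_eq_mul] at h1
  exact mul_left_cancel₀ hc h1

include hc hgQ in
/-- the bilinear form over the extension -/
noncomputable def bE : VE hg →ₗ[QuadraticAlgebra F c 0] VE hg →ₗ[QuadraticAlgebra F c 0] QuadraticAlgebra F c 0 :=
  LinearMap.mk₂ (QuadraticAlgebra F c 0)
    (fun v w => ⟨QuadraticMap.polar (qF hg Q) v (gE hg w), QuadraticMap.polar (qF hg Q) v w⟩)
    (fun v v' w => by
      ext
      · exact QuadraticMap.polar_add_left _ _ _ _
      · exact QuadraticMap.polar_add_left _ _ _ _)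
    (fun e v w => by
      rw [smulE]
      ext
      · simp only [QuadraticMap.polar_add_left, QuadraticMap.polar_smul_left, smul_eq_mul, QuadraticAlgebra.re_mul,
          polar_sa hg hc hgQ v (gE hg w), gE_gE, QuadraticMap.polar_smul_right]
        ring
      · simp only [QuadraticMap.polar_add_left, QuadraticMap.polar_smul_left, smul_eq_mul, QuadraticAlgebra.im_mul,
          polar_sa hg hc hgQ v w]
        ring)
    (fun v w w' => by
      rw [map_add]
      ext
      · exact QuadraticMap.polar_add_right _ _ _ _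
      · exact QuadraticMap.polar_add_right _ _ _ _)
    (fun e v w => by
      rw [smulE, map_add, map_smul, map_smul]
      ext
      · simp only [QuadraticMap.polar_add_right, QuadraticMap.polar_smul_right, smul_eq_mul, QuadraticAlgebra.re_mul, gE_gE]
        ring
      · simp only [QuadraticMap.polar_add_right, QuadraticMap.polar_smul_right, smul_eq_mul, QuadraticAlgebra.im_mul]
        ring)

/-- the quadratic form over the extension -/
noncomputable def qE (h2 : (2 : F) ≠ 0) : QuadraticForm (QuadraticAlgebra F c 0) (VE hg) where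
  toFun v := ⟨2⁻¹ * QuadraticMap.polar (qF hg Q) v (gE hg v), qF hg Q v⟩
  toFun_smul e v := by
    rw [smulE]
    ext
    · simp only [map_add, map_smul, gE_gE, QuadraticMap.polar_add_right, QuadraticMap.polar_smul_right,
        QuadraticMap.polar_add_left, QuadraticMap.polar_smul_left, polar_self', qF_g hg hgQ, polar_sa hg hc hgQ v v, smul_eq_mul,
        QuadraticAlgebra.re_mul, QuadraticAlgebra.im_mul]
      have h3 : QuadraticMap.polar (qF hg Q) (gE hg v) v = QuadraticMap.polar (qF hg Q) v (gE hg v) := polar_sa hg hc hgQ v v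
      field_simp
      ring
    · simp only [QuadraticMap.map_add (qF hg Q), QuadraticMap.map_smul, QuadraticMap.polar_smul_right,
        QuadraticMap.polar_smul_left, qF_g hg hgQ, smul_eq_mul, QuadraticAlgebra.im_mul, QuadraticAlgebra.re_mul]
      field_simp
      ring
  exists_companion' := ⟨bE hg hc hgQ, fun v w => by
    ext
    · change 2⁻¹ * QuadraticMap.polar (qF hg Q) (v + w) (gE hg (v + w)) = 2⁻¹ * QuadraticMap.polar (qF hg Q) v (gE hg v) +
        2⁻¹ * QuadraticMap.polar (qF hg Q) w (gE hg w) + QuadraticMap.polar (qF hg Q) v (gE hg w)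
      rw [map_add, QuadraticMap.polar_add_left, QuadraticMap.polar_add_right, QuadraticMap.polar_add_right, QuadraticMap.polar_comm _ w (gE hg v),
        polar_sa hg hc hgQ v w]
      field_simp
      ring
    · exact QuadraticMap.map_add (qF hg Q) v w⟩

lemma qE_apply (h2 : (2 : F) ≠ 0) (v : VE hg) : qE hg hc hgQ h2 v = ⟨2⁻¹ * QuadraticMap.polar (qF hg Q) v (gE hg v), qF hg Q v⟩ := rfl

lemma polar_qE (h2 : (2 : F) ≠ 0) (v w : VE hg) : QuadraticMap.polar (qE hg hc hgQ h2) v w =
    ⟨QuadraticMap.polar (qF hg Q) v (gE hg w), QuadraticMap.polar (qF hg Q) v w⟩ := by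
  rw [QuadraticMap.polar, qE_apply, qE_apply, qE_apply]
  ext
  · simp only [QuadraticAlgebra.re_sub, map_add, QuadraticMap.polar_add_left, QuadraticMap.polar_add_right,
      QuadraticMap.polar_comm (qF hg Q) w (gE hg v), polar_sa hg hc hgQ v w]
    field_simp
    ring
  · simp only [QuadraticAlgebra.im_sub]
    rfl

lemma nd_qE [Fact (∀ r : F, r ^ 2 ≠ c + 0 * r)] (h2 : (2 : F) ≠ 0) (hQ : (QuadraticMap.polarBilin Q).Nondegenerate) : ND (qE hg hc hgQ h2) := by
  intro v hv
  apply nd_iff.mpr hQ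
  intro w
  have h1 := (polar_qE hg hc hgQ h2 v w).symm.trans (hv w)
  exact congrArg QuadraticAlgebra.im h1

/-- elements of `Ω` -/
def mvE (s : ↥(Cfsg.Omega F (⇑Q))) : Module.End F (VE hg) := Matrix.toLin' ((s.1.1 : GL ι F) : Matrix ι ι F)

lemma mvE_apply (s : ↥(Cfsg.Omega F (⇑Q))) (v : VE hg) : mvE hg s v = (mv s (v : ι → F) : ι → F) := rfl

lemma mvE_g {s : ↥(Cfsg.Omega F (⇑Q))} (hs : s ∈ Cg g) (v : VE hg) : mvE hg s (gE hg v) = gE hg (mvE hg s v) :=
  mem_Cg_iff.mp hs v

lemma mvE_smul {s : ↥(Cfsg.Omega F (⇑Q))} (hs : s ∈ Cg g) (e : QuadraticAlgebra F c 0) (v : VE hg) :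
    mvE hg s (e • v) = e • mvE hg s v := by
  rw [smulE, smulE, map_add, map_smul, map_smul, mvE_g hg hs]

lemma mvE_qF (s : ↥(Cfsg.Omega F (⇑Q))) (v : VE hg) : qF hg Q (mvE hg s v) = qF hg Q v := mv_Q s v

lemma mvE_qE (h2 : (2 : F) ≠ 0) {s : ↥(Cfsg.Omega F (⇑Q))} (hs : s ∈ Cg g) (v : VE hg) :
    qE hg hc hgQ h2 (mvE hg s v) = qE hg hc hgQ h2 v := by
  rw [qE_apply, qE_apply, ← mvE_g hg hs, polar_of_isom (q := qF hg Q) (T := mvE hg s) (mvE_qF hg s), mvE_qF]

/-- commuting elements of `Ω` act linearly -/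
noncomputable def rhoE (P : Subgroup ↥(Cfsg.Omega F (⇑Q))) (hP : P ≤ Cg g) : ↥P →* Module.End (QuadraticAlgebra F c 0) (VE hg) where
  toFun p :=
    { toFun := fun v => mvE hg p.1 v
      map_add' := fun _ _ => map_add _ _ _
      map_smul' := fun e v => mvE_smul hg (hP p.2) e v }
  map_one' := by
    apply LinearMap.ext
    intro w
    exact mv_one _
  map_mul' p p' := by
    apply LinearMap.ext
    intro w
    exact mv_mul _ _ _

lemma rhoE_apply (P : Subgroup ↥(Cfsg.Omega F (⇑Q))) (hP : P ≤ Cg g) (p : ↥P) (v : VE hg) : rhoE hg P hP p v = mvE hg p.1 v := rfl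

/-- a product of two reflections over the small field which is a reflection over the large field -/
lemma exists_tE [Fintype F] [Fact (∀ r : F, r ^ 2 ≠ c + 0 * r)] (h2 : (2 : F) ≠ 0) (hQ : (QuadraticMap.polarBilin Q).Nondegenerate)
    (hn : 7 ≤ Fintype.card ι) {r s : F} (hrs : r ^ 2 + s ^ 2 = c) (hs : s ≠ 0) {v : VE hg}
    (hv : qE hg hc hgQ h2 v = ⟨r, 1⟩) : ∃ t ∈ Cg g, ∃ b : VE hg, b = gE hg v - r • v ∧
      (∀ x : VE hg, mvE hg t x = rf (qE hg hc hgQ h2) v x) ∧
      ∀ x : ι → F, mv t x = x - ((Q (toV hg v))⁻¹ * QuadraticMap.polar Q (toV hg v) x) • toV hg v -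
        ((Q (toV hg b))⁻¹ * QuadraticMap.polar Q (toV hg b) x) • toV hg b := by
  have hv1 : qF hg Q v = 1 := congrArg QuadraticAlgebra.im hv
  have hv2 : QuadraticMap.polar (qF hg Q) v (gE hg v) = 2 * r := by
    have h1 : 2⁻¹ * QuadraticMap.polar (qF hg Q) v (gE hg v) = r := congrArg QuadraticAlgebra.re hv
    rw [← h1]
    field_simp
  set b : VE hg := gE hg v - r • v with hb
  have hvb : QuadraticMap.polar (qF hg Q) v b = 0 := by
    rw [hb, QuadraticMap.polar_sub_right, QuadraticMap.polar_smul_right, hv2, polar_self', hv1, smul_eq_mul]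
    ring
  have hqb : qF hg Q b = s ^ 2 := by
    rw [hb, sub_eq_add_neg, ← neg_smul, QuadraticMap.map_add (qF hg Q), QuadraticMap.map_smul, QuadraticMap.polar_smul_right,
      QuadraticMap.polar_comm _ (gE hg v) v, hv2, hv1, qF_g hg hgQ, hv1, ← hrs, smul_eq_mul, smul_eq_mul]
    ring
  have hs2 : s ^ 2 ≠ 0 := pow_ne_zero 2 hs
  obtain ⟨t, ht⟩ := exists_tt h2 hQ hn (v := toV hg v) (w := toV hg b) (by
      change qF hg Q v ≠ 0
      rw [hv1]; exact one_ne_zero) (by
      change qF hg Q b ≠ 0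
      rw [hqb]; exact hs2) (by
      change IsSquare (qF hg Q v * qF hg Q b)
      rw [hv1, hqb, one_mul]
      exact ⟨s, pow_two s⟩) hvb
  -- the large reflection
  have key : ∀ x : VE hg, mvE hg t x = rf (qE hg hc hgQ h2) v x := by
    intro x
    have h1 : mvE hg t x = x - ((qF hg Q v)⁻¹ * QuadraticMap.polar (qF hg Q) v x) • v -
      ((qF hg Q b)⁻¹ * QuadraticMap.polar (qF hg Q) b x) • b := ht x
    have h3 : QuadraticMap.polar (qF hg Q) b x = QuadraticMap.polar (qF hg Q) v (gE hg x) - r * QuadraticMap.polar (qF hg Q) v x := by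
      rw [hb, QuadraticMap.polar_sub_left, QuadraticMap.polar_smul_left, polar_sa hg hc hgQ, smul_eq_mul]
    set X := QuadraticMap.polar (qF hg Q) v x with hX
    set Y := QuadraticMap.polar (qF hg Q) v (gE hg x) with hY
    have h4 : rf (qE hg hc hgQ h2) v x = x - ((⟨r, 1⟩ : QuadraticAlgebra F c 0)⁻¹ * ⟨Y, X⟩) • v := by
      have h5 := rf_apply (q := qE hg hc hgQ h2) v x
      have h6 := polar_qE hg hc hgQ h2 v x
      rw [h5]
      congr 2
      exact congrArg₂ (· * ·) (congrArg _ hv) h6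
    have h5 : ((⟨r, 1⟩ : QuadraticAlgebra F c 0)⁻¹ * ⟨Y, X⟩) = ⟨X - r * ((Y - r * X) / s ^ 2), (Y - r * X) / s ^ 2⟩ := by
      have h7 : (⟨r, 1⟩ : QuadraticAlgebra F c 0) ≠ 0 := by
        intro h
        have := congrArg QuadraticAlgebra.im h
        exact one_ne_zero this
      rw [inv_mul_eq_iff_eq_mul₀ h7]
      ext
      · rw [QuadraticAlgebra.re_mul]
        change Y = r * (X - r * ((Y - r * X) / s ^ 2)) + c * 1 * ((Y - r * X) / s ^ 2)
        rw [← hrs]
        field_simp
        ring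
      · rw [QuadraticAlgebra.im_mul]
        change X = r * ((Y - r * X) / s ^ 2) + 1 * (X - r * ((Y - r * X) / s ^ 2)) + 0 * 1 * ((Y - r * X) / s ^ 2)
        ring
    rw [h1, h3, hv1, hqb, h4, h5, smulE]
    change _ = x - ((X - r * ((Y - r * X) / s ^ 2)) • v + ((Y - r * X) / s ^ 2) • gE hg v)
    rw [hb, smul_sub, smul_smul, sub_smul, inv_one, one_mul]
    have e1 : (s ^ 2)⁻¹ * (Y - r * X) = (Y - r * X) / s ^ 2 := by field_simp
    have e2 : (s ^ 2)⁻¹ * (Y - r * X) * r = r * ((Y - r * X) / s ^ 2) := by field_simp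
    rw [e2, e1]
    abel
  refine ⟨t, mem_Cg_iff.mpr fun x => ?_, b, hb, key, ht⟩
  -- commutation with `g`
  have hω : ∀ x : VE hg, gE hg x = (⟨0, 1⟩ : QuadraticAlgebra F c 0) • x := by
    intro x
    rw [smulE]
    change _ = (0 : F) • x + (1 : F) • gE hg x
    rw [zero_smul, one_smul, zero_add]
  have h1 : ∀ x : VE hg, mvE hg t (gE hg x) = gE hg (mvE hg t x) := by
    intro x
    rw [key, key, hω, hω]
    exact map_smul (rf (qE hg hc hgQ h2) v) (⟨0, 1⟩ : QuadraticAlgebra F c 0) x
  exact h1 x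

end ext

end H50.GraphBal
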