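import Cfsg.Agent.Lib.H50.GraphBal5

/-!
Local balance for orthogonal groups: graph involutions defined over a quadratic extension, conclusion.
-/

set_option autoImplicit false
set_option linter.unusedSectionVars false
set_option maxHeartbeats 400000

namespace H50.GraphBal

open Matrix H48.OutO H50.PSLBasic H50.PSLField H50.H90 H50.ClassCount H50.PSLCount H48.QuadSplit H48.QuadStd
  H50.OrthPsi H50.OrthDesc H50.OrthField H50.OrthSim H50.OrthOddCount H50.OrthProper H50.OrthEven H50.OrthBal H50.ReflBal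

variable {F : Type*} [Field F] {ι : Type} [Fintype ι] [DecidableEq ι] {Q : QuadraticForm F (ι → F)}

section ext

variable {g : ↥(simG Q)} {c : F} (hg : ∀ v : ι → F, ((g : GL ι F) : Matrix ι ι F) *ᵥ (((g : GL ι F) : Matrix ι ι F) *ᵥ v) = c • v)

lemma finite_E [Finite F] : Finite (QuadraticAlgebra F c 0) := Finite.of_equiv _ (QuadraticAlgebra.equivProd c 0).symm

variable [Fact (∀ r : F, r ^ 2 ≠ c + 0 * r)]

instance : Module.Finite (QuadraticAlgebra F c 0) (VE hg) := Module.Finite.of_restrictScalars_finite F _ _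

lemma finrank_VE : 2 * Module.finrank (QuadraticAlgebra F c 0) (VE hg) = Fintype.card ι := by
  have h1 := Module.finrank_mul_finrank F (QuadraticAlgebra F c 0) (VE hg)
  rw [QuadraticAlgebra.finrank_eq_two] at h1
  rw [h1]
  exact Module.finrank_fintype_fun_eq_card F

lemma norm_omega : Algebra.norm F (⟨0, 1⟩ : QuadraticAlgebra F c 0) = -c := by
  have h1 := QuadraticAlgebra.det_toLinearMap_eq_norm (⟨0, 1⟩ : QuadraticAlgebra F c 0)
  have h3 : (DistribSMul.toLinearMap F (QuadraticAlgebra F c 0) (⟨0, 1⟩ : QuadraticAlgebra F c 0)) =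
      Algebra.lmul F (QuadraticAlgebra F c 0) ⟨0, 1⟩ := by
    apply LinearMap.ext
    intro x
    rfl
  rw [Algebra.norm_apply, ← h3, h1, QuadraticAlgebra.norm_def]
  simp

include hg in
/-- the determinant of `g` -/
lemma det_g {n : ℕ} (hn : Fintype.card ι = 2 * n) : ((g : GL ι F) : Matrix ι ι F).det = (-c) ^ n := by
  have hfr : Module.finrank (QuadraticAlgebra F c 0) (VE hg) = n := by
    have := finrank_VE hg
    omega
  let f : VE hg →ₗ[QuadraticAlgebra F c 0] VE hg := (⟨0, 1⟩ : QuadraticAlgebra F c 0) • LinearMap.id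
  have h1 : f.restrictScalars F = gE hg := by
    apply LinearMap.ext
    intro v
    change (⟨0, 1⟩ : QuadraticAlgebra F c 0) • v = gE hg v
    rw [smulE]
    change (0 : F) • v + (1 : F) • gE hg v = _
    rw [zero_smul, one_smul, zero_add]
  have h3 := LinearMap.det_restrictScalars (R := F) (f := f)
  have h4 : f.det = (⟨0, 1⟩ : QuadraticAlgebra F c 0) ^ n := by
    change LinearMap.det ((⟨0, 1⟩ : QuadraticAlgebra F c 0) • (LinearMap.id : VE hg →ₗ[QuadraticAlgebra F c 0] VE hg)) = _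
    rw [LinearMap.det_smul, LinearMap.det_id, mul_one, hfr]
  rw [h4, map_pow, norm_omega, h1] at h3
  rw [← h3]
  exact (LinearMap.det_toLin' _).symm

end ext

section main

variable [Fintype F] {g : ↥(simG Q)} {c : F} (hg : ∀ v : ι → F, ((g : GL ι F) : Matrix ι ι F) *ᵥ (((g : GL ι F) : Matrix ι ι F) *ᵥ v) = c • v)
  (hc : c ≠ 0) (hgQ : ∀ v, Q (((g : GL ι F) : Matrix ι ι F) *ᵥ v) = c * Q v) [hF : Fact (∀ r : F, r ^ 2 ≠ c + 0 * r)]

include hF in
lemma exists_rs (h2 : (2 : F) ≠ 0) : ∃ r s : F, r ^ 2 + s ^ 2 = c ∧ s ≠ 0 := by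
  obtain ⟨r, s, hrs⟩ := H48.FinFieldSq.solve_two h2 one_ne_zero one_ne_zero c
  rw [one_mul, one_mul] at hrs
  refine ⟨r, s, hrs, ?_⟩
  rintro rfl
  apply hF.out r
  rw [← hrs]; ring

omit [Fintype F] in
lemma two_ne_E (h2 : (2 : F) ≠ 0) : (2 : QuadraticAlgebra F c 0) ≠ 0 := by
  intro h
  exact h2 (congrArg QuadraticAlgebra.re h)

include hg hc hgQ in
/-- step A -/
theorem hA_II (hQ : (QuadraticMap.polarBilin Q).Nondegenerate) (hn : 7 ≤ Fintype.card ι) (h2 : (2 : F) ≠ 0)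
    (h5 : 10 ≤ Fintype.card ι)
    (P : Subgroup ↥(Cfsg.Omega F (⇑Q))) (hPC : P ≤ Cg g) (hPn : ∀ t ∈ Cg g, ∀ s ∈ P, t * s * t⁻¹ ∈ P)
    (hodd : ∀ s ∈ P, ∃ k, Odd k ∧ ∃ ε : F, (ε = 1 ∨ ε = -1) ∧ ∀ v, (((s ^ k).1.1 : GL ι F) : Matrix ι ι F) *ᵥ v = ε • v) :
    ∀ s ∈ P, s * s = 1 := by
  have := finite_E (F := F) (c := c)
  have hfr := finrank_VE hg
  obtain ⟨r, s, hrs, hs⟩ := exists_rs (F := F) (c := c) h2
  have hγ : (⟨r, 1⟩ : QuadraticAlgebra F c 0) ≠ 0 := by
    intro h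
    exact one_ne_zero (congrArg QuadraticAlgebra.im h)
  let i : VE hg →+ (ι → F) := { toFun := toV hg, map_zero' := rfl, map_add' := fun _ _ => rfl }
  have hi : Function.Injective i := fun _ _ h => h
  have key := refl_bal (q := qE hg hc hgQ h2) (nd_qE hg hc hgQ h2 hQ) (two_ne_E h2) (by omega) hγ (rhoE hg P hPC)
    (fun p v => mvE_qE hg hc hgQ h2 (hPC p.2) v) (fun v hv => by
      obtain ⟨t, ht, b, -, htE, -⟩ := exists_tE hg hc hgQ h2 hQ hn hrs hs hv
      exact hb_of (q := qE hg hc hgQ h2) hPn (rhoE hg P hPC) i hi (fun _ _ => rfl) ht (by rw [hv]; exact hγ) htE)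
    (hinv_of hodd (rhoE hg P hPC) i hi (fun _ _ => rfl))
  intro s hs
  apply mv_ext
  intro x
  rw [mv_mul, mv_one]
  rcases key ⟨s, hs⟩ with h | h
  · have h1 : ∀ x : VE hg, mvE hg s x = x := fun x =>
      congrArg (fun T : Module.End (QuadraticAlgebra F c 0) (VE hg) => T x) h
    have h3 : ∀ x : ι → F, mv s x = x := h1
    rw [h3, h3]
  · have h1 : ∀ x : VE hg, mvE hg s x = -x := fun x =>
      congrArg (fun T : Module.End (QuadraticAlgebra F c 0) (VE hg) => T x) h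
    have h3 : ∀ x : ι → F, mv s x = -x := h1
    rw [h3, h3, neg_neg]

/-- automorphisms of the quadratic algebra -/
def sigE (σ : F ≃+* F) (u : F) (h : σ c = u ^ 2 * c) : QuadraticAlgebra F c 0 →+* QuadraticAlgebra F c 0 where
  toFun e := ⟨σ e.re, σ e.im * u⟩
  map_one' := by
    ext
    · exact map_one σ
    · change σ 0 * u = 0
      rw [map_zero, zero_mul]
  map_zero' := by
    ext
    · exact map_zero σ
    · change σ 0 * u = 0
      rw [map_zero, zero_mul]
  map_add' e f := by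
    ext
    · exact map_add σ _ _
    · change σ (e.im + f.im) * u = σ e.im * u + σ f.im * u
      rw [map_add, add_mul]
  map_mul' e f := by
    ext
    · change σ (e * f).re = σ e.re * σ f.re + c * (σ e.im * u) * (σ f.im * u)
      rw [QuadraticAlgebra.re_mul, map_add, map_mul, map_mul, map_mul, h]
      ring
    · change σ (e * f).im * u = σ e.re * (σ f.im * u) + (σ e.im * u) * σ f.re + 0 * (σ e.im * u) * (σ f.im * u)
      rw [QuadraticAlgebra.im_mul, map_add, map_add, map_mul, map_mul, map_mul, map_mul, map_zero]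
      ring

include hg hc hgQ in
/-- step B -/
theorem hB_II (hQ : (QuadraticMap.polarBilin Q).Nondegenerate) (hn : 7 ≤ Fintype.card ι) (h2 : (2 : F) ≠ 0)
    (z : ↥(Gam Q)) (hzg : ∃ u : Fˣ, z * toGam Q g = toGam Q (scG Q u) * (toGam Q g * z))
    (hzt : ∀ t ∈ Cg g, ∃ u : Fˣ, z * emb Q t.1 = toGam Q (scG Q u) * (emb Q t.1 * z)) :
    ∃ μ : Fˣ, z * z = toGam Q (scG Q μ) := by
  have := finite_E (F := F) (c := c)
  have hfr := finrank_VE hg
  obtain ⟨d, hd, hm⟩ := exists_mult z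
  obtain ⟨r, s, hrs, hs⟩ := exists_rs (F := F) (c := c) h2
  have hγ : (⟨r, 1⟩ : QuadraticAlgebra F c 0) ≠ 0 := by
    intro h
    exact one_ne_zero (congrArg QuadraticAlgebra.im h)
  obtain ⟨u, hu⟩ := hzg
  have hu' : ∀ x : ι → F, ap (z : GA ι F) (((g : GL ι F) : Matrix ι ι F) *ᵥ x) = (u : F) • (((g : GL ι F) : Matrix ι ι F) *ᵥ (ap (z : GA ι F) x)) := by
    intro x
    have h1 := congrArg (fun y : ↥(Gam Q) => ap (y : GA ι F) x) hu
    beta_reduce at h1
    rw [ap_sc, Subgroup.coe_mul, Subgroup.coe_mul, ap_mul, ap_mul, ap_toGam, ap_toGam] at h1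
    exact h1
  have hne : Nonempty ι := by
    rw [← Fintype.card_pos_iff]; omega
  obtain ⟨i₀⟩ := hne
  have hσc : (z : GA ι F).right c = (u : F) ^ 2 * c := by
    obtain ⟨x₀, hx₀⟩ : ∃ x₀ : ι → F, x₀ ≠ 0 := ⟨Pi.single i₀ 1, fun h => by
      have := congrFun h i₀
      rw [Pi.single_eq_same] at this
      exact one_ne_zero this⟩
    have h1 : ap (z : GA ι F) x₀ ≠ 0 := fun h => hx₀ (ap_injective (z : GA ι F) (by rw [h, ap_zero]))
    have h3 := hu' (((g : GL ι F) : Matrix ι ι F) *ᵥ x₀)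
    rw [hg, ap_smul, hu', Matrix.mulVec_smul, hg, smul_smul, smul_smul, ← pow_two] at h3
    exact smul_left_injective F h1 h3
  -- the semilinear map
  let zE : VE hg → VE hg := fun v => ap (z : GA ι F) v
  have hzE : ∀ v : VE hg, zE v = (ap (z : GA ι F) (toV hg v) : ι → F) := fun _ => rfl
  have zadd : ∀ v w : VE hg, zE (v + w) = zE v + zE w := fun v w => ap_add _ _ _
  have zsmul : ∀ (a : F) (v : VE hg), zE (a • v) = (z : GA ι F).right a • zE v := fun a v => ap_smul _ _ _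
  have zg : ∀ v : VE hg, zE (gE hg v) = (u : F) • gE hg (zE v) := fun v => hu' v
  have zpol : ∀ v w : VE hg, QuadraticMap.polar (qF hg Q) (zE v) (zE w) = d * (z : GA ι F).right (QuadraticMap.polar (qF hg Q) v w) :=
    fun v w => hm.polar _ _
  have zq : ∀ v : VE hg, qF hg Q (zE v) = d * (z : GA ι F).right (qF hg Q v) := fun v => hm v
  have hu0 : (u : F) ≠ 0 := u.ne_zero
  obtain ⟨hσ, hzz⟩ := line_bal (q := qE hg hc hgQ h2) (nd_qE hg hc hgQ h2 hQ) (two_ne_E h2) (by omega) hγ (z := zE)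
    (σ := sigE (z : GA ι F).right u hσc) (μ := ⟨d * (u : F)⁻¹, 0⟩) (by
      intro h
      exact mul_ne_zero hd (inv_ne_zero hu0) (congrArg QuadraticAlgebra.re h)) zadd (fun a x => by
      rw [smulE, smulE, zadd, zsmul, zsmul, zg, smul_smul]
      rfl) (fun x => by
      rw [qE_apply]
      have h1 : gE hg (zE x) = (u : F)⁻¹ • zE (gE hg x) := by
        rw [zg, smul_smul, inv_mul_cancel₀ hu0, one_smul]
      have h3 : (qE hg hc hgQ h2) x = ⟨2⁻¹ * QuadraticMap.polar (qF hg Q) x (gE hg x), qF hg Q x⟩ := rfl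
      rw [h1, QuadraticMap.polar_smul_right, zpol, zq, h3]
      ext
      · change 2⁻¹ * ((u : F)⁻¹ • (d * (z : GA ι F).right (QuadraticMap.polar (qF hg Q) x (gE hg x)))) =
          (d * (u : F)⁻¹) * (z : GA ι F).right (2⁻¹ * QuadraticMap.polar (qF hg Q) x (gE hg x)) + c * 0 * _
        rw [map_mul, map_inv₀, map_ofNat, smul_eq_mul]
        ring
      · change d * (z : GA ι F).right (qF hg Q x) = (d * (u : F)⁻¹) * ((z : GA ι F).right (qF hg Q x) * u) + 0 * _ + 0 * 0 * _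
        field_simp
        ring) (fun v hv => by
      obtain ⟨t, ht, b, hb, htE, htx⟩ := exists_tE hg hc hgQ h2 hQ hn hrs hs hv
      have hγ0 : qE hg hc hgQ h2 v ≠ 0 := by rw [hv]; exact hγ
      have h1 : mv t (toV hg v) = -toV hg v := (htE v).trans (rf_self hγ0)
      obtain ⟨a, b', hab⟩ := D_lemma h2 hQ hn htx (hzt t ht) h1
      refine ⟨⟨a - b' * r, b'⟩, ?_⟩
      rw [smulE]
      have h3 : zE v = a • v + b' • b := hab
      rw [h3, hb, smul_sub, smul_smul, sub_smul]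
      abel)
  have hσ1 : ∀ a, (z : GA ι F).right a = a := by
    intro a
    exact congrArg QuadraticAlgebra.re (hσ ⟨a, 0⟩)
  have hu1 : (u : F) = 1 := by
    have h1 : (z : GA ι F).right 1 * (u : F) = 1 := congrArg QuadraticAlgebra.im (hσ ⟨0, 1⟩)
    rw [map_one, one_mul] at h1
    exact h1
  apply zz_eq hσ1 hd
  have hall : ∀ x : VE hg, zE (zE x) = d • x := by
    intro x
    rw [hzz x]
    refine (smulE hg _ _).trans ?_
    change (d * (u : F)⁻¹) • x + (0 : F) • gE hg x = _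
    rw [zero_smul, add_zero, hu1, inv_one, mul_one]
  exact hall

include hc hgQ in
/-- **graph involutions, second kind** -/
theorem typeII (hQ : (QuadraticMap.polarBilin Q).Nondegenerate) (hn : 7 ≤ Fintype.card ι) (h2 : (2 : F) ≠ 0)
    (h5 : 10 ≤ Fintype.card ι)
    (hAut : ∀ α : MulAut (Cfsg.POmega F (⇑Q)), ∃ y : ↥(Gam Q), α = Psi Q y) (hg2 : g * g = scG Q (Units.mk0 c hc))
    (A : Subgroup (MulAut (Cfsg.POmega F (⇑Q)))) (hinn : ∀ k : Cfsg.POmega F (⇑Q), MulAut.conj k ∈ A) :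
    Cfsg.pPrimeCore 2 ↥(A ⊓ Subgroup.centralizer {psi1 Q g}) = ⊥ := by
  have hg2' : ∀ v, ((g : GL ι F) : Matrix ι ι F) *ᵥ (((g : GL ι F) : Matrix ι ι F) *ᵥ v) = c • v := by
    intro v
    rw [Matrix.mulVec_mulVec, ← Units.val_mul, ← Subgroup.coe_mul, hg2, scG_coe, sc_mulVec]
    rfl
  exact red hQ hn hAut hg2 A hinn (hA_II hg2' hc hgQ hQ hn h2 h5) (hB_II hg2' hc hgQ hQ hn h2)

end main

end H50.GraphBal
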