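import Cfsg.Agent.Lib.H50.GraphBal6

/-!
Local balance for even-dimensional orthogonal groups: improper involutions.
-/

set_option autoImplicit false
set_option linter.unusedSectionVars false
set_option maxHeartbeats 400000

namespace H50.GraphBal

open Matrix H48.OutO H50.PSLBasic H50.PSLField H50.H90 H50.ClassCount H50.PSLCount H48.QuadSplit H48.QuadStd
  H50.OrthPsi H50.OrthDesc H50.OrthField H50.OrthSim H50.OrthOddCount H50.OrthProper H50.OrthEven H50.OrthBal H50.ReflBal

variable {F : Type*} [Field F] {ι : Type} [Fintype ι] [DecidableEq ι] {Q : QuadraticForm F (ι → F)}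

lemma ts_le (hQ : (QuadraticMap.polarBilin Q).Nondegenerate) {n : ℕ} (hc : Fintype.card ι = 2 * n) {W : Submodule F (ι → F)}
    (hW : ∀ v ∈ W, Q v = 0) : Module.finrank F W ≤ n := by
  have h1 := finrank_orth (nd_iff.mpr hQ) W
  have h3 : W ≤ orth Q W := by
    intro x hx u hu
    rw [QuadraticMap.polar, hW _ (W.add_mem hu hx), hW _ hu, hW _ hx]
    ring
  have h4 := Submodule.finrank_mono h3
  rw [Module.finrank_fintype_fun_eq_card, hc] at h1
  omega

/-- anti-isometric involutions are proper -/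
lemma anti_det (hQ : (QuadraticMap.polarBilin Q).Nondegenerate) (h2 : (2 : F) ≠ 0) {n : ℕ} (hc : Fintype.card ι = 2 * n)
    {g : ↥(simG Q)} (hg2 : ∀ v, ((g : GL ι F) : Matrix ι ι F) *ᵥ (((g : GL ι F) : Matrix ι ι F) *ᵥ v) = v)
    (hgQ : ∀ v, Q (((g : GL ι F) : Matrix ι ι F) *ᵥ v) = -Q v) : ((g : GL ι F) : Matrix ι ι F).det = (-1) ^ n := by
  have hts : ∀ a : F, (a = 1 ∨ a = -1) → ∀ v ∈ eig g a, Q v = 0 := by
    intro a ha v hv
    have h1 := hgQ v
    rw [mem_eig.mp hv, QuadraticMap.map_smul] at h1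
    have h3 : a * a = 1 := by rcases ha with rfl | rfl <;> ring
    rw [h3, one_smul] at h1
    have h4 : 2 * Q v = 0 := by linear_combination h1
    exact (mul_eq_zero.mp h4).resolve_left h2
  have h1 := ts_le hQ hc (hts 1 (Or.inl rfl))
  have h3 := ts_le hQ hc (hts (-1) (Or.inr rfl))
  have h4 := Submodule.finrank_sup_add_finrank_inf_eq (eig g 1) (eig g (-1))
  have h5 : eig g 1 ⊔ eig g (-1) = ⊤ := by
    rw [eq_top_iff]
    intro v _
    obtain ⟨v₁, hv₁, v₂, hv₂, rfl⟩ := split hg2 h2 v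
    exact Submodule.add_mem_sup hv₁ hv₂
  have h6 : eig g 1 ⊓ eig g (-1) = ⊥ := by
    rw [Submodule.eq_bot_iff]
    intro v hv
    have e1 := mem_eig.mp (Submodule.mem_inf.mp hv).1
    have e2 := mem_eig.mp (Submodule.mem_inf.mp hv).2
    rw [e1, one_smul, neg_one_smul] at e2
    have h7 : (2 : F) • v = 0 := by
      rw [two_smul]
      nth_rewrite 2 [e2]
      exact add_neg_cancel _
    exact (smul_eq_zero.mp h7).resolve_left h2
  rw [h5, h6, finrank_top, finrank_bot, Module.finrank_fintype_fun_eq_card, hc] at h4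
  have h7 : Module.finrank F (eig g (-1)) = n := by omega
  rw [det_eig hg2, h7]

variable [Fintype F]

/-- **improper involutions** -/
theorem graph_core (hQ : (QuadraticMap.polarBilin Q).Nondegenerate) {n : ℕ} (hc : Fintype.card ι = 2 * n) (hn : 7 ≤ Fintype.card ι)
    (h2 : (2 : F) ≠ 0) (hAut : ∀ α : MulAut (Cfsg.POmega F (⇑Q)), ∃ y : ↥(Gam Q), α = Psi Q y)
    {g : ↥(simG Q)} (hg : g ∉ DP Q n) (hord : orderOf (psi1 Q g) = 2)
    (A : Subgroup (MulAut (Cfsg.POmega F (⇑Q)))) (hinn : ∀ k : Cfsg.POmega F (⇑Q), MulAut.conj k ∈ A) :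
    Cfsg.pPrimeCore 2 ↥(A ⊓ Subgroup.centralizer {psi1 Q g}) = ⊥ := by
  have hneQ : ∃ v, Q v ≠ 0 := by
    by_contra hcon
    push Not at hcon
    have hND : ND Q := nd_iff.mpr hQ
    have hne : Nonempty ι := by
      rw [← Fintype.card_pos_iff]; omega
    obtain ⟨i⟩ := hne
    have h8 : (Pi.single i 1 : ι → F) = 0 := hND _ (fun z => by
      rw [QuadraticMap.polar, hcon, hcon, hcon]; ring)
    have h9 := congrFun h8 i
    rw [Pi.single_eq_same] at h9
    exact one_ne_zero h9
  -- the square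
  have hx2 : psi1 Q (g * g) = 1 := by
    rw [map_mul, ← pow_two, ← hord, pow_orderOf_eq_one]
  obtain ⟨c, hgg⟩ := (psi1_eq_one_iff hQ hn).mp hx2
  have hgv : ∀ v, ((g : GL ι F) : Matrix ι ι F) *ᵥ (((g : GL ι F) : Matrix ι ι F) *ᵥ v) = (c : F) • v := by
    intro v
    rw [Matrix.mulVec_mulVec, ← Units.val_mul, ← Subgroup.coe_mul, hgg, scG_coe, sc_mulVec]
  obtain ⟨μ, hμ⟩ := g.2
  have hdet : ((g : GL ι F) : Matrix ι ι F).det ≠ (μ : F) ^ n := by
    intro h
    apply hg
    rw [DP_odd h2]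
    exact ⟨μ, hμ, h⟩
  have hμc : (μ : F) = c ∨ (μ : F) = -c := by
    obtain ⟨v, hv⟩ := hneQ
    have h1 : Q ((c : F) • v) = (μ : F) * ((μ : F) * Q v) := by rw [← hgv, hμ, hμ]
    rw [QuadraticMap.map_smul, smul_eq_mul] at h1
    have h3 : ((μ : F) - c) * ((μ : F) + c) * Q v = 0 := by linear_combination -h1
    rcases mul_eq_zero.mp ((mul_eq_zero.mp h3).resolve_right hv) with h | h
    · exact Or.inl (sub_eq_zero.mp h)
    · exact Or.inr (eq_neg_of_add_eq_zero_left h)
  by_cases hsq : IsSquare (c : F)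
  · -- square case
    obtain ⟨d, hd⟩ := hsq
    have hd0 : d ≠ 0 := by
      rintro rfl
      rw [mul_zero] at hd
      exact c.ne_zero hd
    set δ : Fˣ := Units.mk0 d hd0 with hδ
    have hδv : (δ : F) = d := rfl
    set g' := scG Q δ⁻¹ * g with hg'
    have hg'v : ∀ v, ((g' : GL ι F) : Matrix ι ι F) *ᵥ v = d⁻¹ • (((g : GL ι F) : Matrix ι ι F) *ᵥ v) := by
      intro v
      rw [hg', Subgroup.coe_mul, Units.val_mul, ← Matrix.mulVec_mulVec, scG_coe, sc_mulVec, Units.val_inv_eq_inv_val, hδv]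
    have hpsi : psi1 Q g = psi1 Q g' := by rw [hg', map_mul, psi1_scG, one_mul]
    have hg'g' : ∀ v, ((g' : GL ι F) : Matrix ι ι F) *ᵥ (((g' : GL ι F) : Matrix ι ι F) *ᵥ v) = v := by
      intro v
      rw [hg'v, hg'v, Matrix.mulVec_smul, hgv, smul_smul, smul_smul, hd]
      have : d⁻¹ * d⁻¹ * (d * d) = 1 := by field_simp
      rw [this, one_smul]
    have hg'1 : g' * g' = 1 := by
      apply Subtype.ext
      apply gl_ext
      intro v
      rw [Subgroup.coe_mul, Units.val_mul, ← Matrix.mulVec_mulVec, hg'g']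
      change v = (1 : Matrix ι ι F) *ᵥ v
      rw [Matrix.one_mulVec]
    have hdet' : ((g' : GL ι F) : Matrix ι ι F).det = (d⁻¹) ^ (2 * n) * ((g : GL ι F) : Matrix ι ι F).det := by
      rw [hg', Subgroup.coe_mul, Units.val_mul, Matrix.det_mul, scG_coe, sc_coe, Matrix.det_smul, Matrix.det_one, mul_one, hc,
        Units.val_inv_eq_inv_val, hδv]
    have hQg' : ∀ v, Q (((g' : GL ι F) : Matrix ι ι F) *ᵥ v) = d⁻¹ * d⁻¹ * (μ * Q v) := by
      intro v
      rw [hg'v, QuadraticMap.map_smul, hμ, smul_eq_mul]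
    have hcn : (c : F) ^ n = d ^ (2 * n) := by rw [hd, pow_mul, pow_two]
    have hdd : (d⁻¹) ^ (2 * n) * d ^ (2 * n) = 1 := by
      rw [← mul_pow, inv_mul_cancel₀ hd0, one_pow]
    rcases hμc with h | h
    · rw [hpsi]
      refine typeI' hQ hn (by rw [hc]; exact even_two_mul n) h2 hAut hg'1 (fun v => ?_) ?_ A hinn
      · rw [hQg', h, hd]
        field_simp
      · intro h1
        apply hdet
        rw [hdet'] at h1
        rw [h, hcn]
        calc ((g : GL ι F) : Matrix ι ι F).det = ((d⁻¹) ^ (2 * n) * d ^ (2 * n)) * ((g : GL ι F) : Matrix ι ι F).det := by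
              rw [hdd, one_mul]
          _ = d ^ (2 * n) * ((d⁻¹) ^ (2 * n) * ((g : GL ι F) : Matrix ι ι F).det) := by ring
          _ = _ := by rw [h1, mul_one]
    · exfalso
      apply hdet
      have h1 := anti_det hQ h2 hc hg'g' (fun v => by
        rw [hQg', h, hd]
        field_simp)
      rw [hdet'] at h1
      rw [h]
      calc ((g : GL ι F) : Matrix ι ι F).det = ((d⁻¹) ^ (2 * n) * d ^ (2 * n)) * ((g : GL ι F) : Matrix ι ι F).det := by
            rw [hdd, one_mul]
        _ = d ^ (2 * n) * ((d⁻¹) ^ (2 * n) * ((g : GL ι F) : Matrix ι ι F).det) := by ring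
        _ = _ := by rw [h1, ← hcn, ← mul_pow]; congr 1; ring
  · -- nonsquare case
    have hF : Fact (∀ r : F, r ^ 2 ≠ (c : F) + 0 * r) := ⟨fun r hr => hsq ⟨r, by
      rw [zero_mul, add_zero] at hr
      rw [← hr, pow_two]⟩⟩
    have hdg := det_g (c := (c : F)) hgv hc
    rcases hμc with h | h
    · have hodd : Odd n := by
        by_contra hcon
        rw [Nat.not_odd_iff_even] at hcon
        apply hdet
        rw [hdg, h, hcon.neg_pow]
      obtain ⟨k, hk⟩ := hodd
      refine typeII (c := (c : F)) c.ne_zero (fun v => by rw [hμ, h]) hQ hn h2 (by omega) hAut ?_ A hinn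
      rw [hgg]
      congr 1
      exact Units.ext rfl
    · exact absurd (by rw [hdg, h]) hdet

end H50.GraphBal
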