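import Cfsg.Agent.Lib.H50.OrthOddCount
import Cfsg.Agent.Lib.H50.Bal
import Cfsg.Agent.Lib.H50.SpBal

/-!
Local balance for orthogonal groups: elements of field type.
-/

set_option autoImplicit false
set_option linter.unusedSectionVars false
set_option maxHeartbeats 400000

namespace H50.OrthBal

open Matrix H48.OutO H50.PSLBasic H50.PSLField H50.H90 H50.ClassCount H50.PSLCount H48.QuadSplit
  H50.OrthPsi H50.OrthDesc H50.OrthField H50.OrthSim H50.OrthOddCount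

variable {F : Type*} [Field F] {ι : Type} [Fintype ι] [DecidableEq ι] {Q : QuadraticForm F (ι → F)}

lemma center_pom [Fintype F] (hQ : (QuadraticMap.polarBilin Q).Nondegenerate) (hn : 7 ≤ Fintype.card ι) :
    Subgroup.center (Cfsg.POmega F (⇑Q)) = ⊥ := by
  rw [eq_bot_iff]
  intro z hz
  obtain ⟨s, rfl⟩ := QuotientGroup.mk_surjective z
  have h1 : MulAut.conj (QuotientGroup.mk s : Cfsg.POmega F (⇑Q)) = 1 := by
    ext g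
    rw [MulAut.conj_apply, ← Subgroup.mem_center_iff.mp hz g, mul_inv_cancel_right]
    rfl
  rw [← psi1_isoG, psi1_eq_one_iff hQ hn] at h1
  obtain ⟨u, hu⟩ := h1
  rw [Subgroup.mem_bot]
  refine (QuotientGroup.eq_one_iff s).mpr ?_
  rw [Subgroup.mem_center_iff]
  intro g
  apply Subtype.ext
  apply isoG_injective
  rw [Subgroup.coe_mul, Subgroup.coe_mul, map_mul, map_mul, hu, scG_comm]

section sub

variable {F₀ : Type*} [Field F₀] {ι' : Type} [Fintype ι'] [DecidableEq ι']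
  {j : F₀ →+* F} {Q₁₀ : QuadraticForm F₀ (ι' → F₀)} {Q₁ : QuadraticForm F (ι' → F)}
  {P : (ι' → F) ≃ₗ[F] (ι → F)}

/-- isometries over the small field give isometries -/
lemma fHom_isoG (ho : Ovr j Q₁₀ Q₁) (hne : ∃ v, Q₁₀ v ≠ 0) (hq : ∃ ν : Fˣ, ∀ v, Q (P v) = (ν : F) * Q₁ v)
    (s₀ : ↥(Cfsg.isometryGroup F₀ (⇑Q₁₀))) :
    ∃ s : ↥(Cfsg.isometryGroup F (⇑Q)), fHom ho hne hq (isoG Q₁₀ s₀) = isoG Q s := by
  have h2 : trP P (glHom j s₀.1) ∈ Cfsg.isometryGroup F (⇑Q) := by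
    rw [H17.OrthDet.mem_isometryGroup_iff]
    intro v
    have h3 : Ovr j Q₁₀ (Q₁.comp (glE (glHom j s₀.1) : (ι' → F) →ₗ[F] (ι' → F))) := by
      intro u
      change Q₁ (((glHom j s₀.1 : GL ι' F) : Matrix ι' ι' F) *ᵥ (jv j u)) = j (Q₁₀ u)
      rw [glHom_mulVec_jv, ho, (H17.OrthDet.mem_isometryGroup_iff _ _).mp s₀.2]
    obtain ⟨u, rfl⟩ := P.surjective v
    obtain ⟨ν, hν⟩ := hq
    rw [trP_mulVec, hν, hν]
    congr 1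
    exact Ovr.unique h3 ho u
  exact ⟨⟨_, h2⟩, Subtype.ext rfl⟩

/-- the homomorphism on isometry groups -/
noncomputable def iHom (ho : Ovr j Q₁₀ Q₁) (hne : ∃ v, Q₁₀ v ≠ 0) (hq : ∃ ν : Fˣ, ∀ v, Q (P v) = (ν : F) * Q₁ v) :
    ↥(Cfsg.isometryGroup F₀ (⇑Q₁₀)) →* ↥(Cfsg.isometryGroup F (⇑Q)) where
  toFun s₀ := (fHom_isoG ho hne hq s₀).choose
  map_one' := by
    apply isoG_injective
    rw [← (fHom_isoG ho hne hq 1).choose_spec, map_one, map_one, map_one]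
  map_mul' s t := by
    apply isoG_injective
    rw [← (fHom_isoG ho hne hq (s * t)).choose_spec, map_mul, map_mul, map_mul]
    exact congrArg₂ (· * ·) (fHom_isoG ho hne hq s).choose_spec (fHom_isoG ho hne hq t).choose_spec

lemma iHom_spec (ho : Ovr j Q₁₀ Q₁) (hne : ∃ v, Q₁₀ v ≠ 0) (hq : ∃ ν : Fˣ, ∀ v, Q (P v) = (ν : F) * Q₁ v)
    (s₀ : ↥(Cfsg.isometryGroup F₀ (⇑Q₁₀))) : isoG Q (iHom ho hne hq s₀) = fHom ho hne hq (isoG Q₁₀ s₀) :=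
  (fHom_isoG ho hne hq s₀).choose_spec.symm

lemma iHom_mem (ho : Ovr j Q₁₀ Q₁) (hne : ∃ v, Q₁₀ v ≠ 0) (hq : ∃ ν : Fˣ, ∀ v, Q (P v) = (ν : F) * Q₁ v)
    {s₀ : ↥(Cfsg.isometryGroup F₀ (⇑Q₁₀))} (hs : s₀ ∈ Cfsg.Omega F₀ (⇑Q₁₀)) :
    iHom ho hne hq s₀ ∈ Cfsg.Omega F (⇑Q) := by
  have h1 : (commutator ↥(Cfsg.isometryGroup F₀ (⇑Q₁₀))).map (iHom ho hne hq) ≤
      commutator ↥(Cfsg.isometryGroup F (⇑Q)) := by
    rw [commutator_def, commutator_def, Subgroup.map_commutator]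
    exact Subgroup.commutator_mono le_top le_top
  exact h1 ⟨s₀, hs, rfl⟩

/-- the homomorphism on `Ω`, followed by conjugation -/
noncomputable def wHom (ho : Ovr j Q₁₀ Q₁) (hne : ∃ v, Q₁₀ v ≠ 0) (hq : ∃ ν : Fˣ, ∀ v, Q (P v) = (ν : F) * Q₁ v) :
    ↥(Cfsg.Omega F₀ (⇑Q₁₀)) →* MulAut (Cfsg.POmega F (⇑Q)) :=
  (((psi1 Q).comp (fHom ho hne hq)).comp (isoG Q₁₀)).comp (Subgroup.subtype _)

lemma wHom_apply (ho : Ovr j Q₁₀ Q₁) (hne : ∃ v, Q₁₀ v ≠ 0) (hq : ∃ ν : Fˣ, ∀ v, Q (P v) = (ν : F) * Q₁ v)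
    (s₀ : ↥(Cfsg.Omega F₀ (⇑Q₁₀))) : wHom ho hne hq s₀ = psi1 Q (fHom ho hne hq (isoG Q₁₀ s₀.1)) := rfl

lemma wHom_eq_one_iff [Fintype F] [Fintype F₀] (hQ : (QuadraticMap.polarBilin Q).Nondegenerate)
    (hn : 7 ≤ Fintype.card ι) (hQ₀ : (QuadraticMap.polarBilin Q₁₀).Nondegenerate) (hn' : 7 ≤ Fintype.card ι')
    (ho : Ovr j Q₁₀ Q₁) (hne : ∃ v, Q₁₀ v ≠ 0) (hq : ∃ ν : Fˣ, ∀ v, Q (P v) = (ν : F) * Q₁ v)
    (s₀ : ↥(Cfsg.Omega F₀ (⇑Q₁₀))) : wHom ho hne hq s₀ = 1 ↔ (QuotientGroup.mk s₀ : Cfsg.POmega F₀ (⇑Q₁₀)) = 1 := by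
  have hne' : Nonempty ι' := by
    rw [← Fintype.card_pos_iff]; omega
  rw [wHom_apply, psi1_eq_one_iff hQ hn, fHom_eq_sc_iff, ← psi1_eq_one_iff hQ₀ hn', psi1_isoG]
  constructor
  · intro h
    exact Bal.conj_injective (center_pom hQ₀ hn') (by rw [h, map_one])
  · intro h
    rw [h, map_one]

/-- **the subfield group** inside `Inn` -/
noncomputable def fL [Fintype F] [Fintype F₀] (hQ : (QuadraticMap.polarBilin Q).Nondegenerate)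
    (hn : 7 ≤ Fintype.card ι) (hQ₀ : (QuadraticMap.polarBilin Q₁₀).Nondegenerate) (hn' : 7 ≤ Fintype.card ι')
    (ho : Ovr j Q₁₀ Q₁) (hne : ∃ v, Q₁₀ v ≠ 0) (hq : ∃ ν : Fˣ, ∀ v, Q (P v) = (ν : F) * Q₁ v) :
    Cfsg.POmega F₀ (⇑Q₁₀) →* MulAut (Cfsg.POmega F (⇑Q)) :=
  QuotientGroup.lift _ (wHom ho hne hq) (fun s hs =>
    (wHom_eq_one_iff hQ hn hQ₀ hn' ho hne hq s).mpr ((QuotientGroup.eq_one_iff s).mpr hs))

variable [Fintype F] [Fintype F₀] (hQ : (QuadraticMap.polarBilin Q).Nondegenerate)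
    (hn : 7 ≤ Fintype.card ι) (hQ₀ : (QuadraticMap.polarBilin Q₁₀).Nondegenerate) (hn' : 7 ≤ Fintype.card ι')
    (ho : Ovr j Q₁₀ Q₁) (hne : ∃ v, Q₁₀ v ≠ 0) (hq : ∃ ν : Fˣ, ∀ v, Q (P v) = (ν : F) * Q₁ v)

lemma fL_mk (s₀ : ↥(Cfsg.Omega F₀ (⇑Q₁₀))) : fL hQ hn hQ₀ hn' ho hne hq (QuotientGroup.mk s₀) =
    psi1 Q (fHom ho hne hq (isoG Q₁₀ s₀.1)) := rfl

lemma fL_injective : Function.Injective (fL hQ hn hQ₀ hn' ho hne hq) := by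
  rw [injective_iff_map_eq_one]
  intro a ha
  obtain ⟨s, rfl⟩ := QuotientGroup.mk_surjective a
  exact (wHom_eq_one_iff hQ hn hQ₀ hn' ho hne hq s).mp ha

lemma fL_mem (l : Cfsg.POmega F₀ (⇑Q₁₀)) : fL hQ hn hQ₀ hn' ho hne hq l ∈ Cfsg.Inn (Cfsg.POmega F (⇑Q)) := by
  obtain ⟨s, rfl⟩ := QuotientGroup.mk_surjective l
  rw [fL_mk, ← iHom_spec]
  have h1 := psi1_isoG (⟨iHom ho hne hq s.1, iHom_mem ho hne hq s.2⟩ : ↥(Cfsg.Omega F (⇑Q)))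
  exact ⟨_, h1.symm⟩

lemma fL_conj (k : ↥(simG Q₁₀)) (l : Cfsg.POmega F₀ (⇑Q₁₀)) :
    psi1 Q (fHom ho hne hq k) * fL hQ hn hQ₀ hn' ho hne hq l * (psi1 Q (fHom ho hne hq k))⁻¹ =
      fL hQ hn hQ₀ hn' ho hne hq (psi1 Q₁₀ k l) := by
  obtain ⟨s, rfl⟩ := QuotientGroup.mk_surjective l
  have h0 : psi1 Q₁₀ k (QuotientGroup.mk s) = QuotientGroup.mk (conjW Q₁₀ (toGam Q₁₀ k) s) := rfl
  rw [h0, fL_mk, fL_mk, ← map_inv, ← map_mul, ← map_mul, ← map_inv, ← map_mul, ← map_mul]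
  congr 2

lemma fL_comm {y : ↥(Gam Q)} (hd : Desc Q (y : GA ι F) Q₁ P) (hσj : ∀ c, (y : GA ι F).right (j c) = j c)
    (l : Cfsg.POmega F₀ (⇑Q₁₀)) :
    fL hQ hn hQ₀ hn' ho hne hd.q l * Psi Q y = Psi Q y * fL hQ hn hQ₀ hn' ho hne hd.q l := by
  obtain ⟨s, rfl⟩ := QuotientGroup.mk_surjective l
  rw [fL_mk, psi1_apply, ← map_mul, ← map_mul, fHom_comm ho hne hd hσj]

end sub

end H50.OrthBal
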