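import Cfsg.Agent.Lib.H50.OrthBal

/-!
Local balance for orthogonal groups: the centralizer of the subfield group.
-/

set_option autoImplicit false
set_option linter.unusedSectionVars false
set_option maxHeartbeats 400000

namespace H50.OrthBal

open Matrix H48.OutO H50.PSLBasic H50.PSLField H50.H90 H50.ClassCount H50.PSLCount H48.QuadSplit
  H50.OrthPsi H50.OrthDesc H50.OrthField H50.OrthSim H50.OrthOddCount

variable {F : Type*} [Field F] {ι : Type} [Fintype ι] [DecidableEq ι] {Q : QuadraticForm F (ι → F)}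

section sub

variable {F₀ : Type*} [Field F₀] {ι' : Type} [Fintype ι'] [DecidableEq ι']
  {j : F₀ →+* F} {Q₁₀ : QuadraticForm F₀ (ι' → F₀)} {Q₁ : QuadraticForm F (ι' → F)}
  {P : (ι' → F) ≃ₗ[F] (ι → F)}

/-- the matrix of a semilinear map in the coordinates `P` -/
lemma exists_coord (z : GA ι F) (P : (ι' → F) ≃ₗ[F] (ι → F)) :
    ∃ g : GL ι' F, ∀ v, ap z (P v) = P ((g : Matrix ι' ι' F) *ᵥ (z.right ∘ v)) := by
  let Θ : (ι' → F) ≃+ (ι' → F) :=
    { toFun := fun v => P.symm (ap z (P v))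
      invFun := fun v => P.symm (ap z⁻¹ (P v))
      left_inv := fun v => by
        change P.symm (ap z⁻¹ (P (P.symm (ap z (P v))))) = v
        rw [P.apply_symm_apply, ap_inv_ap, P.symm_apply_apply]
      right_inv := fun v => by
        change P.symm (ap z (P (P.symm (ap z⁻¹ (P v))))) = v
        rw [P.apply_symm_apply, ap_ap_inv, P.symm_apply_apply]
      map_add' := fun v w => by
        change P.symm (ap z (P (v + w))) = P.symm (ap z (P v)) + P.symm (ap z (P w))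
        rw [map_add, ap_add, map_add] }
  obtain ⟨g, hg⟩ := OrthMat.exists_matrix (F := F) (ι := ι') z.right Θ (fun a v => by
    change P.symm (ap z (P (a • v))) = z.right a • P.symm (ap z (P v))
    rw [map_smul, ap_smul, map_smul])
  refine ⟨g, fun v => ?_⟩
  have h1 := hg v
  change P.symm (ap z (P v)) = _ at h1
  rw [LinearEquiv.symm_apply_eq] at h1
  exact h1

/-- restriction of an automorphism to a subfield -/
lemma exists_restrict [Finite F] [Finite F₀] (j : F₀ →+* F) (τ : F ≃+* F) :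
    ∃ τ₀ : F₀ ≃+* F₀, ∀ c, j (τ₀ c) = τ (j c) := by
  obtain ⟨p, f, hp, hchar, hf, hF⟩ := H50.FieldAut.exists_charP F
  have := Fact.mk hp
  have hchar₀ : CharP F₀ p := (j.charP_iff j.injective p).mpr hchar
  obtain ⟨k, -, hk⟩ := H50.FieldAut2.exists_pow p hF τ
  obtain ⟨p₀, f₀, hp₀, hchar₀', hf₀, hF₀⟩ := H50.FieldAut.exists_charP F₀
  have hpp : p₀ = p := CharP.eq F₀ hchar₀' hchar₀
  subst hpp
  obtain ⟨φ, h1, -, -⟩ := H50.FieldAut2.exists_frob p₀ hF₀
  refine ⟨φ ^ k, fun c => ?_⟩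
  rw [H50.FieldAut2.pow_apply p₀ h1 k c, map_pow, hk]

/-- a semisimilarity commuting with `Psi y` comes, up to scalars, from the small field -/
theorem semi_desc [Fintype F] [Finite F₀] (hQ : (QuadraticMap.polarBilin Q).Nondegenerate) (hn : 7 ≤ Fintype.card ι)
    {y z : ↥(Gam Q)} {r : ℕ} (hr : orderOf (y : GA ι F).right = r) (hr0 : 0 < r)
    (hj : ∀ x, (∃ c, j c = x) ↔ (y : GA ι F).right x = x) (ho : Ovr j Q₁₀ Q₁) (hne : ∃ v, Q₁₀ v ≠ 0)
    (hd : Desc Q (y : GA ι F) Q₁ P) (hcomm : Psi Q z * Psi Q y = Psi Q y * Psi Q z) :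
    ∃ (z₀ : ↥(Gam Q₁₀)) (a : Fˣ), (∀ c, j ((z₀ : GA ι' F₀).right c) = (z : GA ι F).right (j c)) ∧
      ∀ v, ap (z : GA ι F) (P (jv j v)) = (a : F) • P (jv j (ap (z₀ : GA ι' F₀) v)) := by
  have : Nonempty ι := by
    rw [← Fintype.card_pos_iff]; omega
  have hne' : Nonempty ι' := by
    by_contra hcon
    rw [not_nonempty_iff] at hcon
    obtain ⟨i⟩ := this
    have h1 : (Pi.single i 1 : ι → F) = 0 := by
      rw [← P.apply_symm_apply (Pi.single i 1)]
      have : P.symm (Pi.single i 1) = 0 := by funext k; exact hcon.elim k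
      rw [this, map_zero]
    have := congrFun h1 i
    rw [Pi.single_eq_same] at this
    exact one_ne_zero this
  obtain ⟨p, f, hp, hchar, hf, hF⟩ := H50.FieldAut.exists_charP F
  have := Fact.mk hp
  set σ := (y : GA ι F).right with hσ
  set τ := (z : GA ι F).right with hτ
  have hστ : σ * τ = τ * σ := H50.FieldAut.ringAut_comm p σ τ
  have hσr : σ ^ r = 1 := by rw [← hr, pow_orderOf_eq_one]
  obtain ⟨w, hw⟩ := hd.a
  obtain ⟨g', hg'⟩ := exists_coord (z : GA ι F) P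
  rw [← map_mul, ← map_mul, Psi_eq_iff hQ hn] at hcomm
  obtain ⟨s, hs⟩ := hcomm
  -- the cocycle relation
  set s' : Fˣ := s * w * (unitsMap τ w)⁻¹ with hs'
  have h1 : g' = sc s' * glMap σ g' := by
    apply gl_ext
    intro v
    -- v = σ (τ x)
    obtain ⟨x, rfl⟩ : ∃ x : ι' → F, v = σ ∘ (τ ∘ x) :=
      ⟨fun i => τ.symm (σ.symm (v i)), by funext i; simp⟩
    have h2 := congrArg (fun z : ↥(Gam Q) => ap (z : GA ι F) (P x)) hs
    beta_reduce at h2
    rw [Subgroup.coe_mul, Subgroup.coe_mul, Subgroup.coe_mul, ap_mul, ap_mul, ap_mul, toGam_coe, ap_inl, scG_coe,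
      sc_mulVec, hw, ap_smul, hg', hg', hw, ← hτ, ← hσ, ← map_smul, ← map_smul, ← map_smul] at h2
    have h3 := P.injective h2
    have h4 : (τ : F → F) ∘ ((σ : F → F) ∘ x) = (σ : F → F) ∘ ((τ : F → F) ∘ x) := by
      funext i
      exact (congrArg (fun e : F ≃+* F => e (x i)) hστ).symm
    rw [h4, comp_mulVec'] at h3
    rw [Units.val_mul, ← Matrix.mulVec_mulVec, sc_mulVec, glMap_coe]
    have h5 : (τ (w : F)) ≠ 0 := (map_ne_zero τ).mpr w.ne_zero
    have h6 : (s' : F) = (τ (w : F))⁻¹ * ((s : F) * (w : F)) := by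
      rw [hs', Units.val_mul, Units.val_mul, Units.val_inv_eq_inv_val, mul_comm]
      rfl
    rw [h6, mul_smul, mul_smul, ← h3, smul_smul, inv_mul_cancel₀ h5, one_smul]
  have h5 : g' * (glMap σ g')⁻¹ = sc s' := by rw [mul_inv_eq_iff_eq_mul]; exact h1
  have h6 := nm_mul_inv (glMap σ) g' r
  rw [h5, ← glMap_pow, hσr, glMap_one_apply, mul_inv_cancel] at h6
  have h7 := nm_sc_mul σ s' (1 : GL ι' F) r
  rw [mul_one, h6, SpFieldClass.nm_one_left, mul_one] at h7
  have h8 : nm (unitsMap σ) s' r = 1 := sc_injective (ι := ι') (by rw [← h7, map_one])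
  obtain ⟨u, hu⟩ := hilbert90_units hr hr0 h8
  have h9 : glMap σ (sc u⁻¹ * g') = sc u⁻¹ * g' := by
    have h10 : glMap σ g' = sc s'⁻¹ * g' := by rw [map_inv, eq_inv_mul_iff_mul_eq, ← h1]
    rw [map_mul, glMap_sc, h10, ← mul_assoc, ← map_mul, hu]
    congr 2
    rw [map_inv, _root_.mul_inv_rev, inv_inv, inv_mul_cancel_left]
  obtain ⟨k, hk⟩ := (glMap_eq_self_iff hj _).mp h9
  have hgk : g' = sc u * glHom j k := by rw [hk, ← mul_assoc, ← map_mul, mul_inv_cancel, map_one, one_mul]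
  obtain ⟨τ₀, hτ₀⟩ := exists_restrict j τ
  have hap : ∀ v : ι' → F₀, ap (z : GA ι F) (P (jv j v)) = (u : F) • P (jv j ((k : Matrix ι' ι' F₀) *ᵥ (τ₀ ∘ v))) := by
    intro v
    have e1 : (τ : F → F) ∘ (jv j v) = jv j (τ₀ ∘ v) := by
      funext i
      exact (hτ₀ (v i)).symm
    rw [hg', ← hτ, e1, hgk, Units.val_mul, ← Matrix.mulVec_mulVec, glHom_mulVec_jv, sc_mulVec, map_smul]
  -- it is a semisimilarity
  have hmem : (⟨k, τ₀⟩ : GA ι' F₀) ∈ Gam Q₁₀ := by
    obtain ⟨c, hc⟩ := z.2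
    obtain ⟨ν, hν⟩ := hd.q
    obtain ⟨v₀, hv₀⟩ := hne
    have h10 : ∀ v : ι' → F₀, j (Q₁₀ ((k : Matrix ι' ι' F₀) *ᵥ (τ₀ ∘ v))) =
        ((c : F) * τ (ν : F) * ((u : F) * (u : F))⁻¹ * (ν : F)⁻¹) * j (τ₀ (Q₁₀ v)) := by
      intro v
      have h11 := hc (P (jv j v))
      rw [hap, QuadraticMap.map_smul, hν, ho, hν, ho, ← hτ, map_mul, ← hτ₀, smul_eq_mul] at h11
      have e1 := u.ne_zero
      have e2 := ν.ne_zero
      field_simp
      linear_combination h11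
    have hd0 : ((c : F) * τ (ν : F) * ((u : F) * (u : F))⁻¹ * (ν : F)⁻¹) ≠ 0 := by
      have h5 : (τ (ν : F)) ≠ 0 := (map_ne_zero τ).mpr ν.ne_zero
      have e1 := u.ne_zero
      have e2 := ν.ne_zero
      have e3 := c.ne_zero
      positivity
    have hτv : τ₀ (Q₁₀ v₀) ≠ 0 := (map_ne_zero τ₀).mpr hv₀
    have hjv : j (τ₀ (Q₁₀ v₀)) ≠ 0 := (map_ne_zero j).mpr hτv
    have h12 : ((c : F) * τ (ν : F) * ((u : F) * (u : F))⁻¹ * (ν : F)⁻¹) =
        j (Q₁₀ ((k : Matrix ι' ι' F₀) *ᵥ (τ₀ ∘ v₀)) / τ₀ (Q₁₀ v₀)) := by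
      rw [map_div₀, h10, mul_div_cancel_right₀ _ hjv]
    have hc0 : Q₁₀ ((k : Matrix ι' ι' F₀) *ᵥ (τ₀ ∘ v₀)) / τ₀ (Q₁₀ v₀) ≠ 0 := by
      intro h0
      rw [h0, map_zero] at h12
      exact hd0 h12
    refine ⟨Units.mk0 _ hc0, fun v => ?_⟩
    apply j.injective
    have h13 := h10 v
    rw [h12, ← map_mul] at h13
    exact h13
  exact ⟨⟨⟨k, τ₀⟩, hmem⟩, u, hτ₀, hap⟩

lemma desc_pow {y : GA ι F} {w : Fˣ} (hw : ∀ v, ap y (P v) = (w : F) • P (y.right ∘ v)) (k : ℕ) :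
    ∃ w' : Fˣ, ∀ v, ap (y ^ k) (P v) = (w' : F) • P ((y.right ^ k : F ≃+* F) ∘ v) := by
  induction k with
  | zero =>
    refine ⟨1, fun v => ?_⟩
    rw [pow_zero, pow_zero, ap_one, Units.val_one, one_smul]
    rfl
  | succ k ih =>
    obtain ⟨w', hw'⟩ := ih
    refine ⟨w * unitsMap y.right w', fun v => ?_⟩
    rw [pow_succ', ap_mul, hw', ap_smul, hw, smul_smul, pow_succ', mul_comm (y.right (w' : F))]
    rfl

/-- **the centralizer of the subfield group in the centralizer of `Psi y`** -/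
theorem cent_L [Fintype F] [Fintype F₀] (hQ : (QuadraticMap.polarBilin Q).Nondegenerate) (hn : 7 ≤ Fintype.card ι)
    (hQ₀ : (QuadraticMap.polarBilin Q₁₀).Nondegenerate) (hn' : 7 ≤ Fintype.card ι')
    {y z : ↥(Gam Q)} {r : ℕ} (hr : orderOf (y : GA ι F).right = r) (hr0 : 0 < r)
    (hj : ∀ x, (∃ c, j c = x) ↔ (y : GA ι F).right x = x) (ho : Ovr j Q₁₀ Q₁) (hne : ∃ v, Q₁₀ v ≠ 0)
    (hd : Desc Q (y : GA ι F) Q₁ P) (hcomm : Psi Q z * Psi Q y = Psi Q y * Psi Q z)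
    (hL : ∀ l, Psi Q z * fL hQ hn hQ₀ hn' ho hne hd.q l = fL hQ hn hQ₀ hn' ho hne hd.q l * Psi Q z) :
    Psi Q z ∈ Subgroup.zpowers (Psi Q y) := by
  have hne' : Nonempty ι' := by
    rw [← Fintype.card_pos_iff]; omega
  obtain ⟨z₀, a, hright, hap⟩ := semi_desc hQ hn hr hr0 hj ho hne hd hcomm
  have key : Psi Q₁₀ z₀ = 1 := by
    ext l
    obtain ⟨s, rfl⟩ := QuotientGroup.mk_surjective l
    rw [MulAut.one_apply, ← Bal.conj_comm_iff _ _ (center_pom hQ₀ hn'), ← psi1_isoG]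
    have h1 := hL (QuotientGroup.mk s)
    rw [fL_mk, psi1_apply, ← map_mul, ← map_mul, Psi_eq_iff hQ hn] at h1
    obtain ⟨t, ht⟩ := h1
    have h2 : ∀ v : ι' → F₀, jv j (ap (z₀ : GA ι' F₀) (((s.1 : GL ι' F₀) : Matrix ι' ι' F₀) *ᵥ v)) =
        (t : F) • jv j (((s.1 : GL ι' F₀) : Matrix ι' ι' F₀) *ᵥ (ap (z₀ : GA ι' F₀) v)) := by
      intro v
      have h3 := congrArg (fun z : ↥(Gam Q) => ap (z : GA ι F) (P (jv j v))) ht
      beta_reduce at h3
      rw [Subgroup.coe_mul, Subgroup.coe_mul, Subgroup.coe_mul, ap_mul, ap_mul, ap_mul, toGam_coe, toGam_coe, ap_inl,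
        ap_inl, ap_inl, scG_coe, sc_mulVec, fHom_coe, trP_mulVec, hap, Matrix.mulVec_smul, trP_mulVec, isoG_coe,
        glHom_mulVec_jv, glHom_mulVec_jv, hap, smul_comm (t : F) (a : F), ← map_smul P (t : F)] at h3
      exact P.injective (smul_right_injective _ a.ne_zero h3)
    -- the scalar lies in the small field
    obtain ⟨t₀, ht₀⟩ : ∃ t₀ : F₀, j t₀ = t := by
      obtain ⟨i₀⟩ := hne'
      have h4 : (((s.1 : GL ι' F₀) : Matrix ι' ι' F₀) *ᵥ (ap (z₀ : GA ι' F₀) (Pi.single i₀ 1))) ≠ 0 := by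
        apply PSLPure.mulVec_ne_zero
        intro h0
        have := ap_injective (z₀ : GA ι' F₀) (h0.trans (ap_zero _).symm)
        have := congrFun this i₀
        rw [Pi.single_eq_same] at this
        exact one_ne_zero this
      obtain ⟨i, hi⟩ := Function.ne_iff.mp h4
      have h5 := congrFun (h2 (Pi.single i₀ 1)) i
      rw [Pi.smul_apply, smul_eq_mul] at h5
      have h6 : jv j (((s.1 : GL ι' F₀) : Matrix ι' ι' F₀) *ᵥ (ap (z₀ : GA ι' F₀) (Pi.single i₀ 1))) i ≠ 0 :=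
        (map_ne_zero j).mpr hi
      refine ⟨(ap (z₀ : GA ι' F₀) (((s.1 : GL ι' F₀) : Matrix ι' ι' F₀) *ᵥ (Pi.single i₀ 1))) i /
        (((s.1 : GL ι' F₀) : Matrix ι' ι' F₀) *ᵥ (ap (z₀ : GA ι' F₀) (Pi.single i₀ 1))) i, ?_⟩
      rw [map_div₀, div_eq_iff]
      · exact h5
      · exact h6
    have ht₀0 : t₀ ≠ 0 := by
      rintro rfl
      rw [map_zero] at ht₀
      exact t.ne_zero ht₀.symm
    have h7 : z₀ * toGam Q₁₀ (isoG Q₁₀ s.1) =
        toGam Q₁₀ (scG Q₁₀ (Units.mk0 t₀ ht₀0)) * (toGam Q₁₀ (isoG Q₁₀ s.1) * z₀) := by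
      apply Subtype.ext
      apply ext_ap
      · rw [Subgroup.coe_mul, Subgroup.coe_mul, Subgroup.coe_mul, SemidirectProduct.mul_right,
          SemidirectProduct.mul_right, SemidirectProduct.mul_right, toGam_coe, toGam_coe, SemidirectProduct.right_inl,
          SemidirectProduct.right_inl, one_mul, mul_one, one_mul]
      · intro v
        rw [Subgroup.coe_mul, Subgroup.coe_mul, Subgroup.coe_mul, ap_mul, ap_mul, ap_mul, toGam_coe, toGam_coe, ap_inl,
          ap_inl, ap_inl, scG_coe, sc_mulVec, isoG_coe]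
        apply jv_injective j
        rw [h2, jv_smul, Units.val_mk0, ht₀]
    have h8 : Psi Q₁₀ z₀ * psi1 Q₁₀ (isoG Q₁₀ s.1) = psi1 Q₁₀ (isoG Q₁₀ s.1) * Psi Q₁₀ z₀ := by
      rw [psi1_apply, ← map_mul, h7, map_mul, ← psi1_apply, psi1_scG, one_mul, map_mul]
    exact h8.symm
  rw [Psi_eq_one_iff hQ₀ hn'] at key
  obtain ⟨t, ht⟩ := key
  have hτ1 : (z₀ : GA ι' F₀).right = 1 := by rw [ht]; rfl
  have hapz₀ : ∀ v, ap (z₀ : GA ι' F₀) v = (t : F₀) • v := by
    intro v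
    rw [ht, toGam_coe, ap_inl, scG_coe, sc_mulVec]
  have hτ : (z : GA ι F).right ∈ Subgroup.zpowers (y : GA ι F).right := by
    apply H50.FieldAut.mem_zpowers_of_fix
    intro b hb
    obtain ⟨c, rfl⟩ := (hj b).mpr hb
    rw [← hright, hτ1]
    rfl
  have hfin : Finite (F ≃+* F) := by
    apply Finite.of_injective (fun e : F ≃+* F => (e : F → F))
    intro a b hab
    exact RingEquiv.ext (congrFun hab)
  rw [← mem_powers_iff_mem_zpowers] at hτ
  obtain ⟨k, hk⟩ := hτ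
  have hk' : (y : GA ι F).right ^ k = (z : GA ι F).right := hk
  obtain ⟨w, hw⟩ := hd.a
  obtain ⟨w', hw'⟩ := desc_pow hw k
  obtain ⟨g, hg⟩ := exists_coord (z : GA ι F) P
  -- `g` is scalar
  have hgs : (g : Matrix ι' ι' F) = ((a : F) * j t) • (1 : Matrix ι' ι' F) := by
    apply matrix_ext_jv (j := j)
    intro v
    have h1 := hg (jv j v)
    have h2 : ((z : GA ι F).right : F → F) ∘ (jv j v) = jv j v := by
      funext i
      change (z : GA ι F).right (j (v i)) = j (v i)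
      rw [← hright, hτ1]
      rfl
    rw [h2, hap, hapz₀, jv_smul, ← map_smul P, smul_smul] at h1
    rw [← P.injective h1, Matrix.smul_mulVec, Matrix.one_mulVec]
  have hA0 : (a : F) * j t ≠ 0 := mul_ne_zero a.ne_zero ((map_ne_zero j).mpr t.ne_zero)
  have hzy : z = toGam Q (scG Q (Units.mk0 _ hA0 * w'⁻¹)) * y ^ k := by
    apply Subtype.ext
    apply ext_ap
    · rw [Subgroup.coe_mul, SemidirectProduct.mul_right, Subgroup.coe_pow, pow_right, hk']
      change _ = 1 * _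
      rw [one_mul]
    · intro v
      obtain ⟨u, rfl⟩ := P.surjective v
      rw [Subgroup.coe_mul, ap_mul, toGam_coe, ap_inl, scG_coe, sc_mulVec, Subgroup.coe_pow, hw', hg, hgs, hk',
        Matrix.smul_mulVec, Matrix.one_mulVec, map_smul, smul_smul, Units.val_mul, Units.val_mk0, mul_assoc,
        ← Units.val_mul, inv_mul_cancel, Units.val_one, mul_one]
  rw [hzy, map_mul, ← psi1_apply, psi1_scG, one_mul, map_pow]
  exact Subgroup.pow_mem _ (Subgroup.mem_zpowers _) k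

end sub

end H50.OrthBal
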