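import Cfsg.Agent.Lib.H50.OrthBal2

/-!
Local balance for orthogonal groups: the general statement for elements of field type.
-/

set_option autoImplicit false
set_option linter.unusedSectionVars false
set_option maxHeartbeats 400000

namespace H50.OrthBal

open Matrix H48.OutO H50.PSLBasic H50.PSLField H50.H90 H50.ClassCount H50.PSLCount H48.QuadSplit
  H50.OrthPsi H50.OrthDesc H50.OrthField H50.OrthSim H50.OrthOddCount

variable {F : Type*} [Field F] {ι : Type} [Fintype ι] [DecidableEq ι] {Q : QuadraticForm F (ι → F)}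

/-- squares of isometries lie in `Ω` -/
lemma sq_mem_Omega [Fintype F] (hQ : (QuadraticMap.polarBilin Q).Nondegenerate) (hn : 7 ≤ Fintype.card ι)
    (s : ↥(Cfsg.isometryGroup F (⇑Q))) : s * s ∈ Cfsg.Omega F (⇑Q) := by
  have hs : s ∈ Subgroup.closure {g : ↥(Cfsg.isometryGroup F (⇑Q)) | ∃ v : ι → F, Q v ≠ 0 ∧
      ((g : GL ι F) : Matrix ι ι F) = Cfsg.reflectionMatrix (⇑Q) v} := by
    rw [H17.OrthTrans.closure_refl_eq_top Q hQ (Or.inr (by omega))]; trivial
  have h1 : Abelianization.of s * Abelianization.of s = 1 := by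
    induction hs using Subgroup.closure_induction with
    | mem g hg =>
      obtain ⟨v, hv, hgv⟩ := hg
      have h2 : g = H17.OrthDet.refl Q v hv := Subtype.ext (Units.ext hgv)
      have h3 : g * g = 1 := by rw [h2]; exact H17.OrthSO.refl_mul_self Q v hv
      rw [← map_mul, h3, map_one]
    | one => rw [map_one, one_mul]
    | mul g h _ _ ih1 ih2 =>
      rw [map_mul, mul_mul_mul_comm, ih1, ih2, one_mul]
    | inv g _ ih =>
      rw [map_inv, ← _root_.mul_inv_rev, ih, inv_one]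
  rw [← map_mul] at h1
  have h2 : (QuotientGroup.mk (s * s) : Abelianization ↥(Cfsg.isometryGroup F (⇑Q))) = 1 := h1
  exact (QuotientGroup.eq_one_iff (s * s)).mp h2

/-- an involution of `PΩ` in odd characteristic -/
lemma two_dvd_card [Fintype F] (h2 : (2 : F) ≠ 0) (hQ : (QuadraticMap.polarBilin Q).Nondegenerate)
    (hn : 7 ≤ Fintype.card ι) : 2 ∣ Nat.card (Cfsg.POmega F (⇑Q)) := by
  have hND : ND Q := nd_iff.mpr hQ
  obtain ⟨v, hv⟩ := H48.QuadStd.exists_eq hND (by rw [Module.finrank_fintype_fun_eq_card]; omega) (one_ne_zero (α := F))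
  have hvv : QuadraticMap.polar Q v v = 2 := by
    rw [QuadraticMap.polar_self, hv]; simp
  -- the orthogonal complement of `v`
  have hnd : ND (Q.restrict (Submodule.span F {v})) := by
    rintro ⟨x, hx⟩ h
    obtain ⟨a, rfl⟩ := Submodule.mem_span_singleton.mp hx
    have h1 := h ⟨v, Submodule.mem_span_singleton_self v⟩
    have h3 : QuadraticMap.polar Q (a • v) v = 0 := h1
    rw [QuadraticMap.polar_smul_left, hvv, smul_eq_mul, mul_eq_zero] at h3
    have h4 := h3.resolve_right h2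
    apply Subtype.ext
    change a • v = 0
    rw [h4, zero_smul]
  have hv0 : v ≠ 0 := by
    rintro rfl
    rw [QuadraticMap.map_zero] at hv
    exact zero_ne_one hv
  have hfr : Module.finrank F (Submodule.span F {v}) = 1 := finrank_span_singleton hv0
  have hfo := finrank_orth hND (Submodule.span F {v})
  rw [hfr, Module.finrank_fintype_fun_eq_card] at hfo
  obtain ⟨⟨w, hw⟩, hwa⟩ := H48.QuadStd.exists_eq (nd_orth hND hnd) (by omega) (one_ne_zero (α := F))
  have hw1 : Q w = 1 := hwa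
  have hvw : QuadraticMap.polar Q v w = 0 := hw v (Submodule.mem_span_singleton_self v)
  have hwv : QuadraticMap.polar Q w v = 0 := by rw [QuadraticMap.polar_comm]; exact hvw
  have hv1 : Q v ≠ 0 := by rw [hv]; exact one_ne_zero
  have hw1' : Q w ≠ 0 := by rw [hw1]; exact one_ne_zero
  -- the involution
  let t : ↥(Cfsg.isometryGroup F (⇑Q)) := H17.OrthDet.refl Q v hv1 * H17.OrthDet.refl Q w hw1'
  have htm : ∀ x, ((t : GL ι F) : Matrix ι ι F) *ᵥ x =
      Cfsg.reflectionMatrix (⇑Q) v *ᵥ (Cfsg.reflectionMatrix (⇑Q) w *ᵥ x) := by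
    intro x
    change (Cfsg.reflectionMatrix (⇑Q) v * Cfsg.reflectionMatrix (⇑Q) w) *ᵥ x = _
    rw [Matrix.mulVec_mulVec]
  have ht : t ∈ Cfsg.Omega F (⇑Q) := by
    rw [refl2_mem_iff h2 hQ (by omega) hv1 hw1', hv, hw1]
    exact ⟨1, rfl⟩
  have htx : ∀ x, ((t : GL ι F) : Matrix ι ι F) *ᵥ x = x - (QuadraticMap.polar Q w x) • w - (QuadraticMap.polar Q v x) • v := by
    intro x
    rw [htm, H17.OrthMat.reflectionMatrix_mulVec, H17.OrthMat.reflectionMatrix_mulVec, hv, hw1, inv_one, one_mul, one_mul,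
      QuadraticMap.polar_sub_right, QuadraticMap.polar_smul_right, hvw, smul_zero, sub_zero]
  have htt : t * t = 1 := by
    apply Subtype.ext
    apply gl_ext
    intro x
    change (((t : GL ι F) : Matrix ι ι F) * ((t : GL ι F) : Matrix ι ι F)) *ᵥ x = (1 : Matrix ι ι F) *ᵥ x
    rw [← Matrix.mulVec_mulVec, htx, htx, Matrix.one_mulVec]
    simp only [QuadraticMap.polar_sub_right, QuadraticMap.polar_smul_right, hvw, hwv, hvv, smul_eq_mul, mul_zero, sub_zero]
    have hww : QuadraticMap.polar Q w w = 2 := by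
      rw [QuadraticMap.polar_self, hw1]; simp
    rw [hww]
    module
  have hord : orderOf (QuotientGroup.mk (⟨t, ht⟩ : ↥(Cfsg.Omega F (⇑Q))) : Cfsg.POmega F (⇑Q)) = 2 := by
    apply orderOf_eq_prime
    · rw [pow_two, ← QuotientGroup.mk_mul]
      have : (⟨t, ht⟩ : ↥(Cfsg.Omega F (⇑Q))) * ⟨t, ht⟩ = 1 := Subtype.ext htt
      rw [this]; rfl
    · intro h
      have h3 := psi1_isoG (⟨t, ht⟩ : ↥(Cfsg.Omega F (⇑Q)))
      rw [h, map_one, psi1_eq_one_iff hQ hn] at h3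
      obtain ⟨u, hu⟩ := h3
      have h4 : ∀ x, ((t : GL ι F) : Matrix ι ι F) *ᵥ x = (u : F) • x := by
        intro x
        have := congrArg (fun z : ↥(simG Q) => ((z : GL ι F) : Matrix ι ι F) *ᵥ x) hu
        beta_reduce at this
        rw [scG_coe, sc_mulVec] at this
        exact this
      obtain ⟨x, hx0, hx⟩ := OrthE.exists_perp (Q := Q) ![v, w] (by
        rw [Module.finrank_fintype_fun_eq_card]; omega)
      have e1 := h4 x
      have hx1 : QuadraticMap.polar Q v x = 0 := hx 0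
      have hx2 : QuadraticMap.polar Q w x = 0 := hx 1
      rw [htx, hx1, hx2, zero_smul, zero_smul, sub_zero, sub_zero] at e1
      have hu1 : (u : F) = 1 := by
        have : ((u : F) - 1) • x = 0 := by rw [sub_smul, ← e1, one_smul, sub_self]
        exact sub_eq_zero.mp ((smul_eq_zero.mp this).resolve_right hx0)
      have e2 := h4 v
      rw [htx, hwv, hvv, hu1, one_smul, zero_smul, sub_zero] at e2
      have e3 : (2 : F) • v = 0 := by
        have : v - (v - (2 : F) • v) = 0 := by rw [e2, sub_self]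
        rwa [sub_sub_cancel] at this
      exact h2 ((smul_eq_zero.mp e3).resolve_right hv0)
  rw [← hord]
  exact orderOf_dvd_natCard _

section sub

variable {F₀ : Type*} [Field F₀] {ι' : Type} [Fintype ι'] [DecidableEq ι']
  {j : F₀ →+* F} {Q₁₀ : QuadraticForm F₀ (ι' → F₀)} {Q₁ : QuadraticForm F (ι' → F)}
  {P : (ι' → F) ≃ₗ[F] (ι → F)}

/-- the square of a similarity is a scalar times an isometry -/
lemma sim_sq (k : ↥(simG Q)) : ∃ (c : Fˣ) (t : ↥(Cfsg.isometryGroup F (⇑Q))), k * k = scG Q c * isoG Q t := by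
  obtain ⟨c, hc⟩ := k.2
  have h1 : ((scG Q c⁻¹ * (k * k) : ↥(simG Q)) : GL ι F) ∈ Cfsg.isometryGroup F (⇑Q) := by
    rw [H17.OrthDet.mem_isometryGroup_iff]
    intro v
    rw [Subgroup.coe_mul, Subgroup.coe_mul, scG_coe, Units.val_mul, Units.val_mul, ← Matrix.mulVec_mulVec,
      ← Matrix.mulVec_mulVec, sc_mulVec, QuadraticMap.map_smul, hc, hc, Units.val_inv_eq_inv_val]
    have := c.ne_zero
    rw [smul_eq_mul]
    field_simp
  refine ⟨c, ⟨_, h1⟩, ?_⟩
  apply Subtype.ext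
  rw [Subgroup.coe_mul (simG Q) (scG Q c)]
  change _ = (scG Q c : GL ι F) * ((scG Q c⁻¹ * (k * k) : ↥(simG Q)) : GL ι F)
  rw [← Subgroup.coe_mul, ← mul_assoc, ← map_mul, mul_inv_cancel, map_one, one_mul]

variable [Fintype F] [Fintype F₀] (hQ : (QuadraticMap.polarBilin Q).Nondegenerate)
    (hn : 7 ≤ Fintype.card ι) (hQ₀ : (QuadraticMap.polarBilin Q₁₀).Nondegenerate) (hn' : 7 ≤ Fintype.card ι')

include hQ hn hQ₀ hn'

lemma dvd_card_L {p : ℕ} (hp : p.Prime) {r : ℕ} [Fact r.Prime] [CharP F r] (hpr : p ≠ r)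
    {y : ↥(Gam Q)} {n : ℕ} (hr : orderOf (y : GA ι F).right = n) (hr0 : 0 < n)
    (hj : ∀ x, (∃ c, j c = x) ↔ (y : GA ι F).right x = x) (ho : Ovr j Q₁₀ Q₁) (hne : ∃ v, Q₁₀ v ≠ 0)
    (hd : Desc Q (y : GA ι F) Q₁ P) {k : Cfsg.POmega F (⇑Q)} (hk : Psi Q y k = k) (hord : orderOf k = p) :
    p ∣ Nat.card (Cfsg.POmega F₀ (⇑Q₁₀)) := by
  by_cases hp2 : p = 2
  · subst hp2
    apply two_dvd_card _ hQ₀ hn'
    intro h0
    apply hpr
    have h1 : (2 : F) = 0 := by
      rw [← map_ofNat j 2]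
      rw [h0, map_zero]
    have h2 : ((2 : ℕ) : F) = 0 := by exact_mod_cast h1
    rw [CharP.cast_eq_zero_iff F r] at h2
    exact ((Nat.prime_dvd_prime_iff_eq Fact.out Nat.prime_two).mp h2).symm
  · have hZ := center_pom hQ hn
    rw [← Bal.conj_comm_iff _ _ hZ] at hk
    obtain ⟨s, rfl⟩ := QuotientGroup.mk_surjective k
    have h1 : psi1 Q (isoG Q s.1) ∈ Subgroup.centralizer {Psi Q y} := by
      rw [psi1_isoG]; exact Bal.mem_cent_iff.mpr hk
    rw [cent_iff hQ hn hr hr0 hj ho hne hd] at h1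
    obtain ⟨u, k₀, hk₀⟩ := h1
    have h2 : MulAut.conj (QuotientGroup.mk s : Cfsg.POmega F (⇑Q)) = psi1 Q (fHom ho hne hd.q k₀) := by
      rw [← psi1_isoG, hk₀, map_mul, psi1_scG, one_mul]
    obtain ⟨c, t, hct⟩ := sim_sq k₀
    have h3 : (k₀ * k₀) * (k₀ * k₀) = scG Q₁₀ (c * c) * isoG Q₁₀ (t * t) := by
      rw [hct, map_mul, map_mul, mul_assoc, ← mul_assoc (isoG Q₁₀ t), ← scG_comm c (isoG Q₁₀ t), mul_assoc, ← mul_assoc]
    have h4 : (MulAut.conj (QuotientGroup.mk s : Cfsg.POmega F (⇑Q))) ^ 4 =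
        fL hQ hn hQ₀ hn' ho hne hd.q (QuotientGroup.mk ⟨t * t, sq_mem_Omega hQ₀ hn' t⟩) := by
      have hne' : Nonempty ι' := Fintype.card_pos_iff.mp (by omega)
      obtain ⟨u', hu'⟩ := (fHom_eq_sc_iff ho hne hd.q (scG Q₁₀ (c * c))).mpr ⟨_, rfl⟩
      rw [fL_mk, h2, show (4 : ℕ) = 2 * 2 from rfl, pow_mul, pow_two, pow_two, ← map_mul, ← map_mul, ← map_mul, ← map_mul,
        h3, map_mul, hu', map_mul, psi1_scG, one_mul]
    have h5 : orderOf ((MulAut.conj (QuotientGroup.mk s : Cfsg.POmega F (⇑Q))) ^ 4) = p := by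
      rw [Nat.Coprime.orderOf_pow, orderOf_injective _ (Bal.conj_injective hZ), hord]
      rw [orderOf_injective _ (Bal.conj_injective hZ), hord]
      exact Nat.Coprime.pow_right 2 ((Nat.coprime_primes hp Nat.prime_two).mpr hp2)
    rw [h4, orderOf_injective _ (fL_injective hQ hn hQ₀ hn' ho hne hd.q)] at h5
    rw [← h5]
    exact orderOf_dvd_natCard _

/-- **local balance, field type** -/
theorem core_field {p : ℕ} (hp : p.Prime) {r : ℕ} [Fact r.Prime] [CharP F r] (hpr : p ≠ r)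
    (hAut : ∀ α : MulAut (Cfsg.POmega F (⇑Q)), ∃ z : ↥(Gam Q), α = Psi Q z)
    (hs : IsSimpleGroup (Cfsg.POmega F₀ (⇑Q₁₀)))
    {y : ↥(Gam Q)} (hr : orderOf (y : GA ι F).right = p) (hyp : orderOf (Psi Q y) = p)
    (hj : ∀ x, (∃ c, j c = x) ↔ (y : GA ι F).right x = x) (ho : Ovr j Q₁₀ Q₁) (hne : ∃ v, Q₁₀ v ≠ 0)
    (hd : Desc Q (y : GA ι F) Q₁ P) (A : Subgroup (MulAut (Cfsg.POmega F (⇑Q))))
    (hinn : ∀ k : Cfsg.POmega F (⇑Q), MulAut.conj k ∈ A) {x γ : MulAut (Cfsg.POmega F (⇑Q))}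
    (hx : x = γ * Psi Q y * γ⁻¹)
    (hnc : ¬ Nat.Coprime p (Nat.card ↥(MonoidHom.eqLocus x.toMonoidHom (MonoidHom.id (Cfsg.POmega F (⇑Q)))))) :
    Cfsg.pPrimeCore p ↥(A ⊓ Subgroup.centralizer {x}) = ⊥ := by
  classical
  have hfinM : Finite (MulAut (Cfsg.POmega F (⇑Q))) := H17.SpCount.finite_mulAut _
  have hZ := center_pom hQ hn
  have hInnA : Cfsg.Inn (Cfsg.POmega F (⇑Q)) ≤ A := by
    rintro _ ⟨k, rfl⟩
    exact hinn k
  -- an element of order `p` fixed by `x`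
  rw [Nat.Prime.coprime_iff_not_dvd hp, not_not] at hnc
  have := Fact.mk hp
  obtain ⟨k, hk⟩ := exists_prime_orderOf_dvd_card' p hnc
  have hkx : x (k : Cfsg.POmega F (⇑Q)) = k := k.2
  have hko : orderOf (k : Cfsg.POmega F (⇑Q)) = p := by rw [Subgroup.orderOf_coe, hk]
  have hk0 : Psi Q y (γ⁻¹ (k : Cfsg.POmega F (⇑Q))) = γ⁻¹ (k : Cfsg.POmega F (⇑Q)) := by
    have h1 : Psi Q y * γ⁻¹ = γ⁻¹ * x := by rw [hx]; group
    have h2 := congrArg (fun β : MulAut (Cfsg.POmega F (⇑Q)) => β (k : Cfsg.POmega F (⇑Q))) h1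
    simp only [MulAut.mul_apply] at h2
    rw [h2, hkx]
  have hko0 : orderOf (γ⁻¹ (k : Cfsg.POmega F (⇑Q))) = p := by
    rw [← hko]
    exact MulEquiv.orderOf_eq γ⁻¹ (k : Cfsg.POmega F (⇑Q))
  have hdvd := dvd_card_L hQ hn hQ₀ hn' hp hpr hr hp.pos hj ho hne hd hk0 hko0
  refine Bal.no_core' (Cfsg.Inn (Cfsg.POmega F (⇑Q))) A hInnA (x₀ := Psi Q y) (γ := γ) hyp
    (fL hQ hn hQ₀ hn' ho hne hd.q) (fL_injective hQ hn hQ₀ hn' ho hne hd.q)
    (fL_mem hQ hn hQ₀ hn' ho hne hd.q) (fL_comm hQ hn hQ₀ hn' ho hne hd (fun c => (hj _).mp ⟨c, rfl⟩)) ?_ ?_ ?_ hx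
  · rintro _ ⟨k, rfl⟩ hk l
    obtain ⟨s, rfl⟩ := QuotientGroup.mk_surjective k
    have h1 : psi1 Q (isoG Q s.1) ∈ Subgroup.centralizer {Psi Q y} := by
      rw [psi1_isoG]; exact Bal.mem_cent_iff.mpr hk
    rw [cent_iff hQ hn hr hp.pos hj ho hne hd] at h1
    obtain ⟨u, k₀, hk₀⟩ := h1
    have h2 : MulAut.conj (QuotientGroup.mk s : Cfsg.POmega F (⇑Q)) = psi1 Q (fHom ho hne hd.q k₀) := by
      rw [← psi1_isoG, hk₀, map_mul, psi1_scG, one_mul]
    exact ⟨_, by rw [h2]; exact fL_conj hQ hn hQ₀ hn' ho hne hd.q k₀ l⟩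
  · intro M hM hMc
    rcases hM.eq_bot_or_eq_top with h | h
    · exact h
    · exfalso
      rw [h, Subgroup.card_top] at hMc
      exact hp.one_lt.ne' (Nat.Coprime.eq_one_of_dvd hMc.symm hdvd)
  · intro α hα hα'
    obtain ⟨z, rfl⟩ := hAut α
    exact cent_L hQ hn hQ₀ hn' hr hp.pos hj ho hne hd hα hα'

end sub

end H50.OrthBal
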