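import Cfsg.Agent.Lib.H50.OrthEven

/-!
Field automorphisms of `PΩ⁻`.
-/

set_option autoImplicit false
set_option linter.unusedSectionVars false

namespace H50.OrthMinusFam

open Matrix H48.OutO H50.PSLBasic H50.PSLField H50.H90 H50.ClassCount H50.PSLCount H48.QuadSplit H48.QuadStd
  H50.OrthPsi H50.OrthDesc H48.OmegaPlus H50.OrthSim H18.MaxSing H50.OrthPar H50.OrthProper H50.OrthMinusK H50.OrthField
  H50.OrthInn H50.OrthOddCount H50.OrthEven

/-! ### generalities -/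

section gen

variable {F : Type*} [Field F] {ι ι' : Type} [Fintype ι] [DecidableEq ι] [Fintype ι'] [DecidableEq ι']
  {Q : QuadraticForm F (ι → F)} {Q₁ : QuadraticForm F (ι' → F)} {P : (ι' → F) ≃ₗ[F] (ι → F)}

/-- transport of semisimilarities -/
lemma exists_transport (hq : ∃ ν : Fˣ, ∀ v, Q (P v) = (ν : F) * Q₁ v) (y₁ : ↥(Gam Q₁)) :
    ∃ y : ↥(Gam Q), (y : GA ι F).right = (y₁ : GA ι' F).right ∧
      ∀ v, ap (y : GA ι F) (P v) = P (ap (y₁ : GA ι' F) v) := by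
  obtain ⟨ν, hν⟩ := hq
  obtain ⟨c, hc, hm⟩ := exists_mult y₁
  let Θ : (ι → F) ≃+ (ι → F) :=
    { toFun := fun v => P (ap (y₁ : GA ι' F) (P.symm v))
      invFun := fun v => P (ap (y₁ : GA ι' F)⁻¹ (P.symm v))
      left_inv := fun v => by
        change P (ap (y₁ : GA ι' F)⁻¹ (P.symm (P (ap (y₁ : GA ι' F) (P.symm v))))) = v
        rw [P.symm_apply_apply, ap_inv_ap, P.apply_symm_apply]
      right_inv := fun v => by
        change P (ap (y₁ : GA ι' F) (P.symm (P (ap (y₁ : GA ι' F)⁻¹ (P.symm v))))) = v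
        rw [P.symm_apply_apply, ap_ap_inv, P.apply_symm_apply]
      map_add' := fun v w => by
        change P (ap (y₁ : GA ι' F) (P.symm (v + w))) = _
        rw [map_add P.symm, ap_add, map_add P] }
  obtain ⟨g, hg⟩ := H50.OrthMat.exists_matrix (y₁ : GA ι' F).right Θ (by
    intro a v
    change P (ap (y₁ : GA ι' F) (P.symm (a • v))) = _ • P (ap (y₁ : GA ι' F) (P.symm v))
    rw [map_smul P.symm, ap_smul, map_smul P])
  have hap : ∀ v, ap (⟨g, (y₁ : GA ι' F).right⟩ : GA ι F) (P v) = P (ap (y₁ : GA ι' F) v) := by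
    intro v
    have h1 := (hg (P v)).symm
    change ap (⟨g, (y₁ : GA ι' F).right⟩ : GA ι F) (P v) = P (ap (y₁ : GA ι' F) (P.symm (P v))) at h1
    rw [P.symm_apply_apply] at h1
    exact h1
  have hmem : (⟨g, (y₁ : GA ι' F).right⟩ : GA ι F) ∈ Gam Q := by
    have hν' : (y₁ : GA ι' F).right (ν : F) ≠ 0 := (map_ne_zero_iff _ (y₁ : GA ι' F).right.injective).mpr ν.ne_zero
    apply IsMult.mem (c := (ν : F) * c * ((y₁ : GA ι' F).right (ν : F))⁻¹)
      (mul_ne_zero (mul_ne_zero ν.ne_zero hc) (inv_ne_zero hν'))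
    intro v
    obtain ⟨u, rfl⟩ := P.surjective v
    rw [hap, hν, hm, hν, map_mul]
    field_simp
  exact ⟨⟨_, hmem⟩, rfl, hap⟩

end gen

/-! ### odd characteristic: generators modulo inner automorphisms -/

section gens

variable {F : Type*} [Field F] [Fintype F] {ι : Type} [Fintype ι] [DecidableEq ι] {Q : QuadraticForm F (ι → F)} {n : ℕ}

/-- proper similarities with square multiplier -/
lemma sq_decomp (hQ : (QuadraticMap.polarBilin Q).Nondegenerate) (h2 : (2 : F) ≠ 0) (hc : Fintype.card ι = 2 * n)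
    (hne : ∃ v, Q v ≠ 0) {g : ↥(simG Q)} (hg : g ∈ DP Q n) {c : F}
    (hm : ∀ v, Q (((g : GL ι F) : Matrix ι ι F) *ᵥ v) = c * Q v) (hsq : IsSquare c) :
    ∃ (u : Fˣ) (s : ↥(Cfsg.isometryGroup F (⇑Q))), (u : F) ^ 2 = c ∧ ((s : GL ι F) : Matrix ι ι F).det = 1 ∧
      g = scG Q u * isoG Q s := by
  rw [DP_odd h2] at hg
  obtain ⟨d, hd1, hd2⟩ := hg
  have hcd : c = d := mult_unique' hne hm hd1
  obtain ⟨u, hu⟩ := hsq
  have hu0 : u ≠ 0 := by
    rintro rfl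
    rw [mul_zero] at hu
    rw [hu] at hcd
    exact d.ne_zero hcd.symm
  have hmem : (sc (Units.mk0 u hu0)⁻¹ * g.1 : GL ι F) ∈ Cfsg.isometryGroup F (⇑Q) := by
    rw [H17.OrthDet.mem_isometryGroup_iff]
    intro v
    rw [Units.val_mul, ← Matrix.mulVec_mulVec, sc_mulVec, QuadraticMap.map_smul, hm, hu, smul_eq_mul,
      Units.val_inv_eq_inv_val, Units.val_mk0]
    field_simp
  refine ⟨Units.mk0 u hu0, ⟨_, hmem⟩, by rw [Units.val_mk0, pow_two, hu], ?_, ?_⟩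
  · change ((sc (Units.mk0 u hu0)⁻¹ * g.1 : GL ι F) : Matrix ι ι F).det = 1
    rw [Units.val_mul, sc_coe, Matrix.smul_mul, Matrix.one_mul, Matrix.det_smul, hd2, hc, pow_mul,
      Units.val_inv_eq_inv_val, Units.val_mk0, inv_pow, ← mul_pow, ← hcd, hu, pow_two, inv_mul_cancel₀
        (mul_ne_zero hu0 hu0), one_pow]
  · apply Subtype.ext
    change g.1 = sc (Units.mk0 u hu0) * ((sc (Units.mk0 u hu0)⁻¹ : GL ι F) * g.1)
    rw [← mul_assoc, ← map_mul, mul_inv_cancel, map_one, one_mul]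

/-- everything proper is inner modulo two elements -/
lemma mem_of_gens (hQ : (QuadraticMap.polarBilin Q).Nondegenerate) (h2 : (2 : F) ≠ 0) (hc : Fintype.card ι = 2 * n)
    (hn : 7 ≤ Fintype.card ι) {d : ↥(simG Q)} (hd : d ∈ DP Q n) {c : F}
    (hm : ∀ v, Q (((d : GL ι F) : Matrix ι ι F) *ᵥ v) = c * Q v) (hcs : ¬ IsSquare c) {v w : ι → F} (hv : Q v ≠ 0)
    (hw : Q w ≠ 0) (hvw : ¬ IsSquare (Q v * Q w)) {S : Subgroup (MulAut (Cfsg.POmega F (⇑Q)))}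
    (hS : Cfsg.Inn (Cfsg.POmega F (⇑Q)) ≤ S) (hdS : psi1 Q d ∈ S)
    (htS : psi1 Q (isoG Q (H17.OrthDet.refl Q v hv * H17.OrthDet.refl Q w hw)) ∈ S) {g : ↥(simG Q)} (hg : g ∈ DP Q n) :
    psi1 Q g ∈ S := by
  have hne : ∃ v, Q v ≠ 0 := ⟨v, hv⟩
  have key : ∀ g : ↥(simG Q), g ∈ DP Q n → ∀ c : F, (∀ v, Q (((g : GL ι F) : Matrix ι ι F) *ᵥ v) = c * Q v) →
      IsSquare c → psi1 Q g ∈ S := by
    intro g hg c hm hsq
    obtain ⟨u, s, -, hs, rfl⟩ := sq_decomp hQ h2 hc hne hg hm hsq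
    rw [map_mul, psi1_scG, one_mul]
    rcases omega_dich h2 hQ hn s hs hv hw hvw with h | h
    · apply hS
      rw [inn_iff hQ hn]
      exact ⟨1, s, h, by rw [map_one, one_mul]⟩
    · have h3 : psi1 Q (isoG Q (s * (H17.OrthDet.refl Q v hv * H17.OrthDet.refl Q w hw))) ∈ S := by
        apply hS
        rw [inn_iff hQ hn]
        exact ⟨1, _, h, by rw [map_one, one_mul]⟩
      rw [map_mul, map_mul] at h3
      exact (Subgroup.mul_mem_cancel_right S htS).mp h3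
  obtain ⟨c', hc'⟩ := g.2
  by_cases hsq : IsSquare (c' : F)
  · exact key g hg _ hc' hsq
  · have h3 : ∀ v, Q ((((g * d : ↥(simG Q)) : GL ι F) : Matrix ι ι F) *ᵥ v) = (c' * c) * Q v := by
      intro v
      rw [Subgroup.coe_mul, Units.val_mul, ← Matrix.mulVec_mulVec, hc', hm, mul_assoc]
    have h4 := key (g * d) (mul_mem hg hd) _ h3 (H48.FinFieldSq.isSquare_mul_of_not hsq hcs)
    rw [map_mul] at h4
    exact (Subgroup.mul_mem_cancel_right S hdS).mp h4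

end gens

/-! ### minus type -/

section minus

variable {F : Type*} [Field F] {m : ℕ} {a b a' b' : F}

/-- anisotropy of a binary form -/
abbrev An (a b : F) : Prop := ∀ z₁ z₂ : F, z₁ ^ 2 + a * z₁ * z₂ + b * z₂ ^ 2 = 0 → z₁ = 0 ∧ z₂ = 0

lemma An.of_irr {z : F} (hz : ∀ t : F, t ^ 2 + t + z ≠ 0) : An 1 z := by
  intro z₁ z₂ h
  by_cases h2 : z₂ = 0
  · subst h2
    refine ⟨?_, rfl⟩
    have : z₁ ^ 2 = 0 := by linear_combination h
    exact pow_eq_zero_iff two_ne_zero |>.mp this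
  · exfalso
    apply hz (z₁ / z₂)
    field_simp
    linear_combination h

lemma An.no_root (h : An a b) (l : F) : l ^ 2 + a * l + b ≠ 0 := by
  intro h1
  have := (h l 1 (by linear_combination h1)).2
  exact one_ne_zero this

lemma An.of_map {F₀ : Type*} [Field F₀] (j : F₀ →+* F) {a b : F₀} (h : An (j a) (j b)) : An a b := by
  intro z₁ z₂ h1
  have h2 := h (j z₁) (j z₂) (by
    have := congrArg j h1
    rw [map_zero, map_add, map_add, map_mul j (a * z₁), map_mul j a, map_mul j b, map_pow, map_pow] at this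
    exact this)
  exact ⟨(map_eq_zero j).mp h2.1, (map_eq_zero j).mp h2.2⟩

lemma minus_equiv [Finite F] (m : ℕ) (h : An a b) (h' : An a' b') : (qMinus m F a b).Equivalent (qMinus m F a' b') := by
  have key : ∀ {a b : F}, An a b → ∃ z : F, (∀ t : F, t ^ 2 + t + z ≠ 0) ∧ (qBin a b).Equivalent (qBin 1 z) := by
    intro a b h
    apply plane (nd_qBin (disc_ne_zero h))
    · rw [Module.finrank_prod, Module.finrank_self]
    · intro v hv
      rw [qBin_apply] at hv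
      obtain ⟨h1, h2⟩ := h _ _ hv
      exact Prod.ext h1 h2
  obtain ⟨z, hz, e⟩ := key h
  obtain ⟨z', hz', e'⟩ := key h'
  have e3 : (qBin a b).Equivalent (qBin a' b') := e.trans ((qBin_unique hz' hz).trans e'.symm)
  exact (qMinus_equiv m a b).trans (((QuadraticMap.Equivalent.refl _).prod e3).trans (qMinus_equiv m a' b').symm)

lemma fix_qMinus (m : ℕ) {σ : F ≃+* F} (ha : σ a = a) (hb : σ b = b) : FixAt (qMinus m F a b) σ := by
  intro v
  rw [qMinus_apply, qMinus_apply]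
  simp only [Function.comp_apply, map_add, map_mul, map_pow, map_sum, ha, hb]

lemma ovr_qPlus {F₀ : Type*} [Field F₀] (j : F₀ →+* F) (m : ℕ) : Ovr j (qPlus m F₀) (qPlus m F) := by
  intro v
  rw [qPlus_apply, qPlus_apply, map_sum]
  simp only [map_mul]
  rfl

/-- a form of minus type is not similar to one of plus type -/
lemma not_similar [Finite F] (h : An a b) {P : (Fin (m + 1) ⊕ Fin (m + 1) → F) ≃ₗ[F] ((Fin m ⊕ Fin m) ⊕ Fin 2 → F)}
    (hq : ∃ ν : Fˣ, ∀ v, qMinus m F a b (P v) = (ν : F) * qPlus (m + 1) F v) : False := by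
  obtain ⟨ν, hν⟩ := hq
  obtain ⟨z, hz, e⟩ : ∃ z : F, (∀ t : F, t ^ 2 + t + z ≠ 0) ∧ (qBin a b).Equivalent (qBin 1 z) := by
    apply plane (nd_qBin (disc_ne_zero h))
    · rw [Module.finrank_prod, Module.finrank_self]
    · intro v hv
      rw [qBin_apply] at hv
      obtain ⟨h1, h2⟩ := h _ _ hv
      exact Prod.ext h1 h2
  apply not_equivalent m hz
  have h1 : ((ν : F) • qPlus (m + 1) F).Equivalent (qMinus m F a b) := ⟨⟨P, fun v => by
    rw [_root_.smul_apply, smul_eq_mul]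
    exact hν v⟩⟩
  exact ((H48.QuadSim.smul_qPlus (m + 1) ν.ne_zero).symm.trans h1).trans ((minus_equiv m h (An.of_irr hz)))

variable [Fintype F]

lemma nd_minus' (h : An a b) : (QuadraticMap.polarBilin (qMinus m F a b)).Nondegenerate := nd_iff.mp (nd_minus h)

lemma aut_minus (hm : 3 ≤ m) (hab : An a b) (α : MulAut (Cfsg.POmega F (⇑(qMinus m F a b)))) :
    ∃ y : ↥(Gam (qMinus m F a b)), α = Psi (qMinus m F a b) y := by
  have h1 := OrthFam.pair_minus hm hab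
  rw [← coe_qMinus] at h1
  obtain ⟨g, σ, h2, h3⟩ := h1 α
  exact ⟨⟨⟨g, σ⟩, mem_Gam_iff.mpr h2⟩, (induced_iff ⟨⟨g, σ⟩, mem_Gam_iff.mpr h2⟩ α).mp h3⟩

/-- every element of prime order in a field coset descends to the minus form over the fixed field -/
theorem minus_desc (hm : 3 ≤ m) (hab : An a b) {F₀ : Type*} [Field F₀] {j : F₀ →+* F} {a₀ b₀ : F₀} (h₀ : An a₀ b₀)
    {y : ↥(Gam (qMinus m F a b))} {r : ℕ} (hr : orderOf (y : GA ((Fin m ⊕ Fin m) ⊕ Fin 2) F).right = r) (hr0 : 0 < r)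
    (hj : ∀ x, (∃ c, j c = x) ↔ (y : GA ((Fin m ⊕ Fin m) ⊕ Fin 2) F).right x = x)
    (hyr : (Psi (qMinus m F a b) y) ^ r = 1) :
    ∃ P, Desc (qMinus m F a b) (y : GA ((Fin m ⊕ Fin m) ⊕ Fin 2) F) (qMinus m F (j a₀) (j b₀)) P := by
  have : Finite F₀ := Finite.of_injective _ j.injective
  obtain ⟨Q₀, hQ₀, H⟩ := exists_desc (nd_minus' hab) (card_minus_ge hm) y hr hr0 hyr hj
  have hfr : Module.finrank F₀ ((Fin m ⊕ Fin m) ⊕ Fin 2 → F₀) = 2 * (m + 1) := by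
    rw [Module.finrank_fintype_fun_eq_card, card_minus']
  rcases classify_even (m + 1) _ Q₀ hQ₀ hfr with h | ⟨-, z, hz, h⟩
  · exfalso
    obtain ⟨P, hP⟩ := H (qPlus (m + 1) F₀) (qPlus (m + 1) F) (ovr_qPlus j _) h.symm
    exact not_similar hab hP.q
  · exact H (qMinus m F₀ a₀ b₀) _ (ovr_qMinus j m a₀ b₀) ((minus_equiv m h₀ (An.of_irr hz)).trans h.symm)

end minus

section main

universe u

variable {F : Type u} [Field F] {m : ℕ} {a b : F}

/-- field automorphisms, generic form of the underlying function -/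
def FCM {m : ℕ} (Q : ((Fin m ⊕ Fin m) ⊕ Fin 2 → F) → F) (β : MulAut (Cfsg.POmega F Q)) : Prop :=
  ∃ (a' b' : F) (R : ((Fin m ⊕ Fin m) ⊕ Fin 2 → F) → F) (_ : R = Cfsg.quadFormMinus m F a' b')
    (ψ : Cfsg.POmega F Q ≃* Cfsg.POmega F R) (σ : F ≃+* F),
    (∀ z₁ z₂ : F, z₁ ^ 2 + a' * z₁ * z₂ + b' * z₂ ^ 2 = 0 → z₁ = 0 ∧ z₂ = 0) ∧
    σ ≠ RingEquiv.refl F ∧ σ a' = a' ∧ σ b' = b' ∧
    Cfsg.IsFieldAutPOmegaOf R σ ((ψ.symm.trans β).trans ψ)

variable [Fintype F]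

theorem minus_class (hm : 3 ≤ m) (hab : An a b) {x : MulAut (Cfsg.POmega F (⇑(qMinus m F a b)))}
    (hx : FCM (⇑(qMinus m F a b)) x) :
    ∃ (α : MulAut (Cfsg.POmega F (⇑(qMinus m F a b)))) (y₀ : ↥(Gam (qMinus m F a b))) (a' b' : F)
      (P : ((Fin m ⊕ Fin m) ⊕ Fin 2 → F) ≃ₗ[F] ((Fin m ⊕ Fin m) ⊕ Fin 2 → F)),
      An a' b' ∧ (y₀ : GA ((Fin m ⊕ Fin m) ⊕ Fin 2) F).right a' = a' ∧
      (y₀ : GA ((Fin m ⊕ Fin m) ⊕ Fin 2) F).right b' = b' ∧
      orderOf (y₀ : GA ((Fin m ⊕ Fin m) ⊕ Fin 2) F).right = orderOf x ∧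
      (y₀ : GA ((Fin m ⊕ Fin m) ⊕ Fin 2) F).right ≠ 1 ∧
      α * x * α⁻¹ = Psi (qMinus m F a b) y₀ ∧
      Desc (qMinus m F a b) (y₀ : GA ((Fin m ⊕ Fin m) ⊕ Fin 2) F) (qMinus m F a' b') P := by
  obtain ⟨a', b', R, hR, ψ, σ, h1, h2, h3, h4, h5⟩ := hx
  rw [← coe_qMinus] at hR
  subst hR
  have hfix := fix_qMinus m h3 h4
  have h6 := (isField_iff hfix _).mp h5
  obtain ⟨e⟩ := minus_equiv m h1 hab
  have hq : ∃ ν : Fˣ, ∀ v, qMinus m F a b (e.toLinearEquiv v) = (ν : F) * qMinus m F a' b' v :=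
    ⟨1, fun v => by rw [Units.val_one, one_mul]; exact e.map_app v⟩
  obtain ⟨y₀, hy₀r, hy₀⟩ := exists_transport hq (std hfix)
  refine ⟨ψ.trans (tPO hq), y₀, a', b', e.toLinearEquiv, h1, ?_, ?_, ?_, ?_, ?_, ?_⟩
  · rw [hy₀r]; exact h3
  · rw [hy₀r]; exact h4
  · rw [hy₀r, std_right, ← orderOf_std (nd_minus' h1) (card_minus_ge hm) hfix, ← h6]
    exact MulEquiv.orderOf_eq (MulAut.congr ψ) x
  · rw [hy₀r]; exact h2
  · apply MulEquiv.ext
    intro u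
    obtain ⟨w, rfl⟩ := (ψ.trans (tPO hq)).surjective u
    have h7 : (MulEquiv.trans ψ (tPO hq) * x * (MulEquiv.trans ψ (tPO hq))⁻¹ : MulAut (Cfsg.POmega F (⇑(qMinus m F a b))))
        (MulEquiv.trans ψ (tPO hq) w) = tPO hq (ψ (x w)) := by
      rw [MulAut.mul_apply, MulAut.mul_apply]
      have : (MulEquiv.trans ψ (tPO hq))⁻¹ (MulEquiv.trans ψ (tPO hq) w) = w :=
        (MulEquiv.trans ψ (tPO hq)).symm_apply_apply w
      rw [this]
      rfl
    rw [h7]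
    change _ = Psi _ y₀ (tPO hq (ψ w))
    rw [tPO_Psi hq (y := y₀) (y₁ := std hfix) ⟨1, fun v => by rw [Units.val_one, one_smul]; exact hy₀ v⟩, ← h6]
    change _ = tPO hq (ψ (x (ψ.symm (ψ w))))
    rw [ψ.symm_apply_apply]
  · exact ⟨⟨1, fun v => by rw [Units.val_one, one_smul, hy₀, std_ap, hy₀r]; rfl⟩, hq⟩

lemma inndM_normal (hm : 3 ≤ m) (hab : An a b) :
    ((DP (qMinus m F a b) (m + 1)).map (psi1 (qMinus m F a b))).Normal := DP_normal (aut_minus hm hab)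

theorem s2737 (hm : 3 ≤ m) (hab : An a b) :
    ∀ (x δ : MulAut (Cfsg.POmega F (⇑(qMinus m F a b)))) (_ : FCM (⇑(qMinus m F a b)) x) {r : ℕ}
      (_ : r.Prime) (_ : orderOf x = r)
      (_ : δ ∈ inndF (⇑(qMinus m F a b)) (Cfsg.PreservesSingularClassesMinus m a b)),
      orderOf (δ * x) = r ↔
        Cfsg.IsConjUnder (inndF (⇑(qMinus m F a b)) (Cfsg.PreservesSingularClassesMinus m a b)) x (δ * x) := by
  intro x δ hx r hr hxr hδ
  obtain ⟨α, y₀, a', b', P, h1, h2, h3, h4, h5, h6, h7⟩ := minus_class hm hab hx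
  rw [hxr] at h4
  rw [inndM_eq hm hab] at hδ ⊢
  have hN := inndM_normal hm hab
  apply coset_gen h6 hxr hδ
  rintro _ ⟨g, hg, rfl⟩ hgr
  rw [psi1_apply, ← map_mul] at hgr ⊢
  have hr' : ((toGam (qMinus m F a b) g * y₀ : ↥(Gam (qMinus m F a b))) : GA ((Fin m ⊕ Fin m) ⊕ Fin 2) F).right =
      (y₀ : GA ((Fin m ⊕ Fin m) ⊕ Fin 2) F).right := by
    rw [Subgroup.coe_mul, SemidirectProduct.mul_right, toGam_coe, SemidirectProduct.right_inl, one_mul]
  let j : H49.FixedField.fixedField (y₀ : GA ((Fin m ⊕ Fin m) ⊕ Fin 2) F).right →+* F :=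
    (H49.FixedField.fixedField (y₀ : GA ((Fin m ⊕ Fin m) ⊕ Fin 2) F).right).subtype
  have hj : ∀ x, (∃ c, j c = x) ↔ (y₀ : GA ((Fin m ⊕ Fin m) ⊕ Fin 2) F).right x = x :=
    fun x => ⟨by rintro ⟨c, rfl⟩; exact c.2, fun h => ⟨⟨x, h⟩, rfl⟩⟩
  obtain ⟨a₀, ha₀⟩ := (hj a').mpr h2
  obtain ⟨b₀, hb₀⟩ := (hj b').mpr h3
  rw [← ha₀, ← hb₀] at h1 h7
  obtain ⟨P', hP'⟩ := minus_desc hm hab (An.of_map j h1) (y := toGam (qMinus m F a b) g * y₀) (r := r)
    (by rw [hr']; exact h4) hr.pos (by rw [hr']; exact hj) hgr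
  obtain ⟨t, ht, ht'⟩ := conj_DP (nd_minus' hab) (card_minus' m) (card_minus_ge hm) hr' (fun c => (hj _).mp ⟨c, rfl⟩)
    (ovr_qMinus j m a₀ b₀) (hne_minus m a₀ b₀) hP' h7
  exact ⟨psi1 _ t, ⟨t, ht, rfl⟩, ht'⟩

end main

end H50.OrthMinusFam
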