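import Cfsg.Agent.Lib.H50.GraphBal7
import Cfsg.Agent.Lib.H50.OrthMinusFam
import Cfsg.Agent.S0297

/-!
Local balance for the orthogonal groups of minus type: elements of field type.
-/

set_option autoImplicit false
set_option linter.unusedSectionVars false
set_option maxHeartbeats 400000

namespace H50.OrthBal

open Matrix QuadraticMap H48.OutO H50.PSLBasic H50.PSLField H50.H90 H50.ClassCount H50.PSLCount H48.QuadSplit H48.QuadStd
  H50.OrthPsi H50.OrthDesc H50.OrthField H50.OrthSim H50.OrthOddCount H50.OrthProper H50.OrthInn H50.OrthMinusFam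
  H50.OrthEven H50.OrthMinusK

universe u

variable {F : Type u} [Field F] {m : ℕ} {a b a' b' : F}

lemma smul_prod_equiv {V W : Type*} [AddCommGroup V] [Module F V] [AddCommGroup W] [Module F W]
    (q : QuadraticForm F V) (q' : QuadraticForm F W) (c : F) :
    (c • (q.prod q')).Equivalent ((c • q).prod (c • q')) := by
  refine ⟨⟨LinearEquiv.refl F (V × W), fun v => ?_⟩⟩
  change (c • q) v.1 + (c • q') v.2 = c • (q v.1 + q' v.2)
  rw [smul_add]
  rfl

/-- a form similar to a form of minus type is of minus type -/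
lemma an_of_similar [Finite F] (h : An a b)
    {P : ((Fin m ⊕ Fin m) ⊕ Fin 2 → F) ≃ₗ[F] ((Fin m ⊕ Fin m) ⊕ Fin 2 → F)}
    (hq : ∃ ν : Fˣ, ∀ v, qMinus m F a b (P v) = (ν : F) * qMinus m F a' b' v) : An a' b' := by
  obtain ⟨ν, hν⟩ := hq
  have h1 : ((ν : F) • qMinus m F a' b').Equivalent (qMinus m F a b) := ⟨⟨P, fun v => by
    rw [_root_.smul_apply, smul_eq_mul]
    exact hν v⟩⟩
  have h2 : ((ν : F) • qMinus m F a' b').Equivalent ((qPlus m F).prod ((ν : F) • qBin a' b')) := by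
    obtain ⟨e⟩ := qMinus_equiv m a' b'
    have e1 : ((ν : F) • qMinus m F a' b').Equivalent ((ν : F) • ((qPlus m F).prod (qBin a' b'))) :=
      ⟨⟨e.toLinearEquiv, fun v => by
        rw [_root_.smul_apply, _root_.smul_apply]
        congr 1
        exact e.map_app v⟩⟩
    exact (e1.trans (smul_prod_equiv _ _ _)).trans ((H48.QuadSim.smul_qPlus m ν.ne_zero).prod (QuadraticMap.Equivalent.refl _))
  have h3 : ((qPlus m F).prod ((ν : F) • qBin a' b')).Equivalent ((qPlus m F).prod (qBin a b)) :=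
    (h2.symm.trans h1).trans (qMinus_equiv m a b)
  obtain ⟨e⟩ := cancel (nd_qPlus m) (nd_qBin (disc_ne_zero h)) h3
  intro z₁ z₂ hz
  have h4 := e.map_app (z₁, z₂)
  rw [_root_.smul_apply, qBin_apply, qBin_apply, hz, smul_zero] at h4
  obtain ⟨h5, h6⟩ := h _ _ h4
  have h7 : e (z₁, z₂) = 0 := Prod.ext h5 h6
  have h8 : ((z₁, z₂) : F × F) = 0 := by
    apply e.toLinearEquiv.injective
    rw [map_zero]
    exact h7
  exact ⟨congrArg Prod.fst h8, congrArg Prod.snd h8⟩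

variable [Fintype F]

/-- elements of prime order in a field coset are field automorphisms -/
theorem fcm_of_desc (hm : 3 ≤ m) (hab : An a b) {y : ↥(Gam (qMinus m F a b))}
    (hy1 : (y : GA ((Fin m ⊕ Fin m) ⊕ Fin 2) F).right ≠ 1)
    (ha' : (y : GA ((Fin m ⊕ Fin m) ⊕ Fin 2) F).right a' = a') (hb' : (y : GA ((Fin m ⊕ Fin m) ⊕ Fin 2) F).right b' = b')
    {P : ((Fin m ⊕ Fin m) ⊕ Fin 2 → F) ≃ₗ[F] ((Fin m ⊕ Fin m) ⊕ Fin 2 → F)}
    (hd : Desc (qMinus m F a b) (y : GA ((Fin m ⊕ Fin m) ⊕ Fin 2) F) (qMinus m F a' b') P) :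
    FCM (⇑(qMinus m F a b)) (Psi (qMinus m F a b) y) := by
  have hfix := fix_qMinus m ha' hb'
  refine ⟨a', b', ⇑(qMinus m F a' b'), coe_qMinus m a' b', (tPO hd.q).symm, (y : GA ((Fin m ⊕ Fin m) ⊕ Fin 2) F).right,
    an_of_similar hab hd.q, hy1, ha', hb', ?_⟩
  rw [isField_iff hfix]
  apply MulEquiv.ext
  intro u
  change (tPO hd.q).symm (Psi _ y (tPO hd.q u)) = _
  obtain ⟨w, hw⟩ := hd.a
  rw [tPO_Psi hd.q (y := y) (y₁ := std hfix) ⟨w, fun v => by rw [hw, std_ap]⟩, MulEquiv.symm_apply_apply]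

/-- the descent, with some anisotropic pair -/
theorem minus_desc' (hm : 3 ≤ m) (hab : An a b) {F₀ : Type*} [Field F₀] {j : F₀ →+* F}
    {y : ↥(Gam (qMinus m F a b))} {r : ℕ} (hr : orderOf (y : GA ((Fin m ⊕ Fin m) ⊕ Fin 2) F).right = r) (hr0 : 0 < r)
    (hj : ∀ x, (∃ c, j c = x) ↔ (y : GA ((Fin m ⊕ Fin m) ⊕ Fin 2) F).right x = x)
    (hyr : (Psi (qMinus m F a b) y) ^ r = 1) :
    ∃ z : F₀, An 1 z ∧ ∃ P, Desc (qMinus m F a b) (y : GA ((Fin m ⊕ Fin m) ⊕ Fin 2) F) (qMinus m F (j 1) (j z)) P := by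
  have : Finite F₀ := Finite.of_injective _ j.injective
  obtain ⟨Q₀, hQ₀, H⟩ := exists_desc (nd_minus' hab) (card_minus_ge hm) y hr hr0 hyr hj
  have hfr : Module.finrank F₀ ((Fin m ⊕ Fin m) ⊕ Fin 2 → F₀) = 2 * (m + 1) := by
    rw [Module.finrank_fintype_fun_eq_card, card_minus']
  rcases classify_even (m + 1) _ Q₀ hQ₀ hfr with h | ⟨-, z, hz, h⟩
  · exfalso
    obtain ⟨P, hP⟩ := H (qPlus (m + 1) F₀) (qPlus (m + 1) F) (ovr_qPlus j _) h.symm
    exact not_similar hab hP.q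
  · exact ⟨z, An.of_irr hz, H (qMinus m F₀ 1 z) _ (ovr_qMinus j m 1 z) h.symm⟩

lemma simple_minus {F : Type*} [Field F] [Fintype F] {m : ℕ} (hm : 3 ≤ m) {a b : F} (hz : An a b) :
    IsSimpleGroup (Cfsg.POmega F (⇑(qMinus m F a b))) := by
  rw [coe_qMinus]
  exact Cfsg.Agent.S0297.result (F := F) (m + 1) (by omega) a b hz

lemma right_one_of_conj {F : Type*} [Field F] {ι : Type} [Fintype ι] [DecidableEq ι] {Q : QuadraticForm F (ι → F)}
    {z y₀ : ↥(Gam Q)} {g : ↥(simG Q)} {u : Fˣ} (hu : z * toGam Q g * z⁻¹ = toGam Q (scG Q u) * y₀) :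
    (y₀ : GA ι F).right = 1 := by
  have h7 : ((z * toGam Q g * z⁻¹ : ↥(Gam Q)) : GA ι F).right = 1 :=
    conj_right (x := (z : GA ι F)) (d := ((toGam Q g : ↥(Gam Q)) : GA ι F)) rfl
  rw [hu, Subgroup.coe_mul, SemidirectProduct.mul_right] at h7
  have h8 : ((toGam Q (scG Q u) : ↥(Gam Q)) : GA ι F).right = 1 := rfl
  rw [h8, one_mul] at h7
  exact h7

/-- elements of prime order outside the normal subgroup of proper similarities are involutions -/
lemma improper_prime {F : Type*} [Field F] [Fintype F] {ι : Type} [Fintype ι] [DecidableEq ι] {Q : QuadraticForm F (ι → F)} {n : ℕ}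
    (hQ : (QuadraticMap.polarBilin Q).Nondegenerate) (hc : Fintype.card ι = 2 * n) (hn : 7 ≤ Fintype.card ι)
    (hne : ∃ v, Q v ≠ 0)
    (hAut : ∀ α : MulAut (Cfsg.POmega F (⇑Q)), ∃ y : ↥(Gam Q), α = Psi Q y) {p : ℕ} (hp : p.Prime)
    {g : ↥(simG Q)} (hord : orderOf (psi1 Q g) = p) (hnot : psi1 Q g ∉ (DP Q n).map (psi1 Q)) : p = 2 := by
  have hN := DP_normal (Q := Q) (n := n) hAut
  obtain ⟨v, hv⟩ := hne
  set R := isoG Q (H17.OrthDet.refl Q v hv) with hR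
  have hg : g ∉ DP Q n := fun h => hnot ⟨g, h, rfl⟩
  have h1 : psi1 Q g * psi1 Q R ∈ (DP Q n).map (psi1 Q) := by
    rcases DP_or hQ hc hn g hv with h | h
    · exact absurd h hg
    · exact ⟨_, h, map_mul _ _ _⟩
  have hR2 : psi1 Q R * psi1 Q R = 1 := by
    rw [hR, psi1_refl, ← map_mul, Rf_sq, map_one]
  have h2 : psi1 Q g * psi1 Q g ∈ (DP Q n).map (psi1 Q) := by
    have e1 : psi1 Q g * psi1 Q g = (psi1 Q g * psi1 Q R) * (psi1 Q R * (psi1 Q g * psi1 Q R) * (psi1 Q R)⁻¹) := by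
      have e2 : (psi1 Q R)⁻¹ = psi1 Q R := inv_eq_of_mul_eq_one_left hR2
      rw [e2]
      calc psi1 Q g * psi1 Q g = psi1 Q g * (psi1 Q R * psi1 Q R) * psi1 Q g * (psi1 Q R * psi1 Q R) := by rw [hR2]; simp
        _ = _ := by simp only [mul_assoc]
    rw [e1]
    exact Subgroup.mul_mem _ h1 (hN.conj_mem _ h1 _)
  by_contra hp2
  apply hnot
  obtain ⟨k, hk⟩ := hp.odd_of_ne_two hp2
  have h3 : psi1 Q g = (psi1 Q g * psi1 Q g) ^ (k + 1) := by
    rw [← pow_two, ← pow_mul]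
    have h4 : 2 * (k + 1) = p + 1 := by omega
    rw [h4, pow_succ, ← hord, pow_orderOf_eq_one, one_mul]
  rw [h3]
  exact Subgroup.pow_mem _ h2 _

lemma branch_sim (hm : 3 ≤ m) (hab : An a b) {r : ℕ} [Fact r.Prime] [CharP F r]
    (A : Subgroup (MulAut (Cfsg.POmega F (⇑(qMinus m F a b)))))
    (hinn : ∀ k : Cfsg.POmega F (⇑(qMinus m F a b)), MulAut.conj k ∈ A) {p : ℕ} (hp : p.Prime) (hpr : p ≠ r)
    {g : ↥(simG (qMinus m F a b))} (hord : orderOf (psi1 (qMinus m F a b) g) = p)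
    (hnot : psi1 (qMinus m F a b) g ∉ (DP (qMinus m F a b) (m + 1)).map (psi1 (qMinus m F a b))) :
    Cfsg.pPrimeCore p ↥(A ⊓ Subgroup.centralizer {psi1 (qMinus m F a b) g}) = ⊥ ∧
      ¬ FCM (⇑(qMinus m F a b)) (psi1 (qMinus m F a b) g) := by
  have hQ := nd_minus' (m := m) hab
  have hn := card_minus_ge hm
  have hg : g ∉ DP (qMinus m F a b) (m + 1) := fun h => hnot ⟨g, h, rfl⟩
  have hp2 := improper_prime hQ (card_minus' m) hn (hne_minus m a b) (aut_minus hm hab) hp hord hnot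
  have h2 : (2 : F) ≠ 0 := by
    intro h0
    apply hpr
    have h1 : r ∣ 2 := (CharP.cast_eq_zero_iff F r 2).mp (by exact_mod_cast h0)
    have h3 := (Nat.prime_dvd_prime_iff_eq (Fact.out : r.Prime) Nat.prime_two).mp h1
    rw [hp2, h3]
  constructor
  · subst hp2
    exact GraphBal.graph_core hQ (card_minus' m) hn h2 (aut_minus hm hab) hg hord A hinn
  · intro hF
    obtain ⟨α, y₀, a', b', P, -, -, -, -, h5, h6, -⟩ := minus_class hm hab hF
    obtain ⟨z, rfl⟩ := aut_minus hm hab α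
    rw [psi1_apply, ← map_inv, ← map_mul, ← map_mul, Psi_eq_iff hQ hn] at h6
    obtain ⟨u, hu⟩ := h6
    exact h5 (right_one_of_conj hu)

lemma branch_field (hm : 3 ≤ m) (hab : An a b) {r : ℕ} [Fact r.Prime] [CharP F r]
    (A : Subgroup (MulAut (Cfsg.POmega F (⇑(qMinus m F a b)))))
    (hinn : ∀ k : Cfsg.POmega F (⇑(qMinus m F a b)), MulAut.conj k ∈ A) {p : ℕ} (hp : p.Prime) (hpr : p ≠ r)
    {y : ↥(Gam (qMinus m F a b))} (hσ1 : (y : GA ((Fin m ⊕ Fin m) ⊕ Fin 2) F).right ≠ 1)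
    (hord : orderOf (Psi (qMinus m F a b) y) = p) (hcore : Cfsg.pPrimeCore p ↥(A ⊓ Subgroup.centralizer {Psi (qMinus m F a b) y}) ≠ ⊥) :
    FCM (⇑(qMinus m F a b)) (Psi (qMinus m F a b) y) ∧
        Nat.Coprime p (Nat.card ↥(MonoidHom.eqLocus (Psi (qMinus m F a b) y).toMonoidHom
          (MonoidHom.id (Cfsg.POmega F (⇑(qMinus m F a b)))))) := by
  have hQ := nd_minus' (m := m) hab
  have hn := card_minus_ge hm
  have hyp : (Psi (qMinus m F a b) y) ^ p = 1 := by rw [← hord, pow_orderOf_eq_one]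
  have hσp : orderOf (y : GA ((Fin m ⊕ Fin m) ⊕ Fin 2) F).right = p := by
    have := Fact.mk hp
    exact orderOf_eq_prime (orderOf_right_dvd hQ hn hyp) hσ1
  let F₀ := H49.FixedField.fixedField (y : GA ((Fin m ⊕ Fin m) ⊕ Fin 2) F).right
  have := Fintype.ofFinite F₀
  obtain ⟨j, hj⟩ := exists_embedding (F₀ := F₀) (y : GA ((Fin m ⊕ Fin m) ⊕ Fin 2) F).right rfl
  obtain ⟨z, hz, P, hd⟩ := minus_desc' hm hab hσp hp.pos hj hyp
  refine ⟨fcm_of_desc hm hab hσ1 ((hj _).mp ⟨1, rfl⟩) ((hj _).mp ⟨z, rfl⟩) hd, ?_⟩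
  by_contra hnc
  apply hcore
  exact core_field hQ hn (nd_minus' (m := m) hz) (card_minus_ge hm) hp hpr (aut_minus hm hab) (simple_minus hm hz)
    hσp hord hj (ovr_qMinus j m 1 z) (hne_minus m 1 z) hd A hinn (γ := 1) (by rw [one_mul, inv_one, mul_one]) hnc

/-- the statement for minus type -/
theorem s2733 (hm : 3 ≤ m) (hab : An a b) {r : ℕ} [Fact r.Prime] [CharP F r] :
    ∀ (_ : IsSimpleGroup (Cfsg.POmega F (⇑(qMinus m F a b)))) (A : Subgroup (MulAut (Cfsg.POmega F (⇑(qMinus m F a b)))))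
      (_ : ∀ k : Cfsg.POmega F (⇑(qMinus m F a b)), MulAut.conj k ∈ A) {p : ℕ} (_ : p.Prime) (_ : p ≠ r)
      (x : MulAut (Cfsg.POmega F (⇑(qMinus m F a b)))) (_ : orderOf x = p)
      (_ : ¬ (∃ g : GL ((Fin m ⊕ Fin m) ⊕ Fin 2) F, g ∈ Cfsg.Geo.quadSimilarityGroup (F := F) (⇑(qMinus m F a b)) ∧
        Cfsg.PreservesSingularClassesMinus m a b (g : Matrix ((Fin m ⊕ Fin m) ⊕ Fin 2) ((Fin m ⊕ Fin m) ⊕ Fin 2) F) ∧
        Cfsg.IsInducedBySemilinearPOmega (⇑(qMinus m F a b)) g (RingEquiv.refl F) x)),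
      Cfsg.pPrimeCore p ↥(A ⊓ Subgroup.centralizer {x}) ≠ ⊥ ↔ (FCM (⇑(qMinus m F a b)) x ∧
        Nat.Coprime p (Nat.card ↥(MonoidHom.eqLocus x.toMonoidHom (MonoidHom.id (Cfsg.POmega F (⇑(qMinus m F a b))))))) := by
  intro hK A hinn p hp hpr x hord hnot
  have hQ := nd_minus' (m := m) hab
  have hn := card_minus_ge hm
  rw [inndF_iff (presMinus_iff hm hab)] at hnot
  constructor
  · intro hcore
    obtain ⟨y, rfl⟩ := aut_minus hm hab x
    by_cases hσ1 : (y : GA ((Fin m ⊕ Fin m) ⊕ Fin 2) F).right = 1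
    · obtain ⟨g, rfl⟩ := exists_toGam hσ1
      rw [← psi1_apply] at hnot hord hcore ⊢
      exact absurd (branch_sim hm hab A hinn hp hpr hord hnot).1 hcore
    · exact branch_field hm hab A hinn hp hpr hσ1 hord hcore
  · rintro ⟨-, hcop⟩
    have hnt : Nontrivial (Cfsg.POmega F (⇑(qMinus m F a b))) := hK.toNontrivial
    exact Bal.core_ne_bot (center_pom hQ hn) hnt A hinn hp hord hcop

end H50.OrthBal
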