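import Cfsg.Agent.Lib.H50.OrthBal3
import Cfsg.Agent.S0295

/-!
Local balance for the odd-dimensional orthogonal groups.
-/

set_option autoImplicit false
set_option linter.unusedSectionVars false
set_option maxHeartbeats 400000

namespace H50.OrthBal

open Matrix H48.OutO H50.PSLBasic H50.PSLField H50.H90 H50.ClassCount H50.PSLCount H48.QuadSplit H48.QuadStd
  H50.OrthPsi H50.OrthDesc H50.OrthField H50.OrthSim H50.OrthOddCount

variable {F : Type*} [Field F] [Fintype F]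

theorem s2731 (hodd : Odd (Fintype.card F)) {m : ℕ} (hm : 3 ≤ m) {r : ℕ} [Fact r.Prime] [CharP F r] :
    ∀ (_ : IsSimpleGroup (Cfsg.POmega F (⇑(qOdd m F 1)))) (A : Subgroup (MulAut (Cfsg.POmega F (⇑(qOdd m F 1)))))
      (_ : ∀ k : Cfsg.POmega F (⇑(qOdd m F 1)), MulAut.conj k ∈ A) {p : ℕ} (_ : p.Prime) (_ : p ≠ r)
      (x : MulAut (Cfsg.POmega F (⇑(qOdd m F 1)))) (_ : orderOf x = p)
      (_ : ¬ Cfsg.IsSimilarityInducedAutPOmega (⇑(qOdd m F 1)) x),
      Cfsg.pPrimeCore p ↥(A ⊓ Subgroup.centralizer {x}) ≠ ⊥ ↔ (Cfsg.IsFieldAutClassPOmega (⇑(qOdd m F 1)) x ∧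
        Nat.Coprime p (Nat.card ↥(MonoidHom.eqLocus x.toMonoidHom (MonoidHom.id (Cfsg.POmega F (⇑(qOdd m F 1))))))) := by
  intro hK A hinn p hp hpr x hord hnot
  classical
  have h2 : (2 : F) ≠ 0 := H7.OmegaIso.two_ne_zero_of_odd hodd
  have hQ := nd_odd' h2 m
  have hn := card_odd hm
  have hZ := center_pom hQ hn
  obtain ⟨y, rfl⟩ := aut_odd hodd hm x
  set σ := (y : GA (Unit ⊕ (Fin m ⊕ Fin m)) F).right with hσdef
  have hyp : (Psi (qOdd m F 1) y) ^ p = 1 := by rw [← hord, pow_orderOf_eq_one]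
  have hσ1 : σ ≠ 1 := by
    intro h1
    obtain ⟨g, hg⟩ := exists_toGam h1
    apply hnot
    refine ⟨g.1, g.2, ?_⟩
    rw [OrthPsi.isInduced_iff, psi1_apply, hg]
  have hσp : orderOf σ = p := by
    have := Fact.mk hp
    exact orderOf_eq_prime (orderOf_right_dvd hQ hn hyp) hσ1
  obtain ⟨t, ht⟩ := odd_coset h2 hm hσp hp.pos y rfl hyp
  constructor
  · intro hcore
    refine ⟨⟨(psi1 _ t)⁻¹, _, σ, hσ1, (isField_iff (fix_qOdd m σ) _).mpr rfl, by rw [ht]; group⟩, ?_⟩
    by_contra hnc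
    apply hcore
    let F₀ := H49.FixedField.fixedField σ
    have := Fintype.ofFinite F₀
    obtain ⟨j, hj⟩ := exists_embedding (F₀ := F₀) σ rfl
    have h20 : (2 : F₀) ≠ 0 := by
      intro h0
      apply h2
      rw [← map_ofNat j 2, h0, map_zero]
    have hodd₀ : Odd (Fintype.card F₀) := by
      by_contra hcon
      rw [Nat.not_odd_iff_even] at hcon
      have h3 : ringChar F₀ = 2 := FiniteField.even_card_iff_char_two.mpr (Nat.even_iff.mp hcon)
      have h4 := ringChar.Nat.cast_ringChar (R := F₀)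
      rw [h3] at h4
      exact h20 (by exact_mod_cast h4)
    have hs : IsSimpleGroup (Cfsg.POmega F₀ (⇑(qOdd m F₀ 1))) := by
      have := Cfsg.Agent.S0295.result hodd₀ m hm
      rwa [← coe_qOdd] at this
    exact core_field hQ hn (nd_odd' h20 m) hn hp hpr (aut_odd hodd hm) hs
      (y := std (fix_qOdd m σ)) (by rw [std_right]; exact hσp) (by rw [orderOf_std hQ hn]; exact hσp)
      (by rw [std_right]; exact hj) (ovr_qOdd j m) (hne_odd h20 hm) (desc_std (fix_qOdd m σ)) A hinn ht hnc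
  · rintro ⟨-, hcop⟩
    have hnt : Nontrivial (Cfsg.POmega F (⇑(qOdd m F 1))) := hK.toNontrivial
    exact Bal.core_ne_bot hZ hnt A hinn hp hord hcop

end H50.OrthBal
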