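import Cfsg.Agent.Lib.H50.OrthPsi
import Cfsg.Agent.Lib.H48.FormFamily

/-!
Descent of quadratic forms to the fixed field of a field automorphism, and the centralizers of the corresponding
automorphisms of `PΩ`.
-/

set_option autoImplicit false
set_option linter.unusedSectionVars false

namespace H50.OrthDesc

open Matrix H48.OutO H50.PSLBasic H50.PSLField H50.H90 H50.ClassCount H50.PSLCount H48.QuadSplit H50.OrthPsi

variable {F : Type*} [Field F] {F₀ : Type*} [Field F₀] {ι ι' : Type} [Fintype ι] [DecidableEq ι] [Fintype ι']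
  [DecidableEq ι']

/-! ### base change -/

section base

variable (j : F₀ →+* F)

/-- extension of vectors -/
def jv (v : ι → F₀) : ι → F := fun i => j (v i)

lemma jv_add (v w : ι → F₀) : jv j (v + w) = jv j v + jv j w := by
  funext i; exact map_add j _ _

lemma jv_smul (c : F₀) (v : ι → F₀) : jv j (c • v) = j c • jv j v := by
  funext i; exact map_mul j _ _

lemma jv_single (i : ι) : jv j (Pi.single i 1) = (Pi.single i 1 : ι → F) := by
  funext k
  change j ((Pi.single i 1 : ι → F₀) k) = _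
  by_cases h : k = i
  · subst h; rw [Pi.single_eq_same, Pi.single_eq_same, map_one]
  · rw [Pi.single_eq_of_ne h, Pi.single_eq_of_ne h, map_zero]

lemma jv_injective : Function.Injective (jv j : (ι → F₀) → (ι → F)) := by
  intro v w h
  funext i
  exact j.injective (congrFun h i)

lemma jv_zero : jv j (0 : ι → F₀) = 0 := by
  funext i; exact map_zero j

/-- `Q` is the base change of `Q₀` -/
def Ovr (Q₀ : QuadraticForm F₀ (ι → F₀)) (Q : QuadraticForm F (ι → F)) : Prop := ∀ v, Q (jv j v) = j (Q₀ v)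

variable {j} {Q₀ : QuadraticForm F₀ (ι → F₀)} {Q Q₁ Q₂ : QuadraticForm F (ι → F)}

lemma Ovr.polar (h : Ovr j Q₀ Q) (v w : ι → F₀) :
    QuadraticMap.polar Q (jv j v) (jv j w) = j (QuadraticMap.polar Q₀ v w) := by
  rw [QuadraticMap.polar, QuadraticMap.polar, ← jv_add, h, h, h, map_sub, map_sub]

lemma Ovr.unique (h₁ : Ovr j Q₀ Q₁) (h₂ : Ovr j Q₀ Q₂) (v : ι → F) : Q₁ v = Q₂ v := by
  refine H48.FormFamily.comp_of_basis Q₂ Q₁ (Pi.basisFun F ι) LinearMap.id ?_ ?_ v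
  · intro k
    rw [LinearMap.id_apply, Pi.basisFun_apply, ← jv_single j, h₁, h₂]
  · intro k l _
    rw [LinearMap.id_apply, LinearMap.id_apply, Pi.basisFun_apply, Pi.basisFun_apply, ← jv_single j, ← jv_single j,
      h₁.polar, h₂.polar]

lemma Ovr.nd (h : Ovr j Q₀ Q) (hQ : ND Q) : ND Q₀ := by
  intro x hx
  apply jv_injective j
  rw [jv_zero]
  apply hQ
  intro y
  have h1 : QuadraticMap.polarBilin Q (jv j x) = 0 := by
    apply (Pi.basisFun F ι).ext
    intro i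
    rw [QuadraticMap.polarBilin_apply_apply, Pi.basisFun_apply, ← jv_single j, h.polar, hx, map_zero]
    rfl
  have := LinearMap.congr_fun h1 y
  rwa [QuadraticMap.polarBilin_apply_apply] at this

lemma Ovr.smul (h : Ovr j Q₀ Q) (c : F₀) : Ovr j (c • Q₀) (j c • Q) := by
  intro v
  change j c * Q (jv j v) = j (c * Q₀ v)
  rw [h, map_mul]

lemma Ovr.fix (h : Ovr j Q₀ Q) {σ : F ≃+* F} (hσ : ∀ c, σ (j c) = j c) : FixAt Q σ := by
  intro v
  have hQ : Q.Equivalent Q := QuadraticMap.Equivalent.refl _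
  -- compare on the basis
  have hb : ∀ x y : ι → F, Q (x + y) = Q x + Q y + QuadraticMap.polar Q x y := fun x y => QuadraticMap.map_add Q x y
  have key : ∀ s : Finset ι, ∀ v : ι → F, Q (σ ∘ (∑ i ∈ s, v i • (Pi.single i 1 : ι → F))) =
      σ (Q (∑ i ∈ s, v i • (Pi.single i 1 : ι → F))) := by
    have hadd : ∀ x y : ι → F, (σ : F → F) ∘ (x + y) = σ ∘ x + σ ∘ y := fun x y => by
      funext i; exact map_add σ _ _
    have hsm : ∀ (c : F) (i : ι), (σ : F → F) ∘ (c • (Pi.single i 1 : ι → F)) = σ c • (Pi.single i 1 : ι → F) := by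
      intro c i
      funext k
      change σ (c * (Pi.single i 1 : ι → F) k) = σ c * (Pi.single i 1 : ι → F) k
      rw [map_mul]
      by_cases hk : k = i
      · subst hk; rw [Pi.single_eq_same, map_one]
      · rw [Pi.single_eq_of_ne hk, map_zero]
    have hpol : ∀ (i k : ι), σ (QuadraticMap.polar Q (Pi.single i 1) (Pi.single k 1)) =
        QuadraticMap.polar Q (Pi.single i 1) (Pi.single k 1) := by
      intro i k
      rw [← jv_single j, ← jv_single j, h.polar, hσ]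
    have hq : ∀ i : ι, σ (Q (Pi.single i 1)) = Q (Pi.single i 1) := by
      intro i
      rw [← jv_single j, h, hσ]
    have hps : ∀ (s : Finset ι) (c : F) (i : ι) (v : ι → F),
        QuadraticMap.polar Q (σ c • Pi.single i 1) (σ ∘ (∑ k ∈ s, v k • (Pi.single k 1 : ι → F))) =
        σ (QuadraticMap.polar Q (c • Pi.single i 1) (∑ k ∈ s, v k • (Pi.single k 1 : ι → F))) := by
      intro s c i v
      induction s using Finset.induction_on with
      | empty =>
        have h0 : (σ : F → F) ∘ (0 : ι → F) = 0 := by funext i; exact map_zero σ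
        rw [Finset.sum_empty, h0, QuadraticMap.polar_zero_right, QuadraticMap.polar_zero_right, map_zero]
      | insert a s ha ih =>
        rw [Finset.sum_insert ha, hadd, QuadraticMap.polar_add_right, ih, QuadraticMap.polar_add_right, map_add, hsm]
        simp only [QuadraticMap.polar_smul_left, QuadraticMap.polar_smul_right, smul_eq_mul, map_mul, hpol]
    intro s v
    induction s using Finset.induction_on with
    | empty =>
      have h0 : (σ : F → F) ∘ (0 : ι → F) = 0 := by funext i; exact map_zero σ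
      rw [Finset.sum_empty, h0, QuadraticMap.map_zero, map_zero]
    | insert a s ha ih =>
      rw [Finset.sum_insert ha, hadd, hb, ih, hb, hsm, hps, map_add, map_add, QuadraticMap.map_smul,
        QuadraticMap.map_smul]
      simp only [smul_eq_mul, map_mul, hq]
  have h1 : v = ∑ i ∈ Finset.univ, v i • (Pi.single i 1 : ι → F) := by
    rw [← pi_eq_sum_univ' v]
  rw [h1]
  exact key _ _

/-- descent -/
theorem exists_descend {σ : F ≃+* F} (hj : ∀ x, (∃ c, j c = x) ↔ σ x = x) (hfix : FixAt Q σ) :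
    ∃ Q₀ : QuadraticForm F₀ (ι → F₀), Ovr j Q₀ Q := by
  have hσ : ∀ c, σ (j c) = j c := fun c => (hj _).mp ⟨c, rfl⟩
  have h1 : ∀ v : ι → F₀, ∃ c : F₀, j c = Q (jv j v) := by
    intro v
    rw [hj, ← hfix]
    congr 1
    funext i
    exact hσ _
  choose f hf using h1
  have hpol : ∀ x y : ι → F₀, j (QuadraticMap.polar f x y) = QuadraticMap.polar Q (jv j x) (jv j y) := by
    intro x y
    rw [QuadraticMap.polar, QuadraticMap.polar, map_sub, map_sub, hf, hf, hf, jv_add]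
  refine ⟨QuadraticMap.ofPolar f ?_ ?_ ?_, fun v => (hf v).symm⟩
  · intro a x
    apply j.injective
    rw [hf, jv_smul, QuadraticMap.map_smul, ← hf, smul_eq_mul, smul_eq_mul, map_mul, map_mul]
  · intro x x' y
    apply j.injective
    rw [map_add, hpol, hpol, hpol, jv_add, QuadraticMap.polar_add_left]
  · intro a x y
    apply j.injective
    rw [hpol, jv_smul, QuadraticMap.polar_smul_left, ← hpol, smul_eq_mul, smul_eq_mul, map_mul]

end base

section lift

variable (j : F₀ →+* F)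

lemma map_mulVec_jv (M : Matrix ι ι' F₀) (v : ι' → F₀) : (M.map j) *ᵥ (jv j v) = jv j (M *ᵥ v) := by
  funext i
  exact (RingHom.map_mulVec j M v i).symm

/-- extension of scalars of a linear equivalence -/
noncomputable def liftE (e₀ : (ι' → F₀) ≃ₗ[F₀] (ι → F₀)) : (ι' → F) ≃ₗ[F] (ι → F) :=
  LinearEquiv.ofLinear (Matrix.toLin' ((LinearMap.toMatrix' (e₀ : (ι' → F₀) →ₗ[F₀] (ι → F₀))).map j))
    (Matrix.toLin' ((LinearMap.toMatrix' (e₀.symm : (ι → F₀) →ₗ[F₀] (ι' → F₀))).map j))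
    (by
      rw [← Matrix.toLin'_mul, ← Matrix.map_mul, ← LinearMap.toMatrix'_comp]
      have : (e₀ : (ι' → F₀) →ₗ[F₀] (ι → F₀)) ∘ₗ (e₀.symm : (ι → F₀) →ₗ[F₀] (ι' → F₀)) = LinearMap.id := by
        ext1; simp
      rw [this, LinearMap.toMatrix'_id, Matrix.map_one j (map_zero j) (map_one j), Matrix.toLin'_one])
    (by
      rw [← Matrix.toLin'_mul, ← Matrix.map_mul, ← LinearMap.toMatrix'_comp]
      have : (e₀.symm : (ι → F₀) →ₗ[F₀] (ι' → F₀)) ∘ₗ (e₀ : (ι' → F₀) →ₗ[F₀] (ι → F₀)) = LinearMap.id := by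
        ext1; simp
      rw [this, LinearMap.toMatrix'_id, Matrix.map_one j (map_zero j) (map_one j), Matrix.toLin'_one])

lemma liftE_apply (e₀ : (ι' → F₀) ≃ₗ[F₀] (ι → F₀)) (v : ι' → F) :
    liftE j e₀ v = ((LinearMap.toMatrix' (e₀ : (ι' → F₀) →ₗ[F₀] (ι → F₀))).map j) *ᵥ v := rfl

lemma liftE_jv (e₀ : (ι' → F₀) ≃ₗ[F₀] (ι → F₀)) (v : ι' → F₀) : liftE j e₀ (jv j v) = jv j (e₀ v) := by
  rw [liftE_apply, map_mulVec_jv, LinearMap.toMatrix'_mulVec]
  rfl

lemma liftE_comp (e₀ : (ι' → F₀) ≃ₗ[F₀] (ι → F₀)) {σ : F ≃+* F} (hσ : ∀ c, σ (j c) = j c) (v : ι' → F) :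
    liftE j e₀ (σ ∘ v) = σ ∘ (liftE j e₀ v) := by
  rw [liftE_apply, liftE_apply]
  funext i
  simp only [Function.comp_apply, Matrix.mulVec, dotProduct, map_sum, map_mul, Matrix.map_apply, hσ]

end lift

/-! ### transport along a linear equivalence -/

/-- transport of matrices -/
noncomputable def trP (P : (ι' → F) ≃ₗ[F] (ι → F)) : GL ι' F →* GL ι F :=
  Units.map
    { toFun := fun M => LinearMap.toMatrix' ((P : (ι' → F) →ₗ[F] (ι → F)) ∘ₗ Matrix.toLin' M ∘ₗ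
        (P.symm : (ι → F) →ₗ[F] (ι' → F)))
      map_one' := by
        have : (P : (ι' → F) →ₗ[F] (ι → F)) ∘ₗ Matrix.toLin' 1 ∘ₗ (P.symm : (ι → F) →ₗ[F] (ι' → F)) = LinearMap.id := by
          rw [Matrix.toLin'_one, LinearMap.id_comp]; ext1; simp
        rw [this, LinearMap.toMatrix'_id]
      map_mul' := fun M N => by
        rw [← LinearMap.toMatrix'_comp]
        congr 1
        apply LinearMap.ext
        intro v
        simp [Matrix.mulVec_mulVec] }

lemma trP_mulVec (P : (ι' → F) ≃ₗ[F] (ι → F)) (g : GL ι' F) (v : ι' → F) :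
    ((trP P g : GL ι F) : Matrix ι ι F) *ᵥ (P v) = P ((g : Matrix ι' ι' F) *ᵥ v) := by
  change LinearMap.toMatrix' ((P : (ι' → F) →ₗ[F] (ι → F)) ∘ₗ Matrix.toLin' (g : Matrix ι' ι' F) ∘ₗ
        (P.symm : (ι → F) →ₗ[F] (ι' → F))) *ᵥ (P v) = _
  rw [LinearMap.toMatrix'_mulVec]
  simp

lemma gl_ext {g h : GL ι F} (H : ∀ v, (g : Matrix ι ι F) *ᵥ v = (h : Matrix ι ι F) *ᵥ v) : g = h := by
  apply Units.ext
  apply Matrix.toLin'.injective
  apply LinearMap.ext
  intro v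
  rw [Matrix.toLin'_apply, Matrix.toLin'_apply]
  exact H v

lemma gl_extP (P : (ι' → F) ≃ₗ[F] (ι → F)) {g h : GL ι F}
    (H : ∀ v, (g : Matrix ι ι F) *ᵥ (P v) = (h : Matrix ι ι F) *ᵥ (P v)) : g = h := by
  apply gl_ext
  intro v
  have := H (P.symm v)
  rwa [P.apply_symm_apply] at this

lemma trP_symm (P : (ι' → F) ≃ₗ[F] (ι → F)) (g : GL ι F) : trP P (trP P.symm g) = g := by
  apply gl_extP P
  intro v
  rw [trP_mulVec]
  have h1 : v = P.symm (P v) := (P.symm_apply_apply v).symm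
  conv_lhs => rw [h1]
  rw [trP_mulVec, P.apply_symm_apply]

lemma trP_injective (P : (ι' → F) ≃ₗ[F] (ι → F)) : Function.Injective (trP P) := by
  intro g h hgh
  apply gl_ext
  intro v
  apply P.injective
  rw [← trP_mulVec, hgh, trP_mulVec]

lemma trP_sc (P : (ι' → F) ≃ₗ[F] (ι → F)) (u : Fˣ) : trP P (sc u) = sc u := by
  apply gl_extP P
  intro v
  rw [trP_mulVec, sc_mulVec, sc_mulVec, map_smul]

/-! ### descent data -/

/-- in the coordinates `P` the semisimilarity `y` is standard, up to a scalar, and the form is a multiple of `Q₁` -/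
structure Desc (Q : QuadraticForm F (ι → F)) (y : GA ι F) (Q₁ : QuadraticForm F (ι' → F))
    (P : (ι' → F) ≃ₗ[F] (ι → F)) : Prop where
  a : ∃ w : Fˣ, ∀ v, ap y (P v) = (w : F) • P (y.right ∘ v)
  q : ∃ ν : Fˣ, ∀ v, Q (P v) = (ν : F) * Q₁ v

/-- a matrix as a linear equivalence -/
noncomputable def glE (h : GL ι F) : (ι → F) ≃ₗ[F] (ι → F) :=
  LinearEquiv.ofLinear (Matrix.toLin' (h : Matrix ι ι F)) (Matrix.toLin' ((h⁻¹ : GL ι F) : Matrix ι ι F))
    (by rw [← Matrix.toLin'_mul, ← Units.val_mul, mul_inv_cancel, Units.val_one, Matrix.toLin'_one])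
    (by rw [← Matrix.toLin'_mul, ← Units.val_mul, inv_mul_cancel, Units.val_one, Matrix.toLin'_one])

lemma glE_apply (h : GL ι F) (v : ι → F) : glE h v = (h : Matrix ι ι F) *ᵥ v := rfl

variable {Q : QuadraticForm F (ι → F)}

/-- **descent** -/
theorem exists_desc [Fintype F] (hQ : (QuadraticMap.polarBilin Q).Nondegenerate) (hn : 7 ≤ Fintype.card ι)
    (y : ↥(Gam Q)) {r : ℕ} (hr : orderOf (y : GA ι F).right = r) (hr0 : 0 < r) (hy : (Psi Q y) ^ r = 1)
    {j : F₀ →+* F} (hj : ∀ x, (∃ c, j c = x) ↔ (y : GA ι F).right x = x) :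
    ∃ Q₀ : QuadraticForm F₀ (ι → F₀), ND Q₀ ∧
      ∀ {ι' : Type} [Fintype ι'] [DecidableEq ι'] (Q₁₀ : QuadraticForm F₀ (ι' → F₀)) (Q₁ : QuadraticForm F (ι' → F)),
        Ovr j Q₁₀ Q₁ → Q₁₀.Equivalent Q₀ → ∃ P : (ι' → F) ≃ₗ[F] (ι → F), Desc Q (y : GA ι F) Q₁ P := by
  have hND : ND Q := nd_iff.mpr hQ
  obtain ⟨w, h, ν, h1, h2⟩ := exists_gl hQ hn y hr hr0 hy
  set σ := (y : GA ι F).right with hσ
  have hσj : ∀ c, σ (j c) = j c := fun c => (hj _).mp ⟨c, rfl⟩
  let Q'' : QuadraticForm F (ι → F) := (ν : F)⁻¹ • Q.comp (glE h : (ι → F) →ₗ[F] (ι → F))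
  have hQ'' : ∀ v, Q'' v = (ν : F)⁻¹ * Q ((h : Matrix ι ι F) *ᵥ v) := fun v => rfl
  have hfix : FixAt Q'' σ := fun v => by rw [hQ'', hQ'', h2]
  obtain ⟨Q₀, hQ₀⟩ := exists_descend hj hfix
  have hQ''nd : ND Q'' := by
    intro x hx
    have h3 : ∀ z, QuadraticMap.polar Q (glE h x) z = 0 := by
      intro z
      have h4 := hx ((glE h).symm z)
      have h5 : QuadraticMap.polar Q'' x ((glE h).symm z) = (ν : F)⁻¹ * QuadraticMap.polar Q (glE h x) z := by
        rw [QuadraticMap.polar, QuadraticMap.polar, hQ'', hQ'', hQ'', Matrix.mulVec_add, ← glE_apply, ← glE_apply,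
          (glE h).apply_symm_apply]
        ring
      rw [h5] at h4
      exact (mul_eq_zero.mp h4).resolve_left (inv_ne_zero ν.ne_zero)
    have h6 := hND _ h3
    exact (LinearEquiv.map_eq_zero_iff (glE h)).mp h6
  refine ⟨Q₀, hQ₀.nd hQ''nd, ?_⟩
  intro ι' _ _ Q₁₀ Q₁ ho ⟨e₀⟩
  let P : (ι' → F) ≃ₗ[F] (ι → F) := (liftE j e₀.toLinearEquiv).trans (glE h)
  have hP : ∀ v, P v = (h : Matrix ι ι F) *ᵥ (liftE j e₀.toLinearEquiv v) := fun v => rfl
  refine ⟨P, ⟨w, fun v => ?_⟩, ⟨ν, fun v => ?_⟩⟩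
  · rw [hP, hP, h1, ← liftE_comp j e₀.toLinearEquiv hσj]
  · have h7 : Q'' (liftE j e₀.toLinearEquiv v) = Q₁ v := by
      have h8 : Ovr j Q₁₀ (Q''.comp (liftE j e₀.toLinearEquiv : (ι' → F) →ₗ[F] (ι → F))) := by
        intro u
        change Q'' (liftE j e₀.toLinearEquiv (jv j u)) = _
        rw [liftE_jv, hQ₀]
        exact congrArg j (e₀.map_app u)
      exact Ovr.unique h8 ho v
    rw [← h7, hQ'', hP, ← mul_assoc, mul_inv_cancel₀ ν.ne_zero, one_mul]

/-! ### similarities over the fixed field -/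

section sim

variable {j : F₀ →+* F} {Q₁₀ : QuadraticForm F₀ (ι' → F₀)} {Q₁ : QuadraticForm F (ι' → F)}
  {P : (ι' → F) ≃ₗ[F] (ι → F)} {y : GA ι F}

lemma trP_mem_iff (hq : ∃ ν : Fˣ, ∀ v, Q (P v) = (ν : F) * Q₁ v) {g : GL ι' F} :
    trP P g ∈ simG Q ↔ g ∈ simG Q₁ := by
  obtain ⟨ν, hν⟩ := hq
  constructor
  · rintro ⟨c, hc⟩
    refine ⟨c, fun v => ?_⟩
    have h1 := hc (P v)
    rw [trP_mulVec, hν, hν] at h1
    apply mul_left_cancel₀ ν.ne_zero
    rw [h1]; ring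
  · rintro ⟨c, hc⟩
    refine ⟨c, fun v => ?_⟩
    obtain ⟨u, rfl⟩ := P.surjective v
    rw [trP_mulVec, hν, hν, hc]; ring

lemma glHom_mulVec_jv (k : GL ι' F₀) (v : ι' → F₀) :
    ((glHom j k : GL ι' F) : Matrix ι' ι' F) *ᵥ (jv j v) = jv j ((k : Matrix ι' ι' F₀) *ᵥ v) := by
  rw [glHom_coe, map_mulVec_jv]

lemma glHom_mem_iff (ho : Ovr j Q₁₀ Q₁) (hne : ∃ v, Q₁₀ v ≠ 0) {k : GL ι' F₀} :
    glHom j k ∈ simG Q₁ ↔ k ∈ simG Q₁₀ := by
  constructor
  · rintro ⟨c, hc⟩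
    obtain ⟨v₀, hv₀⟩ := hne
    have h1 := hc (jv j v₀)
    rw [glHom_mulVec_jv, ho, ho] at h1
    have hjv : j (Q₁₀ v₀) ≠ 0 := (map_ne_zero j).mpr hv₀
    have h2 : (c : F) = j (Q₁₀ ((k : Matrix ι' ι' F₀) *ᵥ v₀) / Q₁₀ v₀) := by
      rw [map_div₀, h1, mul_div_cancel_right₀ _ hjv]
    have hc0 : Q₁₀ ((k : Matrix ι' ι' F₀) *ᵥ v₀) / Q₁₀ v₀ ≠ 0 := by
      intro h0
      rw [h0, map_zero] at h2
      exact c.ne_zero h2
    refine ⟨Units.mk0 _ hc0, fun v => ?_⟩
    apply j.injective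
    have h3 := hc (jv j v)
    rw [glHom_mulVec_jv, ho, ho, h2, ← map_mul] at h3
    exact h3
  · rintro ⟨c, hc⟩
    refine ⟨Units.map j.toMonoidHom c, fun v => ?_⟩
    have h1 : Ovr j ((c : F₀) • Q₁₀) (Q₁.comp (glE (glHom j k) : (ι' → F) →ₗ[F] (ι' → F))) := by
      intro u
      change Q₁ (((glHom j k : GL ι' F) : Matrix ι' ι' F) *ᵥ (jv j u)) = j ((c : F₀) * Q₁₀ u)
      rw [glHom_mulVec_jv, ho, hc]
    exact Ovr.unique h1 (ho.smul (c : F₀)) v

/-- the homomorphism from the similarity group over the small field -/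
noncomputable def fHom (ho : Ovr j Q₁₀ Q₁) (hne : ∃ v, Q₁₀ v ≠ 0) (hq : ∃ ν : Fˣ, ∀ v, Q (P v) = (ν : F) * Q₁ v) :
    ↥(simG Q₁₀) →* ↥(simG Q) :=
  MonoidHom.codRestrict (((trP P).comp (glHom j)).comp (simG Q₁₀).subtype) (simG Q)
    (fun k => (trP_mem_iff hq).mpr ((glHom_mem_iff ho hne).mpr k.2))

variable (ho : Ovr j Q₁₀ Q₁) (hne : ∃ v, Q₁₀ v ≠ 0)

lemma fHom_coe (hq : ∃ ν : Fˣ, ∀ v, Q (P v) = (ν : F) * Q₁ v) (k : ↥(simG Q₁₀)) :
    ((fHom ho hne hq k : ↥(simG Q)) : GL ι F) = trP P (glHom j k.1) := rfl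

lemma glHom_sc (u : F₀ˣ) : glHom j (sc u : GL ι' F₀) = sc (Units.map j.toMonoidHom u) := by
  apply gl_ext
  intro v
  rw [sc_mulVec, glHom_coe, sc_coe]
  have : ((u : F₀) • (1 : Matrix ι' ι' F₀)).map j = (j u) • (1 : Matrix ι' ι' F) := by
    ext a b
    rw [Matrix.map_apply, Matrix.smul_apply, Matrix.smul_apply, smul_eq_mul, smul_eq_mul, map_mul]
    by_cases hab : a = b
    · subst hab; rw [Matrix.one_apply_eq, Matrix.one_apply_eq, map_one]
    · rw [Matrix.one_apply_ne hab, Matrix.one_apply_ne hab, map_zero]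
  rw [this, Matrix.smul_mulVec, Matrix.one_mulVec]
  rfl

lemma fHom_eq_sc_iff [Nonempty ι'] (hq : ∃ ν : Fˣ, ∀ v, Q (P v) = (ν : F) * Q₁ v) (k : ↥(simG Q₁₀)) :
    (∃ u : Fˣ, fHom ho hne hq k = scG Q u) ↔ ∃ u : F₀ˣ, k = scG Q₁₀ u := by
  constructor
  · rintro ⟨u, hu⟩
    have h1 : trP P (glHom j k.1) = trP P (sc u) := by
      rw [trP_sc]; exact congrArg Subtype.val hu
    have h2 := trP_injective P h1
    obtain ⟨u₀, hu₀⟩ := (glHom_eq_sc_iff j k.1).mp ⟨u, h2⟩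
    exact ⟨u₀, Subtype.ext hu₀⟩
  · rintro ⟨u, rfl⟩
    refine ⟨Units.map j.toMonoidHom u, Subtype.ext ?_⟩
    rw [fHom_coe, scG_coe, scG_coe, glHom_sc, trP_sc]

end sim

section cent

variable {j : F₀ →+* F} {Q₁₀ : QuadraticForm F₀ (ι' → F₀)} {Q₁ : QuadraticForm F (ι' → F)}
  {P : (ι' → F) ≃ₗ[F] (ι → F)}

lemma fHom_comm (ho : Ovr j Q₁₀ Q₁) (hne : ∃ v, Q₁₀ v ≠ 0) {y : ↥(Gam Q)} (hd : Desc Q (y : GA ι F) Q₁ P)
    (hσj : ∀ c, (y : GA ι F).right (j c) = j c) (k : ↥(simG Q₁₀)) :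
    toGam Q (fHom ho hne hd.q k) * y = y * toGam Q (fHom ho hne hd.q k) := by
  obtain ⟨w, hw⟩ := hd.a
  apply Subtype.ext
  apply ext_ap
  · rw [Subgroup.coe_mul, Subgroup.coe_mul, SemidirectProduct.mul_right, SemidirectProduct.mul_right, toGam_coe,
      SemidirectProduct.right_inl, one_mul, mul_one]
  · intro v
    obtain ⟨u, rfl⟩ := P.surjective v
    rw [Subgroup.coe_mul, Subgroup.coe_mul, ap_mul, ap_mul, toGam_coe, ap_inl, ap_inl, fHom_coe, trP_mulVec, hw, hw,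
      Matrix.mulVec_smul, trP_mulVec]
    congr 2
    funext i
    simp only [Function.comp_apply, Matrix.mulVec, dotProduct, map_sum, map_mul, glHom_coe, Matrix.map_apply, hσj]

/-- the similarities centralizing `Psi y` modulo scalars -/
theorem cent_iff [Fintype F] (hQ : (QuadraticMap.polarBilin Q).Nondegenerate) (hn : 7 ≤ Fintype.card ι) {y : ↥(Gam Q)}
    {r : ℕ} (hr : orderOf (y : GA ι F).right = r) (hr0 : 0 < r)
    (hj : ∀ x, (∃ c, j c = x) ↔ (y : GA ι F).right x = x) (ho : Ovr j Q₁₀ Q₁) (hne : ∃ v, Q₁₀ v ≠ 0)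
    (hd : Desc Q (y : GA ι F) Q₁ P) (g : ↥(simG Q)) :
    psi1 Q g ∈ Subgroup.centralizer {Psi Q y} ↔
      ∃ (u : Fˣ) (k : ↥(simG Q₁₀)), g = scG Q u * fHom ho hne hd.q k := by
  have : Nonempty ι := by
    rw [← Fintype.card_pos_iff]; omega
  have hne' : Nonempty ι' := by
    by_contra hcon
    rw [not_nonempty_iff] at hcon
    obtain ⟨i⟩ := this
    have h1 : (Pi.single i 1 : ι → F) = 0 := by
      rw [← P.apply_symm_apply (Pi.single i 1)]
      have : P.symm (Pi.single i 1) = 0 := by funext k; exact hcon.elim k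
      rw [this, map_zero]
    have := congrFun h1 i
    rw [Pi.single_eq_same] at this
    exact one_ne_zero this
  have hσj : ∀ c, (y : GA ι F).right (j c) = j c := fun c => (hj _).mp ⟨c, rfl⟩
  rw [mem_centralizer_singleton]
  constructor
  · intro hcomm
    rw [psi1_apply, ← map_mul, ← map_mul, Psi_eq_iff hQ hn] at hcomm
    obtain ⟨s, hs⟩ := hcomm
    obtain ⟨w, hw⟩ := hd.a
    set σ := (y : GA ι F).right with hσ
    have hσr : σ ^ r = 1 := by rw [← hr, pow_orderOf_eq_one]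
    set g' : GL ι' F := trP P.symm g.1 with hg'
    have hgg' : trP P g' = g.1 := trP_symm P g.1
    have h1 : g' = sc s * glMap σ g' := by
      apply gl_ext
      intro v
      have h2 := congrArg (fun z : ↥(Gam Q) => ap (z : GA ι F) (P (σ.symm ∘ v))) hs
      beta_reduce at h2
      rw [Subgroup.coe_mul, Subgroup.coe_mul, Subgroup.coe_mul, ap_mul, ap_mul, ap_mul, toGam_coe, toGam_coe, ap_inl,
        ap_inl, ap_inl, scG_coe, sc_mulVec, hw, Matrix.mulVec_smul, ← hgg', trP_mulVec, trP_mulVec, hw,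
        smul_comm (s : F) (w : F), ← map_smul P (s : F)] at h2
      have h3 := P.injective (smul_right_injective _ w.ne_zero h2)
      have h4 : (σ : F → F) ∘ (σ.symm ∘ v) = v := by funext i; exact σ.apply_symm_apply _
      rw [comp_mulVec', h4] at h3
      rw [Units.val_mul, ← Matrix.mulVec_mulVec, sc_mulVec, glMap_coe]
      exact h3
    have h5 : g' * (glMap σ g')⁻¹ = sc s := by rw [mul_inv_eq_iff_eq_mul]; exact h1
    have h6 := nm_mul_inv (glMap σ) g' r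
    rw [h5, ← glMap_pow, hσr, glMap_one_apply, mul_inv_cancel] at h6
    have h7 := nm_sc_mul σ s (1 : GL ι' F) r
    rw [mul_one, h6, SpFieldClass.nm_one_left, mul_one] at h7
    have h8 : nm (unitsMap σ) s r = 1 := sc_injective (ι := ι') (by rw [← h7, map_one])
    obtain ⟨u, hu⟩ := hilbert90_units hr hr0 h8
    have h9 : glMap σ (sc u⁻¹ * g') = sc u⁻¹ * g' := by
      have h10 : glMap σ g' = sc s⁻¹ * g' := by rw [map_inv, eq_inv_mul_iff_mul_eq, ← h1]
      rw [map_mul, glMap_sc, h10, ← mul_assoc, ← map_mul, hu]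
      congr 2
      rw [map_inv, _root_.mul_inv_rev, inv_inv, inv_mul_cancel_left]
    obtain ⟨k, hk⟩ := (glMap_eq_self_iff hj _).mp h9
    have h11 : trP P (glHom j k) = sc u⁻¹ * g.1 := by
      rw [hk, map_mul, trP_sc, hgg']
    have hk2 : k ∈ simG Q₁₀ := by
      rw [← glHom_mem_iff ho hne, ← trP_mem_iff hd.q, h11]
      exact (simG Q).mul_mem (scG Q u⁻¹).2 g.2
    refine ⟨u, ⟨k, hk2⟩, Subtype.ext ?_⟩
    rw [Subgroup.coe_mul, scG_coe, fHom_coe]
    change g.1 = sc u * trP P (glHom j k)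
    rw [h11, ← mul_assoc, ← map_mul, mul_inv_cancel, map_one, one_mul]
  · rintro ⟨u, k, rfl⟩
    rw [map_mul, psi1_scG, one_mul, psi1_apply, ← map_mul, ← map_mul, fHom_comm ho hne hd hσj]

/-- two homomorphisms with the same kernel have isomorphic images -/
theorem range_equiv {A X Y : Type*} [Group A] [Group X] [Group Y] (f : A →* X) (g : A →* Y)
    (h : ∀ a, f a = 1 ↔ g a = 1) : Nonempty (↥f.range ≃* ↥g.range) := by
  have h1 : f.ker = g.ker := by
    ext a; exact h a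
  exact ⟨(QuotientGroup.quotientKerEquivRange f).symm.trans
    ((QuotientGroup.quotientMulEquivOfEq h1).trans (QuotientGroup.quotientKerEquivRange g))⟩

/-- **the centralizer** -/
theorem cent_equiv [Fintype F] [Fintype F₀] (hQ : (QuadraticMap.polarBilin Q).Nondegenerate) (hn : 7 ≤ Fintype.card ι)
    (hQ₀ : (QuadraticMap.polarBilin Q₁₀).Nondegenerate) (hn' : 7 ≤ Fintype.card ι') {y : ↥(Gam Q)}
    {r : ℕ} (hr : orderOf (y : GA ι F).right = r) (hr0 : 0 < r)
    (hj : ∀ x, (∃ c, j c = x) ↔ (y : GA ι F).right x = x) (ho : Ovr j Q₁₀ Q₁) (hne : ∃ v, Q₁₀ v ≠ 0)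
    (hd : Desc Q (y : GA ι F) Q₁ P) (D : Subgroup ↥(simG Q)) (hD : ∀ u, scG Q u ∈ D) :
    Nonempty (↥(D.map (psi1 Q) ⊓ Subgroup.centralizer {Psi Q y}) ≃*
      ↥((D.comap (fHom ho hne hd.q)).map (psi1 Q₁₀))) := by
  have hne' : Nonempty ι' := by
    rw [← Fintype.card_pos_iff]; omega
  set D₀ := D.comap (fHom ho hne hd.q) with hD₀
  let f : ↥D₀ →* MulAut (Cfsg.POmega F (⇑Q)) := ((psi1 Q).comp (fHom ho hne hd.q)).comp D₀.subtype
  let g : ↥D₀ →* MulAut (Cfsg.POmega F₀ (⇑Q₁₀)) := (psi1 Q₁₀).comp D₀.subtype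
  have h1 : f.range = D.map (psi1 Q) ⊓ Subgroup.centralizer {Psi Q y} := by
    ext x
    rw [Subgroup.mem_inf]
    constructor
    · rintro ⟨k, rfl⟩
      refine ⟨⟨fHom ho hne hd.q k.1, k.2, rfl⟩, ?_⟩
      change psi1 Q (fHom ho hne hd.q k.1) ∈ _
      rw [cent_iff hQ hn hr hr0 hj ho hne hd]
      exact ⟨1, k.1, by rw [map_one, one_mul]⟩
    · rintro ⟨⟨a, ha, rfl⟩, hx⟩
      obtain ⟨u, k, rfl⟩ := (cent_iff hQ hn hr hr0 hj ho hne hd a).mp hx
      have hk : k ∈ D₀ := by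
        rw [hD₀, Subgroup.mem_comap]
        exact (Subgroup.mul_mem_cancel_left D (hD u)).mp ha
      refine ⟨⟨k, hk⟩, ?_⟩
      change psi1 Q (fHom ho hne hd.q k) = _
      rw [map_mul, psi1_scG, one_mul]
  have h2 : g.range = D₀.map (psi1 Q₁₀) := by
    ext x
    constructor
    · rintro ⟨k, rfl⟩; exact ⟨k.1, k.2, rfl⟩
    · rintro ⟨k, hk, rfl⟩; exact ⟨⟨k, hk⟩, rfl⟩
  have h3 : ∀ a, f a = 1 ↔ g a = 1 := by
    intro a
    change psi1 Q (fHom ho hne hd.q a.1) = 1 ↔ psi1 Q₁₀ a.1 = 1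
    rw [psi1_eq_one_iff hQ hn, psi1_eq_one_iff hQ₀ hn', fHom_eq_sc_iff]
  rw [← h1, ← h2]
  exact range_equiv f g h3

end cent

end H50.OrthDesc
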