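import Cfsg.Agent.Lib.H50.OrthSim

/-!
Field automorphisms of `PΩ`: general lemmas, and the odd-dimensional family.
-/

set_option autoImplicit false
set_option linter.unusedSectionVars false

namespace H50.OrthField

open Matrix H48.OutO H50.PSLBasic H50.PSLField H50.H90 H50.ClassCount H50.PSLCount H48.QuadSplit H48.QuadStd
  H50.OrthPsi H50.OrthDesc H48.OmegaPlus H50.OrthSim

/-- cosets and conjugacy -/
lemma coset_gen {X : Type*} [Group X] {G : Subgroup X} [hG : G.Normal] {x₀ α x δ : X} {r : ℕ}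
    (hα : α * x * α⁻¹ = x₀) (hxr : orderOf x = r) (hδ : δ ∈ G)
    (H : ∀ δ ∈ G, (δ * x₀) ^ r = 1 → ∃ h ∈ G, δ * x₀ = h * x₀ * h⁻¹) :
    orderOf (δ * x) = r ↔ Cfsg.IsConjUnder G x (δ * x) := by
  constructor
  swap
  · rintro ⟨h, -, h1⟩
    rw [h1, orderOf_conj, hxr]
  intro hord
  have h1 : α * δ * α⁻¹ * x₀ = α * (δ * x) * α⁻¹ := by rw [← hα]; group
  rw [← isConjUnder_conj α, ← h1, hα]
  exact H _ (hG.conj_mem δ hδ α) (by rw [h1, ← hord, ← orderOf_conj α (δ * x), pow_orderOf_eq_one])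

variable {F : Type*} [Field F] {ι : Type} [Fintype ι] [DecidableEq ι] {Q : QuadraticForm F (ι → F)}

/-- a linear equivalence as a matrix -/
noncomputable def eG (P : (ι → F) ≃ₗ[F] (ι → F)) : GL ι F :=
  ⟨LinearMap.toMatrix' (P : (ι → F) →ₗ[F] (ι → F)), LinearMap.toMatrix' (P.symm : (ι → F) →ₗ[F] (ι → F)), by
    rw [← LinearMap.toMatrix'_comp]
    have : (P : (ι → F) →ₗ[F] (ι → F)) ∘ₗ (P.symm : (ι → F) →ₗ[F] (ι → F)) = LinearMap.id := by ext1; simp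
    rw [this, LinearMap.toMatrix'_id], by
    rw [← LinearMap.toMatrix'_comp]
    have : (P.symm : (ι → F) →ₗ[F] (ι → F)) ∘ₗ (P : (ι → F) →ₗ[F] (ι → F)) = LinearMap.id := by ext1; simp
    rw [this, LinearMap.toMatrix'_id]⟩

lemma eG_mulVec (P : (ι → F) ≃ₗ[F] (ι → F)) (v : ι → F) : ((eG P : GL ι F) : Matrix ι ι F) *ᵥ v = P v := by
  change LinearMap.toMatrix' (P : (ι → F) →ₗ[F] (ι → F)) *ᵥ v = P v
  rw [LinearMap.toMatrix'_mulVec]
  rfl

/-- descent data give conjugacy to the standard element -/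
lemma conj_of_desc {y z : ↥(Gam Q)} (hyz : (y : GA ι F).right = (z : GA ι F).right)
    {P : (ι → F) ≃ₗ[F] (ι → F)} (hq : ∃ ν : Fˣ, ∀ v, Q (P v) = (ν : F) * Q v)
    (ha : ∃ w : Fˣ, ∀ v, ap (y : GA ι F) (P v) = (w : F) • P (ap (z : GA ι F) v)) :
    ∃ t : ↥(simG Q), (∀ v, ((t : GL ι F) : Matrix ι ι F) *ᵥ v = P v) ∧
      Psi Q y = psi1 Q t * Psi Q z * (psi1 Q t)⁻¹ := by
  obtain ⟨w, hw⟩ := ha
  obtain ⟨ν, hν⟩ := hq
  have ht : eG P ∈ simG Q := ⟨ν, fun v => by rw [eG_mulVec]; exact hν v⟩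
  refine ⟨⟨eG P, ht⟩, fun v => eG_mulVec P v, ?_⟩
  rw [eq_mul_inv_iff_mul_eq]
  have h1 : y * toGam Q ⟨eG P, ht⟩ = toGam Q (scG Q w) * (toGam Q ⟨eG P, ht⟩ * z) := by
    apply Subtype.ext
    apply ext_ap
    · rw [Subgroup.coe_mul, Subgroup.coe_mul, Subgroup.coe_mul, SemidirectProduct.mul_right, SemidirectProduct.mul_right,
        SemidirectProduct.mul_right, toGam_coe, toGam_coe, SemidirectProduct.right_inl, SemidirectProduct.right_inl,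
        mul_one, one_mul, one_mul, hyz]
    · intro v
      rw [Subgroup.coe_mul, Subgroup.coe_mul, Subgroup.coe_mul, ap_mul, ap_mul, ap_mul, toGam_coe, toGam_coe, ap_inl,
        ap_inl, ap_inl, eG_mulVec, eG_mulVec, hw, scG_coe, sc_mulVec]
  have h2 := congrArg (Psi Q) h1
  rw [map_mul, map_mul, map_mul] at h2
  have h3 : Psi Q (toGam Q (scG Q w)) = 1 := psi1_scG w
  rw [h3, one_mul] at h2
  exact h2

lemma range_psi1 (Q : QuadraticForm F (ι → F)) : Cfsg.pgoAut F (⇑Q) = (psi1 Q).range := by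
  rw [Cfsg.pgoAut, Cfsg.autSubgroupOf]
  have h1 : {β : MulAut (Cfsg.POmega F (⇑Q)) | Cfsg.IsSimilarityInducedAutPOmega (⇑Q) β} =
      ((psi1 Q).range : Set (MulAut (Cfsg.POmega F (⇑Q)))) := by
    ext β
    constructor
    · rintro ⟨g, h1, h2⟩
      exact ⟨⟨g, h1⟩, ((isInduced_iff ⟨g, h1⟩ β).mp h2).symm⟩
    · rintro ⟨g, rfl⟩
      exact ⟨g.1, g.2, (isInduced_iff g _).mpr rfl⟩
  exact (congrArg Subgroup.closure h1).trans (Subgroup.closure_eq _)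

/-! ### the odd-dimensional family -/

section odd

lemma ovr_qOdd {F₀ : Type*} [Field F₀] (j : F₀ →+* F) (m : ℕ) : Ovr j (qOdd m F₀ 1) (qOdd m F 1) := by
  intro v
  rw [qOdd_apply, qOdd_apply, map_add, map_mul, map_one, map_pow, map_sum]
  simp only [map_mul]
  rfl

lemma fix_qOdd (m : ℕ) (σ : F ≃+* F) : FixAt (qOdd m F 1) σ :=
  Ovr.fix (ovr_qOdd (RingHom.id F |>.comp (⊥ : Subfield F).subtype) m) (σ := σ) (by
    intro c
    have h1 : (⊥ : Subfield F) ≤ (σ : F →+* F).eqLocusField (RingHom.id F) := bot_le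
    exact h1 c.2)

lemma smul_qOdd (m : ℕ) (h2 : (2 : F) ≠ 0) {c : F} (hc : c ≠ 0) : (c • qOdd m F 1).Equivalent (qOdd m F c) := by
  refine equivalent_of_map (H48.QuadSim.nd_smul (nd_qOdd m h2 one_ne_zero) hc) rfl
    (LinearMap.pi (Sum.elim (fun i => LinearMap.proj (Sum.inl i)) (Sum.elim (fun i => c • LinearMap.proj (Sum.inr (Sum.inl i)))
      (fun i => LinearMap.proj (Sum.inr (Sum.inr i)))))) (fun v => ?_)
  rw [_root_.smul_apply, qOdd_apply, qOdd_apply, smul_eq_mul, mul_add, Finset.mul_sum]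
  congr 1
  · simp
  · refine Finset.sum_congr rfl fun i _ => ?_
    simp [mul_assoc]

lemma card_odd {m : ℕ} (hm : 3 ≤ m) : 7 ≤ Fintype.card (Unit ⊕ (Fin m ⊕ Fin m)) := by
  rw [Fintype.card_sum, Fintype.card_sum, Fintype.card_fin, Fintype.card_unit]; omega

lemma card_odd' (m : ℕ) : Odd (Fintype.card (Unit ⊕ (Fin m ⊕ Fin m))) := by
  rw [Fintype.card_sum, Fintype.card_sum, Fintype.card_fin, Fintype.card_unit]; exact ⟨m, by omega⟩

variable [Fintype F]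

lemma nd_odd' (h2 : (2 : F) ≠ 0) (m : ℕ) : (QuadraticMap.polarBilin (qOdd m F 1)).Nondegenerate :=
  nd_iff.mp (nd_qOdd m h2 one_ne_zero)

lemma aut_odd (hodd : Odd (Fintype.card F)) {m : ℕ} (hm : 3 ≤ m) (α : MulAut (Cfsg.POmega F (⇑(qOdd m F 1)))) :
    ∃ y : ↥(Gam (qOdd m F 1)), α = Psi (qOdd m F 1) y := by
  have h1 := OrthFam.pair_odd hodd hm
  rw [← coe_qOdd] at h1
  obtain ⟨g, σ, h2, h3⟩ := h1 α
  exact ⟨⟨⟨g, σ⟩, mem_Gam_iff.mpr h2⟩, (induced_iff ⟨⟨g, σ⟩, mem_Gam_iff.mpr h2⟩ α).mp h3⟩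

lemma finite_fixed (σ : F ≃+* F) : Finite (H49.FixedField.fixedField σ) := inferInstance

/-- elements of order `r` in the coset of a standard field automorphism -/
theorem odd_coset (h2 : (2 : F) ≠ 0) {m : ℕ} (hm : 3 ≤ m) {σ : F ≃+* F} {r : ℕ} (hσ : orderOf σ = r) (hr0 : 0 < r)
    (y : ↥(Gam (qOdd m F 1))) (hy : (y : GA (Unit ⊕ (Fin m ⊕ Fin m)) F).right = σ) (hyr : (Psi _ y) ^ r = 1) :
    ∃ t : ↥(simG (qOdd m F 1)), Psi _ y = psi1 _ t * Psi _ (std (fix_qOdd m σ)) * (psi1 _ t)⁻¹ := by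
  have hQ := nd_odd' h2 m
  let j : H49.FixedField.fixedField σ →+* F := (H49.FixedField.fixedField σ).subtype
  have hj : ∀ x, (∃ c, j c = x) ↔ σ x = x := fun x => ⟨by rintro ⟨c, rfl⟩; exact c.2, fun h => ⟨⟨x, h⟩, rfl⟩⟩
  obtain ⟨Q₀, hQ₀, H⟩ := exists_desc hQ (card_odd hm) y (by rw [hy]; exact hσ) hr0 hyr (j := j) (by rw [hy]; exact hj)
  obtain ⟨h20, c, hc, hcl⟩ := classify_odd m _ Q₀ hQ₀ (by
    rw [Module.finrank_fintype_fun_eq_card, Fintype.card_sum, Fintype.card_sum, Fintype.card_fin, Fintype.card_unit]; omega)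
  obtain ⟨P, hP⟩ := H (c • qOdd m _ 1) (j c • qOdd m F 1) ((ovr_qOdd j m).smul c) ((smul_qOdd m h20 hc).trans hcl.symm)
  obtain ⟨ν, hν⟩ := hP.q
  obtain ⟨t, -, ht⟩ := conj_of_desc (Q := qOdd m F 1) (y := y) (z := std (fix_qOdd m σ)) hy
    (P := P) ⟨ν * Units.mk0 (j c) ((map_ne_zero j).mpr hc), fun v => by
      rw [hν, Units.val_mul, Units.val_mk0, mul_assoc]; rfl⟩
    (by
      obtain ⟨w, hw⟩ := hP.a
      refine ⟨w, fun v => ?_⟩
      rw [hw, std_ap, hy])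
  exact ⟨t, ht⟩

theorem field_class_std {Q : QuadraticForm F (ι → F)} (hfix : ∀ σ : F ≃+* F, FixAt Q σ)
    (hQ : (QuadraticMap.polarBilin Q).Nondegenerate) (hn : 7 ≤ Fintype.card ι)
    {x : MulAut (Cfsg.POmega F (⇑Q))} (hx : Cfsg.IsFieldAutClassPOmega (⇑Q) x) :
    ∃ (α : MulAut (Cfsg.POmega F (⇑Q))) (σ : F ≃+* F), σ ≠ 1 ∧ α * x * α⁻¹ = Psi Q (std (hfix σ)) ∧
      orderOf σ = orderOf x := by
  obtain ⟨α, φ, σ, h1, h2, h3⟩ := hx
  have h4 := (isField_iff (hfix σ) φ).mp h2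
  refine ⟨α, σ, h1, h3.trans h4, ?_⟩
  rw [← orderOf_conj α x, h3, h4, orderOf_std hQ hn]

theorem s2735 (hodd : Odd (Fintype.card F)) {m : ℕ} (hm : 3 ≤ m) :
    ∀ (x δ : MulAut (Cfsg.POmega F (⇑(qOdd m F 1)))) (_ : Cfsg.IsFieldAutClassPOmega (⇑(qOdd m F 1)) x) {r : ℕ}
      (_ : r.Prime) (_ : orderOf x = r) (_ : δ ∈ Cfsg.pgoAut F (⇑(qOdd m F 1))),
      orderOf (δ * x) = r ↔ Cfsg.IsConjUnder (Cfsg.pgoAut F (⇑(qOdd m F 1))) x (δ * x) := by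
  have h2 : (2 : F) ≠ 0 := H7.OmegaIso.two_ne_zero_of_odd hodd
  have hQ := nd_odd' h2 m
  intro x δ hx r hr hxr hδ
  obtain ⟨α, σ, -, hα, hσ⟩ := field_class_std (fix_qOdd m) hQ (card_odd hm) hx
  rw [hxr] at hσ
  rw [range_psi1] at hδ ⊢
  have hN : ((psi1 (qOdd m F 1)).range).Normal := range_normal (aut_odd hodd hm)
  apply coset_gen hα hxr hδ
  rintro _ ⟨g, rfl⟩ hg
  rw [psi1_apply, ← map_mul] at hg ⊢
  obtain ⟨t, ht⟩ := odd_coset h2 hm hσ hr.pos (toGam _ g * std (fix_qOdd m σ)) (by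
    rw [Subgroup.coe_mul, SemidirectProduct.mul_right, toGam_coe, SemidirectProduct.right_inl, one_mul]; rfl) hg
  exact ⟨psi1 _ t, ⟨t, rfl⟩, ht⟩

end odd

end H50.OrthField
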