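import Cfsg.Agent.Lib.H50.OrthMinusK

/-!
The inner-diagonal groups of the even-dimensional orthogonal groups.
-/

set_option autoImplicit false
set_option linter.unusedSectionVars false

namespace H50.OrthInn

open Matrix H48.OutO H50.PSLBasic H50.PSLField H50.H90 H50.ClassCount H50.PSLCount H48.QuadSplit H48.QuadStd
  H50.OrthPsi H50.OrthDesc H48.OmegaPlus H50.OrthSim H18.MaxSing H50.OrthPar H50.OrthProper H50.OrthMinusK H50.OrthField

section general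

variable {F : Type*} [Field F] {ι : Type} [Fintype ι] [DecidableEq ι]

/-- automorphisms induced by similarities with a property -/
def inndF (Q : (ι → F) → F) (PS : Matrix ι ι F → Prop) : Subgroup (MulAut (Cfsg.POmega F Q)) :=
  Cfsg.autSubgroupOf fun β => ∃ g : GL ι F, g ∈ Cfsg.Geo.quadSimilarityGroup (F := F) Q ∧
    PS (g : Matrix ι ι F) ∧ Cfsg.IsInducedBySemilinearPOmega Q g (RingEquiv.refl F) β

lemma inndF_iff {Q : QuadraticForm F (ι → F)} {PS : Matrix ι ι F → Prop} {D : Subgroup ↥(simG Q)}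
    (h : ∀ g : ↥(simG Q), PS ((g : GL ι F) : Matrix ι ι F) ↔ g ∈ D) (β : MulAut (Cfsg.POmega F (⇑Q))) :
    (∃ g : GL ι F, g ∈ Cfsg.Geo.quadSimilarityGroup (F := F) (⇑Q) ∧
      PS (g : Matrix ι ι F) ∧ Cfsg.IsInducedBySemilinearPOmega (⇑Q) g (RingEquiv.refl F) β) ↔ β ∈ D.map (psi1 Q) := by
  constructor
  · rintro ⟨g, h1, h2, h3⟩
    exact ⟨⟨g, h1⟩, (h _).mp h2, ((isInduced_iff ⟨g, h1⟩ β).mp h3).symm⟩
  · rintro ⟨g, hg, rfl⟩
    exact ⟨g.1, g.2, (h _).mpr hg, (isInduced_iff g _).mpr rfl⟩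

theorem inndF_eq {Q : QuadraticForm F (ι → F)} {PS : Matrix ι ι F → Prop} {D : Subgroup ↥(simG Q)}
    (h : ∀ g : ↥(simG Q), PS ((g : GL ι F) : Matrix ι ι F) ↔ g ∈ D) : inndF (⇑Q) PS = D.map (psi1 Q) := by
  have h1 : {β : MulAut (Cfsg.POmega F (⇑Q)) | ∃ g : GL ι F, g ∈ Cfsg.Geo.quadSimilarityGroup (F := F) (⇑Q) ∧
      PS (g : Matrix ι ι F) ∧ Cfsg.IsInducedBySemilinearPOmega (⇑Q) g (RingEquiv.refl F) β} =
      ((D.map (psi1 Q) : Subgroup (MulAut (Cfsg.POmega F (⇑Q)))) : Set (MulAut (Cfsg.POmega F (⇑Q)))) := by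
    ext β
    exact inndF_iff h β
  exact (congrArg Subgroup.closure h1).trans (Subgroup.closure_eq _)

end general

section plus

variable {F : Type*} [Field F] [Fintype F] {m : ℕ}

theorem presPlus_iff (hm : 4 ≤ m) (g : ↥(simG (qPlus m F))) :
    Cfsg.PreservesSingularClasses (⇑(qPlus m F)) ((g : GL (Fin m ⊕ Fin m) F) : Matrix (Fin m ⊕ Fin m) (Fin m ⊕ Fin m) F) ↔
      g ∈ DP (qPlus m F) m := by
  rw [preserves_iff (nd_qPlus m) (card_plus m) (ts_EP m) (finrank_EP m), ← par_iff hm]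
  rfl

theorem inndP_eq (hm : 4 ≤ m) : inndF (⇑(qPlus m F)) (Cfsg.PreservesSingularClasses (⇑(qPlus m F))) =
    (DP (qPlus m F) m).map (psi1 (qPlus m F)) :=
  inndF_eq (presPlus_iff hm)

end plus

section minus

universe u

variable {F : Type u} [Field F] [Fintype F] {m : ℕ} {a b : F}

lemma card_minus' (m : ℕ) : Fintype.card ((Fin m ⊕ Fin m) ⊕ Fin 2) = 2 * (m + 1) := by
  rw [Fintype.card_sum, Fintype.card_sum, Fintype.card_fin, Fintype.card_fin]; ring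

lemma card_minus_ge (hm : 3 ≤ m) : 7 ≤ Fintype.card ((Fin m ⊕ Fin m) ⊕ Fin 2) := by
  rw [card_minus']; omega

lemma nd_minus (hab : ∀ z₁ z₂ : F, z₁ ^ 2 + a * z₁ * z₂ + b * z₂ ^ 2 = 0 → z₁ = 0 ∧ z₂ = 0) :
    ND (qMinus m F a b) := nd_qMinus m (disc_ne_zero hab)

omit [Fintype F] in
lemma hne_minus (m : ℕ) (a b : F) : ∃ v, qMinus m F a b v ≠ 0 := by
  refine ⟨Sum.elim 0 ![1, 0], ?_⟩
  rw [qMinus_apply]
  simp

lemma presMinus_aux (hm : 3 ≤ m) (hab : ∀ z₁ z₂ : F, z₁ ^ 2 + a * z₁ * z₂ + b * z₂ ^ 2 = 0 → z₁ = 0 ∧ z₂ = 0)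
    {K : Type*} [Field K] [Fintype K] (j : F →+* K) (hc : Fintype.card K = Fintype.card F ^ 2)
    (g : ↥(simG (qMinus m F a b))) :
    Cfsg.PreservesSingularClasses (⇑(qMinus m K (j a) (j b)))
      (((g : GL ((Fin m ⊕ Fin m) ⊕ Fin 2) F) : Matrix ((Fin m ⊕ Fin m) ⊕ Fin 2) ((Fin m ⊕ Fin m) ⊕ Fin 2) F).map j) ↔
      g ∈ DP (qMinus m F a b) (m + 1) := by
  obtain ⟨l, hl⟩ := exists_root j hc a b
  have hd : 4 * j b - j a ^ 2 ≠ 0 := by
    have h1 := disc_ne_zero hab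
    intro h2
    apply h1
    apply j.injective
    rw [map_sub, map_mul, map_pow, map_zero, map_ofNat, h2]
  have hQ : ND (qMinus m K (j a) (j b)) := nd_qMinus m hd
  have heq := plus_of_root m hd hl
  have ho := ovr_qMinus j m a b
  have hne := hne_minus m a b
  have hq : ∃ ν : Kˣ, ∀ v, qMinus m K (j a) (j b) ((LinearEquiv.refl K _ : (((Fin m ⊕ Fin m) ⊕ Fin 2) → K) ≃ₗ[K] _) v) =
      (ν : K) * qMinus m K (j a) (j b) v := ⟨1, fun v => by rw [Units.val_one, one_mul]; rfl⟩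
  have h1 : (((fHom ho hne hq g : ↥(simG (qMinus m K (j a) (j b)))) : GL ((Fin m ⊕ Fin m) ⊕ Fin 2) K) :
      Matrix ((Fin m ⊕ Fin m) ⊕ Fin 2) ((Fin m ⊕ Fin m) ⊕ Fin 2) K) =
      (((g : GL ((Fin m ⊕ Fin m) ⊕ Fin 2) F) : Matrix ((Fin m ⊕ Fin m) ⊕ Fin 2) ((Fin m ⊕ Fin m) ⊕ Fin 2) F).map j) := by
    rw [fHom_coe]
    apply Matrix.toLin'.injective
    apply LinearMap.ext
    intro v
    rw [Matrix.toLin'_apply, Matrix.toLin'_apply, ← glHom_coe]
    exact trP_mulVec (LinearEquiv.refl K _) (glHom j g.1) v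
  rw [← h1, preserves_iff hQ (card_minus' m) (ts_EM m hl) (finrank_EM m l),
    parG_iff_DP hQ (card_minus' m) (ts_EM m hl) (finrank_EM m l) (by omega) heq,
    ← DP_fHom (n := m + 1) (nd_iff.mp hQ) (card_minus_ge hm) (nd_iff.mp (nd_minus hab)) (card_minus_ge hm)
      (hne_minus m (j a) (j b)) ho hne hq, Subgroup.mem_comap]

theorem presMinus_iff (hm : 3 ≤ m) (hab : ∀ z₁ z₂ : F, z₁ ^ 2 + a * z₁ * z₂ + b * z₂ ^ 2 = 0 → z₁ = 0 ∧ z₂ = 0)
    (g : ↥(simG (qMinus m F a b))) :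
    Cfsg.PreservesSingularClassesMinus m a b
      ((g : GL ((Fin m ⊕ Fin m) ⊕ Fin 2) F) : Matrix ((Fin m ⊕ Fin m) ⊕ Fin 2) ((Fin m ⊕ Fin m) ⊕ Fin 2) F) ↔
      g ∈ DP (qMinus m F a b) (m + 1) := by
  constructor
  · rintro ⟨K, hK, hAlg, hfr, hp⟩
    have hfin : Module.Finite F K := Module.finite_of_finrank_pos (by rw [hfr]; norm_num)
    have : Finite K := Module.finite_of_finite F
    letI : Fintype K := Fintype.ofFinite K
    have hc : Fintype.card K = Fintype.card F ^ 2 := by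
      rw [Module.card_eq_pow_finrank (K := F), hfr]
    rw [← presMinus_aux hm hab (algebraMap F K) hc, coe_qMinus]
    exact hp
  · intro hg
    haveI := H7.AnisoPlane.Aniso.fact hab
    letI : Fintype (H7.AnisoPlane.K a b) := Fintype.ofFinite _
    refine ⟨H7.AnisoPlane.K a b, inferInstance, inferInstance, QuadraticAlgebra.finrank_eq_two _ _, ?_⟩
    have h1 := (presMinus_aux hm hab (algebraMap F (H7.AnisoPlane.K a b)) H7.AnisoPlane.card_K g).mpr hg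
    rw [coe_qMinus] at h1
    exact h1

theorem inndM_eq (hm : 3 ≤ m) (hab : ∀ z₁ z₂ : F, z₁ ^ 2 + a * z₁ * z₂ + b * z₂ ^ 2 = 0 → z₁ = 0 ∧ z₂ = 0) :
    inndF (⇑(qMinus m F a b)) (Cfsg.PreservesSingularClassesMinus m a b) =
    (DP (qMinus m F a b) (m + 1)).map (psi1 (qMinus m F a b)) :=
  inndF_eq (presMinus_iff hm hab)

end minus

end H50.OrthInn
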