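import Cfsg.Agent.Lib.H50.OrthProper
import Cfsg.Agent.Lib.H7.AnisoPlane

/-!
Minus forms over quadratic extensions; `PreservesSingularClassesMinus`.
-/

set_option autoImplicit false
set_option linter.unusedSectionVars false

namespace H50.OrthMinusK

open Matrix H48.OutO H50.PSLBasic H50.PSLField H50.H90 H50.ClassCount H50.PSLCount H48.QuadSplit H48.QuadStd
  H50.OrthPsi H50.OrthDesc H48.OmegaPlus H50.OrthSim H18.MaxSing H50.OrthPar H50.OrthProper

/-! ### the binary form with a root -/

section root

variable {F : Type*} [Field F]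

lemma qBin_hyp {a b l : F} (hd : 4 * b - a ^ 2 ≠ 0) (hl : l ^ 2 + a * l + b = 0) : (qBin a b).Equivalent (hyp F) := by
  have hv : ((l, 1) : F × F) ≠ 0 := by
    intro h
    exact one_ne_zero (congrArg Prod.snd h)
  have hv0 : qBin a b (l, 1) = 0 := by
    rw [qBin_apply]
    linear_combination hl
  obtain ⟨U, hU1, hU2, hU3⟩ := hyp_split (nd_qBin hd) hv hv0
  have hU0 : Module.finrank F U = 0 := by
    rw [Module.finrank_prod, Module.finrank_self] at hU2
    omega
  have hs : Subsingleton U := Module.finrank_zero_iff.1 hU0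
  have hnd : ND (QuadraticMap.prod (hyp F) ((qBin a b).restrict U)) := by
    intro x hx
    have h1 : x.2 = 0 := Subsingleton.elim _ _
    have h2 : x.1 = 0 := by
      apply nd_hyp
      intro y
      have h3 := hx (y, 0)
      rw [QuadraticMap.polar_prod, QuadraticMap.polar_zero_right, add_zero] at h3
      exact h3
    exact Prod.ext h2 h1
  refine hU3.trans (equivalent_of_map hnd ?_ (LinearMap.fst F (F × F) U) ?_)
  · rw [Module.finrank_prod, hU0, add_zero]
  · intro v
    rw [QuadraticMap.prod_apply]
    have h1 : v.2 = 0 := Subsingleton.elim _ _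
    rw [h1, QuadraticMap.map_zero, add_zero]
    rfl

/-- a minus-type expression with a root is of plus type -/
lemma plus_of_root (m : ℕ) {a b l : F} (hd : 4 * b - a ^ 2 ≠ 0) (hl : l ^ 2 + a * l + b = 0) :
    (qPlus (m + 1) F).Equivalent (qMinus m F a b) :=
  ((qPlus_succ m).trans ((prod_comm_equiv _ _).trans ((QuadraticMap.Equivalent.prod (QuadraticMap.Equivalent.refl _) (qBin_hyp hd hl)).symm))).trans
    (qMinus_equiv m a b).symm

/-- a maximal totally singular subspace -/
def EM (m : ℕ) (l : F) : Submodule F ((Fin m ⊕ Fin m) ⊕ Fin 2 → F) where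
  carrier := {v | (∀ i, v (Sum.inl (Sum.inr i)) = 0) ∧ v (Sum.inr 0) = l * v (Sum.inr 1)}
  zero_mem' := ⟨fun _ => rfl, by simp⟩
  add_mem' := by
    rintro v w ⟨h1, h2⟩ ⟨h3, h4⟩
    exact ⟨fun i => by rw [Pi.add_apply, h1, h3, add_zero], by rw [Pi.add_apply, Pi.add_apply, h2, h4, mul_add]⟩
  smul_mem' := by
    rintro c v ⟨h1, h2⟩
    exact ⟨fun i => by rw [Pi.smul_apply, h1, smul_zero], by
      rw [Pi.smul_apply, Pi.smul_apply, h2, smul_eq_mul, smul_eq_mul]; ring⟩

lemma mem_EM {m : ℕ} {l : F} {v : (Fin m ⊕ Fin m) ⊕ Fin 2 → F} :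
    v ∈ EM m l ↔ (∀ i, v (Sum.inl (Sum.inr i)) = 0) ∧ v (Sum.inr 0) = l * v (Sum.inr 1) := Iff.rfl

lemma ts_EM (m : ℕ) {a b l : F} (hl : l ^ 2 + a * l + b = 0) : TS (qMinus m F a b) (EM m l) := by
  rintro v ⟨h1, h2⟩
  rw [qMinus_apply, Finset.sum_eq_zero (fun i _ => by rw [h1, mul_zero]), h2]
  linear_combination (v (Sum.inr 1)) ^ 2 * hl

lemma finrank_EM (m : ℕ) (l : F) : Module.finrank F (EM m l) = m + 1 := by
  let e : ((Fin m → F) × F) ≃ₗ[F] EM m l :=
    { toFun := fun v => ⟨Sum.elim (Sum.elim v.1 0) ![l * v.2, v.2], fun _ => rfl, rfl⟩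
      map_add' := fun v w => by
        apply Subtype.ext; funext i; rcases i with (i | i) | i
        · rfl
        · change (0 : F) = 0 + 0; rw [add_zero]
        · fin_cases i
          · change l * (v.2 + w.2) = l * v.2 + l * w.2; ring
          · rfl
      map_smul' := fun c v => by
        apply Subtype.ext; funext i; rcases i with (i | i) | i
        · rfl
        · change (0 : F) = c * 0; rw [mul_zero]
        · fin_cases i
          · change l * (c * v.2) = c * (l * v.2); ring
          · rfl
      invFun := fun v => (fun i => v.1 (Sum.inl (Sum.inl i)), v.1 (Sum.inr 1))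
      left_inv := fun v => rfl
      right_inv := fun v => by
        apply Subtype.ext; funext i; rcases i with (i | i) | i
        · rfl
        · exact (v.2.1 i).symm
        · fin_cases i
          · exact v.2.2.symm
          · rfl }
  rw [← e.finrank_eq, Module.finrank_prod, Module.finrank_fintype_fun_eq_card, Fintype.card_fin, Module.finrank_self]

/-- two such subspaces meet in codimension one -/
lemma finrank_EM_inf (m : ℕ) {l l' : F} (hne : l ≠ l') : Module.finrank F ↥(EM m l ⊓ EM m l') = m := by
  let e : (Fin m → F) ≃ₗ[F] ↥(EM m l ⊓ EM m l') :=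
    { toFun := fun v => ⟨Sum.elim (Sum.elim v 0) ![0, 0], ⟨fun _ => rfl, by simp⟩, ⟨fun _ => rfl, by simp⟩⟩
      map_add' := fun v w => by
        apply Subtype.ext; funext i; rcases i with (i | i) | i
        · rfl
        · change (0 : F) = 0 + 0; rw [add_zero]
        · fin_cases i
          · change (0 : F) = 0 + 0; rw [add_zero]
          · change (0 : F) = 0 + 0; rw [add_zero]
      map_smul' := fun c v => by
        apply Subtype.ext; funext i; rcases i with (i | i) | i
        · rfl
        · change (0 : F) = c * 0; rw [mul_zero]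
        · fin_cases i
          · change (0 : F) = c * 0; rw [mul_zero]
          · change (0 : F) = c * 0; rw [mul_zero]
      invFun := fun v => (fun i => v.1 (Sum.inl (Sum.inl i)))
      left_inv := fun v => rfl
      right_inv := fun v => by
        have h1 := v.2.1.2
        have h2 := v.2.2.2
        have h3 : v.1 (Sum.inr 1) = 0 := by
          rw [h1] at h2
          have h4 : (l - l') * v.1 (Sum.inr 1) = 0 := by linear_combination h2
          exact (mul_eq_zero.mp h4).resolve_left (sub_ne_zero.mpr hne)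
        apply Subtype.ext; funext i; rcases i with (i | i) | i
        · rfl
        · exact (v.2.1.1 i).symm
        · fin_cases i
          · change (0 : F) = v.1 (Sum.inr 0)
            rw [h1, h3, mul_zero]
          · exact h3.symm }
  rw [← e.finrank_eq, Module.finrank_fintype_fun_eq_card, Fintype.card_fin]

end root

section plusType

variable {F : Type*} [Field F] [Fintype F] {ι : Type} [Fintype ι] [DecidableEq ι] {Q : QuadraticForm F (ι → F)} {n : ℕ}

/-- parity and proper similarities for a form of plus type -/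
theorem parG_iff_DP (hQ : ND Q) (hn : Fintype.card ι = 2 * n) {E : Submodule F (ι → F)} (hE : TS Q E)
    (hEn : Module.finrank F E = n) (hn4 : 4 ≤ n) (heq : (qPlus n F).Equivalent Q) (g : ↥(simG Q)) :
    parG hQ hn E hE hEn (toGam Q g) = 1 ↔ g ∈ DP Q n := by
  obtain ⟨e⟩ := heq
  let P : (Fin n ⊕ Fin n → F) ≃ₗ[F] (ι → F) := e.toLinearEquiv
  have hq : ∃ ν : Fˣ, ∀ v, Q (P v) = (ν : F) * qPlus n F v := ⟨1, fun v => by
    rw [Units.val_one, one_mul]; exact e.map_app v⟩
  have ho : Ovr (RingHom.id F) (qPlus n F) (qPlus n F) := fun v => rfl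
  have hne := hne_plus (F := F) hn4
  have hneQ : ∃ v, Q v ≠ 0 := by
    obtain ⟨v, hv⟩ := hne
    obtain ⟨ν, hν⟩ := hq
    exact ⟨P v, by rw [hν]; exact mul_ne_zero ν.ne_zero hv⟩
  have hid : ∀ k : GL (Fin n ⊕ Fin n) F, glHom (RingHom.id F) k = k := by
    intro k
    apply Units.ext
    rw [glHom_coe]
    ext a b
    rfl
  have h1 : trP P.symm g.1 ∈ simG (qPlus n F) := by
    rw [← trP_mem_iff (Q := Q) (P := P) hq, trP_symm]
    exact g.2
  have h2 : fHom ho hne hq ⟨_, h1⟩ = g := by
    apply Subtype.ext
    rw [fHom_coe, hid, trP_symm]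
  have hcomap := DP_fHom (n := n) (nd_iff.mp hQ) (by omega) (nd_iff.mp (nd_qPlus n)) (card_ge hn4) hneQ ho hne hq
  have h3 : g ∈ DP Q n ↔ (⟨_, h1⟩ : ↥(simG (qPlus n F))) ∈ DP (qPlus n F) n := by
    rw [← hcomap, Subgroup.mem_comap, h2]
  rw [h3, ← par_iff hn4]
  have h4 := parG_transport hQ hn hE hEn (nd_qPlus n) (card_plus n) (ts_EP n) (finrank_EP n) hq (toGam Q g)
    (toGam _ ⟨_, h1⟩) ⟨1, fun v => by
      rw [toGam_coe, toGam_coe, ap_inl, ap_inl, Units.val_one, one_smul]
      have h5 := trP_mulVec P (trP P.symm g.1) v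
      rw [trP_symm] at h5
      exact h5⟩
  rw [h4]
  rfl

end plusType

/-! ### `PreservesSingularClassesMinus` -/

section minus

universe u

variable {F : Type u} [Field F] [Fintype F] {m : ℕ} {a b : F}

lemma ovr_qMinus {F₀ : Type*} [Field F₀] {F : Type*} [Field F] (j : F₀ →+* F) (m : ℕ) (a b : F₀) :
    Ovr j (qMinus m F₀ a b) (qMinus m F (j a) (j b)) := by
  intro v
  rw [qMinus_apply, qMinus_apply, map_add, map_add, map_add, map_mul j (a * _), map_mul j (b), map_mul j a, map_pow,
    map_pow, map_sum]
  simp only [map_mul]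
  rfl

/-- a quadratic polynomial over `F` has a root in a quadratic extension -/
lemma exists_root {K : Type*} [Field K] [Fintype K] {F : Type*} [Field F] [Fintype F] (j : F →+* K)
    (hc : Fintype.card K = Fintype.card F ^ 2) (a b : F) : ∃ l : K, l ^ 2 + j a * l + j b = 0 := by
  letI : Algebra F K := j.toAlgebra
  have halg : (algebraMap F K) = j := rfl
  let f : Polynomial F := Polynomial.X ^ 2 + Polynomial.C a * Polynomial.X + Polynomial.C b
  have hdeg : f.natDegree = 2 := by
    dsimp only [f]
    compute_degree!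
  by_cases hroot : ∃ t : F, t ^ 2 + a * t + b = 0
  · obtain ⟨t, ht⟩ := hroot
    refine ⟨j t, ?_⟩
    rw [← map_pow, ← map_mul, ← map_add, ← map_add, ht, map_zero]
  · push Not at hroot
    have hirr : Irreducible f := by
      apply Polynomial.irreducible_of_degree_le_three_of_not_isRoot
      · rw [hdeg]; decide
      · intro t ht
        apply hroot t
        have h1 : Polynomial.eval t f = 0 := ht
        simpa [f] using h1
    have hdvd : f ∣ Polynomial.X ^ (Nat.card F) ^ 2 - Polynomial.X :=
      hirr.natDegree_dvd_iff_dvd_X_pow_card_pow_sub_X.mp (by rw [hdeg])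
    rw [Nat.card_eq_fintype_card, ← hc] at hdvd
    have hsp := (FiniteField.isSplittingField_sub K F).splits
    have hf : (f.map (algebraMap F K)).Splits :=
      hsp.of_dvd (Polynomial.map_ne_zero (FiniteField.X_pow_card_sub_X_ne_zero F Fintype.one_lt_card))
        (Polynomial.map_dvd _ hdvd)
    obtain ⟨l, hl⟩ := hf.exists_eval_eq_zero (by
      rw [Polynomial.degree_map]
      intro h0
      have := Polynomial.natDegree_eq_of_degree_eq_some h0
      rw [hdeg] at this
      exact absurd this (by norm_num))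
    refine ⟨l, ?_⟩
    rw [Polynomial.eval_map, halg] at hl
    simpa [f] using hl

end minus

end H50.OrthMinusK
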