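import Cfsg.Agent.Lib.H50.OrthOddCount
import Cfsg.Agent.Lib.H49.OrthStab

/-!
The parity character of semisimilarities of a quadratic form of plus type, and its relation with
`PreservesSingularClasses`.
-/

set_option autoImplicit false
set_option linter.unusedSectionVars false

namespace H50.OrthPar

open Matrix H48.OutO H50.PSLBasic H50.PSLField H50.H90 H50.ClassCount H50.PSLCount H48.QuadSplit H48.QuadStd
  H50.OrthPsi H50.OrthDesc H48.OmegaPlus H50.OrthSim H18.MaxSing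

variable {F : Type*} [Field F] {ι : Type} [Fintype ι] [DecidableEq ι] {Q : QuadraticForm F (ι → F)}

/-! ### images of subspaces -/

/-- image of a subspace under a semilinear map -/
def imS (y : GA ι F) (U : Submodule F (ι → F)) : Submodule F (ι → F) where
  carrier := ap y '' U
  zero_mem' := ⟨0, U.zero_mem, ap_zero y⟩
  add_mem' := by
    rintro _ _ ⟨u, hu, rfl⟩ ⟨v, hv, rfl⟩
    exact ⟨u + v, U.add_mem hu hv, ap_add y u v⟩
  smul_mem' := by
    rintro c _ ⟨u, hu, rfl⟩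
    exact ⟨y.right.symm c • u, U.smul_mem _ hu, by rw [ap_smul, RingEquiv.apply_symm_apply]⟩

lemma mem_imS {y : GA ι F} {U : Submodule F (ι → F)} {v : ι → F} : v ∈ imS y U ↔ ∃ u ∈ U, ap y u = v := Iff.rfl

lemma ap_mem_imS {y : GA ι F} {U : Submodule F (ι → F)} {v : ι → F} : ap y v ∈ imS y U ↔ v ∈ U := by
  constructor
  · rintro ⟨u, hu, h⟩
    rw [← ap_injective y h]
    exact hu
  · intro h; exact ⟨v, h, rfl⟩

lemma imS_mul (x y : GA ι F) (U : Submodule F (ι → F)) : imS (x * y) U = imS x (imS y U) := by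
  ext v
  constructor
  · rintro ⟨u, hu, rfl⟩
    rw [ap_mul]
    exact ⟨_, ⟨u, hu, rfl⟩, rfl⟩
  · rintro ⟨_, ⟨u, hu, rfl⟩, rfl⟩
    exact ⟨u, hu, ap_mul x y u⟩

lemma imS_one (U : Submodule F (ι → F)) : imS (1 : GA ι F) U = U := by
  ext v
  constructor
  · rintro ⟨u, hu, rfl⟩
    rw [ap_one]; exact hu
  · intro h; exact ⟨v, h, ap_one v⟩

lemma imS_inf (y : GA ι F) (U W : Submodule F (ι → F)) : imS y (U ⊓ W) = imS y U ⊓ imS y W := by
  ext v
  constructor
  · rintro ⟨u, hu, rfl⟩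
    exact ⟨⟨u, hu.1, rfl⟩, ⟨u, hu.2, rfl⟩⟩
  · rintro ⟨⟨u, hu, rfl⟩, h2⟩
    exact ⟨u, ⟨hu, ap_mem_imS.mp h2⟩, rfl⟩

lemma finrank_imS [Fintype F] (y : GA ι F) (U : Submodule F (ι → F)) :
    Module.finrank F ↥(imS y U) = Module.finrank F ↥U := by
  have h1 : Nat.card ↥(imS y U) = Nat.card ↥U := by
    refine (Nat.card_congr (Equiv.ofBijective (fun u : ↥U => (⟨ap y u.1, ⟨u.1, u.2, rfl⟩⟩ : ↥(imS y U))) ⟨?_, ?_⟩)).symm
    · intro u v h
      exact Subtype.ext (ap_injective y (congrArg Subtype.val h))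
    · rintro ⟨_, ⟨u, hu, rfl⟩⟩
      exact ⟨⟨u, hu⟩, rfl⟩
  have h2 : Nat.card F ^ Module.finrank F ↥(imS y U) = Nat.card F ^ Module.finrank F ↥U := by
    rw [← Module.natCard_eq_pow_finrank (K := F) (V := ↥(imS y U)), ← Module.natCard_eq_pow_finrank (K := F) (V := ↥U), h1]
  exact Nat.pow_right_injective (by
    rw [Nat.card_eq_fintype_card]; exact Fintype.one_lt_card) h2

lemma ts_imS {y : GA ι F} (hy : y ∈ Gam Q) {U : Submodule F (ι → F)} (hU : TS Q U) : TS Q (imS y U) := by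
  rintro _ ⟨u, hu, rfl⟩
  obtain ⟨c, hc⟩ := hy
  rw [hc, hU u hu, map_zero, mul_zero]

lemma imS_inl (g : GL ι F) (U : Submodule F (ι → F)) :
    imS (SemidirectProduct.inl g : GA ι F) U = Cfsg.imageSubmodule (g : Matrix ι ι F) U := by
  ext v
  constructor
  · rintro ⟨u, hu, rfl⟩
    exact ⟨u, hu, rfl⟩
  · rintro ⟨u, hu, rfl⟩
    exact ⟨u, hu, rfl⟩

/-! ### the parity -/

variable {n : ℕ}

/-- parity of the codimension of the intersection -/
noncomputable def pm (n : ℕ) (U W : Submodule F (ι → F)) : ℤˣ := (-1) ^ (n - Module.finrank F ↥(U ⊓ W))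

lemma pm_eq_one_iff {U W : Submodule F (ι → F)} : pm n U W = 1 ↔ Even (n - Module.finrank F ↥(U ⊓ W)) := by
  unfold pm
  rcases Nat.even_or_odd (n - Module.finrank F ↥(U ⊓ W)) with h | h
  · rw [h.neg_one_pow]
    exact ⟨fun _ => h, fun _ => rfl⟩
  · rw [h.neg_one_pow]
    constructor
    · intro h1; exact absurd h1 (by decide)
    · intro h1; exact absurd h1 (Nat.not_even_iff_odd.mpr h)

lemma pm_comm (U W : Submodule F (ι → F)) : pm n U W = pm n W U := by
  unfold pm; rw [inf_comm]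

lemma pm_self {U : Submodule F (ι → F)} (hU : Module.finrank F U = n) : pm n U U = 1 := by
  unfold pm; rw [inf_idem, hU, Nat.sub_self, pow_zero]

lemma pm_imS [Fintype F] (y : GA ι F) (U W : Submodule F (ι → F)) : pm n (imS y U) (imS y W) = pm n U W := by
  unfold pm; rw [← imS_inf, finrank_imS]

lemma pm_trans (hQ : ND Q) (hn : Fintype.card ι = 2 * n) {U W X : Submodule F (ι → F)} (hU : TS Q U)
    (hUn : Module.finrank F U = n) (hW : TS Q W) (hWn : Module.finrank F W = n) (hX : TS Q X)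
    (hXn : Module.finrank F X = n) : pm n U W * pm n W X = pm n U X := by
  have hn' : Module.finrank F (ι → F) = 2 * n := by rw [Module.finrank_fintype_fun_eq_card, hn]
  have h1 := parity hQ hn' _ hU hUn hW hWn hX hXn rfl
  have h3 : pm n U W * pm n W X * pm n U X = 1 := by
    unfold pm
    rw [← pow_add, ← pow_add]
    exact h1.neg_one_pow
  have h4 : ∀ a b c : ℤˣ, a * b * c = 1 → a * b = c := by decide
  exact h4 _ _ _ h3

section

variable [Fintype F]

/-- the parity character -/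
noncomputable def parG (hQ : ND Q) (hn : Fintype.card ι = 2 * n) (E : Submodule F (ι → F)) (hE : TS Q E)
    (hEn : Module.finrank F E = n) : ↥(Gam Q) →* ℤˣ where
  toFun y := pm n E (imS (y : GA ι F) E)
  map_one' := by
    rw [Subgroup.coe_one, imS_one, pm_self hEn]
  map_mul' x y := by
    rw [Subgroup.coe_mul, imS_mul, ← pm_imS (x : GA ι F) E (imS (y : GA ι F) E)]
    exact (pm_trans hQ hn hE hEn (ts_imS x.2 hE) ((finrank_imS _ _).trans hEn) (ts_imS x.2 (ts_imS y.2 hE))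
      ((finrank_imS _ _).trans ((finrank_imS _ _).trans hEn))).symm

variable (hQ : ND Q) (hn : Fintype.card ι = 2 * n) {E : Submodule F (ι → F)} (hE : TS Q E)
    (hEn : Module.finrank F E = n)

lemma parG_apply (y : ↥(Gam Q)) : parG hQ hn E hE hEn y = pm n E (imS (y : GA ι F) E) := rfl

/-- the parity can be read on every maximal totally singular subspace -/
lemma parG_eq (y : ↥(Gam Q)) {U : Submodule F (ι → F)} (hU : TS Q U) (hUn : Module.finrank F U = n) :
    pm n U (imS (y : GA ι F) U) = parG hQ hn E hE hEn y := by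
  have a1 := pm_trans hQ hn hU hUn hE hEn (ts_imS y.2 hE) ((finrank_imS (y : GA ι F) _).trans hEn)
  have a2 := pm_trans hQ hn hU hUn (ts_imS y.2 hE) ((finrank_imS (y : GA ι F) _).trans hEn) (ts_imS y.2 hU)
    ((finrank_imS (y : GA ι F) _).trans hUn)
  rw [← a2, ← a1, pm_imS, pm_comm E U, parG_apply]
  have h4 : ∀ a b : ℤˣ, a * b * a = b := by decide
  exact h4 _ _

lemma parG_Rf (v : ι → F) (hv : Q v ≠ 0) : parG hQ hn E hE hEn (Rf Q v hv) = -1 := by
  have h1 := H49.OrthStab.par_R hQ hn E hE hEn v hv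
  exact h1

lemma parG_toGam_scG (u : Fˣ) : parG hQ hn E hE hEn (toGam Q (scG Q u)) = 1 := by
  have h1 : imS ((toGam Q (scG Q u) : ↥(Gam Q)) : GA ι F) E = E := by
    ext v
    constructor
    · rintro ⟨w, hw, rfl⟩
      rw [toGam_coe, ap_inl, scG_coe, sc_mulVec]
      exact E.smul_mem _ hw
    · intro h
      refine ⟨((u⁻¹ : Fˣ) : F) • v, E.smul_mem _ h, ?_⟩
      rw [toGam_coe, ap_inl, scG_coe, sc_mulVec, smul_smul, ← Units.val_mul, mul_inv_cancel, Units.val_one, one_smul]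
  rw [parG_apply, h1, pm_self hEn]

/-! ### maximal totally singular subspaces -/

lemma exists_sub (W : Submodule F (ι → F)) {k : ℕ} (hk : k ≤ Module.finrank F W) :
    ∃ U : Submodule F (ι → F), U ≤ W ∧ Module.finrank F U = k := by
  let b := Module.finBasis F W
  let f : Fin k → (ι → F) := fun i => (b (Fin.castLE hk i) : ι → F)
  have hli : LinearIndependent F f := by
    have h1 : LinearIndependent F (fun i : Fin k => b (Fin.castLE hk i)) :=
      b.linearIndependent.comp _ (Fin.castLE_injective hk)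
    exact h1.map' W.subtype (Submodule.ker_subtype W)
  refine ⟨Submodule.span F (Set.range f), ?_, ?_⟩
  · rw [Submodule.span_le]
    rintro _ ⟨i, rfl⟩
    exact (b (Fin.castLE hk i)).2
  · rw [finrank_span_eq_card hli, Fintype.card_fin]

include hQ hn hE hEn in
lemma isMax_iff (U : Submodule F (ι → F)) :
    Cfsg.IsMaxTotallySingular (⇑Q) U ↔ TS Q U ∧ Module.finrank F U = n := by
  have hn' : Module.finrank F (ι → F) = 2 * n := by rw [Module.finrank_fintype_fun_eq_card, hn]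
  constructor
  · rintro ⟨h1, h2⟩
    have h1' : TS Q U := h1
    refine ⟨h1', ?_⟩
    have hle := finrank_le hQ hn' h1'
    obtain ⟨U', hU', hU'k⟩ := exists_sub E (k := Module.finrank F U) (by omega)
    obtain ⟨g, hg⟩ := H49.OrthStab.exists_im_eq_ts (nd_iff.mp hQ) (U := U') (W := U) (fun u hu => hE u (hU' hu)) h1' hU'k
    have h3 := h2 (H49.OrthStab.im g E) (H49.OrthStab.ts_im g hE) (by
      rw [← hg]
      exact Submodule.map_mono hU')
    rw [← h3, H49.OrthStab.finrank_im, hEn]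
  · rintro ⟨h1, h2⟩
    refine ⟨h1, fun W hW hUW => ?_⟩
    have hle := finrank_le hQ hn' (U := W) hW
    exact (Submodule.eq_of_le_of_finrank_le hUW (by omega)).symm

include hQ hn hE hEn in
/-- **parity and the two classes** -/
theorem preserves_iff (g : ↥(simG Q)) :
    Cfsg.PreservesSingularClasses (⇑Q) ((g : GL ι F) : Matrix ι ι F) ↔ parG hQ hn E hE hEn (toGam Q g) = 1 := by
  have key : ∀ U : Submodule F (ι → F), TS Q U → Module.finrank F U = n →
      (Cfsg.SameParityClass U (Cfsg.imageSubmodule ((g : GL ι F) : Matrix ι ι F) U) ↔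
        parG hQ hn E hE hEn (toGam Q g) = 1) := by
    intro U hU hUn
    rw [← parG_eq hQ hn hE hEn (toGam Q g) hU hUn, pm_eq_one_iff, toGam_coe, imS_inl]
    unfold Cfsg.SameParityClass
    rw [hUn]
  constructor
  · intro h
    exact (key E hE hEn).mp (h E ((isMax_iff hQ hn hE hEn E).mpr ⟨hE, hEn⟩))
  · intro h U hU
    obtain ⟨h1, h2⟩ := (isMax_iff hQ hn hE hEn U).mp hU
    exact (key U h1 h2).mpr h

end

/-! ### transport -/

section transport

variable [Fintype F] {ι' : Type} [Fintype ι'] [DecidableEq ι'] {Q₁ : QuadraticForm F (ι' → F)}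
  {P : (ι' → F) ≃ₗ[F] (ι → F)}

lemma ts_map {ν : Fˣ} (hν : ∀ v, Q (P v) = (ν : F) * Q₁ v) {E₁ : Submodule F (ι' → F)} (hE₁ : TS Q₁ E₁) :
    TS Q (E₁.map (P : (ι' → F) →ₗ[F] (ι → F))) := by
  rintro _ ⟨u, hu, rfl⟩
  change Q (P u) = 0
  rw [hν, hE₁ u hu, mul_zero]

/-- the parity of corresponding semisimilarities -/
theorem parG_transport (hQ : ND Q) (hn : Fintype.card ι = 2 * n) {E : Submodule F (ι → F)} (hE : TS Q E)
    (hEn : Module.finrank F E = n) (hQ₁ : ND Q₁) (hn₁ : Fintype.card ι' = 2 * n) {E₁ : Submodule F (ι' → F)}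
    (hE₁ : TS Q₁ E₁) (hEn₁ : Module.finrank F E₁ = n) (hq : ∃ ν : Fˣ, ∀ v, Q (P v) = (ν : F) * Q₁ v)
    (y : ↥(Gam Q)) (y₁ : ↥(Gam Q₁))
    (ha : ∃ w : Fˣ, ∀ v, ap (y : GA ι F) (P v) = (w : F) • P (ap (y₁ : GA ι' F) v)) :
    parG hQ hn E hE hEn y = parG hQ₁ hn₁ E₁ hE₁ hEn₁ y₁ := by
  obtain ⟨ν, hν⟩ := hq
  obtain ⟨w, hw⟩ := ha
  rw [← parG_eq hQ hn hE hEn y (ts_map hν hE₁) ((LinearEquiv.finrank_map_eq P E₁).trans hEn₁), parG_apply]
  have h1 : imS (y : GA ι F) (E₁.map (P : (ι' → F) →ₗ[F] (ι → F))) =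
      (imS (y₁ : GA ι' F) E₁).map (P : (ι' → F) →ₗ[F] (ι → F)) := by
    ext v
    constructor
    · rintro ⟨_, ⟨u, hu, rfl⟩, rfl⟩
      refine ⟨(w : F) • ap (y₁ : GA ι' F) u, Submodule.smul_mem _ _ ⟨u, hu, rfl⟩, ?_⟩
      rw [map_smul]
      exact (hw u).symm
    · rintro ⟨_, ⟨u, hu, rfl⟩, rfl⟩
      have h2 : P (ap (y₁ : GA ι' F) u) = ((w⁻¹ : Fˣ) : F) • ap (y : GA ι F) (P u) := by
        rw [hw, smul_smul, ← Units.val_mul, inv_mul_cancel, Units.val_one, one_smul]
      change P (ap (y₁ : GA ι' F) u) ∈ _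
      rw [h2]
      exact Submodule.smul_mem _ _ ⟨_, ⟨u, hu, rfl⟩, rfl⟩
  unfold pm
  rw [h1, ← Submodule.map_inf _ P.injective]
  congr 2
  exact LinearEquiv.finrank_map_eq P _

end transport

end H50.OrthPar
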