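import Cfsg.Agent.Lib.H50.OrthPar
import Cfsg.Agent.Lib.H48.OutO8

/-!
Proper similarities of even-dimensional quadratic forms over finite fields: those preserving the two classes of maximal
totally singular subspaces (over the field or over a quadratic extension).
-/

set_option autoImplicit false
set_option linter.unusedSectionVars false

namespace H50.OrthProper

open Matrix H48.OutO H50.PSLBasic H50.PSLField H50.H90 H50.ClassCount H50.PSLCount H48.QuadSplit H48.QuadStd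
  H50.OrthPsi H50.OrthDesc H48.OmegaPlus H50.OrthSim H18.MaxSing H50.OrthPar

variable {F : Type*} [Field F] {ι : Type} [Fintype ι] [DecidableEq ι] {Q : QuadraticForm F (ι → F)} {n : ℕ}

/-- similarities with `det = μ ^ n` -/
def DO (Q : QuadraticForm F (ι → F)) (n : ℕ) : Subgroup ↥(simG Q) where
  carrier := {g | ∃ c : Fˣ, (∀ v, Q (((g : GL ι F) : Matrix ι ι F) *ᵥ v) = (c : F) * Q v) ∧
    ((g : GL ι F) : Matrix ι ι F).det = (c : F) ^ n}
  one_mem' := ⟨1, fun v => by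
    change Q ((1 : Matrix ι ι F) *ᵥ v) = _
    rw [Matrix.one_mulVec, Units.val_one, one_mul], by
    change (1 : Matrix ι ι F).det = _
    rw [Matrix.det_one, Units.val_one, one_pow]⟩
  mul_mem' := by
    rintro g h ⟨c, hc1, hc2⟩ ⟨d, hd1, hd2⟩
    refine ⟨c * d, fun v => ?_, ?_⟩
    · change Q ((((g : GL ι F) : Matrix ι ι F) * ((h : GL ι F) : Matrix ι ι F)) *ᵥ v) = _
      rw [← Matrix.mulVec_mulVec, hc1, hd1, Units.val_mul, mul_assoc]
    · change (((g : GL ι F) : Matrix ι ι F) * ((h : GL ι F) : Matrix ι ι F)).det = _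
      rw [Matrix.det_mul, hc2, hd2, Units.val_mul, mul_pow]
  inv_mem' := by
    rintro g ⟨c, hc1, hc2⟩
    have hg : ((g : GL ι F) : Matrix ι ι F) * (((g : GL ι F)⁻¹ : GL ι F) : Matrix ι ι F) = 1 := by
      rw [← Units.val_mul, mul_inv_cancel, Units.val_one]
    refine ⟨c⁻¹, fun v => ?_, ?_⟩
    · change Q ((((g : GL ι F)⁻¹ : GL ι F) : Matrix ι ι F) *ᵥ v) = _
      have h := hc1 ((((g : GL ι F)⁻¹ : GL ι F) : Matrix ι ι F) *ᵥ v)
      rw [Matrix.mulVec_mulVec, hg, Matrix.one_mulVec] at h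
      rw [h, Units.val_inv_eq_inv_val, ← mul_assoc, inv_mul_cancel₀ c.ne_zero, one_mul]
    · change (((g : GL ι F)⁻¹ : GL ι F) : Matrix ι ι F).det = _
      have h := congrArg Matrix.det hg
      rw [Matrix.det_mul, hc2, Matrix.det_one] at h
      rw [Units.val_inv_eq_inv_val, inv_pow]
      exact eq_inv_of_mul_eq_one_right h

/-- the proper similarities -/
noncomputable def DP (Q : QuadraticForm F (ι → F)) (n : ℕ) : Subgroup ↥(simG Q) :=
  open Classical in if (2 : F) = 0 then (Cfsg.Inn (Cfsg.POmega F (⇑Q))).comap (psi1 Q) else DO Q n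

lemma DP_odd (h2 : (2 : F) ≠ 0) : DP Q n = DO Q n := if_neg h2

lemma DP_two (h2 : (2 : F) = 0) : DP Q n = (Cfsg.Inn (Cfsg.POmega F (⇑Q))).comap (psi1 Q) := if_pos h2

lemma mem_DO {g : ↥(simG Q)} : g ∈ DO Q n ↔ ∃ c : Fˣ, (∀ v, Q (((g : GL ι F) : Matrix ι ι F) *ᵥ v) = (c : F) * Q v) ∧
    ((g : GL ι F) : Matrix ι ι F).det = (c : F) ^ n := Iff.rfl

lemma mult_unique' (hne : ∃ v, Q v ≠ 0) {g : Matrix ι ι F} {c d : F} (hc : ∀ v, Q (g *ᵥ v) = c * Q v)
    (hd : ∀ v, Q (g *ᵥ v) = d * Q v) : c = d := by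
  obtain ⟨v, hv⟩ := hne
  have := hc v
  rw [hd] at this
  exact (mul_right_cancel₀ hv this).symm

lemma scG_mem_DP (hn : Fintype.card ι = 2 * n) (u : Fˣ) : scG Q u ∈ DP Q n := by
  by_cases h2 : (2 : F) = 0
  · rw [DP_two h2, Subgroup.mem_comap, psi1_scG]
    exact one_mem _
  · rw [DP_odd h2]
    refine ⟨u ^ 2, fun v => ?_, ?_⟩
    · rw [scG_coe, sc_mulVec, QuadraticMap.map_smul, Units.val_pow_eq_pow_val, pow_two]
      rfl
    · rw [scG_coe, sc_coe, Matrix.det_smul, Matrix.det_one, mul_one, hn, Units.val_pow_eq_pow_val, pow_mul]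

/-! ### normality -/

lemma inn_le_map (Q : QuadraticForm F (ι → F)) (n : ℕ) (h2 : (2 : F) = 0) :
    (DP Q n).map (psi1 Q) = Cfsg.Inn (Cfsg.POmega F (⇑Q)) := by
  rw [DP_two h2, Subgroup.map_comap_eq, inf_eq_right]
  rintro _ ⟨a, rfl⟩
  obtain ⟨s, rfl⟩ := QuotientGroup.mk_surjective a
  exact ⟨isoG Q s.1, psi1_isoG s⟩

theorem DP_normal (hAut : ∀ α : MulAut (Cfsg.POmega F (⇑Q)), ∃ y : ↥(Gam Q), α = Psi Q y) :
    ((DP Q n).map (psi1 Q)).Normal := by
  by_cases h2 : (2 : F) = 0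
  · rw [inn_le_map Q n h2]; infer_instance
  · rw [DP_odd h2]
    constructor
    rintro _ ⟨g, ⟨c, hc1, hc2⟩, rfl⟩ α
    obtain ⟨y, rfl⟩ := hAut α
    have hr : ((y * toGam Q g * y⁻¹ : ↥(Gam Q)) : GA ι F).right = 1 :=
      conj_right (x := (y : GA ι F)) (d := ((toGam Q g : ↥(Gam Q)) : GA ι F)) rfl
    obtain ⟨h, hh⟩ := exists_toGam hr
    have hm : IsMult Q ((y * toGam Q g * y⁻¹ : ↥(Gam Q)) : GA ι F) ((y : GA ι F).right (c : F)) :=
      IsMult.conj y.2 rfl hc1
    have hdet : (((y * toGam Q g * y⁻¹ : ↥(Gam Q)) : GA ι F).left : Matrix ι ι F).det =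
        (y : GA ι F).right (((g : GL ι F) : Matrix ι ι F).det) := det_conj (x := (y : GA ι F)) (d := ((toGam Q g : ↥(Gam Q)) : GA ι F)) rfl
    refine ⟨h, ⟨unitsMap (y : GA ι F).right c, fun v => ?_, ?_⟩, ?_⟩
    · rw [← hh] at hm
      exact hm v
    · rw [← hh] at hdet
      rw [unitsMap_coe]
      refine hdet.trans ?_
      rw [hc2, map_pow]
    · rw [psi1_apply, hh, map_mul, map_mul, map_inv, psi1_apply]

/-! ### isometries and reflections -/

section fin

variable [Fintype F]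

/-- in characteristic two every similarity is a scalar times an isometry -/
lemma exists_iso_two (h2 : (2 : F) = 0) (g : ↥(simG Q)) :
    ∃ (u : Fˣ) (s : ↥(Cfsg.isometryGroup F (⇑Q))), g = scG Q u * isoG Q s := by
  have := H48.FinFieldSq.charP_two_of_two_eq_zero h2
  obtain ⟨c, hc⟩ := g.2
  obtain ⟨b, hb⟩ := H48.FinFieldSq.exists_sqrt (c : F)
  have hb0 : b ≠ 0 := by
    rintro rfl
    rw [zero_pow two_ne_zero] at hb
    exact c.ne_zero hb.symm
  refine ⟨Units.mk0 b hb0, ⟨(sc (Units.mk0 b hb0)⁻¹ : GL ι F) * g.1, ?_⟩, ?_⟩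
  · rw [H17.OrthDet.mem_isometryGroup_iff]
    intro v
    change Q (((sc (Units.mk0 b hb0)⁻¹ * g.1 : GL ι F) : Matrix ι ι F) *ᵥ v) = Q v
    rw [Units.val_mul, ← Matrix.mulVec_mulVec, sc_mulVec, QuadraticMap.map_smul, hc, ← hb, smul_eq_mul,
      Units.val_inv_eq_inv_val, Units.val_mk0]
    field_simp
  · apply Subtype.ext
    change g.1 = sc (Units.mk0 b hb0) * ((sc (Units.mk0 b hb0)⁻¹ : GL ι F) * g.1)
    rw [← mul_assoc, ← map_mul, mul_inv_cancel, map_one, one_mul]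

/-- uniqueness of the isometry in characteristic two -/
lemma iso_unique_two (h2 : (2 : F) = 0) (hne : ∃ v, Q v ≠ 0) {u u' : Fˣ} {s s' : ↥(Cfsg.isometryGroup F (⇑Q))}
    (h : scG Q u * isoG Q s = scG Q u' * isoG Q s') : s = s' := by
  have := H48.FinFieldSq.charP_two_of_two_eq_zero h2
  have h1 : ∀ v : ι → F, (u : F) • (((s : GL ι F) : Matrix ι ι F) *ᵥ v) = (u' : F) • (((s' : GL ι F) : Matrix ι ι F) *ᵥ v) := by
    intro v
    have h3 := congrArg (fun z : ↥(simG Q) => ((z : GL ι F) : Matrix ι ι F) *ᵥ v) h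
    have h4 : ∀ (u : Fˣ) (s : ↥(Cfsg.isometryGroup F (⇑Q))), (((scG Q u * isoG Q s : ↥(simG Q)) : GL ι F) : Matrix ι ι F) *ᵥ v =
        (u : F) • (((s : GL ι F) : Matrix ι ι F) *ᵥ v) := by
      intro u s
      rw [Subgroup.coe_mul, Units.val_mul, ← Matrix.mulVec_mulVec, scG_coe, sc_mulVec, isoG_coe]
    rw [← h4, ← h4]
    exact h3
  obtain ⟨v, hv⟩ := hne
  have h5 := congrArg Q (h1 v)
  rw [QuadraticMap.map_smul, QuadraticMap.map_smul, (H17.OrthDet.mem_isometryGroup_iff _ _).mp s.2,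
    (H17.OrthDet.mem_isometryGroup_iff _ _).mp s'.2, smul_eq_mul, smul_eq_mul] at h5
  have h6 := mul_right_cancel₀ hv h5
  have h7 : (u : F) = u' := by
    have h8 : ((u : F) - u') ^ 2 = 0 := by
      have : ((u : F) - u') ^ 2 = u * u - u' * u' + 2 * (u' * u' - u * u') := by ring
      rw [this, h6, h2]; ring
    exact sub_eq_zero.mp (pow_eq_zero_iff two_ne_zero |>.mp h8)
  apply Subtype.ext
  apply gl_ext
  intro v
  have h9 := h1 v
  rw [← h7] at h9
  exact smul_right_injective _ u.ne_zero h9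

lemma inn_iff_two (h2 : (2 : F) = 0) (hQ : (QuadraticMap.polarBilin Q).Nondegenerate) (hn : 7 ≤ Fintype.card ι)
    (hne : ∃ v, Q v ≠ 0) (u : Fˣ) (s : ↥(Cfsg.isometryGroup F (⇑Q))) (vs : List (ι → F)) (hvs : ∀ v ∈ vs, Q v ≠ 0)
    (hs : ((s : GL ι F) : Matrix ι ι F) = rprod Q vs) :
    psi1 Q (scG Q u * isoG Q s) ∈ Cfsg.Inn (Cfsg.POmega F (⇑Q)) ↔ Even vs.length := by
  have := H48.FinFieldSq.charP_two_of_two_eq_zero h2
  rw [inn_iff hQ hn, ← H48.OmegaTwo.mem_Omega_iff_two Q hQ s vs hvs hs]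
  constructor
  · rintro ⟨u', s', hs', h⟩
    rw [iso_unique_two h2 hne h]
    exact hs'
  · intro h
    exact ⟨u, s, h, rfl⟩

end fin

/-! ### comparison of `DP` over the small and the large field -/

section compare

variable {F₀ : Type*} [Field F₀] {ι' : Type} [Fintype ι'] [DecidableEq ι'] {j : F₀ →+* F}
  {Q₁₀ : QuadraticForm F₀ (ι' → F₀)} {Q₁ : QuadraticForm F (ι' → F)} {P : (ι' → F) ≃ₗ[F] (ι → F)}

lemma det_trP (P : (ι' → F) ≃ₗ[F] (ι → F)) (g : GL ι' F) :
    ((trP P g : GL ι F) : Matrix ι ι F).det = (g : Matrix ι' ι' F).det := by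
  change (LinearMap.toMatrix' ((P : (ι' → F) →ₗ[F] (ι → F)) ∘ₗ Matrix.toLin' (g : Matrix ι' ι' F) ∘ₗ
        (P.symm : (ι → F) →ₗ[F] (ι' → F)))).det = _
  rw [LinearMap.det_toMatrix', LinearMap.det_conj, LinearMap.det_toLin']

lemma det_glHom (j : F₀ →+* F) (k : GL ι' F₀) : ((glHom j k : GL ι' F) : Matrix ι' ι' F).det = j (k : Matrix ι' ι' F₀).det := by
  rw [glHom_coe]
  exact (RingHom.map_det j _).symm

/-- multipliers under base change and transport -/
lemma mult_fHom (ho : Ovr j Q₁₀ Q₁) (hq : ∃ ν : Fˣ, ∀ v, Q (P v) = (ν : F) * Q₁ v) (k : GL ι' F₀) {c : F₀}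
    (hc : ∀ v, Q₁₀ ((k : Matrix ι' ι' F₀) *ᵥ v) = c * Q₁₀ v) (v : ι → F) :
    Q (((trP P (glHom j k) : GL ι F) : Matrix ι ι F) *ᵥ v) = j c * Q v := by
  obtain ⟨ν, hν⟩ := hq
  obtain ⟨u, rfl⟩ := P.surjective v
  have h1 : Ovr j (c • Q₁₀) (Q₁.comp (glE (glHom j k) : (ι' → F) →ₗ[F] (ι' → F))) := by
    intro u
    change Q₁ (((glHom j k : GL ι' F) : Matrix ι' ι' F) *ᵥ (jv j u)) = j (c * Q₁₀ u)
    rw [glHom_mulVec_jv, ho, hc]
  have h2 : Q₁ (((glHom j k : GL ι' F) : Matrix ι' ι' F) *ᵥ u) = j c * Q₁ u := Ovr.unique h1 (ho.smul c) u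
  rw [trP_mulVec, hν, hν, h2]; ring

/-- reflections under base change and transport -/
lemma rprod_fHom (ho : Ovr j Q₁₀ Q₁) (hq : ∃ ν : Fˣ, ∀ v, Q (P v) = (ν : F) * Q₁ v) (k : GL ι' F₀)
    (vs : List (ι' → F₀)) (hk : (k : Matrix ι' ι' F₀) = rprod Q₁₀ vs) :
    ((trP P (glHom j k) : GL ι F) : Matrix ι ι F) = rprod Q (vs.map fun v => P (jv j v)) := by
  obtain ⟨ν, hν⟩ := hq
  have hpol : ∀ x y, QuadraticMap.polar Q (P x) (P y) = (ν : F) * QuadraticMap.polar Q₁ x y := by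
    intro x y
    rw [QuadraticMap.polar, QuadraticMap.polar, ← map_add P, hν, hν, hν]; ring
  have key : ∀ (vs : List (ι' → F₀)) (x : ι' → F), rprod Q (vs.map fun v => P (jv j v)) *ᵥ (P x) =
      P (rprod Q₁ (vs.map (jv j)) *ᵥ x) := by
    intro vs
    induction vs with
    | nil =>
      intro x
      change (1 : Matrix ι ι F) *ᵥ _ = P ((1 : Matrix ι' ι' F) *ᵥ x)
      rw [Matrix.one_mulVec, Matrix.one_mulVec]
    | cons v vs ih =>
      intro x
      rw [List.map_cons, List.map_cons, rprod_cons, rprod_cons, ← Matrix.mulVec_mulVec, ← Matrix.mulVec_mulVec, ih,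
        H17.OrthMat.reflectionMatrix_mulVec, H17.OrthMat.reflectionMatrix_mulVec, hpol, hν, map_sub P, map_smul P]
      congr 2
      rw [mul_inv]
      have := ν.ne_zero
      field_simp
  apply Matrix.toLin'.injective
  apply LinearMap.ext
  intro v
  obtain ⟨u, rfl⟩ := P.surjective v
  rw [Matrix.toLin'_apply, Matrix.toLin'_apply, trP_mulVec, key, glHom_coe, hk, rprod_map ho]

theorem DP_fHom [Fintype F] [Fintype F₀] (hQ : (QuadraticMap.polarBilin Q).Nondegenerate) (hc : 7 ≤ Fintype.card ι)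
    (hQ₁₀ : (QuadraticMap.polarBilin Q₁₀).Nondegenerate) (hc' : 7 ≤ Fintype.card ι')
    (hneQ : ∃ v, Q v ≠ 0) (ho : Ovr j Q₁₀ Q₁) (hne : ∃ v, Q₁₀ v ≠ 0) (hq : ∃ ν : Fˣ, ∀ v, Q (P v) = (ν : F) * Q₁ v) :
    (DP Q n).comap (fHom ho hne hq) = DP Q₁₀ n := by
  ext k
  rw [Subgroup.mem_comap]
  by_cases h2 : (2 : F) = 0
  · have h20 : (2 : F₀) = 0 := j.injective (by rw [map_ofNat, map_zero]; exact h2)
    rw [DP_two h2, DP_two h20, Subgroup.mem_comap, Subgroup.mem_comap]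
    obtain ⟨u, s, rfl⟩ := exists_iso_two h20 k
    obtain ⟨vs, hvs, hs⟩ := H48.MaxSing.exists_rprod_all (nd_iff.mpr hQ₁₀) (Or.inr (by omega)) s
    rw [inn_iff_two h20 hQ₁₀ hc' hne u s vs hvs hs]
    have hne' : Nonempty ι' := by
      rw [← Fintype.card_pos_iff]; omega
    obtain ⟨u₁, hu₁⟩ := (fHom_eq_sc_iff ho hne hq (scG Q₁₀ u)).mpr ⟨u, rfl⟩
    have h3 := rprod_fHom ho hq s.1 vs hs
    have hvs' : ∀ v ∈ vs.map (fun v => P (jv j v)), Q v ≠ 0 := by
      intro v hv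
      obtain ⟨w, hw, rfl⟩ := List.mem_map.mp hv
      obtain ⟨ν, hν⟩ := hq
      rw [hν, ho]
      exact mul_ne_zero ν.ne_zero ((map_ne_zero j).mpr (hvs w hw))
    have h4 : trP P (glHom j s.1) ∈ Cfsg.isometryGroup F (⇑Q) := by
      rw [H17.OrthDet.mem_isometryGroup_iff]
      intro v
      have := mult_fHom ho hq s.1 (c := 1) (fun v => by
        rw [one_mul]; exact (H17.OrthDet.mem_isometryGroup_iff _ _).mp s.2 v) v
      rw [map_one, one_mul] at this
      exact this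
    have h5 : fHom ho hne hq (isoG Q₁₀ s) = isoG Q ⟨_, h4⟩ := rfl
    rw [map_mul, hu₁, h5, inn_iff_two h2 hQ hc hneQ u₁ ⟨_, h4⟩ _ hvs' h3, List.length_map]
  · have h20 : (2 : F₀) ≠ 0 := by
      intro h
      apply h2
      have := congrArg j h
      rwa [map_ofNat, map_zero] at this
    rw [DP_odd h2, DP_odd h20]
    obtain ⟨c, hc⟩ := k.2
    have h3 := mult_fHom ho hq k.1 hc
    have hdet : (((fHom ho hne hq k : ↥(simG Q)) : GL ι F) : Matrix ι ι F).det =
        j ((k : GL ι' F₀) : Matrix ι' ι' F₀).det := by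
      rw [fHom_coe, det_trP, det_glHom]
    constructor
    · rintro ⟨d, hd1, hd2⟩
      refine ⟨c, hc, ?_⟩
      have h4 : (d : F) = j c := mult_unique' hneQ hd1 h3
      rw [hdet, h4, ← map_pow] at hd2
      exact j.injective hd2
    · rintro ⟨d, hd1, hd2⟩
      have h4 : (d : F₀) = c := mult_unique' hne hd1 hc
      refine ⟨Units.map j.toMonoidHom c, h3, ?_⟩
      rw [hdet, hd2, h4, map_pow]
      rfl

end compare

/-! ### forms of plus type -/

section plus

/-- the span of the first half of the basis -/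
def EP (m : ℕ) (F : Type*) [Field F] : Submodule F (Fin m ⊕ Fin m → F) where
  carrier := {v | ∀ i, v (Sum.inr i) = 0}
  zero_mem' := fun _ => rfl
  add_mem' := by
    intro v w hv hw i
    rw [Pi.add_apply, hv, hw, add_zero]
  smul_mem' := by
    intro c v hv i
    rw [Pi.smul_apply, hv, smul_zero]

lemma mem_EP {m : ℕ} {v : Fin m ⊕ Fin m → F} : v ∈ EP m F ↔ ∀ i, v (Sum.inr i) = 0 := Iff.rfl

lemma ts_EP (m : ℕ) : TS (qPlus m F) (EP m F) := by
  intro v hv
  rw [qPlus_apply]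
  exact Finset.sum_eq_zero fun i _ => by rw [hv, mul_zero]

lemma finrank_EP (m : ℕ) : Module.finrank F (EP m F) = m := by
  let e : (Fin m → F) ≃ₗ[F] EP m F :=
    { toFun := fun v => ⟨Sum.elim v 0, fun _ => rfl⟩
      map_add' := fun v w => by
        apply Subtype.ext; funext i; rcases i with i | i
        · rfl
        · change (0 : F) = 0 + 0; rw [add_zero]
      map_smul' := fun c v => by
        apply Subtype.ext; funext i; rcases i with i | i
        · rfl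
        · change (0 : F) = c * 0; rw [mul_zero]
      invFun := fun v i => v.1 (Sum.inl i)
      left_inv := fun v => rfl
      right_inv := fun v => by
        apply Subtype.ext; funext i; rcases i with i | i
        · rfl
        · exact (v.2 i).symm }
  rw [← e.finrank_eq, Module.finrank_fintype_fun_eq_card, Fintype.card_fin]

/-- `diag(c, …, c, 1, …, 1)` -/
def dG (m : ℕ) (c : Fˣ) : ↥(simG (qPlus m F)) :=
  ⟨⟨Matrix.diagonal (Sum.elim (fun _ => (c : F)) (fun _ => 1)),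
      Matrix.diagonal (Sum.elim (fun _ => ((c⁻¹ : Fˣ) : F)) (fun _ => 1)), by
      rw [Matrix.diagonal_mul_diagonal, ← Matrix.diagonal_one]
      congr 1
      ext i
      rcases i with i | i <;> simp, by
      rw [Matrix.diagonal_mul_diagonal, ← Matrix.diagonal_one]
      congr 1
      ext i
      rcases i with i | i <;> simp⟩, c, fun v => by
      rw [qPlus_apply, qPlus_apply, Finset.mul_sum]
      refine Finset.sum_congr rfl fun i _ => ?_
      simp only [Matrix.mulVec_diagonal, Sum.elim_inl, Sum.elim_inr]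
      ring⟩

lemma dG_coe (m : ℕ) (c : Fˣ) : ((dG m c : GL (Fin m ⊕ Fin m) F) : Matrix (Fin m ⊕ Fin m) (Fin m ⊕ Fin m) F) =
    Matrix.diagonal (Sum.elim (fun _ => (c : F)) (fun _ => 1)) := rfl

lemma dG_mult (m : ℕ) (c : Fˣ) (v : Fin m ⊕ Fin m → F) :
    qPlus m F (((dG m c : GL (Fin m ⊕ Fin m) F) : Matrix (Fin m ⊕ Fin m) (Fin m ⊕ Fin m) F) *ᵥ v) = (c : F) * qPlus m F v := by
  rw [dG_coe, qPlus_apply, qPlus_apply, Finset.mul_sum]
  refine Finset.sum_congr rfl fun i _ => ?_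
  simp only [Matrix.mulVec_diagonal, Sum.elim_inl, Sum.elim_inr]
  ring

lemma det_dG (m : ℕ) (c : Fˣ) : ((dG m c : GL (Fin m ⊕ Fin m) F) : Matrix (Fin m ⊕ Fin m) (Fin m ⊕ Fin m) F).det =
    (c : F) ^ m := by
  rw [dG_coe, Matrix.det_diagonal, Fintype.prod_sum_type]
  simp

variable [Fintype F]

/-- the parity character of the standard form -/
noncomputable def par (m : ℕ) : ↥(Gam (qPlus m F)) →* ℤˣ :=
  parG (nd_qPlus m) (card_plus m) (EP m F) (ts_EP m) (finrank_EP m)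

lemma par_dG (m : ℕ) (c : Fˣ) : par m (toGam _ (dG m c)) = 1 := by
  have h1 : imS ((toGam _ (dG m c) : ↥(Gam (qPlus m F))) : GA (Fin m ⊕ Fin m) F) (EP m F) = EP m F := by
    ext v
    constructor
    · rintro ⟨w, hw, rfl⟩ i
      rw [toGam_coe, ap_inl, dG_coe, Matrix.mulVec_diagonal, hw, mul_zero]
    · intro h
      refine ⟨((c⁻¹ : Fˣ) : F) • v, Submodule.smul_mem _ _ h, ?_⟩
      rw [toGam_coe, ap_inl, dG_coe]
      funext i
      rw [Matrix.mulVec_diagonal]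
      rcases i with i | i
      · simp
      · rw [h i, Pi.smul_apply, h i]; simp
  rw [par, parG_apply, h1, pm_self (finrank_EP m)]

lemma par_std (m : ℕ) {σ : F ≃+* F} (h : FixAt (qPlus m F) σ) : par m (std h) = 1 := by
  have h1 : imS ((std h : ↥(Gam (qPlus m F))) : GA (Fin m ⊕ Fin m) F) (EP m F) = EP m F := by
    ext v
    constructor
    · rintro ⟨w, hw, rfl⟩ i
      rw [std_ap]
      change σ (w _) = 0
      rw [hw, map_zero]
    · intro hv
      refine ⟨σ.symm ∘ v, fun i => ?_, ?_⟩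
      · change σ.symm (v _) = 0
        rw [hv, map_zero]
      · rw [std_ap]
        funext i
        exact σ.apply_symm_apply _
  rw [par, parG_apply, h1, pm_self (finrank_EP m)]

lemma neg_one_pow_units_eq (l : ℕ) : ((-1 : ℤˣ) ^ l = 1) ↔ Even l := by
  constructor
  · intro h
    by_contra hcon
    rw [Nat.not_even_iff_odd] at hcon
    rw [hcon.neg_one_pow] at h
    exact absurd h (by decide)
  · intro h; exact h.neg_one_pow

/-- parity of isometries -/
lemma parG_iso (hQ : ND Q) (hn : Fintype.card ι = 2 * n) {E : Submodule F (ι → F)} (hE : TS Q E)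
    (hEn : Module.finrank F E = n) (hn7 : 7 ≤ Fintype.card ι) (s : ↥(Cfsg.isometryGroup F (⇑Q))) :
    ∃ vs : List (ι → F), (∀ v ∈ vs, Q v ≠ 0) ∧ ((s : GL ι F) : Matrix ι ι F) = rprod Q vs ∧
      parG hQ hn E hE hEn (toGam Q (isoG Q s)) = (-1) ^ vs.length := by
  obtain ⟨l, h1, h2⟩ := exists_prod (nd_iff.mp hQ) hn7 s
  refine ⟨l.map Subtype.val, ?_, h2, ?_⟩
  · intro v hv
    obtain ⟨w, -, rfl⟩ := List.mem_map.mp hv
    exact w.2
  · have h3 : toGam Q (isoG Q s) = emb Q s := rfl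
    rw [h3, h1, map_list_prod, List.length_map, List.map_map]
    have h4 : (⇑(parG hQ hn E hE hEn) ∘ fun v : {v : ι → F // Q v ≠ 0} => Rf Q v.1 v.2) = fun _ => -1 := by
      funext v
      exact parG_Rf hQ hn hE hEn v.1 v.2
    rw [h4, List.map_const', List.prod_replicate]

lemma card_ge {m : ℕ} (hm : 4 ≤ m) : 7 ≤ Fintype.card (Fin m ⊕ Fin m) := by
  rw [card_plus]; omega

lemma hne_plus {m : ℕ} (hm : 4 ≤ m) : ∃ v, qPlus m F v ≠ 0 := by
  obtain ⟨v, hv⟩ := exists_eq (nd_qPlus (F := F) m) (by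
    rw [Module.finrank_fintype_fun_eq_card, card_plus]; omega) (one_ne_zero (α := F))
  exact ⟨v, by rw [hv]; exact one_ne_zero⟩

/-- **parity and determinants**, standard form -/
theorem par_iff {m : ℕ} (hm : 4 ≤ m) (g : ↥(simG (qPlus m F))) :
    par m (toGam _ g) = 1 ↔ g ∈ DP (qPlus m F) m := by
  have hQ := nd_qPlus (F := F) m
  have hcard := card_ge hm
  by_cases h2 : (2 : F) = 0
  · rw [DP_two h2, Subgroup.mem_comap]
    obtain ⟨u, s, rfl⟩ := exists_iso_two h2 g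
    obtain ⟨vs, hvs, hs, hpar⟩ := parG_iso hQ (card_plus m) (ts_EP m) (finrank_EP m) hcard s
    rw [inn_iff_two h2 (nd_iff.mp hQ) hcard (hne_plus hm) u s vs hvs hs, map_mul, map_mul, par, parG_toGam_scG, one_mul,
      hpar, neg_one_pow_units_eq]
  · rw [DP_odd h2]
    obtain ⟨c, hc⟩ := g.2
    -- the isometry
    have h3 : ∀ v, qPlus m F ((((dG m c⁻¹ * g : ↥(simG (qPlus m F))) : GL (Fin m ⊕ Fin m) F) : Matrix (Fin m ⊕ Fin m) (Fin m ⊕ Fin m) F) *ᵥ v) =
        qPlus m F v := by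
      intro v
      rw [Subgroup.coe_mul, Units.val_mul, ← Matrix.mulVec_mulVec, dG_mult, hc, ← mul_assoc, ← Units.val_mul,
        inv_mul_cancel, Units.val_one, one_mul]
    let s : ↥(Cfsg.isometryGroup F (⇑(qPlus m F))) := ⟨((dG m c⁻¹ * g : ↥(simG (qPlus m F))) : GL (Fin m ⊕ Fin m) F), by
      rw [H17.OrthDet.mem_isometryGroup_iff]; exact h3⟩
    have hs : isoG _ s = dG m c⁻¹ * g := rfl
    obtain ⟨vs, hvs, hs1, hpar⟩ := parG_iso hQ (card_plus m) (ts_EP m) (finrank_EP m) hcard s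
    have hpar' : par m (toGam _ g) = (-1) ^ vs.length := by
      have h4 : par m (toGam _ (isoG _ s)) = (-1) ^ vs.length := hpar
      rw [hs, map_mul, map_mul, par_dG, one_mul] at h4
      exact h4
    have hdet : ((g : GL (Fin m ⊕ Fin m) F) : Matrix (Fin m ⊕ Fin m) (Fin m ⊕ Fin m) F).det = (c : F) ^ m * (-1) ^ vs.length := by
      have h5 : ((s : GL (Fin m ⊕ Fin m) F) : Matrix (Fin m ⊕ Fin m) (Fin m ⊕ Fin m) F).det = (-1) ^ vs.length := by
        rw [hs1, H48.OmegaTwo.det_rprod _ vs hvs]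
      have h6 : ((s : GL (Fin m ⊕ Fin m) F) : Matrix (Fin m ⊕ Fin m) (Fin m ⊕ Fin m) F).det =
          ((c⁻¹ : Fˣ) : F) ^ m * ((g : GL (Fin m ⊕ Fin m) F) : Matrix (Fin m ⊕ Fin m) (Fin m ⊕ Fin m) F).det := by
        change (((dG m c⁻¹ : GL (Fin m ⊕ Fin m) F) : Matrix (Fin m ⊕ Fin m) (Fin m ⊕ Fin m) F) * ((g : GL (Fin m ⊕ Fin m) F) : Matrix (Fin m ⊕ Fin m) (Fin m ⊕ Fin m) F)).det = _
        rw [Matrix.det_mul, det_dG]
      rw [← h5, h6, ← mul_assoc, ← mul_pow, ← Units.val_mul, mul_inv_cancel, Units.val_one, one_pow, one_mul]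
    rw [hpar', neg_one_pow_units_eq]
    constructor
    · intro h
      exact ⟨c, hc, by rw [hdet, h.neg_one_pow, mul_one]⟩
    · rintro ⟨d, hd1, hd2⟩
      have h7 : (d : F) = c := mult_unique' (hne_plus hm) hd1 hc
      rw [hdet, h7] at hd2
      by_contra hcon
      rw [Nat.not_even_iff_odd] at hcon
      rw [hcon.neg_one_pow] at hd2
      have h8 : (2 : F) * (c : F) ^ m = 0 := by linear_combination -hd2
      rcases mul_eq_zero.mp h8 with h9 | h9
      · exact h2 h9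
      · exact pow_ne_zero m c.ne_zero h9

end plus

end H50.OrthProper
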