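import Cfsg.Agent.Lib.H48.OutO2
import Cfsg.Agent.Lib.H48.QuadSim
import Cfsg.Agent.Lib.H50.SpFieldClass
import Cfsg.Agent.Lib.H50.OrthFam

/-!
Semisimilarities of a quadratic form whose image in the automorphism group of `PΩ` has the order of its field part:
descent of the form to the fixed field.
-/

set_option autoImplicit false
set_option linter.unusedSectionVars false

namespace H50.OrthPsi

open Matrix H48.OutO H50.PSLBasic H50.PSLField H50.H90 H50.ClassCount H50.PSLCount H48.QuadSplit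

variable {F : Type*} [Field F] {ι : Type} [Fintype ι] [DecidableEq ι] {Q : QuadraticForm F (ι → F)}

/-! ### similarities -/

/-- the similarity group -/
abbrev simG (Q : QuadraticForm F (ι → F)) : Subgroup (GL ι F) := Cfsg.Geo.quadSimilarityGroup (F := F) (⇑Q)

lemma mem_simG {g : GL ι F} : g ∈ simG Q ↔ ∃ c : Fˣ, ∀ v, Q ((g : Matrix ι ι F) *ᵥ v) = (c : F) * Q v := Iff.rfl

/-- similarities as semisimilarities -/
def toGam (Q : QuadraticForm F (ι → F)) : ↥(simG Q) →* ↥(Gam Q) where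
  toFun g := ⟨SemidirectProduct.inl g.1, by
    obtain ⟨c, hc⟩ := g.2
    exact ⟨c, fun v => hc v⟩⟩
  map_one' := rfl
  map_mul' g h := Subtype.ext (map_mul SemidirectProduct.inl _ _)

lemma toGam_coe (g : ↥(simG Q)) : ((toGam Q g : ↥(Gam Q)) : GA ι F) = SemidirectProduct.inl g.1 := rfl

/-- the action of similarities on `PΩ` -/
def psi1 (Q : QuadraticForm F (ι → F)) : ↥(simG Q) →* MulAut (Cfsg.POmega F (⇑Q)) := (Psi Q).comp (toGam Q)

lemma psi1_apply (g : ↥(simG Q)) : psi1 Q g = Psi Q (toGam Q g) := rfl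

lemma exists_toGam {y : ↥(Gam Q)} (hy : (y : GA ι F).right = 1) : ∃ g : ↥(simG Q), toGam Q g = y := by
  obtain ⟨c, hc⟩ := y.2
  refine ⟨⟨(y : GA ι F).left, c, fun v => ?_⟩, ?_⟩
  · have := hc v
    rw [ap_def, hy] at this
    exact this
  · apply Subtype.ext
    apply SemidirectProduct.ext
    · rfl
    · exact hy.symm

lemma isInduced_iff (g : ↥(simG Q)) (β : MulAut (Cfsg.POmega F (⇑Q))) :
    Cfsg.IsInducedBySemilinearPOmega (⇑Q) g.1 (RingEquiv.refl F) β ↔ β = psi1 Q g :=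
  induced_iff (toGam Q g) β

/-- scalars as similarities -/
def scG (Q : QuadraticForm F (ι → F)) : Fˣ →* ↥(simG Q) where
  toFun u := ⟨sc u, u ^ 2, fun v => by
    rw [sc_coe, Matrix.smul_mulVec, Matrix.one_mulVec, QuadraticMap.map_smul, Units.val_pow_eq_pow_val, pow_two]
    rfl⟩
  map_one' := Subtype.ext (map_one _)
  map_mul' u v := Subtype.ext (map_mul _ _ _)

lemma scG_coe (u : Fˣ) : ((scG Q u : ↥(simG Q)) : GL ι F) = sc u := rfl

lemma scG_comm (u : Fˣ) (g : ↥(simG Q)) : scG Q u * g = g * scG Q u := Subtype.ext (sc_comm u _)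

lemma psi1_scG (u : Fˣ) : psi1 Q (scG Q u) = 1 :=
  Psi_scalar _ rfl (c := (u : F)) (by rw [toGam_coe, SemidirectProduct.left_inl, scG_coe, sc_coe])

lemma sc_mulVec (u : Fˣ) (v : ι → F) : ((sc u : GL ι F) : Matrix ι ι F) *ᵥ v = (u : F) • v := by
  rw [sc_coe, Matrix.smul_mulVec, Matrix.one_mulVec]

section ker

variable [Fintype F]

lemma Psi_eq_one_iff (hQ : (QuadraticMap.polarBilin Q).Nondegenerate) (hn : 7 ≤ Fintype.card ι) {y : ↥(Gam Q)} :
    Psi Q y = 1 ↔ ∃ u : Fˣ, y = toGam Q (scG Q u) := by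
  constructor
  · intro h
    obtain ⟨h1, c, hc⟩ := scalar_of_Psi hQ hn y h
    have : Nonempty ι := by
      rw [← Fintype.card_pos_iff]; omega
    have hc0 : c ≠ 0 := by
      rintro rfl
      rw [zero_smul] at hc
      have h5 : IsUnit (((y : GA ι F).left : GL ι F) : Matrix ι ι F) := ((y : GA ι F).left).isUnit
      rw [hc] at h5
      exact not_isUnit_zero h5
    refine ⟨Units.mk0 c hc0, ?_⟩
    apply Subtype.ext
    apply SemidirectProduct.ext
    · apply Units.ext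
      rw [hc, toGam_coe, SemidirectProduct.left_inl, scG_coe, sc_coe]
      rfl
    · exact h1
  · rintro ⟨u, rfl⟩
    exact psi1_scG u

lemma Psi_eq_iff (hQ : (QuadraticMap.polarBilin Q).Nondegenerate) (hn : 7 ≤ Fintype.card ι) {x y : ↥(Gam Q)} :
    Psi Q x = Psi Q y ↔ ∃ u : Fˣ, x = toGam Q (scG Q u) * y := by
  rw [← mul_inv_eq_one, ← map_inv, ← map_mul, Psi_eq_one_iff hQ hn]
  constructor
  · rintro ⟨u, hu⟩
    exact ⟨u, by rw [← hu, inv_mul_cancel_right]⟩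
  · rintro ⟨u, rfl⟩
    exact ⟨u, by rw [mul_inv_cancel_right]⟩

lemma psi1_eq_one_iff (hQ : (QuadraticMap.polarBilin Q).Nondegenerate) (hn : 7 ≤ Fintype.card ι) {g : ↥(simG Q)} :
    psi1 Q g = 1 ↔ ∃ u : Fˣ, g = scG Q u := by
  rw [psi1_apply, Psi_eq_one_iff hQ hn]
  constructor
  · rintro ⟨u, hu⟩
    refine ⟨u, Subtype.ext ?_⟩
    exact SemidirectProduct.inl_injective (congrArg (fun z : ↥(Gam Q) => z.1) hu)
  · rintro ⟨u, rfl⟩
    exact ⟨u, rfl⟩

lemma psi1_eq_iff (hQ : (QuadraticMap.polarBilin Q).Nondegenerate) (hn : 7 ≤ Fintype.card ι) {g h : ↥(simG Q)} :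
    psi1 Q g = psi1 Q h ↔ ∃ u : Fˣ, g = scG Q u * h := by
  rw [← mul_inv_eq_one, ← map_inv, ← map_mul, psi1_eq_one_iff hQ hn]
  constructor
  · rintro ⟨u, hu⟩
    exact ⟨u, by rw [← hu, inv_mul_cancel_right]⟩
  · rintro ⟨u, rfl⟩
    exact ⟨u, by rw [mul_inv_cancel_right]⟩

end ker

/-! ### standard field automorphisms -/

/-- the form has coefficients fixed by `σ` -/
def FixAt (Q : QuadraticForm F (ι → F)) (σ : F ≃+* F) : Prop := ∀ v : ι → F, Q (σ ∘ v) = σ (Q v)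

/-- the standard semilinear map -/
def std {σ : F ≃+* F} (h : FixAt Q σ) : ↥(Gam Q) :=
  ⟨⟨1, σ⟩, ⟨1, fun v => by
    change Q ((1 : Matrix ι ι F) *ᵥ (σ ∘ v)) = ((1 : Fˣ) : F) * σ (Q v)
    rw [Matrix.one_mulVec, Units.val_one, one_mul]
    exact h v⟩⟩

lemma std_right {σ : F ≃+* F} (h : FixAt Q σ) : ((std h : ↥(Gam Q)) : GA ι F).right = σ := rfl

lemma std_ap {σ : F ≃+* F} (h : FixAt Q σ) (v : ι → F) : ap ((std h : ↥(Gam Q)) : GA ι F) v = σ ∘ v := by
  rw [ap_def]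
  change (1 : Matrix ι ι F) *ᵥ _ = _
  rw [Matrix.one_mulVec]
  rfl

lemma isField_iff {σ : F ≃+* F} (h : FixAt Q σ) (φ : MulAut (Cfsg.POmega F (⇑Q))) :
    Cfsg.IsFieldAutPOmegaOf (⇑Q) σ φ ↔ φ = Psi Q (std h) := by
  rw [← induced_iff]
  unfold Cfsg.IsFieldAutPOmegaOf Cfsg.IsInducedBySemilinearPOmega
  refine forall_congr' fun s => forall_congr' fun s' => ?_
  have h1 : ((((std h : ↥(Gam Q)) : GA ι F).left : GL ι F) : Matrix ι ι F) = 1 := rfl
  have h2 : (((((std h : ↥(Gam Q)) : GA ι F).left)⁻¹ : GL ι F) : Matrix ι ι F) = 1 := by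
    change (((1 : GL ι F)⁻¹ : GL ι F) : Matrix ι ι F) = 1
    rw [inv_one]; rfl
  rw [h1, h2, one_mul, mul_one]
  rfl

lemma FixAt.pow {σ : F ≃+* F} (h : FixAt Q σ) (k : ℕ) : FixAt Q (σ ^ k) := by
  induction k with
  | zero => intro v; rfl
  | succ k ih =>
    intro v
    rw [pow_succ']
    change Q (σ ∘ ((σ ^ k : F ≃+* F) ∘ v)) = σ ((σ ^ k : F ≃+* F) (Q v))
    rw [h, ih]

lemma FixAt.polar {σ : F ≃+* F} (h : FixAt Q σ) (v w : ι → F) :
    QuadraticMap.polar Q (σ ∘ v) (σ ∘ w) = σ (QuadraticMap.polar Q v w) := by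
  have h1 : (σ ∘ v) + (σ ∘ w) = σ ∘ (v + w) := by
    funext i; exact (map_add σ _ _).symm
  rw [QuadraticMap.polar, QuadraticMap.polar, h1, h, h, h, map_sub, map_sub]

/-! ### powers -/

lemma act_eq (σ : F ≃+* F) (g : GL ι F) : act ι F σ g = glMap σ g := rfl

lemma pow_right (y : GA ι F) (k : ℕ) : (y ^ k).right = y.right ^ k := by
  induction k with
  | zero => rfl
  | succ k ih => rw [pow_succ, SemidirectProduct.mul_right, ih, pow_succ]

lemma pow_left (y : GA ι F) (k : ℕ) : (y ^ k).left = nm (glMap y.right) y.left k := by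
  induction k with
  | zero => rfl
  | succ k ih => rw [pow_succ', SemidirectProduct.mul_left, ih, nm_succ]; rfl

lemma orderOf_right_dvd {y : ↥(Gam Q)} [Fintype F] (hQ : (QuadraticMap.polarBilin Q).Nondegenerate)
    (hn : 7 ≤ Fintype.card ι) {r : ℕ} (hy : (Psi Q y) ^ r = 1) : (y : GA ι F).right ^ r = 1 := by
  rw [← map_pow, Psi_eq_one_iff hQ hn] at hy
  obtain ⟨u, hu⟩ := hy
  have h1 := congrArg (fun z : ↥(Gam Q) => (z : GA ι F).right) hu
  rw [← pow_right]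
  exact h1

lemma orderOf_std [Fintype F] (hQ : (QuadraticMap.polarBilin Q).Nondegenerate)
    (hn : 7 ≤ Fintype.card ι) {σ : F ≃+* F} (h : FixAt Q σ) : orderOf (Psi Q (std h)) = orderOf σ := by
  apply Nat.dvd_antisymm
  · rw [orderOf_dvd_iff_pow_eq_one, ← map_pow]
    have h1 : (std h : ↥(Gam Q)) ^ orderOf σ = 1 := by
      apply Subtype.ext
      apply SemidirectProduct.ext
      · rw [Subgroup.coe_pow, pow_left]
        exact SpFieldClass.nm_one_left _ _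
      · rw [Subgroup.coe_pow, pow_right, std_right, pow_orderOf_eq_one]
        rfl
    rw [h1, map_one]
  · rw [orderOf_dvd_iff_pow_eq_one]
    exact orderOf_right_dvd (y := std h) hQ hn (pow_orderOf_eq_one _)

/-! ### Hilbert 90 -/

lemma comp_mulVec' (σ : F ≃+* F) (M : Matrix ι ι F) (v : ι → F) : (σ : F → F) ∘ (M *ᵥ v) = (M.map σ) *ᵥ (σ ∘ v) := by
  funext i
  simp only [Function.comp_apply, Matrix.mulVec, dotProduct, map_sum, map_mul, Matrix.map_apply]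

/-- descent in coordinates -/
theorem exists_gl [Fintype F] (hQ : (QuadraticMap.polarBilin Q).Nondegenerate) (hn : 7 ≤ Fintype.card ι) (y : ↥(Gam Q))
    {r : ℕ} (hr : orderOf (y : GA ι F).right = r) (hr0 : 0 < r) (hy : (Psi Q y) ^ r = 1) :
    ∃ (w : Fˣ) (h : GL ι F) (ν : Fˣ),
      (∀ v : ι → F, ap (y : GA ι F) ((h : Matrix ι ι F) *ᵥ v) =
        (w : F) • ((h : Matrix ι ι F) *ᵥ ((y : GA ι F).right ∘ v))) ∧
      (∀ v : ι → F, (ν : F)⁻¹ * Q ((h : Matrix ι ι F) *ᵥ ((y : GA ι F).right ∘ v)) =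
        (y : GA ι F).right ((ν : F)⁻¹ * Q ((h : Matrix ι ι F) *ᵥ v))) := by
  have : Nonempty ι := by
    rw [← Fintype.card_pos_iff]; omega
  set σ := (y : GA ι F).right with hσ
  set g := (y : GA ι F).left with hg
  have hσr : σ ^ r = 1 := by rw [← hr, pow_orderOf_eq_one]
  -- the norm of `g` is a scalar
  obtain ⟨c, hc⟩ : ∃ c : Fˣ, nm (glMap σ) g r = sc c := by
    rw [← map_pow, Psi_eq_one_iff hQ hn] at hy
    obtain ⟨u, hu⟩ := hy
    refine ⟨u, ?_⟩
    have h1 := congrArg (fun z : ↥(Gam Q) => (z : GA ι F).left) hu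
    rw [hσ, hg, ← pow_left]
    exact h1
  have h1 := map_nm (glMap σ) g r
  rw [hc, glMap_sc, mul_assoc, sc_comm, ← glMap_pow, hσr, glMap_one_apply, inv_mul_cancel_left] at h1
  have h2 : σ c = c := congrArg Units.val (sc_injective (ι := ι) h1)
  have h3 : σ ((c⁻¹ : Fˣ) : F) = ((c⁻¹ : Fˣ) : F) := by
    rw [Units.val_inv_eq_inv_val, map_inv₀, h2]
  obtain ⟨w, hw⟩ := exists_nm_eq hr hr0 h3
  obtain ⟨h, hh⟩ := hilbert90 hr hr0 (g := sc w * g) (by rw [nm_sc_mul, hw, hc, ← map_mul, inv_mul_cancel, map_one])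
  have hap : ∀ v : ι → F, ap (y : GA ι F) ((h : Matrix ι ι F) *ᵥ v) =
        ((w⁻¹ : Fˣ) : F) • ((h : Matrix ι ι F) *ᵥ (σ ∘ v)) := by
    intro v
    have h4 : ap (y : GA ι F) ((h : Matrix ι ι F) *ᵥ v) = (g : Matrix ι ι F) *ᵥ (σ ∘ ((h : Matrix ι ι F) *ᵥ v)) := rfl
    rw [h4, comp_mulVec', ← glMap_coe, Matrix.mulVec_mulVec, ← Units.val_mul]
    have h5 : g * glMap σ h = sc w⁻¹ * h := by
      rw [eq_mul_inv_iff_mul_eq] at hh
      rw [map_inv, eq_inv_mul_iff_mul_eq, ← mul_assoc, hh]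
    rw [h5, Units.val_mul, ← Matrix.mulVec_mulVec, sc_mulVec]
  -- the multiplier
  obtain ⟨μ, hμ⟩ := y.2
  have hmu : ∀ v : ι → F, Q ((h : Matrix ι ι F) *ᵥ (σ ∘ v)) = ((w ^ 2 * μ : Fˣ) : F) * σ (Q ((h : Matrix ι ι F) *ᵥ v)) := by
    intro v
    have h6 := hμ ((h : Matrix ι ι F) *ᵥ v)
    rw [hap, QuadraticMap.map_smul, smul_eq_mul] at h6
    rw [Units.val_mul, Units.val_pow_eq_pow_val, mul_assoc, ← h6, Units.val_inv_eq_inv_val]
    have hw0 : (w : F) ≠ 0 := w.ne_zero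
    field_simp
  have hpow : ∀ (k : ℕ) (v : ι → F), Q ((h : Matrix ι ι F) *ᵥ ((σ ^ k : F ≃+* F) ∘ v)) =
      ((nm (unitsMap σ) (w ^ 2 * μ) k : Fˣ) : F) * (σ ^ k : F ≃+* F) (Q ((h : Matrix ι ι F) *ᵥ v)) := by
    intro k
    induction k with
    | zero =>
      intro v
      rw [nm_zero, Units.val_one, one_mul]
      rfl
    | succ k ih =>
      intro v
      rw [pow_succ']
      have h7 : ((σ * σ ^ k : F ≃+* F) : F → F) ∘ v = σ ∘ ((σ ^ k : F ≃+* F) ∘ v) := rfl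
      rw [h7, hmu, ih, nm_succ, map_mul, Units.val_mul (w ^ 2 * μ), unitsMap_coe, mul_assoc]
      rfl
  have hnm : nm (unitsMap σ) (w ^ 2 * μ) r = 1 := by
    obtain ⟨v₁, hv₁⟩ : ∃ v₁, Q v₁ ≠ 0 := by
      by_contra hcon
      push Not at hcon
      have hND : ND Q := nd_iff.mpr hQ
      obtain ⟨i⟩ := this
      have h8 : (Pi.single i 1 : ι → F) = 0 := hND _ (fun z => by
        rw [QuadraticMap.polar, hcon, hcon, hcon]; ring)
      have h9 := congrFun h8 i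
      rw [Pi.single_eq_same] at h9
      exact one_ne_zero h9
    have h10 := hpow r (((h⁻¹ : GL ι F) : Matrix ι ι F) *ᵥ v₁)
    rw [hσr] at h10
    have h11 : (((1 : F ≃+* F)) : F → F) ∘ (((h⁻¹ : GL ι F) : Matrix ι ι F) *ᵥ v₁) = ((h⁻¹ : GL ι F) : Matrix ι ι F) *ᵥ v₁ := rfl
    rw [h11, Matrix.mulVec_mulVec, ← Units.val_mul, mul_inv_cancel, Units.val_one, Matrix.one_mulVec] at h10
    apply Units.ext
    apply mul_right_cancel₀ hv₁
    rw [Units.val_one, one_mul]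
    exact h10.symm
  obtain ⟨ν, hν⟩ := hilbert90_units hr hr0 hnm
  refine ⟨w⁻¹, h, ν, hap, fun v => ?_⟩
  rw [hmu, hν, map_mul, map_inv₀, Units.val_mul, Units.val_inv_eq_inv_val, unitsMap_coe, ← mul_assoc, ← mul_assoc,
    inv_mul_cancel₀ ν.ne_zero, one_mul]

end H50.OrthPsi
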