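import Cfsg.Agent.Lib.H50.OrthDesc
import Cfsg.Agent.Lib.H48.OutO3

/-!
Similarities modulo scalars and `Ω`; squares in extensions of finite fields; reflections over subfields.
-/

set_option autoImplicit false
set_option linter.unusedSectionVars false

namespace H50.OrthSim

open Matrix H48.OutO H50.PSLBasic H50.PSLField H50.H90 H50.ClassCount H50.PSLCount H48.QuadSplit H50.OrthPsi
  H50.OrthDesc H48.OmegaPlus

/-! ### squares in extensions of finite fields -/

section squares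

variable {F : Type*} [Field F] [Fintype F] {F₀ : Type*} [Field F₀] [Fintype F₀] (j : F₀ →+* F)

lemma isSquare_of_sq (hc : Fintype.card F = Fintype.card F₀ ^ 2) (c : F₀) : IsSquare (j c) := by
  by_cases h2 : ringChar F = 2
  · exact FiniteField.isSquare_of_char_two h2 _
  by_cases hc0 : c = 0
  · rw [hc0, map_zero]; exact IsSquare.zero
  have hj0 : j c ≠ 0 := (map_ne_zero j).mpr hc0
  rw [FiniteField.isSquare_iff h2 hj0, hc, ← map_pow]
  have hodd : Odd (Fintype.card F₀) := by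
    have h3 : Odd (Fintype.card F) := by
      rcases Nat.even_or_odd (Fintype.card F) with h | h
      · exfalso
        apply h2
        exact FiniteField.even_card_iff_char_two.mpr (Nat.even_iff.mp h)
      · exact h
    rw [hc] at h3
    exact (Nat.odd_pow_iff (by norm_num)).mp h3
  obtain ⟨k, hk⟩ := hodd
  have h4 : Fintype.card F₀ ^ 2 / 2 = (Fintype.card F₀ - 1) * (k + 1) := by
    rw [hk]
    have : (2 * k + 1) ^ 2 = 2 * (2 * k * (k + 1)) + 1 := by ring
    rw [this]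
    have h5 : 2 * k + 1 - 1 = 2 * k := by omega
    rw [h5]
    omega
  rw [h4, pow_mul, FiniteField.pow_card_sub_one_eq_one c hc0, one_pow, map_one]

lemma isSquare_iff_of_odd {r : ℕ} (hr : Odd r) (hc : Fintype.card F = Fintype.card F₀ ^ r) (c : F₀) :
    IsSquare (j c) ↔ IsSquare c := by
  constructor
  swap
  · rintro ⟨d, rfl⟩
    exact ⟨j d, map_mul _ _ _⟩
  intro h
  by_cases hc0 : c = 0
  · rw [hc0]; exact IsSquare.zero
  by_cases h2 : ringChar F₀ = 2
  · exact FiniteField.isSquare_of_char_two h2 _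
  have hj0 : j c ≠ 0 := (map_ne_zero j).mpr hc0
  have hodd : Odd (Fintype.card F₀) := by
    rcases Nat.even_or_odd (Fintype.card F₀) with h | h
    · exfalso
      apply h2
      exact FiniteField.even_card_iff_char_two.mpr (Nat.even_iff.mp h)
    · exact h
  have h2' : ringChar F ≠ 2 := by
    intro h3
    have h4 := FiniteField.even_card_iff_char_two.mp h3
    rw [hc] at h4
    have h5 : Odd (Fintype.card F₀ ^ r) := hodd.pow
    rw [Nat.odd_iff] at h5
    omega
  rw [FiniteField.isSquare_iff h2' hj0, hc, ← map_pow, ← map_one j] at h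
  have h6 := j.injective h
  rw [FiniteField.isSquare_iff h2 hc0]
  have hk : 2 ≤ Fintype.card F₀ := Fintype.one_lt_card
  have hsum : Fintype.card F₀ ^ r / 2 = (Fintype.card F₀ / 2) * ∑ i ∈ Finset.range r, Fintype.card F₀ ^ i := by
    have h7 : (Fintype.card F₀ - 1) * ∑ i ∈ Finset.range r, Fintype.card F₀ ^ i = Fintype.card F₀ ^ r - 1 := by
      have := Nat.geomSum_eq hk r
      have h8 : (Fintype.card F₀ - 1) ∣ Fintype.card F₀ ^ r - 1 := by
        simpa using Nat.sub_dvd_pow_sub_pow (Fintype.card F₀) 1 r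
      rw [this, Nat.mul_div_cancel' h8]
    obtain ⟨k, hk'⟩ := hodd
    have h9 : Fintype.card F₀ / 2 = k := by omega
    have h10 : Fintype.card F₀ - 1 = 2 * k := by omega
    rw [h10] at h7
    rw [h9]
    have h11 : Odd (Fintype.card F₀ ^ r) := Odd.pow ⟨k, hk'⟩
    obtain ⟨l, hl⟩ := h11
    rw [hl] at h7 ⊢
    have h12 : 2 * (k * ∑ i ∈ Finset.range r, Fintype.card F₀ ^ i) = 2 * l := by
      rw [← mul_assoc, h7]; omega
    omega
  have hSodd : Odd (∑ i ∈ Finset.range r, Fintype.card F₀ ^ i) := by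
    have : ∀ k, (∑ i ∈ Finset.range k, Fintype.card F₀ ^ i) % 2 = k % 2 := by
      intro k
      induction k with
      | zero => rfl
      | succ k ih =>
        rw [Finset.sum_range_succ, Nat.add_mod, ih]
        have : Fintype.card F₀ ^ k % 2 = 1 := Nat.odd_iff.mp hodd.pow
        rw [this]
        omega
    rw [Nat.odd_iff, this, ← Nat.odd_iff]
    exact hr
  rw [hsum, pow_mul] at h6
  rcases FiniteField.pow_dichotomy h2 hc0 with h13 | h13
  · exact h13
  · exfalso
    rw [h13, hSodd.neg_one_pow] at h6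
    exact Ring.neg_one_ne_one_of_char_ne_two h2 h6

end squares

variable {F : Type*} [Field F] {ι : Type} [Fintype ι] [DecidableEq ι] {Q : QuadraticForm F (ι → F)}

/-- isometries as similarities -/
def isoG (Q : QuadraticForm F (ι → F)) : ↥(Cfsg.isometryGroup F (⇑Q)) →* ↥(simG Q) where
  toFun s := ⟨s.1, 1, fun v => by
    rw [Units.val_one, one_mul]; exact (H17.OrthDet.mem_isometryGroup_iff _ _).mp s.2 v⟩
  map_one' := rfl
  map_mul' _ _ := rfl

lemma isoG_coe (s : ↥(Cfsg.isometryGroup F (⇑Q))) : ((isoG Q s : ↥(simG Q)) : GL ι F) = s.1 := rfl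

lemma isoG_injective : Function.Injective (isoG Q) := fun _ _ h => Subtype.ext (congrArg (fun z : ↥(simG Q) => z.1) h)

lemma psi1_isoG (s : ↥(Cfsg.Omega F (⇑Q))) :
    psi1 Q (isoG Q s.1) = MulAut.conj (QuotientGroup.mk s : Cfsg.POmega F (⇑Q)) := Psi_emb s

/-- the similarities inducing inner automorphisms -/
lemma inn_iff [Fintype F] (hQ : (QuadraticMap.polarBilin Q).Nondegenerate) (hn : 7 ≤ Fintype.card ι) (g : ↥(simG Q)) :
    psi1 Q g ∈ Cfsg.Inn (Cfsg.POmega F (⇑Q)) ↔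
      ∃ (u : Fˣ) (s : ↥(Cfsg.isometryGroup F (⇑Q))), s ∈ Cfsg.Omega F (⇑Q) ∧ g = scG Q u * isoG Q s := by
  constructor
  · rintro ⟨a, ha⟩
    obtain ⟨s, rfl⟩ := QuotientGroup.mk_surjective a
    have h1 : psi1 Q g = psi1 Q (isoG Q s.1) := by rw [psi1_isoG]; exact ha.symm
    obtain ⟨u, hu⟩ := (psi1_eq_iff hQ hn).mp h1
    exact ⟨u, s.1, s.2, hu⟩
  · rintro ⟨u, s, hs, rfl⟩
    rw [map_mul, psi1_scG, one_mul, psi1_isoG ⟨s, hs⟩]
    exact ⟨_, rfl⟩

/-- the image of the similarity group is normal -/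
lemma range_normal (hAut : ∀ α : MulAut (Cfsg.POmega F (⇑Q)), ∃ y : ↥(Gam Q), α = Psi Q y) : (psi1 Q).range.Normal := by
  constructor
  rintro _ ⟨g, rfl⟩ α
  obtain ⟨y, rfl⟩ := hAut α
  obtain ⟨h, hh⟩ := exists_toGam (y := y * toGam Q g * y⁻¹) (by
    rw [Subgroup.coe_mul, Subgroup.coe_mul, SemidirectProduct.mul_right, SemidirectProduct.mul_right, toGam_coe,
      SemidirectProduct.right_inl, mul_one, Subgroup.coe_inv, SemidirectProduct.inv_right, mul_inv_cancel])
  refine ⟨h, ?_⟩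
  rw [psi1_apply, hh, map_mul, map_mul, map_inv, psi1_apply]

lemma exists_psi_of_pair {q : (ι → F) → F} (hq : ⇑Q = q) (α : MulAut (Cfsg.POmega F q))
    (h : ∃ (g : Matrix.GeneralLinearGroup ι F) (σ : F ≃+* F), Cfsg.IsSemisimilarityPair q g σ ∧
      Cfsg.IsInducedBySemilinearPOmega q g σ α) :
    ∃ y : ↥(Gam Q), hq ▸ α = Psi Q y := by
  subst hq
  obtain ⟨g, σ, h1, h2⟩ := h
  exact ⟨⟨⟨g, σ⟩, mem_Gam_iff.mpr h1⟩, (induced_iff ⟨⟨g, σ⟩, mem_Gam_iff.mpr h1⟩ α).mp h2⟩

/-- the multiplier of a similarity in odd dimension is a square -/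
theorem odd_decomp (hQ : ND Q) (hodd : Odd (Fintype.card ι)) (g : ↥(simG Q)) :
    ∃ (u : Fˣ) (s : ↥(Cfsg.isometryGroup F (⇑Q))), ((s : GL ι F) : Matrix ι ι F).det = 1 ∧ g = scG Q u * isoG Q s := by
  obtain ⟨c, hc⟩ := g.2
  obtain ⟨k, hk⟩ := hodd
  have heq : ((c : F) • Q).Equivalent Q := ⟨⟨glE g.1, fun v => hc v⟩⟩
  obtain ⟨d, hd0, hd⟩ := H48.Gram.gdet_equivalent heq (Pi.basisFun F ι) (Pi.basisFun F ι)
  have hg0 : H48.Gram.gdet Q (Pi.basisFun F ι) ≠ 0 := H48.Gram.gdet_ne_zero hQ _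
  rw [H48.Gram.gdet_smul] at hd
  have hcd : (c : F) ^ (2 * k + 1) = d ^ 2 := by
    have h1 := mul_right_cancel₀ hg0 hd
    rw [← hk]
    exact h1
  have hc0 : (c : F) ≠ 0 := c.ne_zero
  have hu0 : d / (c : F) ^ k ≠ 0 := div_ne_zero hd0 (pow_ne_zero _ hc0)
  have hu : (d / (c : F) ^ k) ^ 2 = c := by
    rw [div_pow, ← hcd, ← pow_mul]
    have : (c : F) ^ (2 * k + 1) = c * (c : F) ^ (k * 2) := by ring
    rw [this, mul_div_assoc, div_self (pow_ne_zero _ hc0), mul_one]
  -- the isometry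
  have key : ∀ u : Fˣ, (u : F) ^ 2 = c → ∃ s : ↥(Cfsg.isometryGroup F (⇑Q)), g = scG Q u * isoG Q s := by
    intro u hu
    refine ⟨⟨(sc u⁻¹ : GL ι F) * g.1, ?_⟩, ?_⟩
    · rw [H17.OrthDet.mem_isometryGroup_iff]
      intro v
      change Q (((sc u⁻¹ * g.1 : GL ι F) : Matrix ι ι F) *ᵥ v) = Q v
      rw [Units.val_mul, ← Matrix.mulVec_mulVec, sc_mulVec, QuadraticMap.map_smul, hc, ← hu, smul_eq_mul,
        Units.val_inv_eq_inv_val]
      have : (u : F) ≠ 0 := u.ne_zero
      field_simp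
    · apply Subtype.ext
      change g.1 = sc u * ((sc u⁻¹ : GL ι F) * g.1)
      rw [← mul_assoc, ← map_mul, mul_inv_cancel, map_one, one_mul]
  obtain ⟨s, hs⟩ := key (Units.mk0 _ hu0) hu
  have hdet : ((s : GL ι F) : Matrix ι ι F).det = 1 ∨ ((s : GL ι F) : Matrix ι ι F).det = -1 :=
    H17.OrthDet.det_eq Q (nd_iff.mp hQ) _ (fun v => (H17.OrthDet.mem_isometryGroup_iff _ _).mp s.2 v)
  rcases hdet with h | h
  · exact ⟨_, s, h, hs⟩
  · obtain ⟨s', hs'⟩ := key (-Units.mk0 _ hu0) (by rw [Units.val_neg, neg_sq]; exact hu)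
    refine ⟨_, s', ?_, hs'⟩
    have h1 : (s : GL ι F) = sc (-1) * (s' : GL ι F) := by
      have h2 := hs.symm.trans hs'
      have h3 := congrArg (fun z : ↥(simG Q) => z.1) h2
      have h4 : sc (Units.mk0 _ hu0) * (s : GL ι F) = sc (-Units.mk0 _ hu0) * (s' : GL ι F) := h3
      have h5 : (-Units.mk0 _ hu0 : Fˣ) = Units.mk0 _ hu0 * (-1) := by rw [mul_neg, mul_one]
      rw [h5, map_mul, mul_assoc] at h4
      exact mul_left_cancel h4
    have h6 := congrArg (fun z : GL ι F => (z : Matrix ι ι F).det) h1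
    have h7 : ((s : GL ι F) : Matrix ι ι F).det = (-1) ^ Fintype.card ι * ((s' : GL ι F) : Matrix ι ι F).det := by
      rw [h6.trans rfl]
      change ((sc (-1) * (s' : GL ι F) : GL ι F) : Matrix ι ι F).det = _
      rw [Units.val_mul, Matrix.det_mul, sc_coe, Matrix.det_smul, Matrix.det_one, mul_one]
      rfl
    rw [h, hk, pow_succ, pow_mul, neg_one_sq, one_pow, one_mul] at h7
    have h8 : -((s' : GL ι F) : Matrix ι ι F).det = -1 := by rw [h7]; ring
    exact neg_injective h8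

/-! ### reflections over subfields -/

section refl

variable {F₀ : Type*} [Field F₀] {j : F₀ →+* F} {Q₀ : QuadraticForm F₀ (ι → F₀)}

lemma matrix_ext_jv {M N : Matrix ι ι F} (h : ∀ v : ι → F₀, M *ᵥ (jv j v) = N *ᵥ (jv j v)) : M = N := by
  apply Matrix.ext_of_mulVec_single
  intro i
  have := h (Pi.single i 1)
  rwa [jv_single] at this

lemma refl_map (ho : Ovr j Q₀ Q) (v : ι → F₀) :
    (Cfsg.reflectionMatrix (⇑Q₀) v).map j = Cfsg.reflectionMatrix (⇑Q) (jv j v) := by
  apply matrix_ext_jv (j := j)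
  intro x
  rw [map_mulVec_jv, H17.OrthMat.reflectionMatrix_mulVec, H17.OrthMat.reflectionMatrix_mulVec, ho, ho.polar,
    ← map_inv₀ j, ← map_mul j, ← jv_smul]
  funext i
  exact map_sub j _ _

lemma rprod_map (ho : Ovr j Q₀ Q) (vs : List (ι → F₀)) : (rprod Q₀ vs).map j = rprod Q (vs.map (jv j)) := by
  induction vs with
  | nil =>
    rw [List.map_nil]
    change (1 : Matrix ι ι F₀).map j = 1
    exact Matrix.map_one j (map_zero j) (map_one j)
  | cons v vs ih => rw [List.map_cons, rprod_cons, rprod_cons, Matrix.map_mul, ih, refl_map ho]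

end refl

end H50.OrthSim
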