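import Cfsg.Agent.Lib.H50.PSLBal

/-!
Local balance for `PSL_n(F)`: the core of the centralizer of a field automorphism.
-/

set_option autoImplicit false
set_option linter.unusedSectionVars false
set_option maxHeartbeats 400000

namespace H50.PSLBal

open Matrix H50.Tv H50.PSLBasic H50.PSLPure H50.PSLField H50.PSLUniq H50.PSLCount H50.H90 H50.ClassCount

variable {n : ℕ} {F : Type*} [Field F]

lemma map_eq_bot {G H : Type*} [Group G] [Group H] (e : G ≃* H) {p : ℕ}
    (h : ∀ M : Subgroup H, M.Normal → (Nat.card M).Coprime p → M = ⊥)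
    (M : Subgroup G) (hM : M.Normal) (hc : (Nat.card M).Coprime p) : M = ⊥ := by
  have h1 := h (M.map e.toMonoidHom) (hM.map e.toMonoidHom e.surjective) (by
    rw [Subgroup.card_map_of_injective e.injective]
    exact hc)
  rwa [Subgroup.map_eq_bot_iff_of_injective _ e.injective] at h1

lemma r_eq [Fintype F] {r : ℕ} [Fact r.Prime] [CharP F r] {l : ℕ} (hl : l.Prime) (h : Fintype.card F = l) : r = l := by
  obtain ⟨k, hk, hk'⟩ := FiniteField.card F r
  have h2 : r ∣ l := by
    rw [← h, hk']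
    exact dvd_pow_self r k.pos.ne'
  exact (Nat.prime_dvd_prime_iff_eq Fact.out hl).mp h2

lemma normal_trivial [Finite F] {r : ℕ} [Fact r.Prime] [CharP F r] (hn : 2 ≤ n) {p : ℕ} (hp : p.Prime) (hpr : p ≠ r)
    (hd : p ∣ Nat.card (ProjectiveSpecialLinearGroup (Fin n) F)) (M : Subgroup (ProjectiveSpecialLinearGroup (Fin n) F))
    (hM : M.Normal) (hc : (Nat.card M).Coprime p) : M = ⊥ := by
  classical
  have := Fintype.ofFinite F
  have key : IsSimpleGroup (ProjectiveSpecialLinearGroup (Fin n) F) → M = ⊥ := by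
    intro hs
    rcases hM.eq_bot_or_eq_top with h | h
    · exact h
    · exfalso
      rw [h, Subgroup.card_top] at hc
      exact hp.one_lt.ne' (Nat.Coprime.eq_one_of_dvd hc.symm hd)
  by_cases h3 : 3 ≤ n
  · exact key (H6.SLGen.psl_isSimpleGroup (by rw [Fintype.card_fin]; exact h3))
  · obtain rfl : n = 2 := by omega
    by_cases h4 : 4 ≤ Nat.card F
    · exact key (Matrix.ProjectiveSpecialLinearGroup.rank_two_simple h4)
    · have h1 := Fintype.one_lt_card (α := F)
      rw [Nat.card_eq_fintype_card] at h4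
      have hcard := H6.SmallIsoA.card_psl2 (F := F)
      obtain ⟨N, hN⟩ : ∃ N, N = Nat.card (ProjectiveSpecialLinearGroup (Fin 2) F) := ⟨_, rfl⟩
      rw [← hN] at hcard hd
      by_cases h5 : Fintype.card F = 3
      · obtain ⟨e⟩ := H6.SmallIsoA.psl2_three h5
        have hr : r = 3 := r_eq Nat.prime_three h5
        subst hr
        rw [h5] at hcard
        norm_num at hcard
        have hp2 : p = 2 := by
          have h6 : N = 12 := by omega
          rw [h6, show (12 : ℕ) = 2 * 2 * 3 by norm_num] at hd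
          rcases (Nat.Prime.dvd_mul hp).mp hd with h7 | h7
          · rcases (Nat.Prime.dvd_mul hp).mp h7 with h8 | h8
            · exact (Nat.prime_dvd_prime_iff_eq hp Nat.prime_two).mp h8
            · exact (Nat.prime_dvd_prime_iff_eq hp Nat.prime_two).mp h8
          · exact absurd ((Nat.prime_dvd_prime_iff_eq hp Nat.prime_three).mp h7) hpr
        subst hp2
        exact map_eq_bot e (fun M hM hc => normal_of_comm Nat.prime_two comm_alt4 M hM hc) M hM hc
      · have h6 : Fintype.card F = 2 := by omega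
        have hr : r = 2 := r_eq Nat.prime_two h6
        subst hr
        obtain ⟨φ, hφ⟩ := H6.SmallIsoA.exists_hom_projLine (F := F) (m := 3) (by rw [h6])
        rw [h6] at hcard
        norm_num at hcard
        have hcard2 : Nat.card (ProjectiveSpecialLinearGroup (Fin 2) F) = Nat.card (Equiv.Perm (Fin 3)) := by
          rw [← hN, hcard, Nat.card_perm, Nat.card_eq_fintype_card, Fintype.card_fin]
          rfl
        let e : ProjectiveSpecialLinearGroup (Fin 2) F ≃* Equiv.Perm (Fin 3) :=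
          MulEquiv.ofBijective φ ((Nat.bijective_iff_injective_and_card φ).2 ⟨hφ, hcard2⟩)
        have hp3 : p = 3 := by
          rw [hcard, show (6 : ℕ) = 2 * 3 by norm_num] at hd
          rcases (Nat.Prime.dvd_mul hp).mp hd with h7 | h7
          · exact absurd ((Nat.prime_dvd_prime_iff_eq hp Nat.prime_two).mp h7) hpr
          · exact (Nat.prime_dvd_prime_iff_eq hp Nat.prime_three).mp h7
        subst hp3
        exact map_eq_bot e (fun M hM hc => normal_of_comm Nat.prime_three comm_perm3 M hM hc) M hM hc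

/-! ### elements of order `p` -/

/-- `diag(a, a⁻¹, 1, …)` -/
def dg (i k : Fin n) (a : Fˣ) : SpecialLinearGroup (Fin n) F :=
  ⟨Matrix.diagonal (fun x => ((Pi.mulSingle i a * Pi.mulSingle k a⁻¹ : Fin n → Fˣ) x : F)), by
    rw [Matrix.det_diagonal, ← Units.coe_prod]
    simp only [Pi.mul_apply, Finset.prod_mul_distrib, Finset.prod_pi_mulSingle', Finset.mem_univ, if_true]
    rw [mul_inv_cancel, Units.val_one]⟩

lemma dg_coe (i k : Fin n) (a : Fˣ) : (dg i k a : Matrix (Fin n) (Fin n) F) =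
    Matrix.diagonal (fun x => ((Pi.mulSingle i a * Pi.mulSingle k a⁻¹ : Fin n → Fˣ) x : F)) := rfl

lemma dg_pow (i k : Fin n) (a : Fˣ) (m : ℕ) (ha : a ^ m = 1) : (dg i k a) ^ m = 1 := by
  apply Subtype.ext
  rw [Matrix.SpecialLinearGroup.coe_pow, dg_coe, Matrix.diagonal_pow, Matrix.SpecialLinearGroup.coe_one,
    ← Matrix.diagonal_one]
  congr 1
  ext x
  rw [Pi.pow_apply, ← Units.val_pow_eq_pow_val, ← Pi.pow_apply, mul_pow, ← Pi.mulSingle_pow, ← Pi.mulSingle_pow, inv_pow, ha,
    inv_one, Pi.mulSingle_one, Pi.mulSingle_one, mul_one]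
  rfl

lemma orderOf_mk {p : ℕ} (hp : p.Prime) {s : SpecialLinearGroup (Fin n) F} {c : F}
    (h1 : (s : Matrix (Fin n) (Fin n) F) ^ p = c • (1 : Matrix (Fin n) (Fin n) F))
    (h2 : ∀ c : F, (s : Matrix (Fin n) (Fin n) F) ≠ c • (1 : Matrix (Fin n) (Fin n) F)) :
    orderOf (QuotientGroup.mk s : ProjectiveSpecialLinearGroup (Fin n) F) = p := by
  have := Fact.mk hp
  apply orderOf_eq_prime
  · change (QuotientGroup.mk (s ^ p) : ProjectiveSpecialLinearGroup (Fin n) F) = QuotientGroup.mk 1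
    rw [eq_comm, mk_eq_mk_iff]
    exact ⟨c, by rw [Matrix.SpecialLinearGroup.coe_pow, h1]; rfl⟩
  · intro h
    change (QuotientGroup.mk s : ProjectiveSpecialLinearGroup (Fin n) F) = QuotientGroup.mk 1 at h
    obtain ⟨c, hc⟩ := mk_eq_mk_iff.mp h.symm
    exact h2 c hc

lemma dvd_card_of_dvd [Finite F] (hn : 2 ≤ n) {p : ℕ} (hp : p.Prime) (hF : 2 = p → (2 : F) ≠ 0) (hd : p ∣ Nat.card Fˣ) :
    p ∣ Nat.card (ProjectiveSpecialLinearGroup (Fin n) F) := by
  classical
  have := Fact.mk hp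
  by_cases h22 : n = 2 ∧ p = 2
  · obtain ⟨rfl, rfl⟩ := h22
    have h20 := hF rfl
    let s : SpecialLinearGroup (Fin 2) F := ⟨!![0, 1; -1, 0], by simp [Matrix.det_fin_two]⟩
    have h1 : orderOf (QuotientGroup.mk s : ProjectiveSpecialLinearGroup (Fin 2) F) = 2 := by
      apply orderOf_mk Nat.prime_two (c := -1)
      · change (!![0, 1; -1, 0] : Matrix (Fin 2) (Fin 2) F) ^ 2 = _
        rw [pow_two]
        ext i k
        fin_cases i <;> fin_cases k <;> simp [Matrix.mul_apply, Fin.sum_univ_two]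
      · intro c hc
        have e1 := congrFun (congrFun hc 0) 1
        change (1 : F) = c * (1 : Matrix (Fin 2) (Fin 2) F) 0 1 at e1
        rw [Matrix.one_apply_ne (by simp), mul_zero] at e1
        exact one_ne_zero e1
    have h7 := orderOf_dvd_natCard (QuotientGroup.mk s : ProjectiveSpecialLinearGroup (Fin 2) F)
    rwa [h1] at h7
  · obtain ⟨a, ha⟩ := exists_prime_orderOf_dvd_card' (G := Fˣ) p hd
    have ha1 : a ≠ 1 := by
      rintro rfl
      rw [orderOf_one] at ha
      exact hp.one_lt.ne ha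
    have hap : a ^ p = 1 := by rw [← ha, pow_orderOf_eq_one]
    let i₀ : Fin n := ⟨0, by omega⟩
    let i₁ : Fin n := ⟨1, by omega⟩
    have h01 : i₀ ≠ i₁ := by simp [i₀, i₁]
    have h1 : orderOf (QuotientGroup.mk (dg i₀ i₁ a) : ProjectiveSpecialLinearGroup (Fin n) F) = p := by
      apply orderOf_mk hp (c := 1)
      · rw [← Matrix.SpecialLinearGroup.coe_pow, dg_pow _ _ _ _ hap, one_smul]; rfl
      · intro c hc
        have e0 := congrFun (congrFun hc i₀) i₀
        have e1 := congrFun (congrFun hc i₁) i₁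
        rw [dg_coe, Matrix.diagonal_apply_eq, Matrix.smul_apply, Matrix.one_apply_eq, smul_eq_mul, mul_one,
          Pi.mul_apply, Pi.mulSingle_eq_same, Pi.mulSingle_eq_of_ne h01, mul_one] at e0
        rw [dg_coe, Matrix.diagonal_apply_eq, Matrix.smul_apply, Matrix.one_apply_eq, smul_eq_mul, mul_one,
          Pi.mul_apply, Pi.mulSingle_eq_same, Pi.mulSingle_eq_of_ne h01.symm, one_mul] at e1
        by_cases h3 : 3 ≤ n
        · let i₂ : Fin n := ⟨2, by omega⟩
          have h02 : i₂ ≠ i₀ := by simp [i₀, i₂]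
          have h12 : i₂ ≠ i₁ := by simp [i₁, i₂]
          have e2 := congrFun (congrFun hc i₂) i₂
          rw [dg_coe, Matrix.diagonal_apply_eq, Matrix.smul_apply, Matrix.one_apply_eq, smul_eq_mul, mul_one,
            Pi.mul_apply, Pi.mulSingle_eq_of_ne h02, Pi.mulSingle_eq_of_ne h12, mul_one] at e2
          rw [← e2] at e0
          exact ha1 (Units.ext e0)
        · have hn2 : n = 2 := by omega
          have hp2 : p ≠ 2 := fun h => h22 ⟨hn2, h⟩
          rw [← e0] at e1
          have h5 : a⁻¹ = a := Units.ext e1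
          have h6 : a ^ 2 = 1 := by
            rw [pow_two]
            nth_rw 1 [← h5]
            rw [inv_mul_cancel]
          have h7 : p ∣ 2 := by
            rw [← ha]; exact orderOf_dvd_of_pow_eq_one h6
          exact hp2 ((Nat.prime_dvd_prime_iff_eq hp Nat.prime_two).mp h7)
    rw [← h1]
    exact orderOf_dvd_natCard _

variable {F₀ : Type*} [Field F₀] {σ : F ≃+* F} {j : F₀ →+* F}

lemma det_pow_card [Finite F₀] (k : GL (Fin n) F₀) :
    ((k ^ Nat.card F₀ˣ : GL (Fin n) F₀) : Matrix (Fin n) (Fin n) F₀).det = 1 := by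
  have h1 : Matrix.GeneralLinearGroup.det (k ^ Nat.card F₀ˣ) = 1 := by
    rw [map_pow]
    exact pow_card_eq_one'
  exact congrArg Units.val h1

/-- powers of fixed points lie in `L` -/
lemma pow_mem_L [Finite F₀] (hn : 2 ≤ n) (hσ1 : 0 < orderOf σ) (hj : ∀ x, (∃ c, j c = x) ↔ σ x = x)
    {u : SpecialLinearGroup (Fin n) F} (hu : psi (1 : GL (Fin n) F) σ (QuotientGroup.mk u) = QuotientGroup.mk u) :
    ∃ l : ProjectiveSpecialLinearGroup (Fin n) F₀,
      (QuotientGroup.mk u : ProjectiveSpecialLinearGroup (Fin n) F) ^ (Nat.card F₀ˣ) = pslHom j l := by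
  have hnt : Nontrivial (Fin n) := Fin.nontrivial_iff_two_le.mpr hn
  obtain ⟨w, h, h1, h2⟩ := fix_cases hσ1 hu
  obtain ⟨k, rfl⟩ := (glMap_eq_self_iff hj h).mp h2
  let s₀ : SpecialLinearGroup (Fin n) F₀ := ⟨((k ^ Nat.card F₀ˣ : GL (Fin n) F₀) : Matrix (Fin n) (Fin n) F₀), det_pow_card k⟩
  refine ⟨QuotientGroup.mk s₀, ?_⟩
  apply H50.Bal.conj_injective center_psl
  rw [map_pow, conj_psi', h1, psi_sc_mul, pslHom_mk, conj_psi']
  have h3 : psi (glHom j k) 1 ^ (Nat.card F₀ˣ) = psi (glHom j (k ^ Nat.card F₀ˣ)) 1 := by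
    have : psi (glHom j k) 1 = psiHom (glHom j k) := rfl
    rw [this, ← map_pow, ← map_pow]; rfl
  rw [h3]
  congr 1
  exact Units.ext rfl

lemma dvd_card_L [Finite F] [Finite F₀] {r : ℕ} [Fact r.Prime] [CharP F r] (hn : 2 ≤ n) (hσ1 : 0 < orderOf σ)
    (hj : ∀ x, (∃ c, j c = x) ↔ σ x = x) {p : ℕ} (hp : p.Prime) (hpr : p ≠ r)
    {k : ProjectiveSpecialLinearGroup (Fin n) F}
    (hk : psi (1 : GL (Fin n) F) σ k = k) (hord : orderOf k = p) :
    p ∣ Nat.card (ProjectiveSpecialLinearGroup (Fin n) F₀) := by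
  have hnt : Nontrivial (Fin n) := Fin.nontrivial_iff_two_le.mpr hn
  by_cases hd : p ∣ Nat.card F₀ˣ
  · refine dvd_card_of_dvd hn hp ?_ hd
    intro h0 h20
    apply hpr
    have h1 : (2 : F) = 0 := by
      rw [← map_ofNat j 2]
      rw [h20, map_zero]
    have h2 : ((2 : ℕ) : F) = 0 := by exact_mod_cast h1
    rw [CharP.cast_eq_zero_iff F r] at h2
    rw [← h0]
    exact ((Nat.prime_dvd_prime_iff_eq Fact.out Nat.prime_two).mp h2).symm
  · obtain ⟨u, rfl⟩ := QuotientGroup.mk_surjective k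
    obtain ⟨l, hl⟩ := pow_mem_L hn hσ1 hj hk
    have h1 : orderOf ((QuotientGroup.mk u : ProjectiveSpecialLinearGroup (Fin n) F) ^ (Nat.card F₀ˣ)) = p := by
      rw [Nat.Coprime.orderOf_pow, hord]
      rw [hord]
      exact (Nat.Prime.coprime_iff_not_dvd hp).mpr hd
    rw [hl, orderOf_injective _ (pslHom_injective j)] at h1
    rw [← h1]
    exact orderOf_dvd_natCard _

/-! ### the field case -/

theorem field_core [Finite F] {r : ℕ} [Fact r.Prime] [CharP F r] (hn : 2 ≤ n)
    (A : Subgroup (MulAut (ProjectiveSpecialLinearGroup (Fin n) F)))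
    (hinn : ∀ k : ProjectiveSpecialLinearGroup (Fin n) F, MulAut.conj k ∈ A) {p : ℕ} (hp : p.Prime)
    (hpr : p ≠ r) (x : MulAut (ProjectiveSpecialLinearGroup (Fin n) F)) {h : GL (Fin n) F} {σ : F ≃+* F}
    (hσ : orderOf σ = p) (hx : x = psi h 1 * psi 1 σ * (psi h 1)⁻¹)
    (hnc : p ∣ Nat.card ↥(MonoidHom.eqLocus x.toMonoidHom (MonoidHom.id (ProjectiveSpecialLinearGroup (Fin n) F)))) :
    Cfsg.pPrimeCore p ↥(A ⊓ Subgroup.centralizer {x}) = ⊥ := by
  classical
  have hnt : Nontrivial (Fin n) := Fin.nontrivial_iff_two_le.mpr hn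
  have hfinM : Finite (MulAut (ProjectiveSpecialLinearGroup (Fin n) F)) := H17.SpCount.finite_mulAut _
  have hZ := center_psl (ι := Fin n) (F := F)
  have hInnA : Cfsg.Inn (ProjectiveSpecialLinearGroup (Fin n) F) ≤ A := by
    rintro _ ⟨k, rfl⟩
    exact hinn k
  have hσpos : 0 < orderOf σ := by rw [hσ]; exact hp.pos
  have := Fact.mk hp
  obtain ⟨k, hk⟩ := exists_prime_orderOf_dvd_card' p hnc
  have hkx : x (k : ProjectiveSpecialLinearGroup (Fin n) F) = k := k.2
  have hko : orderOf (k : ProjectiveSpecialLinearGroup (Fin n) F) = p := by rw [Subgroup.orderOf_coe, hk]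
  have hk0 : psi (1 : GL (Fin n) F) σ ((psi h 1)⁻¹ (k : ProjectiveSpecialLinearGroup (Fin n) F)) =
      (psi h 1)⁻¹ (k : ProjectiveSpecialLinearGroup (Fin n) F) := by
    have h1 : psi (1 : GL (Fin n) F) σ * (psi h 1)⁻¹ = (psi h 1)⁻¹ * x := by rw [hx]; group
    have h2 := congrArg (fun β : MulAut (ProjectiveSpecialLinearGroup (Fin n) F) =>
      β (k : ProjectiveSpecialLinearGroup (Fin n) F)) h1
    simp only [MulAut.mul_apply] at h2
    rw [h2, hkx]
  have hko0 : orderOf ((psi h 1)⁻¹ (k : ProjectiveSpecialLinearGroup (Fin n) F)) = p := by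
    rw [← hko]
    exact MulEquiv.orderOf_eq (psi h 1)⁻¹ (k : ProjectiveSpecialLinearGroup (Fin n) F)
  -- the subfield group
  let F₀ := H49.FixedField.fixedField σ
  obtain ⟨j, hj⟩ := exists_embedding (F₀ := F₀) σ rfl
  have hdvd := dvd_card_L (r := r) hn hσpos hj hp hpr hk0 hko0
  have hchar : CharP F₀ r := by
    refine (j.charP_iff j.injective r).mpr inferInstance
  refine Bal.no_core' (Cfsg.Inn (ProjectiveSpecialLinearGroup (Fin n) F)) A hInnA (x₀ := psi (1 : GL (Fin n) F) σ)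
    (γ := psi h 1) (by rw [orderOf_psi_std, hσ]) (MulAut.conj.comp (pslHom (ι := Fin n) j)) ?_ ?_ ?_ ?_ ?_ ?_ hx
  · exact (Bal.conj_injective hZ).comp (pslHom_injective j)
  · intro l
    exact ⟨_, rfl⟩
  · intro l
    obtain ⟨s, rfl⟩ := QuotientGroup.mk_surjective l
    change MulAut.conj (pslHom j (QuotientGroup.mk s)) * _ = _ * MulAut.conj (pslHom j (QuotientGroup.mk s))
    rw [Bal.conj_comm_iff _ _ hZ, pslHom_mk, psi_mk, semiSL_one_fix (slHom_fix hj _)]
  · rintro _ ⟨k, rfl⟩ hk l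
    obtain ⟨u, rfl⟩ := QuotientGroup.mk_surjective k
    rw [Bal.conj_comm_iff _ _ hZ] at hk
    obtain ⟨l', hl'⟩ := conj_mem_L hσpos hj hk l
    refine ⟨l', ?_⟩
    change MulAut.conj _ * MulAut.conj (pslHom j l) * (MulAut.conj _)⁻¹ = MulAut.conj (pslHom j l')
    rw [← map_inv, ← map_mul, ← map_mul, hl']
  · intro M hM hMc
    exact normal_trivial (r := r) hn hp hpr hdvd M hM hMc
  · intro α _ hα
    apply mem_zpowers_of_fix (r := r) hn
    intro s hs
    obtain ⟨s₀, rfl⟩ := exists_slHom hj hs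
    have h1 := hα (QuotientGroup.mk s₀)
    change α * MulAut.conj (pslHom j (QuotientGroup.mk s₀)) = MulAut.conj (pslHom j (QuotientGroup.mk s₀)) * α at h1
    rw [eq_comm, Bal.conj_comm_iff _ _ hZ] at h1
    exact h1

end H50.PSLBal
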