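import Cfsg.Agent.Lib.H50.PSLCount
import Cfsg.Agent.Lib.H50.FieldAut2

/-!
Graph-field involutions of `PSL_n(F)`.
-/

set_option autoImplicit false
set_option linter.unusedSectionVars false

namespace H50.PSLGraphField

open Matrix H50.PSLBasic H50.PSLUniq H50.H90 H50.ClassCount H50.PSLField H50.PSLFieldClass H50.PSLOut H50.PSLCount

variable {F : Type*} [Field F] {n : ℕ}

section
variable {ι : Type*} [Fintype ι] [DecidableEq ι]

lemma psi_comm_field [Finite F] (p : ℕ) [Fact p.Prime] [CharP F p] (h g : GL ι F) (τ σ : F ≃+* F) :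
    psi h τ * (psi g σ * iota) * (psi h τ)⁻¹ =
      psi (h * glMap τ g * glMap σ (glInvTr h⁻¹)) σ * iota := by
  rw [mul_inv_eq_iff_eq_mul, psi_iota_mul_psi, ← mul_assoc, psi_mul', mul_assoc (h * glMap τ g), ← map_mul, ← map_mul,
    inv_mul_cancel, map_one, map_one, mul_one, H50.FieldAut.ringAut_comm p τ σ]

lemma iota_conj_iota (g : GL ι F) (σ : F ≃+* F) :
    iota * (psi g σ * iota) * iota⁻¹ = psi (glInvTr g) σ * iota := by
  rw [← mul_assoc, iota_mul_psi, iota_inv, mul_assoc, iota_mul_self, mul_one]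

end

variable [Finite F] (p : ℕ) [Fact p.Prime] [CharP F p]
include p

/-- the coset `Inndiag · σ ι` is stable under conjugation -/
lemma conj_form (hn : 2 ≤ n) (α : MulAut (ProjectiveSpecialLinearGroup (Fin n) F)) (g : GL (Fin n) F) (σ : F ≃+* F) :
    ∃ g' : GL (Fin n) F, α * (psi g σ * iota) * α⁻¹ = psi g' σ * iota := by
  obtain ⟨h, τ, h1 | ⟨-, h1⟩⟩ := H50.AutPSL2.aut_psl (p := p) hn α
  · rw [h1]
    exact ⟨_, psi_comm_field p h g τ σ⟩
  · rw [h1]
    have h2 : psi h τ * iota * (psi g σ * iota) * (psi h τ * iota)⁻¹ =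
        psi h τ * (iota * (psi g σ * iota) * iota⁻¹) * (psi h τ)⁻¹ := by group
    rw [h2, iota_conj_iota]
    exact ⟨_, psi_comm_field p h _ τ σ⟩

/-- a graph-field involution is conjugate under Inndiag to the standard one -/
theorem conj_std (x : MulAut (ProjectiveSpecialLinearGroup (Fin n) F))
    (hx : Cfsg.IsGraphFieldAutClassPSL x) (hx2 : orderOf x = 2) :
    ∃ σ : F ≃+* F, orderOf σ = 2 ∧ 3 ≤ n ∧ ∃ h : GL (Fin n) F, x = psi h 1 * (psi 1 σ * iota) * (psi h 1)⁻¹ := by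
  obtain ⟨h3, α, σ, hσ, hα⟩ := graphFieldClass_iff.mp hx
  have hnt : Nontrivial (Fin n) := Fin.nontrivial_iff_two_le.mpr (by omega)
  obtain ⟨-, hσ2⟩ := graphField_order h3 hσ Nat.prime_two (by rw [← hα, orderOf_conj, hx2])
  obtain ⟨g', hg'⟩ := conj_form p (by omega : 2 ≤ n) α⁻¹ 1 σ
  have h1 : α⁻¹ * (psi 1 σ * iota) * α⁻¹⁻¹ = x := by rw [← hα]; group
  rw [h1] at hg'
  obtain ⟨h, hh⟩ := graphField_coset hσ2 (g := g') (by rw [← hg', ← hx2, pow_orderOf_eq_one])
  exact ⟨σ, hσ2, h3, h, by rw [hg', hh]⟩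

omit p [Fact p.Prime] [CharP F p] [Finite F] in
lemma map_transpose' {ι : Type*} (A : Matrix ι ι F) (σ : F ≃+* F) : (Aᵀ).map σ = (A.map σ)ᵀ := rfl

omit p [Fact p.Prime] [CharP F p] in
/-- inner-diagonal elements commuting with the standard graph-field involution -/
lemma psi_mem_centralizer_gf (h3 : 3 ≤ n) {σ : F ≃+* F} (hσ : orderOf σ = 2) {g : GL (Fin n) F} :
    psi g 1 ∈ Subgroup.centralizer {psi 1 σ * iota} ↔
      ∃ (w : Fˣ) (h : GL (Fin n) F), g = sc w * h ∧ h * glMap σ (glInvTr h⁻¹) = 1 := by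
  have hnt : Nontrivial (Fin n) := Fin.nontrivial_iff_two_le.mpr (by omega)
  have hσ2 : σ * σ = 1 := by rw [← pow_two, ← hσ, pow_orderOf_eq_one]
  have hσa := unitsMap_sq hσ2
  rw [mem_centralizer_singleton, ← mul_inv_eq_iff_eq_mul, psi_iota_conj, mul_one, psi_iota_eq_iff]
  constructor
  · rintro ⟨-, c, hc⟩
    rw [Units.val_one] at hc
    obtain ⟨u, -, hu⟩ := eq_sc hc
    -- u is fixed by σ
    have h1 : glMap σ (glInvTr (sc u)⁻¹) = (sc u : GL (Fin n) F) := by
      rw [← hu, _root_.mul_inv_rev, map_mul, map_mul]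
      have h2 : glMap σ (glInvTr (glMap σ (glInvTr g⁻¹))⁻¹) = g := by
        rw [← map_inv (glMap σ), ← map_inv glInvTr, inv_inv, glMap_glInvTr, glMap_glInvTr, glMap_glInvTr, glInvTr_glInvTr]
        apply Units.ext
        rw [glMap_coe, glMap_coe]
        ext i j
        exact hσa _
      rw [h2]
    rw [← map_inv, glInvTr_sc, inv_inv, glMap_sc] at h1
    have h2 : σ u = u := congrArg Units.val (sc_injective h1)
    obtain ⟨w, hw⟩ := exists_nm_eq hσ (by norm_num) h2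
    refine ⟨w, sc w⁻¹ * g, by rw [← mul_assoc, ← map_mul, mul_inv_cancel, map_one, one_mul], ?_⟩
    have h3 : glMap σ (glInvTr (sc w⁻¹ * g)⁻¹) = sc (unitsMap σ w)⁻¹ * glMap σ (glInvTr g⁻¹) := by
      rw [_root_.mul_inv_rev, map_mul, map_mul, ← map_inv sc, inv_inv, glInvTr_sc, glMap_sc, map_inv (unitsMap σ), sc_comm]
    rw [h3, mul_assoc, ← mul_assoc g, ← sc_comm _ g, mul_assoc, hu, ← mul_assoc, ← map_mul, ← map_mul, ← hw, nm_succ,
      nm_one]
    have : w⁻¹ * ((unitsMap σ) w)⁻¹ * (w * (unitsMap σ) w) = 1 := by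
      rw [mul_comm w, ← mul_assoc, mul_assoc w⁻¹, inv_mul_cancel, mul_one, inv_mul_cancel]
    rw [this, map_one]
  · rintro ⟨w, h, rfl, hh⟩
    refine ⟨rfl, w * σ w, ?_⟩
    have h3 : glMap σ (glInvTr (sc w * h)⁻¹) = sc (unitsMap σ w) * glMap σ (glInvTr h⁻¹) := by
      rw [_root_.mul_inv_rev, map_mul, map_mul, ← map_inv sc, glInvTr_sc, inv_inv, glMap_sc, sc_comm]
    rw [h3, mul_assoc, ← mul_assoc h, ← sc_comm _ h, mul_assoc, hh, mul_one, ← map_mul, sc_coe]
    rfl

omit p [Fact p.Prime] [CharP F p] [Finite F] in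
lemma mem_GU_iff {q : ℕ} {σ : F ≃+* F} (hσq : ∀ x, σ x = x ^ q) (g : GL (Fin n) F) :
    g ∈ Cfsg.GU n F q ↔ g * glMap σ (glInvTr g⁻¹) = 1 := by
  have h0 : g ∈ Cfsg.GU n F q ↔ ∀ u v : Fin n → F, Cfsg.hermForm n F q ((g : Matrix (Fin n) (Fin n) F) *ᵥ u)
      ((g : Matrix (Fin n) (Fin n) F) *ᵥ v) = Cfsg.hermForm n F q u v := Iff.rfl
  have hf : ∀ u v : Fin n → F, Cfsg.hermForm n F q u v = u ⬝ᵥ (σ ∘ v) := by
    intro u v
    unfold Cfsg.hermForm
    simp only [dotProduct, Function.comp, hσq]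
  have hmap : ∀ (M : Matrix (Fin n) (Fin n) F) (v : Fin n → F), σ ∘ (M *ᵥ v) = (M.map σ) *ᵥ (σ ∘ v) := by
    intro M v
    ext i
    simp only [Function.comp, Matrix.mulVec, dotProduct, map_sum, map_mul, Matrix.map_apply]
  have h1 : g ∈ Cfsg.GU n F q ↔ (g : Matrix (Fin n) (Fin n) F)ᵀ * (g : Matrix (Fin n) (Fin n) F).map σ = 1 := by
    rw [h0]
    constructor
    · intro h
      ext i j
      have h2 := h (Pi.single i 1) (Pi.single j 1)
      have h3 : ∀ j : Fin n, σ ∘ (Pi.single j 1 : Fin n → F) = Pi.single j 1 := by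
        intro j
        ext k
        by_cases hk : k = j
        · subst hk; simp
        · simp [Pi.single_eq_of_ne hk]
      rw [hf, hf, hmap, h3, Matrix.dotProduct_mulVec, dotProduct_single_one, single_one_dotProduct,
        Matrix.mulVec_single_one] at h2
      have h4 : ((g : Matrix (Fin n) (Fin n) F)ᵀ * (g : Matrix (Fin n) (Fin n) F).map σ) i j =
          ((g : Matrix (Fin n) (Fin n) F).col i ᵥ* (g : Matrix (Fin n) (Fin n) F).map σ) j := rfl
      rw [h4, h2, Matrix.one_apply, Pi.single_apply]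
    · intro h u v
      rw [hf, hf, hmap, Matrix.dotProduct_mulVec, Matrix.vecMul_mulVec, h, Matrix.vecMul_one]
  rw [h1]
  have h5 : g * glMap σ (glInvTr g⁻¹) = 1 ↔ glMap σ (glInvTr g⁻¹) * g = 1 := by
    rw [mul_eq_one_iff_eq_inv, mul_eq_one_iff_eq_inv, eq_comm, inv_eq_iff_eq_inv]
  rw [h5]
  have h6 : glMap σ (glInvTr g⁻¹) * g = 1 ↔ ((g : Matrix (Fin n) (Fin n) F).map σ)ᵀ * (g : Matrix (Fin n) (Fin n) F) = 1 := by
    constructor
    · intro h
      have := congrArg Units.val h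
      rwa [Units.val_mul, glMap_coe, glInvTr_inv, Units.val_one, map_transpose'] at this
    · intro h
      apply Units.ext
      rwa [Units.val_mul, glMap_coe, glInvTr_inv, Units.val_one, map_transpose']
  rw [h6]
  constructor
  · intro h
    have := congrArg Matrix.transpose h
    rwa [Matrix.transpose_mul, Matrix.transpose_transpose, Matrix.transpose_one] at this
  · intro h
    have := congrArg Matrix.transpose h
    rwa [Matrix.transpose_mul, Matrix.transpose_transpose, Matrix.transpose_one] at this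

omit p [Fact p.Prime] [CharP F p] in
theorem centralizer_gf (h3 : 3 ≤ n) {σ : F ≃+* F} (hσ : orderOf σ = 2) {q : ℕ} (hσq : ∀ x, σ x = x ^ q) :
    Nonempty (↥(Cfsg.inndiagPSL n F ⊓ Subgroup.centralizer {psi 1 σ * iota}) ≃* Cfsg.PGU n F q) := by
  have hnt : Nontrivial (Fin n) := Fin.nontrivial_iff_two_le.mpr (by omega)
  apply nonempty_mulEquiv (psiHom.comp (Cfsg.GU n F q).subtype) ((Cfsg.Geo.scalars (Fin n) F).subgroupOf (Cfsg.GU n F q))
  · intro x
    rw [Subgroup.mem_inf]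
    constructor
    · rintro ⟨hx1, hx2⟩
      obtain ⟨g, rfl⟩ := mem_inndiag_iff.mp hx1
      obtain ⟨w, h, rfl, hh⟩ := (psi_mem_centralizer_gf h3 hσ).mp hx2
      exact ⟨⟨h, (mem_GU_iff hσq h).mpr hh⟩, (psi_sc_mul _ _ _).symm⟩
    · rintro ⟨⟨h, hh⟩, rfl⟩
      refine ⟨mem_inndiag_iff.mpr ⟨_, rfl⟩, ?_⟩
      exact (psi_mem_centralizer_gf h3 hσ).mpr ⟨1, h, by rw [map_one, one_mul]; rfl, (mem_GU_iff hσq h).mp hh⟩
  · rintro ⟨h, hh⟩
    change psi h 1 = 1 ↔ h ∈ Cfsg.Geo.scalars (Fin n) F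
    rw [psi_eq_one_iff]
    constructor
    · rintro ⟨-, u, rfl⟩; exact ⟨u, rfl⟩
    · rintro ⟨u, rfl⟩; exact ⟨rfl, u, rfl⟩

omit p [Fact p.Prime] [CharP F p] in
lemma index_nmHom_ker {σ : F ≃+* F} {r : ℕ} (hr : orderOf σ = r) (hr0 : 0 < r) :
    (nmHom σ r).ker.index = Nat.card (H49.FixedField.fixedField σ) - 1 := by
  rw [Subgroup.index_ker, nmHom_range hr hr0, card_dvHom_ker]

omit p [Fact p.Prime] [CharP F p] in
/-- class count for graph-field involutions -/
theorem splitClassCount_gf (h3 : 3 ≤ n) {σ : F ≃+* F} (hσ : orderOf σ = 2) :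
    Cfsg.splitClassCount (Cfsg.inndiagPSL n F) (Cfsg.Inn (ProjectiveSpecialLinearGroup (Fin n) F)) (psi 1 σ * iota) =
      Nat.gcd n (Nat.card (H49.FixedField.fixedField σ) - 1) := by
  have hnt : Nontrivial (Fin n) := Fin.nontrivial_iff_two_le.mpr (by omega)
  have h0 : 0 < n := by omega
  rw [← index_nmHom_ker hσ (by norm_num), ← index_sup_pow]
  apply splitClassCount_psl (by omega)
  intro a
  rw [Subgroup.mem_sup]
  constructor
  · rintro ⟨m, hm, _, ⟨w, rfl⟩, rfl⟩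
    rw [MonoidHom.mem_ker, nmHom_apply, nm_succ, nm_one] at hm
    refine ⟨diagU ⟨0, h0⟩ m, w⁻¹, ?_, ?_⟩
    · rw [psi_mem_centralizer_gf h3 hσ]
      refine ⟨1, _, by rw [map_one, one_mul], ?_⟩
      apply Units.ext
      rw [Units.val_mul, glMap_coe, glInvTr_inv, diagU_coe, Matrix.diagonal_transpose, Matrix.diagonal_map (map_zero σ),
        Matrix.diagonal_mul_diagonal, Units.val_one, ← Matrix.diagonal_one]
      congr 1
      ext j
      by_cases hj : j = ⟨0, h0⟩
      · subst hj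
        simp only [Function.update_self]
        exact congrArg Units.val hm
      · simp [Function.update_of_ne hj]
    · rw [detU_diagU, powMonoidHom_apply, inv_pow, mul_inv_cancel_right]
  · rintro ⟨g, w, hg, hw⟩
    obtain ⟨v, h, rfl, hh⟩ := (psi_mem_centralizer_gf h3 hσ).mp hg
    refine ⟨detU h, ?_, (v * w⁻¹) ^ n, ⟨_, rfl⟩, ?_⟩
    · rw [MonoidHom.mem_ker, nmHom_apply, nm_succ, nm_one]
      apply Units.ext
      rw [Units.val_mul, unitsMap_coe, detU_coe, Units.val_one]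
      have h1 := congrArg (fun x : GL (Fin n) F => (x : Matrix (Fin n) (Fin n) F).det) hh
      simp only [Units.val_mul, glMap_coe, glInvTr_inv, map_transpose', Matrix.det_mul, Matrix.det_transpose,
        Units.val_one, Matrix.det_one] at h1
      rw [← h1]
      congr 1
      exact RingHom.map_det (σ : F →+* F) (h : Matrix (Fin n) (Fin n) F)
    · rw [map_mul, detU_sc] at hw
      rw [mul_pow, inv_pow, ← mul_assoc, mul_comm (detU h), hw, mul_inv_cancel_right]

end H50.PSLGraphField
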