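import Cfsg.Agent.Lib.H50.PSLBal2
import Cfsg.Agent.Lib.H50.PSLGraphField
import Cfsg.Agent.Lib.H6.BalF

/-!
Local balance for `PSL_n(F)`: the core of the centralizer of a graph involution.
-/

set_option autoImplicit false
set_option linter.unusedSectionVars false
set_option maxHeartbeats 400000

namespace H50.PSLBal

open Matrix H50.Tv H50.PSLBasic H50.PSLPure H50.PSLField H50.PSLUniq H50.PSLCount H50.H90 H50.ClassCount H6.OddCore H6.BalB

variable {n : ℕ} {F : Type*} [Field F]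

/-- the action of the isometries of a form -/
noncomputable def omL (M : Matrix (Fin n) (Fin n) F) : Iso (bil M) →* MulAut (ProjectiveSpecialLinearGroup (Fin n) F) :=
  psiHom.comp ((eGL n F).toMonoidHom.comp (Iso (bil M)).subtype)

lemma omL_apply (M : Matrix (Fin n) (Fin n) F) (s : Iso (bil M)) : omL M s = psi (eGL n F s.1) 1 := rfl

lemma omL_ker [Fintype F] [Nontrivial (Fin n)] (M : Matrix (Fin n) (Fin n) F) (s : Iso (bil M)) (h : omL M s = 1) :
    ∃ c : F, ∀ v, s.1 v = c • v := by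
  rw [omL_apply, psi_eq_one_iff] at h
  obtain ⟨-, u, hu⟩ := h
  refine ⟨u, fun v => ?_⟩
  rw [← eGL_mulVec, hu, sc_coe, Matrix.smul_mulVec, Matrix.one_mulVec]

lemma glInvTr_inv_coe' (S : GL (Fin n) F) : (((glInvTr S)⁻¹ : GL (Fin n) F) : Matrix (Fin n) (Fin n) F) =
    (S : Matrix (Fin n) (Fin n) F)ᵀ := glInvTr_inv_coe S

/-- isometries of `g⁻¹` commute with `psi g 1 * iota` -/
lemma omL_comm [Fintype F] {g : GL (Fin n) F} (s : Iso (bil ((g⁻¹ : GL (Fin n) F) : Matrix (Fin n) (Fin n) F))) :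
    omL _ s * (psi g 1 * iota) = (psi g 1 * iota) * omL _ s := by
  rw [omL_apply, ← mul_assoc, psi_mul', psi_iota_mul_psi, glMap_one_apply, glMap_one_apply]
  have h1 := iso_mat s
  set S := eGL n F s.1 with hS
  have h2 : (glInvTr S)⁻¹ * g⁻¹ * S = g⁻¹ := by
    apply Units.ext
    rw [Units.val_mul, Units.val_mul, glInvTr_inv_coe']
    exact h1
  have h3 : S * g = g * glInvTr S := by
    have h4 : S * g = g * glInvTr S * ((glInvTr S)⁻¹ * g⁻¹ * S) * g := by group
    rw [h4, h2, inv_mul_cancel_right]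
  rw [h3]

/-- elements of order `r` give inner automorphisms -/
lemma omL_mem_inn {r : ℕ} [Fact r.Prime] [CharP F r] (M : Matrix (Fin n) (Fin n) F) {u : Iso (bil M)}
    (hu : u ^ r = 1) : ∃ k : ProjectiveSpecialLinearGroup (Fin n) F, omL M u = MulAut.conj k := by
  have h1 : (eGL n F u.1) ^ r = 1 := by
    rw [← map_pow]
    have : u.1 ^ r = 1 := congrArg Subtype.val hu
    rw [this, map_one]
  have h2 : ((eGL n F u.1 : GL (Fin n) F) : Matrix (Fin n) (Fin n) F).det = 1 := by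
    have h3 : (((eGL n F u.1 : GL (Fin n) F) : Matrix (Fin n) (Fin n) F).det) ^ r = 1 := by
      rw [← Matrix.det_pow, ← Units.val_pow_eq_pow_val, h1, Units.val_one, Matrix.det_one]
    have h4 := sub_pow_char (p := r) (((eGL n F u.1 : GL (Fin n) F) : Matrix (Fin n) (Fin n) F).det) 1
    rw [h3, one_pow, sub_self] at h4
    exact sub_eq_zero.mp (pow_eq_zero_iff (Fact.out : r.Prime).ne_zero |>.mp h4)
  obtain ⟨s, hs⟩ : ∃ s : SpecialLinearGroup (Fin n) F, Matrix.SpecialLinearGroup.toGL s = eGL n F u.1 :=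
    ⟨⟨_, h2⟩, Units.ext rfl⟩
  exact ⟨QuotientGroup.mk s, by rw [conj_psi', omL_apply, hs]⟩

/-- odd order elements are of the form `psi g σ` -/
lemma psi_of_odd [Finite F] {r : ℕ} [Fact r.Prime] [CharP F r] (hn : 2 ≤ n)
    {α : MulAut (ProjectiveSpecialLinearGroup (Fin n) F)} {k : ℕ} (hk : Odd k) (h : α ^ k = 1) :
    ∃ (g : GL (Fin n) F) (σ : F ≃+* F), α = psi g σ := by
  obtain ⟨g, τ, h1 | ⟨hn3, rfl⟩⟩ := H50.AutPSL2.aut_psl (p := r) hn α
  · exact ⟨g, τ, h1⟩
  · exfalso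
    obtain ⟨m, rfl⟩ := hk
    rw [pow_succ, pow_mul, pow_two, psi_iota_mul_psi_iota, psi_pow, ← mul_assoc, psi_mul'] at h
    have h2 := psi_ne_psi_iota (ι := Fin n) (F := F) (by rw [Fintype.card_fin]; exact hn3)
    have h4 : (1 : MulAut (ProjectiveSpecialLinearGroup (Fin n) F)) = psi 1 1 := psi_one.symm
    rw [h4] at h
    exact h2 _ _ _ _ h.symm

/-- commuting semilinear maps are similitudes of the form -/
lemma semi_of_comm [Nontrivial (Fin n)] {g T : GL (Fin n) F} {τ : F ≃+* F}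
    (h : psi T τ * (psi g 1 * iota) = (psi g 1 * iota) * psi T τ) :
    ∃ μ : Fˣ, (T : Matrix (Fin n) (Fin n) F)ᵀ * ((g⁻¹ : GL (Fin n) F) : Matrix (Fin n) (Fin n) F) *
      (T : Matrix (Fin n) (Fin n) F) = (μ : F) • ((g⁻¹ : GL (Fin n) F) : Matrix (Fin n) (Fin n) F).map τ := by
  rw [← mul_assoc, psi_mul', psi_iota_mul_psi, glMap_one_apply] at h
  obtain ⟨-, e, he⟩ := psi_eq_psi_iff'.mp (mul_right_cancel h)
  refine ⟨e, ?_⟩
  have h1 : (glInvTr T)⁻¹ * g⁻¹ * T = sc e * glMap τ g⁻¹ := by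
    have h2 : T = sc e * (g * glInvTr T) * (glMap τ g)⁻¹ := by rw [← he]; group
    have h3 : (glInvTr T)⁻¹ * g⁻¹ * T = (glInvTr T)⁻¹ * g⁻¹ * (sc e * (g * glInvTr T) * (glMap τ g)⁻¹) := by
      rw [← h2]
    rw [h3, map_inv, sc_comm]
    have h4 : (glInvTr T)⁻¹ * g⁻¹ * (g * glInvTr T * sc e * (glMap τ g)⁻¹) = sc e * (glMap τ g)⁻¹ := by group
    exact h4
  have h5 := congrArg Units.val h1
  rw [Units.val_mul, Units.val_mul, glInvTr_inv_coe', sc_mul_coe, glMap_coe] at h5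
  exact h5

/-- conjugation by a commuting automorphism -/
lemma conj_omL [Fintype F] {M : Matrix (Fin n) (Fin n) F} {T : GL (Fin n) F} {τ : F ≃+* F} {μ : Fˣ}
    (hμ : (T : Matrix (Fin n) (Fin n) F)ᵀ * M * (T : Matrix (Fin n) (Fin n) F) = (μ : F) • M.map τ)
    (s : Iso (bil M)) : psi T τ * omL M s * (psi T τ)⁻¹ = omL M ((semi_T hμ).conj s) := by
  rw [omL_apply, omL_apply, psi_conj_psi, H6.BalC.eGL_conj hμ]

/-- **graph involutions have no core** -/
theorem graph_core_one [Fintype F] {r : ℕ} [Fact r.Prime] [CharP F r] (hr2 : r ≠ 2) (hn : 3 ≤ n)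
    (A : Subgroup (MulAut (ProjectiveSpecialLinearGroup (Fin n) F)))
    (hinn : ∀ k : ProjectiveSpecialLinearGroup (Fin n) F, MulAut.conj k ∈ A) {g : GL (Fin n) F}
    (hord : orderOf (psi g 1 * iota) = 2) :
    Cfsg.pPrimeCore 2 ↥(A ⊓ Subgroup.centralizer {psi g 1 * iota}) = ⊥ := by
  classical
  have hnt : Nontrivial (Fin n) := Fin.nontrivial_iff_two_le.mpr (by omega)
  have hfinM : Finite (MulAut (ProjectiveSpecialLinearGroup (Fin n) F)) := H17.SpCount.finite_mulAut _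
  have hfin : Module.finrank F (Fin n → F) = n := Module.finrank_fin_fun F
  have hrodd : Odd r := (Fact.out : r.Prime).odd_of_ne_two hr2
  have hr0 : (r : F) = 0 := CharP.cast_eq_zero F r
  have h2F : (2 : F) ≠ 0 := by
    intro h
    have h2 : ((2 : ℕ) : F) = 0 := by exact_mod_cast h
    rw [CharP.cast_eq_zero_iff F r] at h2
    exact hr2 ((Nat.prime_dvd_prime_iff_eq Fact.out Nat.prime_two).mp h2)
  set B := A ⊓ Subgroup.centralizer {psi g 1 * iota} with hB
  rw [← H6.BalF.core_eq_bot, eq_bot_iff]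
  intro ν hν
  rw [Subgroup.mem_bot]
  -- the form
  set M : Matrix (Fin n) (Fin n) F := ((g⁻¹ : GL (Fin n) F) : Matrix (Fin n) (Fin n) F) with hM
  have hMdet : M.det ≠ 0 := ((Matrix.isUnit_iff_isUnit_det _).mp (g⁻¹).isUnit).ne_zero
  have hMs : Mᵀ = M ∨ Mᵀ = -M := by
    have h1 : (psi g 1 * iota) * (psi g 1 * iota) = 1 := by
      rw [← pow_two, ← hord, pow_orderOf_eq_one]
    rw [psi_iota_mul_psi_iota, psi_eq_one_iff, glMap_one_apply] at h1
    obtain ⟨-, c, hc⟩ := h1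
    have h2 : glInvTr g = sc c * g⁻¹ := by
      rw [sc_comm, eq_comm, inv_mul_eq_iff_eq_mul]
      exact hc.symm
    have h3 : Mᵀ = (c : F) • M := by
      have := congrArg Units.val h2
      rw [sc_mul_coe, glInvTr_coe] at this
      exact this
    have h4 : M = ((c : F) * c) • M := by
      conv_lhs => rw [← Matrix.transpose_transpose M, h3, Matrix.transpose_smul, h3, smul_smul]
    have h5 : (c : F) * c = 1 := by
      have h6 := congrArg (fun X => X * (g : Matrix (Fin n) (Fin n) F)) h4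
      simp only [Matrix.smul_mul] at h6
      rw [hM, ← Units.val_mul, inv_mul_cancel, Units.val_one] at h6
      have h7 := congrFun (congrFun h6 ⟨0, by omega⟩) ⟨0, by omega⟩
      rw [Matrix.smul_apply, Matrix.one_apply_eq, smul_eq_mul, mul_one] at h7
      exact h7.symm
    rcases mul_self_eq_one_iff.mp h5 with h6 | h6
    · left; rw [h3, h6, one_smul]
    · right; rw [h3, h6, neg_smul, one_smul]
  -- the element `ν`
  have hodd : Odd (Nat.card (H6.BalF.core B 2)) := Nat.coprime_two_right.mp H6.BalF.core_card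
  have hνpow : ν ^ (Nat.card (H6.BalF.core B 2)) = 1 := by
    have := pow_card_eq_one' (x := (⟨ν, hν⟩ : H6.BalF.core B 2))
    exact congrArg Subtype.val this
  obtain ⟨T, τ, rfl⟩ := psi_of_odd (r := r) (by omega : 2 ≤ n) hodd hνpow
  have hcomm : psi T τ * (psi g 1 * iota) = (psi g 1 * iota) * psi T τ :=
    Bal.mem_cent_iff.mp (Subgroup.mem_inf.mp (H6.BalF.core_le hν)).2
  obtain ⟨μ, hμ⟩ := semi_of_comm hcomm
  have H : Hyp (bil M) (omL M) (H6.BalF.core B 2) r := by
    refine ⟨omL_ker M, hodd, hrodd, hr0, ?_⟩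
    intro u hu x hx
    have h1 : omL M u ∈ B := by
      refine Subgroup.mem_inf.mpr ⟨?_, Bal.mem_cent_iff.mpr (omL_comm u)⟩
      obtain ⟨k, hk⟩ := omL_mem_inn (r := r) M hu
      rw [hk]
      exact hinn k
    have h2 := H6.BalF.core_conj hx (B.inv_mem h1)
    rwa [inv_inv] at h2
  have hmain : (∀ x, τ x = x) ∧ ∃ l : F, ∀ v, semiT T τ v = l • v := by
    rcases hMs with hs | hs
    · obtain ⟨x, hx0, hx⟩ := H48.QuadStd.exists_singular (bil M).toQuadraticMap (by rw [hfin]; exact hn)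
      exact main_sym (symHyp hMdet hs h2F) (by rw [hfin]; exact hn) H hx0 hx hν (semi_T hμ) (conj_omL hμ)
    · exact main_alt (altHyp hMdet hs h2F) (by rw [hfin]; exact hn) H hν (semi_T hμ) (conj_omL hμ)
  obtain ⟨h3, l, hl⟩ := hmain
  have hτ1 : τ = 1 := RingEquiv.ext h3
  subst hτ1
  have hT : (T : Matrix (Fin n) (Fin n) F) = l • (1 : Matrix (Fin n) (Fin n) F) := by
    apply Matrix.ext_of_mulVec_single
    intro i
    have h4 := hl (Pi.single i 1)
    rw [semiT_apply] at h4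
    rw [Matrix.smul_mulVec, Matrix.one_mulVec, ← h4]
    rfl
  obtain ⟨u, -, hu⟩ := eq_sc hT
  rw [psi_eq_one_iff]
  exact ⟨rfl, u, hu⟩

end H50.PSLBal
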