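import Cfsg.Agent.Lib.H50.PSLBal3

/-!
Local balance for `PSL_n(F)`: the core of the centralizer of a graph-field involution.
-/

set_option autoImplicit false
set_option linter.unusedSectionVars false
set_option maxHeartbeats 400000

namespace H50.PSLBal

open Matrix H50.Tv H50.PSLBasic H50.PSLPure H50.PSLField H50.PSLUniq H50.PSLCount H50.H90 H50.ClassCount
  H50.PSLGraphField H6.PSUBasic

variable {n q : ℕ} {F : Type*} [Field F]

lemma toGL_mem (s : Cfsg.SU n F q) : Matrix.SpecialLinearGroup.toGL (s : SpecialLinearGroup (Fin n) F) ∈ Cfsg.GU n F q :=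
  s.2

/-- the map `PSU → Aut(PSL)` -/
noncomputable def pu [Fintype F] (hF : Fintype.card F = q ^ 2) (hn : 3 ≤ n) :
    Cfsg.PSU n F q →* MulAut (ProjectiveSpecialLinearGroup (Fin n) F) :=
  QuotientGroup.lift (Subgroup.center (Cfsg.SU n F q))
    (psiHom.comp (Matrix.SpecialLinearGroup.toGL.comp (Cfsg.SU n F q).subtype)) (by
      intro z hz
      have hne : Nontrivial (Fin n) := Fin.nontrivial_iff_two_le.mpr (by omega)
      obtain ⟨c, hc⟩ := (H6.PSUUniq.mem_center_iff hF hn).mp hz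
      change psi (Matrix.SpecialLinearGroup.toGL (z : SpecialLinearGroup (Fin n) F)) 1 = 1
      rw [psi_eq_one_iff]
      obtain ⟨u, -, hu⟩ := eq_sc (g := Matrix.SpecialLinearGroup.toGL (z : SpecialLinearGroup (Fin n) F)) hc
      exact ⟨rfl, u, hu⟩)

lemma pu_mk [Fintype F] (hF : Fintype.card F = q ^ 2) (hn : 3 ≤ n) (s : Cfsg.SU n F q) :
    pu hF hn (QuotientGroup.mk s) = psi (Matrix.SpecialLinearGroup.toGL (s : SpecialLinearGroup (Fin n) F)) 1 := rfl

lemma pu_injective [Fintype F] (hF : Fintype.card F = q ^ 2) (hn : 3 ≤ n) : Function.Injective (pu (n := n) hF hn) := by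
  have hne : Nontrivial (Fin n) := Fin.nontrivial_iff_two_le.mpr (by omega)
  rw [injective_iff_map_eq_one]
  intro a ha
  obtain ⟨s, rfl⟩ := QuotientGroup.mk_surjective a
  rw [pu_mk, psi_eq_one_iff] at ha
  obtain ⟨-, u, hu⟩ := ha
  change (QuotientGroup.mk s : Cfsg.PSU n F q) = QuotientGroup.mk 1
  rw [eq_comm, H6.PSUUniq.mk_eq_mk_iff hF hn]
  refine ⟨u, ?_⟩
  have h2 := congrArg (fun g : GL (Fin n) F => (g : Matrix (Fin n) (Fin n) F)) hu
  simp only [toGL_coe', sc_coe] at h2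
  exact h2

lemma pu_mem_inn [Fintype F] (hF : Fintype.card F = q ^ 2) (hn : 3 ≤ n) (l : Cfsg.PSU n F q) :
    pu hF hn l ∈ Cfsg.Inn (ProjectiveSpecialLinearGroup (Fin n) F) := by
  obtain ⟨s, rfl⟩ := QuotientGroup.mk_surjective l
  exact ⟨QuotientGroup.mk (s : SpecialLinearGroup (Fin n) F), by rw [pu_mk, conj_psi']⟩

variable {σ : F ≃+* F}

lemma pu_comm [Fintype F] (hF : Fintype.card F = q ^ 2) (hn : 3 ≤ n) (hσ : orderOf σ = 2) (hσq : ∀ x, σ x = x ^ q)
    (l : Cfsg.PSU n F q) : pu hF hn l * (psi 1 σ * iota) = (psi 1 σ * iota) * pu hF hn l := by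
  obtain ⟨s, rfl⟩ := QuotientGroup.mk_surjective l
  rw [pu_mk, ← Bal.mem_cent_iff, psi_mem_centralizer_gf hn hσ]
  exact ⟨1, _, by rw [map_one, one_mul], (mem_GU_iff hσq _).mp (toGL_mem s)⟩

lemma psi_conj_pu [Fintype F] (hF : Fintype.card F = q ^ 2) (hn : 3 ≤ n) (h : Cfsg.GU n F q) (τ : F ≃+* F)
    (s : Cfsg.SU n F q) :
    psi (h : GL (Fin n) F) τ * pu hF hn (QuotientGroup.mk s) * (psi (h : GL (Fin n) F) τ)⁻¹ =
      pu hF hn (QuotientGroup.mk (semiSU h τ s)) := by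
  rw [pu_mk, pu_mk, psi_conj_psi]
  congr 1
  exact Units.ext rfl

lemma pu_conj [Fintype F] (hF : Fintype.card F = q ^ 2) (hn : 3 ≤ n) (hσ : orderOf σ = 2) (hσq : ∀ x, σ x = x ^ q)
    {i : MulAut (ProjectiveSpecialLinearGroup (Fin n) F)} (hi : i ∈ Cfsg.Inn (ProjectiveSpecialLinearGroup (Fin n) F))
    (hc : i * (psi 1 σ * iota) = (psi 1 σ * iota) * i) (l : Cfsg.PSU n F q) :
    ∃ l', i * pu hF hn l * i⁻¹ = pu hF hn l' := by
  obtain ⟨k, rfl⟩ := hi
  obtain ⟨u, rfl⟩ := QuotientGroup.mk_surjective k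
  obtain ⟨s, rfl⟩ := QuotientGroup.mk_surjective l
  change MulAut.conj (QuotientGroup.mk u : ProjectiveSpecialLinearGroup (Fin n) F) * _ = _ at hc
  rw [conj_psi', ← Bal.mem_cent_iff, psi_mem_centralizer_gf hn hσ] at hc
  obtain ⟨w, h, h1, h2⟩ := hc
  refine ⟨QuotientGroup.mk (semiSU ⟨h, (mem_GU_iff hσq h).mpr h2⟩ 1 s), ?_⟩
  rw [← psi_conj_pu]
  change MulAut.conj (QuotientGroup.mk u : ProjectiveSpecialLinearGroup (Fin n) F) * _ *
    (MulAut.conj (QuotientGroup.mk u : ProjectiveSpecialLinearGroup (Fin n) F))⁻¹ = _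
  rw [conj_psi', h1, psi_sc_mul]

/-- semilinear maps centralizing the unitary group -/
lemma eq_one_of_comm [Fintype F] {r : ℕ} [Fact r.Prime] [CharP F r] (hF : Fintype.card F = q ^ 2) (hn : 3 ≤ n)
    (hσ : orderOf σ = 2) (hσq : ∀ x, σ x = x ^ q) {g : GL (Fin n) F} {τ : F ≃+* F}
    (hc : psi g τ * (psi 1 σ * iota) = (psi 1 σ * iota) * psi g τ)
    (hc' : ∀ l, psi g τ * pu hF hn l = pu hF hn l * psi g τ) : psi g τ = 1 := by
  have hne : Nontrivial (Fin n) := Fin.nontrivial_iff_two_le.mpr (by omega)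
  have h1 : psi g 1 ∈ Subgroup.centralizer {psi (1 : GL (Fin n) F) σ * iota} := by
    rw [Bal.mem_cent_iff, ← mul_inv_eq_iff_eq_mul, psi_comm_field r]
    rw [← mul_inv_eq_iff_eq_mul, psi_comm_field r] at hc
    rw [map_one] at hc ⊢
    exact hc
  rw [psi_mem_centralizer_gf hn hσ] at h1
  obtain ⟨w, h, rfl, hh⟩ := h1
  rw [psi_sc_mul] at hc' ⊢
  set ĥ : Cfsg.GU n F q := ⟨h, (mem_GU_iff hσq h).mpr hh⟩ with hĥ
  have h2 : psiSU ĥ τ = 1 := by
    ext a
    obtain ⟨s, rfl⟩ := QuotientGroup.mk_surjective a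
    rw [psiSU_mk]
    apply pu_injective hF hn
    rw [← psi_conj_pu]
    change _ = pu hF hn (QuotientGroup.mk s)
    rw [mul_inv_eq_iff_eq_mul]
    exact hc' (QuotientGroup.mk s)
  obtain ⟨h3, c, hc3⟩ := H6.PSUUniq.psiSU_eq_one hF hn h2
  rw [h3, psi_eq_one_iff]
  obtain ⟨u, -, hu⟩ := eq_sc (g := h) (c := c) hc3
  exact ⟨rfl, u, hu⟩

lemma mem_zpowers_gf [Fintype F] {r : ℕ} [Fact r.Prime] [CharP F r] (hF : Fintype.card F = q ^ 2) (hn : 3 ≤ n)
    (hσ : orderOf σ = 2) (hσq : ∀ x, σ x = x ^ q) {α : MulAut (ProjectiveSpecialLinearGroup (Fin n) F)}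
    (hc : α * (psi 1 σ * iota) = (psi 1 σ * iota) * α)
    (hc' : ∀ l, α * pu hF hn l = pu hF hn l * α) : α ∈ Subgroup.zpowers (psi (1 : GL (Fin n) F) σ * iota) := by
  obtain ⟨g, τ, rfl | ⟨-, rfl⟩⟩ := H50.AutPSL2.aut_psl (p := r) (by omega : 2 ≤ n) α
  · rw [eq_one_of_comm (r := r) hF hn hσ hσq hc hc']
    exact Subgroup.one_mem _
  · obtain ⟨g', τ', h1⟩ : ∃ (g' : GL (Fin n) F) (τ' : F ≃+* F), psi g τ * iota * (psi 1 σ * iota) = psi g' τ' :=
      ⟨_, _, psi_iota_mul_psi_iota _ _ _ _⟩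
    have h2 : psi g' τ' = 1 := by
      apply eq_one_of_comm (r := r) hF hn hσ hσq
      · rw [← h1]
        conv_lhs => rw [hc]
        rw [mul_assoc]
      · intro l
        rw [← h1, mul_assoc, ← pu_comm hF hn hσ hσq, ← mul_assoc, hc', mul_assoc]
    rw [h2, mul_eq_one_iff_eq_inv] at h1
    rw [h1]
    exact Subgroup.inv_mem _ (Subgroup.mem_zpowers _)

/-! ### even order -/

lemma two_dvd_psu [Fintype F] (hF : Fintype.card F = q ^ 2) (hn : 3 ≤ n) (hσq : ∀ x, σ x = x ^ q) (h2F : (2 : F) ≠ 0) :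
    2 ∣ Nat.card (Cfsg.PSU n F q) := by
  let i₀ : Fin n := ⟨0, by omega⟩
  let i₁ : Fin n := ⟨1, by omega⟩
  let i₂ : Fin n := ⟨2, by omega⟩
  have h02 : i₂ ≠ i₀ := by simp [i₀, i₂]
  have h01 : i₀ ≠ i₁ := by simp [i₀, i₁]
  have h12 : i₂ ≠ i₁ := by simp [i₁, i₂]
  set D : SpecialLinearGroup (Fin n) F := dg i₀ i₁ (-1) with hD
  have hd : ∀ x, ((Pi.mulSingle i₀ (-1) * Pi.mulSingle i₁ (-1)⁻¹ : Fin n → Fˣ) x : F) = 1 ∨
      ((Pi.mulSingle i₀ (-1) * Pi.mulSingle i₁ (-1)⁻¹ : Fin n → Fˣ) x : F) = -1 := by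
    intro x
    rw [Pi.mul_apply]
    by_cases h0 : x = i₀
    · subst h0
      rw [Pi.mulSingle_eq_same, Pi.mulSingle_eq_of_ne h01, mul_one]
      right; simp
    · by_cases h1 : x = i₁
      · subst h1
        rw [Pi.mulSingle_eq_same, Pi.mulSingle_eq_of_ne h0, one_mul]
        right; simp
      · rw [Pi.mulSingle_eq_of_ne h0, Pi.mulSingle_eq_of_ne h1, one_mul]
        left; simp
  have hDmem : D ∈ Cfsg.SU n F q := by
    change Matrix.SpecialLinearGroup.toGL D ∈ Cfsg.GU n F q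
    rw [mem_GU_iff hσq]
    apply Units.ext
    rw [Units.val_mul, glMap_coe, glInvTr_inv, toGL_coe', hD, dg_coe, Matrix.diagonal_transpose,
      Matrix.diagonal_map (map_zero σ), Matrix.diagonal_mul_diagonal, Units.val_one, ← Matrix.diagonal_one]
    congr 1
    ext x
    rcases hd x with h | h
    · rw [h, map_one, mul_one]
    · rw [h, map_neg, map_one]; ring
  have h1 : orderOf (QuotientGroup.mk ⟨D, hDmem⟩ : Cfsg.PSU n F q) = 2 := by
    apply orderOf_eq_prime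
    · change (QuotientGroup.mk (⟨D, hDmem⟩ ^ 2) : Cfsg.PSU n F q) = QuotientGroup.mk 1
      congr 1
      apply Subtype.ext
      change D ^ 2 = 1
      exact dg_pow i₀ i₁ (-1) 2 (by rw [pow_two, neg_mul_neg, one_mul])
    · intro h
      change (QuotientGroup.mk ⟨D, hDmem⟩ : Cfsg.PSU n F q) = QuotientGroup.mk 1 at h
      obtain ⟨c, hc⟩ := (H6.PSUUniq.mk_eq_mk_iff hF hn).mp h.symm
      have hc' : (D : Matrix (Fin n) (Fin n) F) = c • (1 : Matrix (Fin n) (Fin n) F) := hc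
      have e0 := congrFun (congrFun hc' i₀) i₀
      have e2 := congrFun (congrFun hc' i₂) i₂
      rw [hD, dg_coe, Matrix.diagonal_apply_eq, Matrix.smul_apply, Matrix.one_apply_eq, smul_eq_mul, mul_one,
        Pi.mul_apply, Pi.mulSingle_eq_same, Pi.mulSingle_eq_of_ne h01, mul_one] at e0
      rw [hD, dg_coe, Matrix.diagonal_apply_eq, Matrix.smul_apply, Matrix.one_apply_eq, smul_eq_mul, mul_one,
        Pi.mul_apply, Pi.mulSingle_eq_of_ne h02, Pi.mulSingle_eq_of_ne h12, mul_one] at e2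
      rw [← e2] at e0
      apply h2F
      have h3 : (-1 : F) = 1 := by simpa using e0
      linear_combination (-1 : F) * h3
  rw [← h1]
  exact orderOf_dvd_natCard _

/-- **graph-field involutions have no core** -/
theorem gf_core [Finite F] {r : ℕ} [Fact r.Prime] [CharP F r] (hr2 : r ≠ 2) (hn : 3 ≤ n)
    (A : Subgroup (MulAut (ProjectiveSpecialLinearGroup (Fin n) F)))
    (hinn : ∀ k : ProjectiveSpecialLinearGroup (Fin n) F, MulAut.conj k ∈ A)
    {x : MulAut (ProjectiveSpecialLinearGroup (Fin n) F)} (hord : orderOf x = 2) {σ : F ≃+* F} {h : GL (Fin n) F}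
    (hσ : orderOf σ = 2) (hx : x = psi h 1 * (psi 1 σ * iota) * (psi h 1)⁻¹) :
    Cfsg.pPrimeCore 2 ↥(A ⊓ Subgroup.centralizer {x}) = ⊥ := by
  classical
  have := Fintype.ofFinite F
  have hnt : Nontrivial (Fin n) := Fin.nontrivial_iff_two_le.mpr (by omega)
  have hfinM : Finite (MulAut (ProjectiveSpecialLinearGroup (Fin n) F)) := H17.SpCount.finite_mulAut _
  have hInnA : Cfsg.Inn (ProjectiveSpecialLinearGroup (Fin n) F) ≤ A := by
    rintro _ ⟨k, rfl⟩
    exact hinn k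
  obtain ⟨f, -, hf⟩ := FiniteField.card F r
  obtain ⟨⟨m, hm⟩, hσq⟩ := H50.FieldAut2.order_two r (f := f) (by rw [Nat.card_eq_fintype_card, hf]) hσ
  have hm2 : (f : ℕ) / 2 = m := by omega
  rw [hm2] at hσq
  have hF : Fintype.card F = (r ^ m) ^ 2 := by
    rw [hf, hm, ← pow_mul, mul_two]
  have h2F : (2 : F) ≠ 0 := by
    intro h
    have h2 : ((2 : ℕ) : F) = 0 := by exact_mod_cast h
    rw [CharP.cast_eq_zero_iff F r] at h2
    exact hr2 ((Nat.prime_dvd_prime_iff_eq Fact.out Nat.prime_two).mp h2)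
  have h32 : ¬ (n = 3 ∧ r ^ m = 2) := by
    rintro ⟨-, h2⟩
    have h3 : r ∣ 2 := by
      rw [← h2]
      refine dvd_pow_self r ?_
      rintro rfl
      rw [pow_zero] at h2
      omega
    exact hr2 ((Nat.prime_dvd_prime_iff_eq Fact.out Nat.prime_two).mp h3)
  have hsimple := H6.SUGenC.isSimpleGroup hF n hn h32
  refine Bal.no_core' (Cfsg.Inn (ProjectiveSpecialLinearGroup (Fin n) F)) A hInnA (x₀ := psi (1 : GL (Fin n) F) σ * iota)
    (γ := psi h 1) (by rw [← hord, hx, Bal.orderOf_conj']) (pu (n := n) hF hn) (pu_injective hF hn)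
    (pu_mem_inn hF hn) (pu_comm hF hn hσ hσq) (fun i hi hc l => pu_conj hF hn hσ hσq hi hc l) ?_
    (fun α h1 h2 => mem_zpowers_gf (r := r) hF hn hσ hσq h1 h2) hx
  intro M hM hMc
  rcases hM.eq_bot_or_eq_top with h | h
  · exact h
  · exfalso
    rw [h, Subgroup.card_top] at hMc
    have h3 := Nat.Coprime.eq_one_of_dvd hMc.symm (two_dvd_psu hF hn hσq h2F)
    omega

/-! ### the main theorem -/

theorem main [Finite F] {r : ℕ} [Fact r.Prime] [CharP F r] (hn : 2 ≤ n)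
    (A : Subgroup (MulAut (ProjectiveSpecialLinearGroup (Fin n) F)))
    (hinn : ∀ k : ProjectiveSpecialLinearGroup (Fin n) F, MulAut.conj k ∈ A) {p : ℕ} (hp : p.Prime)
    (hpr : p ≠ r) (x : MulAut (ProjectiveSpecialLinearGroup (Fin n) F)) (hord : orderOf x = p)
    (hnot : ¬ Cfsg.IsInnerDiagonalAutPSL x) :
    Cfsg.pPrimeCore p ↥(A ⊓ Subgroup.centralizer {x}) ≠ ⊥ ↔
      ((∃ (g : GL (Fin n) F) (σ : F ≃+* F), x = psi g σ) ∧
      Nat.Coprime p (Nat.card ↥(MonoidHom.eqLocus x.toMonoidHom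
        (MonoidHom.id (ProjectiveSpecialLinearGroup (Fin n) F))))) := by
  classical
  have := Fintype.ofFinite F
  have hnt : Nontrivial (Fin n) := Fin.nontrivial_iff_two_le.mpr hn
  constructor
  · intro hcore
    obtain ⟨g, σ, h1 | ⟨hn3, h1⟩⟩ := H50.AutPSL2.aut_psl (p := r) hn x
    · refine ⟨⟨g, σ, h1⟩, ?_⟩
      by_contra hnc
      rw [Nat.Prime.coprime_iff_not_dvd hp, not_not] at hnc
      have hσ1 : σ ≠ 1 := by
        rintro rfl
        exact hnot ((PSLBasic.isInnerDiagonal_iff _).mpr ⟨g, h1⟩)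
      have hxp : (psi g σ) ^ p = 1 := by rw [← h1, ← hord, pow_orderOf_eq_one]
      have hσp : σ ^ p = 1 := by
        rw [psi_pow, psi_eq_one_iff] at hxp
        exact hxp.1
      have := Fact.mk hp
      have hσ : orderOf σ = p := orderOf_eq_prime hσp hσ1
      obtain ⟨h, hh⟩ := field_coset hσ hp.pos hxp
      exact hcore (field_core (r := r) hn A hinn hp hpr x hσ (h1.trans hh) hnc)
    · exfalso
      -- `p = 2`
      have hp2 : p = 2 := by
        by_contra hne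
        obtain ⟨g', σ', h2⟩ := psi_of_odd (r := r) hn (hp.odd_of_ne_two hne) (by rw [← hord, pow_orderOf_eq_one] : x ^ p = 1)
        have h3 := psi_ne_psi_iota (ι := Fin n) (F := F) (by rw [Fintype.card_fin]; exact hn3) g' g σ' σ
        exact h3 (h2.symm.trans h1)
      subst hp2
      have hr2 : r ≠ 2 := fun h => hpr h.symm
      have hx2 : (psi g σ * iota) ^ 2 = 1 := by rw [← h1, ← hord, pow_orderOf_eq_one]
      by_cases hσ1 : σ = 1
      · subst hσ1
        apply hcore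
        rw [h1]
        exact graph_core_one hr2 hn3 A hinn (by rw [← h1, hord])
      · have hσ : orderOf σ = 2 := by
          rw [pow_two, psi_iota_mul_psi_iota, psi_eq_one_iff] at hx2
          have : Fact (Nat.Prime 2) := ⟨Nat.prime_two⟩
          exact orderOf_eq_prime (by rw [pow_two]; exact hx2.1) hσ1
        obtain ⟨h, hh⟩ := graphField_coset hσ hx2
        exact hcore (gf_core (r := r) hr2 hn3 A hinn hord hσ (h1.trans hh))
  · rintro ⟨-, hcop⟩
    exact Bal.core_ne_bot center_psl inferInstance A hinn hp hord hcop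

theorem s2686 [Finite F] {r : ℕ} [Fact r.Prime] [CharP F r] (hn : 2 ≤ n)
    (A : Subgroup (MulAut (ProjectiveSpecialLinearGroup (Fin n) F)))
    (hinn : ∀ k : ProjectiveSpecialLinearGroup (Fin n) F, MulAut.conj k ∈ A) {p : ℕ} (hp : p.Prime)
    (hpr : p ≠ r) (x : MulAut (ProjectiveSpecialLinearGroup (Fin n) F)) (hord : orderOf x = p)
    (hnot : ¬ Cfsg.IsInnerDiagonalAutPSL x) :
    Cfsg.pPrimeCore p ↥(A ⊓ Subgroup.centralizer {x}) ≠ ⊥ ↔
      ((∃ γ φ : MulAut (Matrix.ProjectiveSpecialLinearGroup (Fin n) F), Cfsg.IsInnerDiagonalAutPSL γ ∧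
        Cfsg.IsFieldAutPSL φ ∧ x = φ.trans γ) ∧
      Nat.Coprime p (Nat.card ↥(MonoidHom.eqLocus x.toMonoidHom
        (MonoidHom.id (ProjectiveSpecialLinearGroup (Fin n) F))))) := by
  rw [main (r := r) hn A hinn hp hpr x hord hnot]
  have h1 : (∃ (g : GL (Fin n) F) (σ : F ≃+* F), x = psi g σ) ↔
      (∃ γ φ : MulAut (Matrix.ProjectiveSpecialLinearGroup (Fin n) F), Cfsg.IsInnerDiagonalAutPSL γ ∧
        Cfsg.IsFieldAutPSL φ ∧ x = φ.trans γ) := by
    have h2 : ∀ (g : GL (Fin n) F) (σ : F ≃+* F), psi g 1 * psi 1 σ = psi g σ := by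
      intro g σ
      rw [psi_mul', map_one, mul_one, one_mul]
    constructor
    · rintro ⟨g, σ, rfl⟩
      exact ⟨psi g 1, psi 1 σ, (PSLBasic.isInnerDiagonal_iff _).mpr ⟨g, rfl⟩,
        ⟨σ, (isStdField_iff σ _).mpr rfl⟩, (h2 g σ).symm⟩
    · rintro ⟨γ, φ, hγ, ⟨σ, hσ⟩, hx⟩
      obtain ⟨g, rfl⟩ := (PSLBasic.isInnerDiagonal_iff _).mp hγ
      have h3 : φ = psi 1 σ := (isStdField_iff σ _).mp hσ
      exact ⟨g, σ, by rw [← h2 g σ, hx, h3]; rfl⟩
  rw [h1]

end H50.PSLBal
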