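import Mathlib

/-! S3330, piece T0: facts about `Perm (Fin 6)` (helper50). -/

set_option autoImplicit false
set_option maxRecDepth 100000
set_option maxHeartbeats 400000

namespace H50.RT0

open Equiv

def b0 : Perm (Fin 6) := swap 0 1 * swap 2 3
def a0 : Perm (Fin 6) := swap 4 5
def a1 : Perm (Fin 6) := swap 0 1 * swap 2 3 * swap 4 5
def c0 : Perm (Fin 6) := swap 0 1 * swap 1 2
def c1 : Perm (Fin 6) := swap 0 2 * swap 2 4 * (swap 1 3 * swap 3 5)

theorem fx0 : ∀ p : Perm (Fin 6), p * a0 = a0 * p → p * p * p = 1 → ∃ i, p i = i := by decide +kernel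
theorem fx1 : ∀ p : Perm (Fin 6), p * a1 = a1 * p → p * p * p = 1 → p ≠ 1 → ∀ i, p i ≠ i := by decide +kernel
theorem cb0 : ∀ p : Perm (Fin 6), p * b0 = b0 * p → p * a0 = a0 * p ∧ p * a1 = a1 * p := by decide +kernel
theorem nb3 : ∀ p : Perm (Fin 6), p * b0 = b0 * p → p * p * p = 1 → p = 1 := by decide +kernel
theorem card16 : Nat.card {p : Perm (Fin 6) // p * b0 = b0 * p} = 16 := by
  rw [Nat.card_eq_fintype_card]; decide +kernel
theorem cm : ∀ p : Perm (Fin 6), p * b0 = b0 * p → ∀ q : Perm (Fin 6), q * b0 = b0 * q →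
    p * q * p⁻¹ * q⁻¹ = 1 ∨ p * q * p⁻¹ * q⁻¹ = b0 := by decide +kernel
theorem cmx : ∃ p q : Perm (Fin 6), p * b0 = b0 * p ∧ q * b0 = b0 * q ∧ p * q * p⁻¹ * q⁻¹ = b0 :=
  ⟨swap 0 1, swap 0 2 * swap 1 3, by decide +kernel, by decide +kernel, by decide +kernel⟩
theorem c0_3 : c0 * c0 * c0 = 1 := by decide +kernel
theorem c1_3 : c1 * c1 * c1 = 1 := by decide +kernel
theorem c0_ne : c0 ≠ 1 := by decide +kernel
theorem c1_ne : c1 ≠ 1 := by decide +kernel
theorem c0_a0 : c0 * a0 = a0 * c0 := by decide +kernel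
theorem c1_a1 : c1 * a1 = a1 * c1 := by decide +kernel
theorem a0b0 : a0 * b0 = a1 := by decide +kernel
theorem a1b0 : a1 * b0 = a0 := by decide +kernel
theorem sa0 : Perm.sign a0 = -1 := by decide +kernel
theorem sa1 : Perm.sign a1 = -1 := by decide +kernel
theorem sb0 : Perm.sign b0 = 1 := by decide +kernel
theorem b0_ne : b0 ≠ 1 := by decide +kernel
theorem a0_ne : a0 ≠ 1 := by decide +kernel
theorem a1_ne : a1 ≠ 1 := by decide +kernel
theorem a0b0_ne : a0 ≠ b0 := by decide +kernel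
theorem a1b0_ne : a1 ≠ b0 := by decide +kernel

theorem ct (q : Perm (Fin 6)) (h : q * q = 1) (h1 : q ≠ 1) :
    q.cycleType = Multiset.replicate (q.support.card / 2) 2 := by
  have h2 : orderOf q = 2 := by
    apply orderOf_eq_prime _ h1
    rw [pow_two, h]
  have h3 : (orderOf q).Prime := by rw [h2]; exact Nat.prime_two
  obtain ⟨m, hm⟩ := Equiv.Perm.cycleType_prime_order h3
  rw [h2] at hm
  have h4 := q.sum_cycleType
  rw [hm, Multiset.sum_replicate, smul_eq_mul] at h4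
  rw [hm, ← h4, Nat.mul_div_cancel _ (by norm_num : 0 < 2)]

theorem cyc (p : Perm (Fin 6)) (h : p * p = 1) (h1 : p ≠ 1) :
    (∃ g : Perm (Fin 6), g * p * g⁻¹ = a0) ∨ (∃ g : Perm (Fin 6), g * p * g⁻¹ = b0) ∨
      (∃ g : Perm (Fin 6), g * p * g⁻¹ = a1) := by
  have h2 := ct p h h1
  have h4 := p.sum_cycleType
  have h5 : p.support.card ≤ 6 := by
    have := Finset.card_le_univ p.support
    simpa using this
  have h6 : p.support.card ≠ 0 := by
    intro h
    apply h1
    rwa [Finset.card_eq_zero, Equiv.Perm.support_eq_empty_iff] at h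
  rw [h2, Multiset.sum_replicate, smul_eq_mul] at h4
  have e0 := ct a0 (by decide +kernel) a0_ne
  have e1 := ct b0 (by decide +kernel) b0_ne
  have e2 := ct a1 (by decide +kernel) a1_ne
  have s0 : a0.support.card = 2 := by decide +kernel
  have s1 : b0.support.card = 4 := by decide +kernel
  have s2 : a1.support.card = 6 := by decide +kernel
  rw [s0] at e0
  rw [s1] at e1
  rw [s2] at e2
  have key : ∀ q : Perm (Fin 6), p.cycleType = q.cycleType → ∃ g : Perm (Fin 6), g * p * g⁻¹ = q := by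
    intro q hq
    obtain ⟨g, hg⟩ := isConj_iff.1 (Equiv.Perm.isConj_iff_cycleType_eq.2 hq)
    exact ⟨g, hg⟩
  have h7 : p.support.card = 2 ∨ p.support.card = 4 ∨ p.support.card = 6 := by omega
  rcases h7 with h7 | h7 | h7
  · left; apply key; rw [h2, e0, h7]
  · right; left; apply key; rw [h2, e1, h7]
  · right; right; apply key; rw [h2, e2, h7]

/-- even involutions -/
theorem even_conj (p : Perm (Fin 6)) (h : p * p = 1) (h1 : p ≠ 1) (hs : Perm.sign p = 1) :
    ∃ g : Perm (Fin 6), g * b0 * g⁻¹ = p := by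
  rcases cyc p h h1 with ⟨g, hg⟩ | ⟨g, hg⟩ | ⟨g, hg⟩
  · exfalso
    have := congrArg Perm.sign hg
    rw [sa0] at this
    simp [hs] at this
  · exact ⟨g⁻¹, by rw [← hg]; group⟩
  · exfalso
    have := congrArg Perm.sign hg
    rw [sa1] at this
    simp [hs] at this

/-- involutions commuting with an element of order 3 -/
theorem inv_conj (p c : Perm (Fin 6)) (h : p * p = 1) (h1 : p ≠ 1) (hc : c * c * c = 1) (hc1 : c ≠ 1)
    (hpc : c * p = p * c) :
    (∃ g : Perm (Fin 6), g * p * g⁻¹ = a0) ∨ (∃ g : Perm (Fin 6), g * p * g⁻¹ = a1) := by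
  rcases cyc p h h1 with ⟨g, hg⟩ | ⟨g, hg⟩ | ⟨g, hg⟩
  · exact Or.inl ⟨g, hg⟩
  · exfalso
    apply hc1
    have h2 : g * c * g⁻¹ * b0 = b0 * (g * c * g⁻¹) := by
      rw [← hg]
      calc g * c * g⁻¹ * (g * p * g⁻¹) = g * (c * p) * g⁻¹ := by group
        _ = g * (p * c) * g⁻¹ := by rw [hpc]
        _ = _ := by group
    have h3 : g * c * g⁻¹ * (g * c * g⁻¹) * (g * c * g⁻¹) = 1 := by
      calc g * c * g⁻¹ * (g * c * g⁻¹) * (g * c * g⁻¹) = g * (c * c * c) * g⁻¹ := by group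
        _ = 1 := by rw [hc]; group
    have h4 := nb3 _ h2 h3
    calc c = g⁻¹ * (g * c * g⁻¹) * g := by group
      _ = 1 := by rw [h4]; group
  · exact Or.inr ⟨g, hg⟩

end H50.RT0
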