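import Mathlib
import Cfsg.Agent.Lib.H50.RT0P

/-! S3330, piece T0: abstract core (helper50). -/

set_option autoImplicit false
set_option maxRecDepth 100000
set_option maxHeartbeats 400000
set_option linter.unusedSectionVars false

namespace H50.RT0

open Equiv Subgroup
open scoped Pointwise

section Gen

variable {G : Type*} [Group G] [Finite G]

theorem conjP {p : ℕ} [Fact p.Prime] (H Q : Subgroup G) (hQH : Q ≤ H) (hQp : IsPGroup p Q)
    (hidx : ¬ p ∣ Q.relIndex H) {E : Subgroup G} (hE : E ≤ H) (hEp : IsPGroup p E) :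
    ∃ h ∈ H, ∀ x ∈ E, h * x * h⁻¹ ∈ Q := by
  set P : Sylow p H := IsPGroup.toSylow (hQp.comap_subtype (K := H)) hidx with hP
  obtain ⟨R, hR⟩ := (hEp.comap_subtype (K := H)).exists_le_sylow
  obtain ⟨s, hs⟩ := MulAction.exists_smul_eq H R P
  have h5 : MulAut.conj s • (R : Subgroup H) = (P : Subgroup H) :=
    congrArg (fun Q : Sylow p H => (Q : Subgroup H)) hs
  refine ⟨s, s.2, fun x hx => ?_⟩
  have h7 : (⟨x, hE hx⟩ : H) ∈ (R : Subgroup H) := hR hx
  have h8 := Subgroup.smul_mem_pointwise_smul _ (MulAut.conj s) _ h7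
  rw [h5] at h8
  exact h8

theorem cardC {a b c : G} (hb : c * a * c⁻¹ = b) :
    Nat.card (centralizer ({a} : Set G)) = Nat.card (centralizer ({b} : Set G)) := by
  have he : centralizer ({b} : Set G) = (centralizer ({a} : Set G)).map (MulAut.conj c).toMonoidHom := by
    ext q
    rw [mem_centralizer_singleton_iff, Subgroup.mem_map]
    constructor
    · intro hq
      refine ⟨c⁻¹ * q * c, ?_, ?_⟩
      · rw [mem_centralizer_singleton_iff]
        rw [← hb] at hq
        calc c⁻¹ * q * c * a = c⁻¹ * (q * (c * a * c⁻¹)) * c := by group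
          _ = c⁻¹ * ((c * a * c⁻¹) * q) * c := by rw [hq]
          _ = _ := by group
      · change c * (c⁻¹ * q * c) * c⁻¹ = q; group
    · rintro ⟨r, hr, rfl⟩
      rw [mem_centralizer_singleton_iff] at hr
      change c * r * c⁻¹ * b = b * (c * r * c⁻¹)
      rw [← hb]
      calc c * r * c⁻¹ * (c * a * c⁻¹) = c * (r * a) * c⁻¹ := by group
        _ = c * (a * r) * c⁻¹ := by rw [hr]
        _ = _ := by group
  rw [he]
  exact Nat.card_congr ((centralizer ({a} : Set G)).equivMapOfInjective _ (MulAut.conj c).injective).toEquiv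

end Gen

section Pr

variable {G : Type*} [Group G] {t : G} (π : centralizer ({t} : Set G) →* Perm (Fin 6))

open Classical in
noncomputable def pr (g : G) : Perm (Fin 6) :=
  if h : g ∈ centralizer ({t} : Set G) then π ⟨g, h⟩ else 1

theorem pr_eq {g : G} (h : g ∈ centralizer ({t} : Set G)) : pr π g = π ⟨g, h⟩ := by
  unfold pr
  rw [dif_pos h]

theorem pr_mul {a b : G} (ha : a ∈ centralizer ({t} : Set G)) (hb : b ∈ centralizer ({t} : Set G)) :
    pr π (a * b) = pr π a * pr π b := by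
  rw [pr_eq π ha, pr_eq π hb, pr_eq π (mul_mem ha hb), ← map_mul]; rfl

theorem pr_inv {a : G} (ha : a ∈ centralizer ({t} : Set G)) : pr π a⁻¹ = (pr π a)⁻¹ := by
  rw [pr_eq π ha, pr_eq π (inv_mem ha), ← map_inv]; rfl

def T2 : Subgroup G :=
  ((centralizer ({b0} : Set (Perm (Fin 6)))).comap π).map (centralizer ({t} : Set G)).subtype

theorem mem_T2 {g : G} : g ∈ T2 π ↔ g ∈ centralizer ({t} : Set G) ∧ pr π g * b0 = b0 * pr π g := by
  unfold T2
  rw [Subgroup.mem_map]
  constructor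
  · rintro ⟨x, hx, rfl⟩
    refine ⟨x.2, ?_⟩
    have h1 := pr_eq π x.2
    rw [Subgroup.mem_comap, mem_centralizer_singleton_iff] at hx
    change pr π (x : G) * b0 = b0 * pr π (x : G)
    rw [h1]
    exact hx
  · rintro ⟨h1, h2⟩
    refine ⟨⟨g, h1⟩, ?_, rfl⟩
    rw [Subgroup.mem_comap, mem_centralizer_singleton_iff]
    rw [pr_eq π h1] at h2
    exact h2

def B2 : Subgroup G :=
  ((zpowers (b0 : Perm (Fin 6))).comap π).map (centralizer ({t} : Set G)).subtype

theorem mem_B2 {g : G} : g ∈ B2 π ↔ g ∈ centralizer ({t} : Set G) ∧ (pr π g = 1 ∨ pr π g = b0) := by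
  have hb : ∀ p : Perm (Fin 6), p ∈ zpowers (b0 : Perm (Fin 6)) ↔ (p = 1 ∨ p = b0) := by
    intro p
    have hbb : b0 * b0 = 1 := by decide +kernel
    constructor
    · intro hp
      obtain ⟨k, rfl⟩ := mem_zpowers_iff.1 hp
      rcases Int.even_or_odd' k with ⟨m, hm | hm⟩
      · left
        rw [hm, zpow_mul, zpow_two, hbb, one_zpow]
      · right
        rw [hm, zpow_add, zpow_mul, zpow_two, hbb, one_zpow, one_mul, zpow_one]
    · rintro (rfl | rfl)
      · exact one_mem _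
      · exact mem_zpowers _
  unfold B2
  rw [Subgroup.mem_map]
  constructor
  · rintro ⟨x, hx, rfl⟩
    refine ⟨x.2, ?_⟩
    have h1 := pr_eq π x.2
    rw [Subgroup.mem_comap, hb] at hx
    change pr π (x : G) = 1 ∨ pr π (x : G) = b0
    rw [h1]
    exact hx
  · rintro ⟨h1, h2⟩
    refine ⟨⟨g, h1⟩, ?_, rfl⟩
    rw [Subgroup.mem_comap, hb]
    rw [pr_eq π h1] at h2
    exact h2

end Pr

/-- abstract data -/
structure AD {G : Type*} [Group G] (t e r0 z n k : G) (π : centralizer ({t} : Set G) →* Perm (Fin 6)) : Prop where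
  tt : t * t = 1
  t1 : t ≠ 1
  ee : e * e = 1
  te : e * t = t * e
  e1 : e ≠ 1
  et : e ≠ t
  rr : r0 * r0 = 1
  rt : r0 * t = t * r0
  re : r0 * e = e * r0
  re1 : r0 * e ≠ 1
  ret : r0 * e ≠ t
  z3 : z * z * z = 1
  z1 : z ≠ 1
  zt : z * t = t * z
  ze : z * e = e * z
  nt : n * t = t * n
  ne : n * e * n⁻¹ = r0 * t
  kt : k * t * k⁻¹ = e
  ke : k * e * k⁻¹ = t
  kr : k * r0 * k⁻¹ = r0
  nte : ∀ g : G, g * e * g⁻¹ ≠ t * e
  surj : Function.Surjective π
  ker : ∀ g, π g = 1 ↔ ((g : G) = 1 ∨ (g : G) = t)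
  fin : ∀ x f g : G, x * x * x = 1 → x ≠ 1 → x * t = t * x → f * t = t * f → x * f = f * x → g * f * g⁻¹ = t →
    ∃ c, c * t = t * c ∧ (c * z * c⁻¹) * f = f * (c * z * c⁻¹)

section Main

variable {G : Type*} [Group G] [Finite G] {t e r0 z n k : G} {π : centralizer ({t} : Set G) →* Perm (Fin 6)}

theorem AD.cardC (h : AD t e r0 z n k π) : Nat.card (centralizer ({t} : Set G)) = 1440 := by
  have h1 := π.ker.card_mul_index
  have h2 := index_ker π
  have h3 : Nat.card π.range = 720 := by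
    rw [MonoidHom.range_eq_top.2 h.surj, card_top, Nat.card_eq_fintype_card, Fintype.card_perm, Fintype.card_fin]
    rfl
  have h4 : Nat.card π.ker = 2 := by
    have ht : t ∈ centralizer ({t} : Set G) := by rw [mem_centralizer_singleton_iff]
    have h5 : (π.ker : Set (centralizer ({t} : Set G))) = {1, ⟨t, ht⟩} := by
      ext x
      rw [SetLike.mem_coe, MonoidHom.mem_ker, h.ker]
      change _ ↔ (x = 1 ∨ x = ⟨t, ht⟩)
      rw [Subtype.ext_iff, Subtype.ext_iff]
      exact Iff.rfl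
    have h6 : Nat.card π.ker = Nat.card (π.ker : Set (centralizer ({t} : Set G))) := rfl
    rw [h6, h5, Nat.card_coe_set_eq, Set.ncard_pair]
    intro h7
    exact h.t1 (congrArg Subtype.val h7).symm
  rw [h2, h3, h4] at h1
  omega

theorem AD.cardT (h : AD t e r0 z n k π) : Nat.card (T2 π) = 32 := by
  unfold T2
  rw [card_map_of_injective (subtype_injective _)]
  have h1 := ((centralizer ({b0} : Set (Perm (Fin 6)))).comap π).card_mul_index
  rw [index_comap_of_surjective _ h.surj, h.cardC] at h1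
  have h2 := (centralizer ({b0} : Set (Perm (Fin 6)))).card_mul_index
  have h3 : Nat.card (centralizer ({b0} : Set (Perm (Fin 6)))) = 16 := by
    rw [← card16]
    apply Nat.card_congr
    exact Equiv.subtypeEquivRight (fun x => mem_centralizer_singleton_iff)
  rw [h3, Nat.card_eq_fintype_card, Fintype.card_perm, Fintype.card_fin] at h2
  have h4 : Nat.factorial 6 = 720 := rfl
  rw [h4] at h2
  have h5 : (centralizer ({b0} : Set (Perm (Fin 6)))).index = 45 := by omega
  rw [h5] at h1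
  omega

theorem relI {A B : Subgroup G} (hAB : A ≤ B) : Nat.card A * A.relIndex B = Nat.card B := by
  have h1 := relIndex_mul_relIndex ⊥ A B bot_le hAB
  rwa [relIndex_bot_left, relIndex_bot_left] at h1

theorem core (h : AD t e r0 z n k π) (he : pr π e = a0 ∨ pr π e = a1) : False := by
  have hC : ∀ g : G, g ∈ centralizer ({t} : Set G) ↔ g * t = t * g := fun g => mem_centralizer_singleton_iff
  have htC : t ∈ centralizer ({t} : Set G) := (hC t).2 rfl
  have heC : e ∈ centralizer ({t} : Set G) := (hC e).2 h.te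
  have hrC : r0 ∈ centralizer ({t} : Set G) := (hC r0).2 h.rt
  have hzC : z ∈ centralizer ({t} : Set G) := (hC z).2 h.zt
  have hnC : n ∈ centralizer ({t} : Set G) := (hC n).2 h.nt
  have hker : ∀ {a : G}, a ∈ centralizer ({t} : Set G) → pr π a = 1 → a = 1 ∨ a = t := by
    intro a ha h1
    rw [pr_eq π ha, h.ker] at h1
    exact h1
  have hker' : ∀ {a : G}, a ∈ centralizer ({t} : Set G) → a = 1 ∨ a = t → pr π a = 1 := by
    intro a ha h1
    rw [pr_eq π ha, h.ker]
    exact h1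
  have hsurj : ∀ p : Perm (Fin 6), ∃ a ∈ centralizer ({t} : Set G), pr π a = p := by
    intro p
    obtain ⟨a, ha⟩ := h.surj p
    exact ⟨a, a.2, by rw [pr_eq π a.2]; exact ha⟩
  have he0 : pr π e ≠ 1 ∧ pr π e ≠ b0 := by
    rcases he with h1 | h1 <;> rw [h1]
    · exact ⟨a0_ne, a0b0_ne⟩
    · exact ⟨a1_ne, a1b0_ne⟩
  -- commuting with `ê` lifts
  have hlift : ∀ {g : G}, g ∈ centralizer ({t} : Set G) → pr π g * pr π e = pr π e * pr π g → g * e = e * g := by
    intro g hg h1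
    have h2 : g * e * g⁻¹ * e⁻¹ ∈ centralizer ({t} : Set G) :=
      mul_mem (mul_mem (mul_mem hg heC) (inv_mem hg)) (inv_mem heC)
    have h3 : pr π (g * e * g⁻¹ * e⁻¹) = 1 := by
      rw [pr_mul π (mul_mem (mul_mem hg heC) (inv_mem hg)) (inv_mem heC), pr_mul π (mul_mem hg heC) (inv_mem hg),
        pr_mul π hg heC, pr_inv π hg, pr_inv π heC, h1]
      group
    rcases hker h2 h3 with h4 | h4
    · calc g * e = (g * e * g⁻¹ * e⁻¹) * (e * g) := by group
        _ = e * g := by rw [h4, one_mul]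
    · exfalso
      apply h.nte g
      calc g * e * g⁻¹ = (g * e * g⁻¹ * e⁻¹) * e := by group
        _ = t * e := by rw [h4]
  have hT2e : ∀ g ∈ T2 π, g * e = e * g := by
    intro g hg
    rw [mem_T2] at hg
    apply hlift hg.1
    have := cb0 _ hg.2
    rcases he with h1 | h1 <;> rw [h1]
    · exact this.1
    · exact this.2
  have hT2C : T2 π ≤ centralizer ({t} : Set G) := fun g hg => ((mem_T2 π).1 hg).1
  have hcardC := h.cardC
  have hcardT := h.cardT
  haveI : Fact (Nat.Prime 2) := ⟨Nat.prime_two⟩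
  have hT2p : IsPGroup 2 (T2 π) := IsPGroup.of_card (n := 5) (by rw [hcardT]; rfl)
  have hTr : ∀ H : Subgroup G, T2 π ≤ H → Nat.card H ∣ 1440 → ¬ 2 ∣ (T2 π).relIndex H := by
    intro H hH hd h2
    have h3 := relI hH
    rw [hcardT] at h3
    rw [← h3] at hd
    obtain ⟨m, hm⟩ := h2
    rw [hm] at hd
    obtain ⟨l, hl⟩ := hd
    have : 1440 = 64 * (m * l) := by rw [hl]; ring
    omega
  -- `k'`
  set Y : Subgroup G := centralizer ({t} : Set G) ⊓ centralizer ({e} : Set G) with hY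
  have hT2Y : T2 π ≤ Y := by
    intro g hg
    exact ⟨hT2C hg, mem_centralizer_singleton_iff.2 (hT2e g hg)⟩
  obtain ⟨k', hk't, hk'e, hk'T⟩ : ∃ k' : G, k' * t * k'⁻¹ = e ∧ k' * e * k'⁻¹ = t ∧ ∀ g ∈ T2 π, k' * g * k'⁻¹ ∈ T2 π := by
    have h1 : (T2 π).map (MulAut.conj k).toMonoidHom ≤ Y := by
      rintro _ ⟨g, hg, rfl⟩
      have hg' := hT2Y hg
      have hgt := (hC g).1 hg'.1
      have hge := hT2e g hg
      refine Subgroup.mem_inf.2 ⟨?_, ?_⟩
      · rw [mem_centralizer_singleton_iff]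
        change k * g * k⁻¹ * t = t * (k * g * k⁻¹)
        rw [← h.ke]
        calc k * g * k⁻¹ * (k * e * k⁻¹) = k * (g * e) * k⁻¹ := by group
          _ = k * (e * g) * k⁻¹ := by rw [hge]
          _ = _ := by group
      · rw [mem_centralizer_singleton_iff]
        change k * g * k⁻¹ * e = e * (k * g * k⁻¹)
        rw [← h.kt]
        calc k * g * k⁻¹ * (k * t * k⁻¹) = k * (g * t) * k⁻¹ := by group
          _ = k * (t * g) * k⁻¹ := by rw [hgt]
          _ = _ := by group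
    have h2 : IsPGroup 2 ((T2 π).map (MulAut.conj k).toMonoidHom) := hT2p.map _
    have h3 : ¬ 2 ∣ (T2 π).relIndex Y := by
      apply hTr _ hT2Y
      rw [← hcardC]
      exact card_dvd_of_le inf_le_left
    obtain ⟨y, hy, hy2⟩ := conjP Y (T2 π) hT2Y hT2p h3 h1 h2
    have hyt : y * t = t * y := (hC y).1 hy.1
    have hye : y * e = e * y := mem_centralizer_singleton_iff.1 hy.2
    refine ⟨y * k, ?_, ?_, ?_⟩
    · calc y * k * t * (y * k)⁻¹ = y * (k * t * k⁻¹) * y⁻¹ := by group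
        _ = y * e * y⁻¹ := by rw [h.kt]
        _ = e := by rw [hye]; group
    · calc y * k * e * (y * k)⁻¹ = y * (k * e * k⁻¹) * y⁻¹ := by group
        _ = y * t * y⁻¹ := by rw [h.ke]
        _ = t := by rw [hyt]; group
    · intro g hg
      have h5 := hy2 (k * g * k⁻¹) ⟨g, hg, rfl⟩
      have h6 : y * k * g * (y * k)⁻¹ = y * (k * g * k⁻¹) * y⁻¹ := by group
      rw [h6]; exact h5
  -- the commutator subgroup
  have hB : ⁅T2 π, T2 π⁆ ≤ B2 π := by
    rw [commutator_le]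
    intro a ha b hb
    rw [mem_T2] at ha hb
    rw [mem_B2]
    refine ⟨?_, ?_⟩
    · rw [commutatorElement_def]
      exact mul_mem (mul_mem (mul_mem ha.1 hb.1) (inv_mem ha.1)) (inv_mem hb.1)
    · rw [commutatorElement_def, pr_mul π (mul_mem (mul_mem ha.1 hb.1) (inv_mem ha.1)) (inv_mem hb.1),
        pr_mul π (mul_mem ha.1 hb.1) (inv_mem ha.1), pr_mul π ha.1 hb.1, pr_inv π ha.1, pr_inv π hb.1]
      exact cm _ ha.2 _ hb.2
  have hst : ∀ ν : G, (∀ g ∈ T2 π, ν * g * ν⁻¹ ∈ T2 π) → ∀ x ∈ ⁅T2 π, T2 π⁆, ν * x * ν⁻¹ ∈ ⁅T2 π, T2 π⁆ := by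
    intro ν hν x hx
    have h1 : (T2 π).map (MulAut.conj ν).toMonoidHom ≤ T2 π := by
      rintro _ ⟨g, hg, rfl⟩
      exact hν g hg
    have h2 : (⁅T2 π, T2 π⁆).map (MulAut.conj ν).toMonoidHom ≤ ⁅T2 π, T2 π⁆ := by
      rw [map_commutator]
      exact commutator_mono h1 h1
    exact h2 ⟨x, hx, rfl⟩
  have htn : t ∉ ⁅T2 π, T2 π⁆ := by
    intro h1
    have h2 := hB (hst k' hk'T t h1)
    rw [hk't, mem_B2] at h2
    rcases h2.2 with h3 | h3
    · exact he0.1 h3
    · exact he0.2 h3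
  obtain ⟨p, q, hp, hq, hpq⟩ := cmx
  obtain ⟨g1, hg1, hg1p⟩ := hsurj p
  obtain ⟨g2, hg2, hg2q⟩ := hsurj q
  have hg1T : g1 ∈ T2 π := (mem_T2 π).2 ⟨hg1, by rw [hg1p]; exact hp⟩
  have hg2T : g2 ∈ T2 π := (mem_T2 π).2 ⟨hg2, by rw [hg2q]; exact hq⟩
  obtain ⟨z0, hz0⟩ : ∃ z0, z0 = g1 * g2 * g1⁻¹ * g2⁻¹ := ⟨_, rfl⟩
  have hz0T : z0 ∈ ⁅T2 π, T2 π⁆ := by
    rw [hz0, ← commutatorElement_def]; exact commutator_mem_commutator hg1T hg2T
  have hz0C : z0 ∈ centralizer ({t} : Set G) := ((mem_B2 π).1 (hB hz0T)).1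
  have hz0p : pr π z0 = b0 := by
    rw [hz0, pr_mul π (mul_mem (mul_mem hg1 hg2) (inv_mem hg1)) (inv_mem hg2),
        pr_mul π (mul_mem hg1 hg2) (inv_mem hg1), pr_mul π hg1 hg2, pr_inv π hg1, pr_inv π hg2, hg1p, hg2q]
    exact hpq
  have huniq : ∀ x ∈ ⁅T2 π, T2 π⁆, x ≠ 1 → x = z0 := by
    intro x hx hx1
    have h1 := (mem_B2 π).1 (hB hx)
    rcases h1.2 with h2 | h2
    · rcases hker h1.1 h2 with h3 | h3
      · exact absurd h3 hx1
      · rw [h3] at hx
        exact absurd hx htn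
    · have h3 : pr π (x * z0⁻¹) = 1 := by
        rw [pr_mul π h1.1 (inv_mem hz0C), pr_inv π hz0C, h2, hz0p]; group
      rcases hker (mul_mem h1.1 (inv_mem hz0C)) h3 with h4 | h4
      · exact mul_inv_eq_one.1 h4
      · exfalso
        have h5 := mul_mem hx (inv_mem hz0T)
        rw [h4] at h5
        exact htn h5
  have hz01 : z0 ≠ 1 := by
    intro h1
    have := hker' hz0C (Or.inl h1)
    rw [hz0p] at this
    exact b0_ne this
  have hν : ∀ ν : G, (∀ g ∈ T2 π, ν * g * ν⁻¹ ∈ T2 π) → ν * z0 * ν⁻¹ = z0 := by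
    intro ν h1
    apply huniq _ (hst ν h1 z0 hz0T)
    intro h2
    apply hz01
    calc z0 = ν⁻¹ * (ν * z0 * ν⁻¹) * ν := by group
      _ = 1 := by rw [h2]; group
  have hz0T2 : ∀ g ∈ T2 π, g * z0 = z0 * g := by
    intro g hg
    have h1 := hν g (fun x hx => mul_mem (mul_mem hg hx) (inv_mem hg))
    calc g * z0 = (g * z0 * g⁻¹) * g := by group
      _ = z0 * g := by rw [h1]
  -- `r0 e`
  have hreC : r0 * e ∈ centralizer ({t} : Set G) := mul_mem hrC heC
  have hprt : pr π t = 1 := hker' htC (Or.inr rfl)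
  have hsre : Perm.sign (pr π (r0 * e)) = 1 := by
    have h1 : pr π n * pr π e * (pr π n)⁻¹ = pr π r0 := by
      have h2 : pr π (n * e * n⁻¹) = pr π (r0 * t) := by rw [h.ne]
      rw [pr_mul π (mul_mem hnC heC) (inv_mem hnC), pr_mul π hnC heC, pr_inv π hnC, pr_mul π hrC htC, hprt, mul_one] at h2
      exact h2
    have h2 : Perm.sign (pr π r0) = Perm.sign (pr π e) := by
      rw [← h1, Perm.sign_mul, Perm.sign_mul, Perm.sign_inv, mul_comm, ← mul_assoc, Int.units_mul_self, one_mul]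
    rw [pr_mul π hrC heC, Perm.sign_mul, h2, Int.units_mul_self]
  obtain ⟨c', hc'⟩ := even_conj (pr π (r0 * e))
    (by
      rw [← pr_mul π hreC hreC]
      apply hker' (mul_mem hreC hreC)
      left
      calc r0 * e * (r0 * e) = r0 * (e * r0) * e := by group
        _ = r0 * (r0 * e) * e := by rw [h.re]
        _ = (r0 * r0) * (e * e) := by group
        _ = 1 := by rw [h.rr, h.ee, one_mul])
    (by
      intro h1
      rcases hker hreC h1 with h2 | h2
      · exact h.re1 h2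
      · exact h.ret h2) hsre
  obtain ⟨c, hcC, hc⟩ := hsurj c'
  have hvt : (k * n * k) * t * (k * n * k)⁻¹ = r0 * e := by
    calc (k * n * k) * t * (k * n * k)⁻¹ = k * (n * (k * t * k⁻¹) * n⁻¹) * k⁻¹ := by group
      _ = k * (r0 * t) * k⁻¹ := by rw [h.kt, h.ne]
      _ = (k * r0 * k⁻¹) * (k * t * k⁻¹) := by group
      _ = r0 * e := by rw [h.kr, h.kt]
  have hcz : c * z0 * c⁻¹ * (r0 * e)⁻¹ = 1 ∨ c * z0 * c⁻¹ * (r0 * e)⁻¹ = t := by
    apply hker (mul_mem (mul_mem (mul_mem hcC hz0C) (inv_mem hcC)) (inv_mem hreC))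
    rw [pr_mul π (mul_mem (mul_mem hcC hz0C) (inv_mem hcC)) (inv_mem hreC),
      pr_mul π (mul_mem hcC hz0C) (inv_mem hcC), pr_mul π hcC hz0C, pr_inv π hcC, pr_inv π hreC, hz0p, hc, ← hc']
    group
  have hct : c * t = t * c := (hC c).1 hcC
  rcases hcz with hcz | hcz
  · -- case 1
    have h1 : c * z0 * c⁻¹ = r0 * e := mul_inv_eq_one.1 hcz
    obtain ⟨u, hu⟩ : ∃ u, u = c⁻¹ * (k * n * k) := ⟨_, rfl⟩
    have hut : u * t * u⁻¹ = z0 := by
      calc u * t * u⁻¹ = c⁻¹ * ((k * n * k) * t * (k * n * k)⁻¹) * c := by rw [hu]; group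
        _ = c⁻¹ * (c * z0 * c⁻¹) * c := by rw [hvt, h1]
        _ = z0 := by group
    have hcz0 : Nat.card (centralizer ({z0} : Set G)) = 1440 := by
      rw [← cardC hut, hcardC]
    have hT2z : T2 π ≤ centralizer ({z0} : Set G) := by
      intro g hg
      rw [mem_centralizer_singleton_iff]
      exact hz0T2 g hg
    have hE : (T2 π).map (MulAut.conj u).toMonoidHom ≤ centralizer ({z0} : Set G) := by
      rintro _ ⟨g, hg, rfl⟩
      rw [mem_centralizer_singleton_iff]
      change u * g * u⁻¹ * z0 = z0 * (u * g * u⁻¹)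
      rw [← hut]
      calc u * g * u⁻¹ * (u * t * u⁻¹) = u * (g * t) * u⁻¹ := by group
        _ = u * (t * g) * u⁻¹ := by rw [(hC g).1 (hT2C hg)]
        _ = _ := by group
    obtain ⟨d, hd, hd2⟩ := conjP (centralizer ({z0} : Set G)) (T2 π) hT2z hT2p
      (hTr _ hT2z (by rw [hcz0])) hE (hT2p.map _)
    rw [mem_centralizer_singleton_iff] at hd
    have h5 := hν (d * u) (by
      intro g hg
      have h6 := hd2 (u * g * u⁻¹) ⟨g, hg, rfl⟩
      have h7 : d * u * g * (d * u)⁻¹ = d * (u * g * u⁻¹) * d⁻¹ := by group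
      rw [h7]; exact h6)
    have h6 : d * u * t * (d * u)⁻¹ = z0 := by
      calc d * u * t * (d * u)⁻¹ = d * (u * t * u⁻¹) * d⁻¹ := by group
        _ = d * z0 * d⁻¹ := by rw [hut]
        _ = z0 := by rw [hd]; group
    have h7 : t = z0 := by
      calc t = (d * u)⁻¹ * (d * u * t * (d * u)⁻¹) * (d * u) := by group
        _ = (d * u)⁻¹ * (d * u * z0 * (d * u)⁻¹) * (d * u) := by rw [h6, h5]
        _ = z0 := by group
    rw [← h7, hprt] at hz0p
    exact b0_ne hz0p.symm
  · -- case 2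
    have h1 : c * z0 * c⁻¹ = t * (r0 * e) := mul_inv_eq_iff_eq_mul.1 hcz
    have h2 : c * (t * z0) * c⁻¹ = r0 * e := by
      calc c * (t * z0) * c⁻¹ = (c * t) * z0 * c⁻¹ := by group
        _ = t * (c * z0 * c⁻¹) := by rw [hct]; group
        _ = (t * t) * (r0 * e) := by rw [h1]; group
        _ = r0 * e := by rw [h.tt, one_mul]
    obtain ⟨f, hf⟩ : ∃ f, f = e * z0 := ⟨_, rfl⟩
    have hfC : f ∈ centralizer ({t} : Set G) := by rw [hf]; exact mul_mem heC hz0C
    have hf2 : f = k' * (t * z0) * k'⁻¹ := by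
      calc f = (k' * t * k'⁻¹) * (k' * z0 * k'⁻¹) := by rw [hf, hk't, hν k' hk'T]
        _ = _ := by group
    obtain ⟨v, hv⟩ : ∃ v, v = k' * c⁻¹ * (k * n * k) := ⟨_, rfl⟩
    have hvf : v * t * v⁻¹ = f := by
      calc v * t * v⁻¹ = k' * (c⁻¹ * ((k * n * k) * t * (k * n * k)⁻¹) * c) * k'⁻¹ := by rw [hv]; group
        _ = k' * (c⁻¹ * (c * (t * z0) * c⁻¹) * c) * k'⁻¹ := by rw [hvt, h2]
        _ = k' * (t * z0) * k'⁻¹ := by group
        _ = f := hf2.symm
    have hprf : pr π f = pr π e * b0 := by rw [hf, pr_mul π heC hz0C, hz0p]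
    -- the element of order 3
    obtain ⟨xh, hx3, hx1, hxf⟩ : ∃ xh : Perm (Fin 6), xh * xh * xh = 1 ∧ xh ≠ 1 ∧ xh * pr π f = pr π f * xh := by
      rw [hprf]
      rcases he with h3 | h3 <;> rw [h3]
      · exact ⟨c1, c1_3, c1_ne, by rw [a0b0]; exact c1_a1⟩
      · exact ⟨c0, c0_3, c0_ne, by rw [a1b0]; exact c0_a0⟩
    obtain ⟨x, hxC, hx, hxx⟩ : ∃ x ∈ centralizer ({t} : Set G), pr π x = xh ∧ x * x * x = 1 := by
      obtain ⟨x0, hx0C, hx0⟩ := hsurj xh
      have h3 : pr π (x0 * x0 * x0) = 1 := by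
        rw [pr_mul π (mul_mem hx0C hx0C) hx0C, pr_mul π hx0C hx0C, hx0, hx3]
      rcases hker (mul_mem (mul_mem hx0C hx0C) hx0C) h3 with h4 | h4
      · exact ⟨x0, hx0C, hx0, h4⟩
      · refine ⟨x0 * t, mul_mem hx0C htC, ?_, ?_⟩
        · rw [pr_mul π hx0C htC, hprt, mul_one, hx0]
        · have h5 : x0 * t = t * x0 := (hC x0).1 hx0C
          calc x0 * t * (x0 * t) * (x0 * t) = x0 * (t * x0) * t * (x0 * t) := by group
            _ = x0 * x0 * (t * t) * (x0 * t) := by rw [← h5]; group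
            _ = x0 * x0 * x0 * t := by rw [h.tt]; group
            _ = 1 := by rw [h4, h.tt]
    have hx1' : x ≠ 1 := by
      intro h3
      apply hx1
      rw [← hx]
      exact hker' hxC (Or.inl h3)
    have hxfc : x * f = f * x := by
      have h3 : pr π (x * f * x⁻¹ * f⁻¹) = 1 := by
        rw [pr_mul π (mul_mem (mul_mem hxC hfC) (inv_mem hxC)) (inv_mem hfC), pr_mul π (mul_mem hxC hfC) (inv_mem hxC),
          pr_mul π hxC hfC, pr_inv π hxC, pr_inv π hfC, hx, hxf]
        group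
      rcases hker (mul_mem (mul_mem (mul_mem hxC hfC) (inv_mem hxC)) (inv_mem hfC)) h3 with h4 | h4
      · calc x * f = (x * f * x⁻¹ * f⁻¹) * (f * x) := by group
          _ = f * x := by rw [h4, one_mul]
      · exfalso
        have h5 : x * f * x⁻¹ = t * f := by
          calc x * f * x⁻¹ = (x * f * x⁻¹ * f⁻¹) * f := by group
            _ = t * f := by rw [h4]
        have hxt : x * t = t * x := (hC x).1 hxC
        have hxt' : x * t * x⁻¹ = t := by rw [hxt]; group
        have h6 : (x * x * x) * f * (x * x * x)⁻¹ = t * f := by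
          calc (x * x * x) * f * (x * x * x)⁻¹ = x * (x * (x * f * x⁻¹) * x⁻¹) * x⁻¹ := by group
            _ = x * (x * (t * f) * x⁻¹) * x⁻¹ := by rw [h5]
            _ = x * ((x * t * x⁻¹) * (x * f * x⁻¹)) * x⁻¹ := by group
            _ = x * (t * (t * f)) * x⁻¹ := by rw [hxt', h5]
            _ = x * ((t * t) * f) * x⁻¹ := by group
            _ = x * f * x⁻¹ := by rw [h.tt, one_mul]
            _ = t * f := h5
        rw [hxx] at h6
        apply h.t1
        have h7 : f = t * f := by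
          calc f = 1 * f * 1⁻¹ := by group
            _ = t * f := h6
        calc t = (t * f) * f⁻¹ := by group
          _ = f * f⁻¹ := by rw [← h7]
          _ = 1 := by group
    obtain ⟨d, hd, hd2⟩ := h.fin x f v⁻¹ hxx hx1' ((hC x).1 hxC) ((hC f).1 hfC) hxfc
      (by rw [← hvf]; group)
    have hdC : d ∈ centralizer ({t} : Set G) := (hC d).2 hd
    have hz'C : d * z * d⁻¹ ∈ centralizer ({t} : Set G) := mul_mem (mul_mem hdC hzC) (inv_mem hdC)
    have hz' : pr π (d * z * d⁻¹) = pr π d * pr π z * (pr π d)⁻¹ := by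
      rw [pr_mul π (mul_mem hdC hzC) (inv_mem hdC), pr_mul π hdC hzC, pr_inv π hdC]
    have hz'f : (pr π d * pr π z * (pr π d)⁻¹) * pr π f = pr π f * (pr π d * pr π z * (pr π d)⁻¹) := by
      rw [← hz', ← pr_mul π hz'C hfC, ← pr_mul π hfC hz'C, hd2]
    have hpz3 : pr π z * pr π z * pr π z = 1 := by
      rw [← pr_mul π hzC hzC, ← pr_mul π (mul_mem hzC hzC) hzC, h.z3]
      exact hker' (one_mem _) (Or.inl rfl)
    have hpz1 : pr π z ≠ 1 := by
      intro h3
      rcases hker hzC h3 with h4 | h4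
      · exact h.z1 h4
      · have h5 := h.z3
        rw [h4, h.tt, one_mul] at h5
        exact h.t1 h5
    have hpze : pr π z * pr π e = pr π e * pr π z := by
      rw [← pr_mul π hzC heC, ← pr_mul π heC hzC, h.ze]
    have hpz3' : (pr π d * pr π z * (pr π d)⁻¹) * (pr π d * pr π z * (pr π d)⁻¹) * (pr π d * pr π z * (pr π d)⁻¹) = 1 := by
      calc (pr π d * pr π z * (pr π d)⁻¹) * (pr π d * pr π z * (pr π d)⁻¹) * (pr π d * pr π z * (pr π d)⁻¹)
          = pr π d * (pr π z * pr π z * pr π z) * (pr π d)⁻¹ := by group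
        _ = 1 := by rw [hpz3]; group
    have hpz1' : (pr π d * pr π z * (pr π d)⁻¹) ≠ 1 := by
      intro h3
      apply hpz1
      calc pr π z = (pr π d)⁻¹ * (pr π d * pr π z * (pr π d)⁻¹) * pr π d := by group
        _ = 1 := by rw [h3]; group
    rw [hprf] at hz'f
    rcases he with h3 | h3
    · rw [h3] at hpze hz'f
      rw [a0b0] at hz'f
      obtain ⟨i, hi⟩ := fx0 _ hpze hpz3
      apply fx1 _ hz'f hpz3' hpz1' (pr π d i)
      simp [hi]
    · rw [h3] at hpze hz'f
      rw [a1b0] at hz'f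
      obtain ⟨i, hi⟩ := fx0 _ hz'f hpz3'
      apply fx1 _ hpze hpz3 hpz1 ((pr π d)⁻¹ i)
      have h4 : (pr π d) ((pr π z) ((pr π d)⁻¹ i)) = i := by simpa using hi
      rw [Perm.eq_inv_iff_eq]
      exact h4

end Main

end H50.RT0
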