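import Mathlib
import Cfsg.Agent.Lib.H54.RA0
import Cfsg.Agent.Lib.H50.RT0P
import Cfsg.Agent.Lib.H50.RT0C

/-! S3330, piece T0 (helper50). -/

set_option autoImplicit false
set_option maxRecDepth 100000
set_option maxHeartbeats 400000
set_option linter.unusedSectionVars false

namespace H50.RT0

open Equiv Subgroup H54.RA
open scoped Pointwise

/-- transport of the data by an inner automorphism of `Perm (Fin 6)` -/
theorem AD.conj {G : Type*} [Group G] {t e r0 z n k : G} {π : centralizer ({t} : Set G) →* Perm (Fin 6)}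
    (h : AD t e r0 z n k π) (p : Perm (Fin 6)) : AD t e r0 z n k ((MulAut.conj p).toMonoidHom.comp π) := by
  refine ⟨h.tt, h.t1, h.ee, h.te, h.e1, h.et, h.rr, h.rt, h.re, h.re1, h.ret, h.z3, h.z1, h.zt, h.ze, h.nt, h.ne,
    h.kt, h.ke, h.kr, h.nte, ?_, ?_, h.fin⟩
  · intro q
    obtain ⟨a, ha⟩ := h.surj (p⁻¹ * q * p)
    refine ⟨a, ?_⟩
    change p * π a * p⁻¹ = q
    rw [ha]; group
  · intro g
    rw [← h.ker]
    change p * π g * p⁻¹ = 1 ↔ π g = 1
    constructor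
    · intro h1
      calc π g = p⁻¹ * (p * π g * p⁻¹) * p := by group
        _ = 1 := by rw [h1]; group
    · intro h1
      rw [h1]; group

theorem core' {G : Type*} [Group G] [Finite G] {t e r0 z n k : G} {π : centralizer ({t} : Set G) →* Perm (Fin 6)}
    (h : AD t e r0 z n k π) : False := by
  have hC : ∀ g : G, g ∈ centralizer ({t} : Set G) ↔ g * t = t * g := fun g => mem_centralizer_singleton_iff
  have heC : e ∈ centralizer ({t} : Set G) := (hC e).2 h.te
  have hzC : z ∈ centralizer ({t} : Set G) := (hC z).2 h.zt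
  have hker : ∀ {a : G}, a ∈ centralizer ({t} : Set G) → pr π a = 1 → a = 1 ∨ a = t := by
    intro a ha h1
    rw [pr_eq π ha, h.ker] at h1
    exact h1
  have hker' : ∀ {a : G}, a ∈ centralizer ({t} : Set G) → a = 1 ∨ a = t → pr π a = 1 := by
    intro a ha h1
    rw [pr_eq π ha, h.ker]
    exact h1
  have h1 : pr π e * pr π e = 1 := by
    rw [← pr_mul π heC heC, h.ee]
    exact hker' (one_mem _) (Or.inl rfl)
  have h2 : pr π e ≠ 1 := by
    intro h3
    rcases hker heC h3 with h4 | h4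
    · exact h.e1 h4
    · exact h.et h4
  have hpz3 : pr π z * pr π z * pr π z = 1 := by
    rw [← pr_mul π hzC hzC, ← pr_mul π (mul_mem hzC hzC) hzC, h.z3]
    exact hker' (one_mem _) (Or.inl rfl)
  have hpz1 : pr π z ≠ 1 := by
    intro h3
    rcases hker hzC h3 with h4 | h4
    · exact h.z1 h4
    · have h5 := h.z3
      rw [h4, h.tt, one_mul] at h5
      exact h.t1 h5
  have hpze : pr π z * pr π e = pr π e * pr π z := by
    rw [← pr_mul π hzC heC, ← pr_mul π heC hzC, h.ze]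
  have key : ∀ p : Perm (Fin 6), pr ((MulAut.conj p).toMonoidHom.comp π) e = p * pr π e * p⁻¹ := by
    intro p
    rw [pr_eq _ heC, pr_eq π heC]
    rfl
  rcases inv_conj _ _ h1 h2 hpz3 hpz1 hpze with ⟨p, hp⟩ | ⟨p, hp⟩
  · exact core (h.conj p) (Or.inl (by rw [key]; exact hp))
  · exact core (h.conj p) (Or.inr (by rw [key]; exact hp))

theorem sup_mul {G : Type*} [Group G] {A B : Subgroup G} (hc : ∀ a ∈ A, ∀ b ∈ B, a * b = b * a) {x : G} (hx : x ∈ A ⊔ B) :
    ∃ a ∈ A, ∃ b ∈ B, x = a * b := by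
  let P : Subgroup G :=
    { carrier := {x | ∃ a ∈ A, ∃ b ∈ B, x = a * b}
      one_mem' := ⟨1, one_mem _, 1, one_mem _, by simp⟩
      mul_mem' := by
        rintro _ _ ⟨a, ha, b, hb, rfl⟩ ⟨c, hc', d, hd, rfl⟩
        refine ⟨a * c, mul_mem ha hc', b * d, mul_mem hb hd, ?_⟩
        calc a * b * (c * d) = a * (b * c) * d := by group
          _ = a * (c * b) * d := by rw [hc c hc' b hb]
          _ = _ := by group
      inv_mem' := by
        rintro _ ⟨a, ha, b, hb, rfl⟩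
        refine ⟨a⁻¹, inv_mem ha, b⁻¹, inv_mem hb, ?_⟩
        rw [mul_inv_rev]
        exact (hc a⁻¹ (inv_mem ha) b⁻¹ (inv_mem hb)).symm }
  have h1 : A ⊔ B ≤ P := by
    apply sup_le
    · intro a ha; exact ⟨a, ha, 1, one_mem _, by simp⟩
    · intro b hb; exact ⟨1, one_mem _, b, hb, by simp⟩
  exact h1 hx

theorem zp3 {G : Type*} [Group G] {x y : G} (hx3 : x ^ 3 = 1) (hy : y ∈ zpowers x) : ∃ i : Fin 3, y = x ^ (i : ℕ) := by
  obtain ⟨n, rfl⟩ := mem_zpowers_iff.1 hy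
  obtain ⟨k, hk⟩ : ∃ k : ℤ, n = 3 * k + n % 3 := ⟨n / 3, by omega⟩
  have h1 : x ^ n = x ^ (n % 3) := by
    conv_lhs => rw [hk]
    rw [zpow_add, zpow_mul]
    have : x ^ (3 : ℤ) = 1 := by exact_mod_cast hx3
    rw [this]; simp
  rw [h1]
  have h5 : n % 3 = 0 ∨ n % 3 = 1 ∨ n % 3 = 2 := by omega
  rcases h5 with h5 | h5 | h5
  · exact ⟨0, by rw [h5]; simp⟩
  · exact ⟨1, by rw [h5]; simp⟩
  · exact ⟨2, by rw [h5]; exact zpow_ofNat x 2⟩

section

variable {G : Type*} [Group G] [Finite G] {ψ : PP →* G} {n : G}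

/-- `|C(z) ∩ C(s)| ≤ 24` -/
theorem nte (h : TD ψ n)
    (h36 : ∀ {s x g : G}, g * s * g⁻¹ = ψ (1, t5) → x ^ 3 = 1 → x ≠ 1 → x * s = s * x →
      Nat.card (centralizer ({x} : Set G) ⊓ centralizer ({s} : Set G) : Subgroup G) = 36) (g : G) :
    g * ψ (1, swap 1 2) * g⁻¹ ≠ ψ (1, t5) * ψ (1, swap 1 2) := by
  intro hg
  set h0 : Perm (Fin 5) := swap 0 1 * swap 2 4 with hh0
  set s5 : Perm (Fin 5) := t5 * swap 1 2 with hs5
  have hk : ψ (1, h0) * ψ (1, swap 1 2) * (ψ (1, h0))⁻¹ = ψ (1, t5) := by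
    rw [← map_inv, ← map_mul, ← map_mul]
    congr 1
    simp only [Prod.mk_mul_mk, Prod.inv_mk, one_mul, inv_one]
    congr 1
    rw [hh0]; decide +kernel
  have hs : (ψ (1, h0) * g⁻¹) * ψ (1, s5) * (ψ (1, h0) * g⁻¹)⁻¹ = ψ (1, t5) := by
    have h1 : ψ (1, s5) = ψ (1, t5) * ψ (1, swap 1 2) := by
      rw [← map_mul, Prod.mk_mul_mk, one_mul]
    rw [h1, ← hg, ← hk]; group
  have hz3 : (ψ (c3, 1)) ^ 3 = 1 := by
    rw [← map_pow]
    have : ((c3, 1) : PP) ^ 3 = 1 := by decide +kernel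
    rw [this, map_one]
  have hz1 : ψ (c3, 1) ≠ 1 := by
    intro h1
    rw [← map_one ψ] at h1
    exact absurd (h.inj h1) (by decide +kernel)
  have hzs : ψ (c3, 1) * ψ (1, s5) = ψ (1, s5) * ψ (c3, 1) := by
    rw [← map_mul, ← map_mul]; simp
  have h2 := h36 hs hz3 hz1 hzs
  have h3 : Nat.card (centralizer ({ψ (c3, 1)} : Set G) ⊓ centralizer ({ψ (1, s5)} : Set G) : Subgroup G) ≤
      Nat.card ({a : Perm (Fin 3) // a * c3 = c3 * a} × {b : Perm (Fin 5) // b * s5 = s5 * b}) := by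
    have h4 : ∀ x : (centralizer ({ψ (c3, 1)} : Set G) ⊓ centralizer ({ψ (1, s5)} : Set G) : Subgroup G),
        ∃ y : {a : Perm (Fin 3) // a * c3 = c3 * a} × {b : Perm (Fin 5) // b * s5 = s5 * b},
          ψ (y.1.1, y.2.1) = x := by
      rintro ⟨x, hx⟩
      rw [Subgroup.mem_inf, mem_centralizer_singleton_iff, mem_centralizer_singleton_iff] at hx
      have h5 : x ∈ normalizer (zpowers (ψ (c3, 1)) : Set G) := by
        apply centralizer_le_normalizer
        rw [mem_centralizer_iff]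
        intro y hy
        obtain ⟨k, rfl⟩ := mem_zpowers_iff.1 hy
        exact ((show Commute x _ from hx.1).zpow_right k).eq.symm
      obtain ⟨⟨a, b⟩, rfl⟩ := h.rng x h5
      have h6 := hx.1
      have h7 := hx.2
      rw [← map_mul, ← map_mul] at h6 h7
      have h8 := h.inj h6
      have h9 := h.inj h7
      rw [Prod.mk_mul_mk, Prod.mk_mul_mk, Prod.mk.injEq] at h8 h9
      exact ⟨⟨⟨a, h8.1⟩, ⟨b, h9.2⟩⟩, rfl⟩
    choose y hy using h4
    apply Nat.card_le_card_of_injective y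
    intro x1 x2 h5
    apply Subtype.ext
    rw [← hy x1, ← hy x2, h5]
  have h4 : Nat.card ({a : Perm (Fin 3) // a * c3 = c3 * a} × {b : Perm (Fin 5) // b * s5 = s5 * b}) = 24 := by
    rw [Nat.card_prod, Nat.card_eq_fintype_card, Nat.card_eq_fintype_card]
    have h5 : Fintype.card {a : Perm (Fin 3) // a * c3 = c3 * a} = 3 := by decide +kernel
    have h6 : Fintype.card {b : Perm (Fin 5) // b * (t5 * swap 1 2) = (t5 * swap 1 2) * b} = 8 := by decide +kernel
    rw [h5, hs5, h6]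
  rw [h2, h4] at h3
  omega

/-- a conjugate of `z` under `C(t)` commutes with `f` -/
theorem fin (h : TD ψ n)
    (h36 : ∀ {s x g : G}, g * s * g⁻¹ = ψ (1, t5) → x ^ 3 = 1 → x ≠ 1 → x * s = s * x →
      Nat.card (centralizer ({x} : Set G) ⊓ centralizer ({s} : Set G) : Subgroup G) = 36)
    {x f g : G} (hx : x * x * x = 1) (hx1 : x ≠ 1) (hxt : x * ψ (1, t5) = ψ (1, t5) * x)
    (hft : f * ψ (1, t5) = ψ (1, t5) * f) (hxf : x * f = f * x) (hg : g * f * g⁻¹ = ψ (1, t5)) :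
    ∃ c, c * ψ (1, t5) = ψ (1, t5) * c ∧ (c * ψ (c3, 1) * c⁻¹) * f = f * (c * ψ (c3, 1) * c⁻¹) := by
  set t := ψ (1, t5) with ht
  set z := ψ (c3, 1) with hz
  set w := ψ (1, d5) with hw
  have hzt : z * t = t * z := by rw [hz, ht, ← map_mul, ← map_mul]; simp
  have hwt : w * t = t * w := by
    rw [hw, ht, ← map_mul, ← map_mul]
    congr 1
    rw [Prod.mk_mul_mk, Prod.mk_mul_mk, Prod.mk.injEq]
    exact ⟨rfl, by decide +kernel⟩
  have hzw : z * w = w * z := by rw [hz, hw, ← map_mul, ← map_mul]; simp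
  have hz3 : z ^ 3 = 1 := by
    rw [hz, ← map_pow]
    have : ((c3, 1) : PP) ^ 3 = 1 := by decide +kernel
    rw [this, map_one]
  have hw3 : w ^ 3 = 1 := by
    rw [hw, ← map_pow]
    have : ((1, d5) : PP) ^ 3 = 1 := by decide +kernel
    rw [this, map_one]
  have hz1 : z ≠ 1 := by
    intro h1
    rw [hz, ← map_one ψ] at h1
    exact absurd (h.inj h1) (by decide +kernel)
  have hx3 : x ^ 3 = 1 := by rw [pow_succ, pow_two]; exact hx
  -- elements of `D`
  haveI : Fact (Nat.Prime 3) := ⟨Nat.prime_three⟩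
  have hF : ∀ i j : ℕ, ψ (c3 ^ i, d5 ^ j) = z ^ i * w ^ j := by
    intro i j
    rw [hz, hw, ← map_pow, ← map_pow, ← map_mul]
    congr 1
    simp [Prod.pow_mk]
  have hD : ∀ y ∈ DD ψ, ∃ i j : Fin 3, y = ψ (c3 ^ (i : ℕ), d5 ^ (j : ℕ)) := by
    intro y hy
    obtain ⟨a, ha, b, hb, rfl⟩ := sup_mul (A := zpowers (ψ (c3, 1))) (B := zpowers (ψ (1, d5))) (by
      intro a ha b hb
      obtain ⟨i, rfl⟩ := mem_zpowers_iff.1 ha
      obtain ⟨j, rfl⟩ := mem_zpowers_iff.1 hb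
      exact (((show Commute z w from hzw).zpow_left i).zpow_right j).eq) hy
    obtain ⟨i, rfl⟩ := zp3 hz3 ha
    obtain ⟨j, rfl⟩ := zp3 hw3 hb
    exact ⟨i, j, (hF i j).symm⟩
  have hDt : DD ψ ≤ centralizer ({t} : Set G) := by
    unfold DD
    rw [sup_le_iff, zpowers_le, zpowers_le]
    exact ⟨mem_centralizer_singleton_iff.2 hzt, mem_centralizer_singleton_iff.2 hwt⟩
  have hDm : ∀ i j : ℕ, ψ (c3 ^ i, d5 ^ j) ∈ DD ψ := by
    intro i j
    rw [hF]
    exact mul_mem (pow_mem (mem_sup_left (mem_zpowers _)) i) (pow_mem (mem_sup_right (mem_zpowers _)) j)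
  have hDcard : Nat.card (DD ψ) = 9 := by
    have h1 : Nat.card (Fin 3 × Fin 3) = 9 := by
      rw [Nat.card_eq_fintype_card]; rfl
    rw [← h1]
    symm
    apply Nat.card_eq_of_bijective (fun p : Fin 3 × Fin 3 => (⟨ψ (c3 ^ (p.1 : ℕ), d5 ^ (p.2 : ℕ)), hDm _ _⟩ : DD ψ))
    constructor
    · intro p q hpq
      have h2 := h.inj (congrArg Subtype.val hpq)
      have h3 : ∀ p q : Fin 3 × Fin 3, ((c3 ^ (p.1 : ℕ), d5 ^ (p.2 : ℕ)) : PP) = (c3 ^ (q.1 : ℕ), d5 ^ (q.2 : ℕ)) → p = q := by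
        decide +kernel
      exact h3 p q h2
    · rintro ⟨y, hy⟩
      obtain ⟨i, j, rfl⟩ := hD y hy
      exact ⟨(i, j), rfl⟩
  have hDp : IsPGroup 3 (DD ψ) := IsPGroup.of_card (n := 2) (by rw [hDcard]; rfl)
  obtain ⟨c, hc, hcD⟩ : ∃ c ∈ centralizer ({t} : Set G), c * x * c⁻¹ ∈ DD ψ := by
    have h1 : ¬ 3 ∣ (DD ψ).relIndex (centralizer ({t} : Set G)) := by
      intro h2
      apply h.h27
      have h3 := relI hDt
      rw [hDcard] at h3
      obtain ⟨m, hm⟩ := h2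
      have h4 : Nat.card (centralizer ({t} : Set G)) ∣ Nat.card G := card_subgroup_dvd_card _
      refine dvd_trans ⟨m, ?_⟩ h4
      rw [← h3, hm]; ring
    have h2 : zpowers x ≤ centralizer ({t} : Set G) := by
      rw [zpowers_le, mem_centralizer_singleton_iff]; exact hxt
    have h3 : IsPGroup 3 (zpowers x) := by
      apply IsPGroup.of_card (n := 1)
      rw [Nat.card_zpowers, orderOf_eq_prime hx3 hx1, pow_one]
    obtain ⟨c, hc, hc2⟩ := conjP _ (DD ψ) hDt hDp h1 h2 h3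
    exact ⟨c, hc, hc2 x (mem_zpowers x)⟩
  rw [mem_centralizer_singleton_iff] at hc
  have hinvt : ∀ c' : G, c' * t = t * c' → c'⁻¹ * t = t * c'⁻¹ := by
    intro c' h1
    exact ((show Commute c' t from h1).inv_left).eq
  have hxi : x⁻¹ ^ 3 = 1 := by rw [inv_pow, hx3, inv_one]
  have hxi1 : x⁻¹ ≠ 1 := by rwa [Ne, inv_eq_one]
  have hxif : x⁻¹ * f = f * x⁻¹ := ((show Commute x f from hxf).inv_left).eq
  have B0 : ∀ c' x' : G, c' * t = t * c' → x' * f = f * x' → c' * x' * c'⁻¹ = z →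
      ∃ c, c * t = t * c ∧ (c * z * c⁻¹) * f = f * (c * z * c⁻¹) := by
    intro c' x' h1 h2 h3
    refine ⟨c'⁻¹, hinvt c' h1, ?_⟩
    have h4 : c'⁻¹ * z * c'⁻¹⁻¹ = x' := by rw [← h3]; group
    rw [h4, h2]
  have A0 : ∀ c' x' : G, c' * t = t * c' → x' * f = f * x' → x' ^ 3 = 1 → x' ≠ 1 → c' * x' * c'⁻¹ = ψ (c3, d5) →
      ∃ c, c * t = t * c ∧ (c * z * c⁻¹) * f = f * (c * z * c⁻¹) := by
    intro c' x' h1 h2 h3 h4 h5
    refine ⟨c'⁻¹, hinvt c' h1, ?_⟩
    have h6 := h36 hg h3 h4 h2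
    have h7 : Nat.card (centralizer ({x'} : Set G)) = 36 := by
      rw [cardC h5]; exact h.cy
    have h8 : centralizer ({x'} : Set G) ⊓ centralizer ({f} : Set G) = centralizer ({x'} : Set G) :=
      eq_of_le_of_card_ge inf_le_left (by rw [h6, h7])
    have h9 : c'⁻¹ * z * c'⁻¹⁻¹ ∈ centralizer ({x'} : Set G) := by
      rw [mem_centralizer_singleton_iff]
      have h10 : x' = c'⁻¹ * ψ (c3, d5) * c' := by rw [← h5]; group
      have h11 : z * ψ (c3, d5) = ψ (c3, d5) * z := by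
        rw [hz, ← map_mul, ← map_mul]
        congr 1
      rw [h10]
      calc c'⁻¹ * z * c'⁻¹⁻¹ * (c'⁻¹ * ψ (c3, d5) * c') = c'⁻¹ * (z * ψ (c3, d5)) * c' := by group
        _ = c'⁻¹ * (ψ (c3, d5) * z) * c' := by rw [h11]
        _ = _ := by group
    rw [← h8] at h9
    exact mem_centralizer_singleton_iff.1 h9.2
  have key : ∀ {a b : PP}, a = b → ψ a = ψ b := fun h => by rw [h]
  have hci : ∀ c' x' : G, c' * x'⁻¹ * c'⁻¹ = (c' * x' * c'⁻¹)⁻¹ := by intro c' x'; group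
  have hnt : n * t = t * n := h.nt
  have het : ψ (1, swap 1 2) * t = t * ψ (1, swap 1 2) := by
    rw [ht, ← map_mul, ← map_mul]; exact key (by decide +kernel)
  obtain ⟨i, j, hij⟩ := hD _ hcD
  have hnc : n * c * t = t * (n * c) := by
    calc n * c * t = n * (c * t) := by group
      _ = n * t * c := by rw [hc]; group
      _ = t * (n * c) := by rw [hnt]; group
  have hec : ψ (1, swap 1 2) * c * t = t * (ψ (1, swap 1 2) * c) := by
    calc ψ (1, swap 1 2) * c * t = ψ (1, swap 1 2) * (c * t) := by group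
      _ = ψ (1, swap 1 2) * t * c := by rw [hc]; group
      _ = t * (ψ (1, swap 1 2) * c) := by rw [het]; group
  have hcx : ∀ m : G, m * c * x * (m * c)⁻¹ = m * ψ (c3 ^ (i : ℕ), d5 ^ (j : ℕ)) * m⁻¹ := by
    intro m; rw [← hij]; group
  fin_cases i <;> fin_cases j
  · exfalso
    apply hx1
    have h1 : c * x * c⁻¹ = 1 := by
      rw [hij, ← map_one ψ]; exact key (by decide +kernel)
    calc x = c⁻¹ * (c * x * c⁻¹) * c := by group
      _ = 1 := by rw [h1]; group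
  · refine B0 (n * c) x hnc hxf ?_
    rw [hcx]
    exact (congrArg (fun y => n * y * n⁻¹) (key (by decide +kernel))).trans h.n2
  · refine B0 (n * c) x⁻¹ hnc hxif ?_
    rw [hci, hcx]
    have h1 : ψ (c3 ^ ((0 : Fin 3) : ℕ), d5 ^ ((2 : Fin 3) : ℕ)) = (ψ (1, d5))⁻¹ := by
      rw [← map_inv]; exact key (by decide +kernel)
    have h2 : (n * (ψ (1, d5))⁻¹ * n⁻¹)⁻¹ = z := by
      have h3 : n * ψ (1, d5) * n⁻¹ = z := h.n2
      rw [← h3]; group
    exact (congrArg (fun y => (n * y * n⁻¹)⁻¹) h1).trans h2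
  · refine B0 c x hc hxf ?_
    rw [hij]; exact key (by decide +kernel)
  · refine A0 c x hc hxf hx3 hx1 ?_
    rw [hij]; exact key (by decide +kernel)
  · refine A0 (ψ (1, swap 1 2) * c) x hec hxf hx3 hx1 ?_
    rw [hcx, ← map_inv, ← map_mul, ← map_mul]; exact key (by decide +kernel)
  · refine B0 c x⁻¹ hc hxif ?_
    rw [hci, hij, ← map_inv]; exact key (by decide +kernel)
  · refine A0 (ψ (1, swap 1 2) * c) x⁻¹ hec hxif hxi hxi1 ?_
    rw [hci, hcx, ← map_inv, ← map_mul, ← map_mul, ← map_inv]; exact key (by decide +kernel)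
  · refine A0 c x⁻¹ hc hxif hxi hxi1 ?_
    rw [hci, hij, ← map_inv]; exact key (by decide +kernel)

theorem t0 (h : TD ψ n)
    (h36 : ∀ {s x g : G}, g * s * g⁻¹ = ψ (1, t5) → x ^ 3 = 1 → x ≠ 1 → x * s = s * x →
      Nat.card (centralizer ({x} : Set G) ⊓ centralizer ({s} : Set G) : Subgroup G) = 36)
    (h6 : S6 (ψ (1, t5))) : False := by
  obtain ⟨π, hπ, hk⟩ := h6
  have key : ∀ {a b : PP}, a = b → ψ a = ψ b := fun h => by rw [h]
  have nek : ∀ {a b : PP}, a ≠ b → ψ a ≠ ψ b := fun h1 h2 => h1 (h.inj h2)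
  apply core' (t := ψ (1, t5)) (e := ψ (1, swap 1 2)) (r0 := ψ (swap 0 1, 1)) (z := ψ (c3, 1)) (n := n)
    (k := ψ (1, swap 0 1 * swap 2 4)) (π := π)
  refine ⟨?_, ?_, ?_, ?_, ?_, ?_, ?_, ?_, ?_, ?_, ?_, ?_, ?_, ?_, ?_, h.nt, ?_, ?_, ?_, ?_, nte h h36, hπ, hk, ?_⟩
  · rw [← map_mul, ← map_one ψ]; exact key (by decide +kernel)
  · rw [← map_one ψ]; exact nek (by decide +kernel)
  · rw [← map_mul, ← map_one ψ]; exact key (by decide +kernel)
  · rw [← map_mul, ← map_mul]; exact key (by decide +kernel)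
  · rw [← map_one ψ]; exact nek (by decide +kernel)
  · exact nek (by decide +kernel)
  · rw [← map_mul, ← map_one ψ]; exact key (by decide +kernel)
  · rw [← map_mul, ← map_mul]; exact key (by decide +kernel)
  · rw [← map_mul, ← map_mul]; exact key (by decide +kernel)
  · rw [← map_mul, ← map_one ψ]; exact nek (by decide +kernel)
  · rw [← map_mul]; exact nek (by decide +kernel)
  · rw [← map_mul, ← map_mul, ← map_one ψ]; exact key (by decide +kernel)
  · rw [← map_one ψ]; exact nek (by decide +kernel)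
  · rw [← map_mul, ← map_mul]; exact key (by decide +kernel)
  · rw [← map_mul, ← map_mul]; exact key (by decide +kernel)
  · rw [h.n3, ← map_mul]; exact key (by decide +kernel)
  · rw [← map_inv, ← map_mul, ← map_mul]; exact key (by decide +kernel)
  · rw [← map_inv, ← map_mul, ← map_mul]; exact key (by decide +kernel)
  · rw [← map_inv, ← map_mul, ← map_mul]; exact key (by decide +kernel)
  · intro x f g h1 h2 h3 h4 h5 h6
    exact fin h h36 h1 h2 h3 h4 h5 h6

end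

end H50.RT0
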