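import Cfsg.Agent.Lib.H48.QuadStd

/-!
Subgroups of orthogonal groups normalized by reflections and without involutions; semisimilarities preserving lines.
-/

set_option autoImplicit false
set_option linter.unusedSectionVars false
set_option maxHeartbeats 400000

namespace H50.ReflBal

open QuadraticMap H48.QuadSplit H48.QuadStd

variable {L U : Type*} [Field L] [AddCommGroup U] [Module L U] {q : QuadraticForm L U}

/-- reflections as endomorphisms -/
noncomputable def rf (q : QuadraticForm L U) (v : U) : Module.End L U :=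
  LinearMap.id - ((q v)⁻¹ • (polarBilin q v)).smulRight v

lemma rf_apply (v x : U) : rf q v x = x - ((q v)⁻¹ * polar q v x) • v := by
  simp [rf]

lemma polar_self' (v : U) : polar q v v = 2 * q v := by
  rw [polar_self, two_smul, two_mul]

lemma rf_self {v : U} (hv : q v ≠ 0) : rf q v v = -v := by
  rw [rf_apply, polar_self', mul_comm 2, ← mul_assoc, inv_mul_cancel₀ hv, one_mul, two_smul]
  abel

lemma rf_orth {v x : U} (h : polar q v x = 0) : rf q v x = x := by
  rw [rf_apply, h, mul_zero, zero_smul, sub_zero]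

lemma rf_isom {v : U} (hv : q v ≠ 0) (x : U) : q (rf q v x) = q x := by
  rw [rf_apply, sub_eq_add_neg, ← neg_smul, QuadraticMap.map_add q, QuadraticMap.map_smul, polar_smul_right,
    polar_comm q x v, smul_eq_mul, smul_eq_mul]
  field_simp
  ring

lemma rf_rf {v : U} (hv : q v ≠ 0) (x : U) : rf q v (rf q v x) = x := by
  rw [rf_apply, rf_apply, polar_sub_right, polar_smul_right, polar_self', smul_eq_mul, sub_sub, ← add_smul]
  have : (q v)⁻¹ * polar q v x + (q v)⁻¹ * (polar q v x - (q v)⁻¹ * polar q v x * (2 * q v)) = 0 := by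
    field_simp; ring
  rw [this, zero_smul, sub_zero]

lemma rf_mul_self {v : U} (hv : q v ≠ 0) : rf q v * rf q v = 1 := by
  apply LinearMap.ext
  intro x
  exact rf_rf hv x

lemma polar_of_isom {T : Module.End L U} (hT : ∀ x, q (T x) = q x) (x y : U) : polar q (T x) (T y) = polar q x y := by
  rw [polar, polar, ← map_add T, hT, hT, hT]

lemma rf_conj {T T' : Module.End L U} (hT : ∀ x, q (T x) = q x) (h : T * T' = 1) (v : U) :
    T * rf q v * T' = rf q (T v) := by
  apply LinearMap.ext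
  intro x
  have h1 : T (T' x) = x := congrArg (fun S : Module.End L U => S x) h
  change T (rf q v (T' x)) = _
  rw [rf_apply, rf_apply, map_sub, map_smul, h1, hT]
  congr 3
  rw [← polar_of_isom hT v (T' x), h1]

lemma rf_comm {u v : U} (h : polar q u v = 0) (hu : q u ≠ 0) : rf q u * rf q v = rf q v * rf q u := by
  have h1 := rf_conj (T := rf q u) (rf_isom hu) (rf_mul_self hu) v
  rw [rf_orth h] at h1
  calc rf q u * rf q v = rf q u * rf q v * (rf q u * rf q u) := by rw [rf_mul_self hu, mul_one]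
    _ = (rf q u * rf q v * rf q u) * rf q u := by simp only [mul_assoc]
    _ = _ := by rw [h1]

lemma rf_sub {u v : U} {c : L} (hc : c ≠ 0) (hu : q u = c) (h : polar q u v = c) :
    rf q (v - u) = rf q u * rf q v * rf q u := by
  have hu0 : q u ≠ 0 := by rw [hu]; exact hc
  rw [rf_conj (T := rf q u) (rf_isom hu0) (rf_mul_self hu0) v]
  congr 1
  rw [rf_apply, h, hu, inv_mul_cancel₀ hc, one_smul]

lemma q_sub_of {u v : U} {c : L} (hu : q u = c) (hv : q v = c) (h : polar q u v = c) : q (v - u) = c := by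
  rw [sub_eq_add_neg, QuadraticMap.map_add q, QuadraticMap.map_neg, polar_neg_right, polar_comm q v u, h, hu, hv]
  ring

section perp

variable [FiniteDimensional L U]

lemma perp1 (hQ : ND q) (h2 : (2 : L) ≠ 0) {v : U} (hv : q v ≠ 0) : ∃ W : Submodule L U, (∀ x, x ∈ W ↔ polar q v x = 0) ∧
    ND (q.restrict W) ∧ Module.finrank L W + 1 = Module.finrank L U := by
  have hv0 : v ≠ 0 := by
    rintro rfl
    exact hv (QuadraticMap.map_zero _)
  have hnd : ND (q.restrict (Submodule.span L {v})) := by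
    rintro ⟨x, hx⟩ h
    obtain ⟨a, rfl⟩ := Submodule.mem_span_singleton.mp hx
    have h1 := h ⟨v, Submodule.mem_span_singleton_self v⟩
    rw [polar_restrict] at h1
    change polar q (a • v) v = 0 at h1
    rw [polar_smul_left, polar_self', smul_eq_mul] at h1
    have h3 : a = 0 := by
      rcases mul_eq_zero.mp h1 with h4 | h4
      · exact h4
      · exact absurd h4 (mul_ne_zero h2 hv)
    apply Subtype.ext
    change a • v = 0
    rw [h3, zero_smul]
  refine ⟨orth q (Submodule.span L {v}), fun x => ?_, nd_orth hQ hnd, ?_⟩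
  · rw [mem_orth]
    constructor
    · intro h
      exact h v (Submodule.mem_span_singleton_self v)
    · intro h u hu
      obtain ⟨a, rfl⟩ := Submodule.mem_span_singleton.mp hu
      rw [polar_smul_left, h, smul_zero]
  · have := finrank_orth hQ (Submodule.span L {v})
    rwa [finrank_span_singleton hv0] at this

lemma perp2 (hQ : ND q) {u v : U} (h : 4 * q u * q v - polar q u v ^ 2 ≠ 0) :
    ∃ W : Submodule L U, (∀ x, x ∈ W ↔ polar q u x = 0 ∧ polar q v x = 0) ∧
    ND (q.restrict W) ∧ Module.finrank L W + 2 = Module.finrank L U := by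
  have key : ∀ a b : L, 2 * a * q u + b * polar q u v = 0 → a * polar q u v + 2 * b * q v = 0 → a = 0 ∧ b = 0 := by
    intro a b h1 h3
    constructor
    · have : a * (4 * q u * q v - polar q u v ^ 2) = 0 := by linear_combination 2 * q v * h1 - polar q u v * h3
      exact (mul_eq_zero.mp this).resolve_right h
    · have : b * (4 * q u * q v - polar q u v ^ 2) = 0 := by linear_combination -polar q u v * h1 + 2 * q u * h3
      exact (mul_eq_zero.mp this).resolve_right h
  have hp1 : ∀ a b : L, polar q (a • u + b • v) u = 2 * a * q u + b * polar q u v := by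
    intro a b
    rw [polar_add_left, polar_smul_left, polar_smul_left, polar_self', polar_comm q v u, smul_eq_mul, smul_eq_mul]
    ring
  have hp2 : ∀ a b : L, polar q (a • u + b • v) v = a * polar q u v + 2 * b * q v := by
    intro a b
    rw [polar_add_left, polar_smul_left, polar_smul_left, polar_self', smul_eq_mul, smul_eq_mul]
    ring
  have hnd : ND (q.restrict (Submodule.span L {u, v})) := by
    rintro ⟨x, hx⟩ h'
    obtain ⟨a, b, rfl⟩ := Submodule.mem_span_pair.mp hx
    have h1 := h' ⟨u, Submodule.subset_span (by simp)⟩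
    have h3 := h' ⟨v, Submodule.subset_span (by simp)⟩
    rw [polar_restrict] at h1 h3
    change polar q (a • u + b • v) u = 0 at h1
    change polar q (a • u + b • v) v = 0 at h3
    rw [hp1] at h1
    rw [hp2] at h3
    obtain ⟨h4, h5⟩ := key a b h1 h3
    apply Subtype.ext
    change a • u + b • v = 0
    rw [h4, h5, zero_smul, zero_smul, add_zero]
  have hli : LinearIndependent L ![u, v] := by
    rw [LinearIndependent.pair_iff]
    intro a b hab
    apply key
    · rw [← hp1, hab, polar_zero_left]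
    · rw [← hp2, hab, polar_zero_left]
  refine ⟨orth q (Submodule.span L {u, v}), fun x => ?_, nd_orth hQ hnd, ?_⟩
  · rw [mem_orth]
    constructor
    · intro h
      exact ⟨h u (Submodule.subset_span (by simp)), h v (Submodule.subset_span (by simp))⟩
    · rintro ⟨h1, h3⟩ w hw
      obtain ⟨a, b, rfl⟩ := Submodule.mem_span_pair.mp hw
      rw [polar_add_left, polar_smul_left, polar_smul_left, h1, h3, smul_zero, smul_zero, add_zero]
  · have h1 := finrank_orth hQ (Submodule.span L {u, v})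
    have h3 : Module.finrank L (Submodule.span L {u, v}) = 2 := by
      have := finrank_span_eq_card hli
      rw [Fintype.card_fin, Matrix.range_cons, Matrix.range_cons, Matrix.range_empty, Set.union_empty] at this
      exact this
    rwa [h3] at h1

variable [Finite L]

lemma exists_val (hQ : ND q) (hd : 2 ≤ Module.finrank L U) (t : L) : ∃ v, q v = t := by
  by_cases ht : t = 0
  · exact ⟨0, by rw [ht, QuadraticMap.map_zero]⟩
  · exact exists_eq hQ hd ht

/-- prescribed value and prescribed product with a given vector -/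
theorem exists_polar_eq (hQ : ND q) (h2 : (2 : L) ≠ 0) (hd : 3 ≤ Module.finrank L U) {z : U} (hz : z ≠ 0) {s : L}
    (hs : s ≠ 0) (t : L) : ∃ w, polar q z w = s ∧ q w = t := by
  by_cases hqz : q z = 0
  · obtain ⟨y₀, hy₀⟩ : ∃ y, polar q z y ≠ 0 := by
      by_contra h; push Not at h; exact hz (hQ z h)
    obtain ⟨y, hy⟩ : ∃ y, polar q z y = s := ⟨(s * (polar q z y₀)⁻¹) • y₀, by
      rw [polar_smul_right, smul_eq_mul, mul_assoc, inv_mul_cancel₀ hy₀, mul_one]⟩
    refine ⟨y + ((t - q y) * s⁻¹) • z, ?_, ?_⟩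
    · rw [polar_add_right, hy, polar_smul_right, polar_self', hqz, mul_zero, smul_zero, add_zero]
    · rw [QuadraticMap.map_add q, QuadraticMap.map_smul, hqz, polar_smul_right, polar_comm q y z, hy, smul_eq_mul, smul_eq_mul,
        mul_assoc _ s⁻¹ s, inv_mul_cancel₀ hs]
      ring
  · obtain ⟨W, hW, hnd, hfr⟩ := perp1 hQ h2 hqz
    obtain ⟨y, hy⟩ := exists_val hnd (by omega) (t - s ^ 2 / (4 * q z))
    have hy1 : polar q z (y : U) = 0 := (hW _).mp y.2
    have h4 : (4 : L) ≠ 0 := by
      have : (4 : L) = 2 * 2 := by norm_num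
      rw [this]; exact mul_ne_zero h2 h2
    refine ⟨(s / (2 * q z)) • z + y, ?_, ?_⟩
    · rw [polar_add_right, hy1, polar_smul_right, polar_self', add_zero, smul_eq_mul]
      field_simp
    · have hy' : q (y : U) = t - s ^ 2 / (4 * q z) := hy
      rw [QuadraticMap.map_add q, QuadraticMap.map_smul, polar_smul_left, hy1, smul_zero, add_zero, hy', smul_eq_mul]
      field_simp
      ring

/-- two orthogonal vectors of the same norm with prescribed product with a given vector -/
theorem exists_pair (hQ : ND q) (h2 : (2 : L) ≠ 0) (hd : 4 ≤ Module.finrank L U) {z : U} (hz : z ≠ 0) {c : L} (hc : c ≠ 0) :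
    ∃ u₁ u₂, q u₁ = c ∧ q u₂ = c ∧ polar q u₁ u₂ = 0 ∧ polar q u₁ z = c ∧ polar q u₂ z = c := by
  suffices h : ∃ z₀ z₁, q z₀ = c / 2 ∧ q z₁ = c / 2 ∧ polar q z₀ z₁ = 0 ∧ polar q z₀ z = c ∧ polar q z₁ z = 0 by
    obtain ⟨z₀, z₁, h1, h3, h4, h5, h6⟩ := h
    refine ⟨z₀ + z₁, z₀ - z₁, ?_, ?_, ?_, ?_, ?_⟩
    · rw [QuadraticMap.map_add q, h1, h3, h4]; field_simp; ring
    · rw [sub_eq_add_neg, QuadraticMap.map_add q, QuadraticMap.map_neg, polar_neg_right, h1, h3, h4]; field_simp; ring
    · rw [polar_add_left, polar_sub_right, polar_sub_right, polar_self', polar_self', polar_comm q z₁ z₀, h1, h3, h4]; ring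
    · rw [polar_add_left, h5, h6, add_zero]
    · rw [polar_sub_left, h5, h6, sub_zero]
  have hc2 : c / 2 ≠ 0 := div_ne_zero hc h2
  by_cases hqz : q z = c / 2
  · obtain ⟨W, hW, hnd, hfr⟩ := perp1 hQ h2 (v := z) (by rw [hqz]; exact hc2)
    obtain ⟨z₁, hz₁⟩ := exists_val hnd (by omega) (c / 2)
    refine ⟨z, z₁, hqz, hz₁, (hW _).mp z₁.2, ?_, ?_⟩
    · rw [polar_self', hqz]; field_simp
    · rw [polar_comm]; exact (hW _).mp z₁.2
  · obtain ⟨z₀, hz₀, hz₀'⟩ := exists_polar_eq hQ h2 (by omega) hz hc (c / 2)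
    have hdet : 4 * q z * q z₀ - polar q z z₀ ^ 2 ≠ 0 := by
      rw [hz₀, hz₀']
      intro h
      apply hqz
      have h1 : c * (2 * q z - c) = 0 := by
        rw [← h]; field_simp; ring
      have h3 := (mul_eq_zero.mp h1).resolve_left hc
      rw [eq_div_iff h2]
      linear_combination h3
    obtain ⟨W, hW, hnd, hfr⟩ := perp2 hQ hdet
    obtain ⟨z₁, hz₁⟩ := exists_val hnd (by omega) (c / 2)
    have h3 := (hW _).mp z₁.2
    refine ⟨z₀, z₁, hz₀', hz₁, h3.2, ?_, ?_⟩
    · rw [polar_comm]; exact hz₀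
    · rw [polar_comm]; exact h3.1

/-- endomorphisms agreeing on the vectors of a given norm are equal -/
theorem ext_norm (hQ : ND q) (h2 : (2 : L) ≠ 0) (hd : 3 ≤ Module.finrank L U) {c : L} {S T : Module.End L U}
    (h : ∀ v, q v = c → S v = T v) : S = T := by
  by_contra hne
  have hE : LinearMap.eqLocus S T ≠ ⊤ := by
    intro h1
    rw [LinearMap.eqLocus_eq_top] at h1
    exact hne h1
  -- a vector orthogonal to the span
  have h1 := finrank_orth hQ (LinearMap.eqLocus S T)
  have h3 := Submodule.finrank_lt hE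
  have h4 : 0 < Module.finrank L (orth q (LinearMap.eqLocus S T)) := by omega
  have := Module.nontrivial_of_finrank_pos h4
  obtain ⟨⟨z, hz⟩, hz0⟩ := exists_ne (0 : orth q (LinearMap.eqLocus S T))
  have hz0' : z ≠ 0 := fun h => hz0 (Subtype.ext h)
  obtain ⟨w, hw1, hw2⟩ := exists_polar_eq hQ h2 hd hz0' one_ne_zero c
  have h5 := mem_orth.mp hz w (LinearMap.mem_eqLocus.mpr (h w hw2))
  rw [polar_comm, hw1] at h5
  exact one_ne_zero h5

/-- products of two reflections in orthogonal vectors are involutions -/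
lemma no_pair (hQ : ND q) (h2 : (2 : L) ≠ 0) (hd : 3 ≤ Module.finrank L U) {w₁ w₂ : U} (hw₁₀ : q w₁ ≠ 0) (hw₂₀ : q w₂ ≠ 0)
    (hww : polar q w₁ w₂ = 0) {P : Type*} [Group P] {ρ : P →* Module.End L U}
    (hinv : ∀ p, ρ p * ρ p = 1 → ρ p = 1 ∨ ρ p = -1) {p : P} (hp : ρ p = rf q w₁ * rf q w₂) : False := by
  have hcm := rf_comm hww hw₁₀
  have hsq : ρ p * ρ p = 1 := by
    rw [hp]
    calc rf q w₁ * rf q w₂ * (rf q w₁ * rf q w₂) = rf q w₁ * rf q w₂ * (rf q w₂ * rf q w₁) := by rw [hcm]
      _ = rf q w₁ * (rf q w₂ * rf q w₂) * rf q w₁ := by simp only [mul_assoc]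
      _ = 1 := by rw [rf_mul_self hw₂₀, mul_one, rf_mul_self hw₁₀]
  have h5 : (rf q w₁ * rf q w₂) w₁ = -w₁ := by
    change rf q w₁ (rf q w₂ w₁) = _
    rw [rf_orth (v := w₂) (x := w₁) (by rw [polar_comm]; exact hww), rf_self hw₁₀]
  rcases hinv _ hsq with h6 | h6
  · rw [hp] at h6
    rw [h6] at h5
    change w₁ = -w₁ at h5
    have h7 : (2 : L) • w₁ = 0 := by
      rw [two_smul]
      nth_rewrite 2 [h5]
      exact add_neg_cancel _
    rcases smul_eq_zero.mp h7 with h8 | h8
    · exact h2 h8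
    · exact hw₁₀ (by rw [h8, QuadraticMap.map_zero])
  · rw [hp] at h6
    obtain ⟨W', hW', -, hfr'⟩ := perp2 hQ (u := w₁) (v := w₂) (by
      rw [hww]
      have h4 : (4 : L) ≠ 0 := by
        have : (4 : L) = 2 * 2 := by norm_num
        rw [this]; exact mul_ne_zero h2 h2
      have : 4 * q w₁ * q w₂ - 0 ^ 2 = 4 * (q w₁ * q w₂) := by ring
      rw [this]
      exact mul_ne_zero h4 (mul_ne_zero hw₁₀ hw₂₀))
    have : Nontrivial W' := Module.nontrivial_of_finrank_pos (R := L) (by omega)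
    obtain ⟨⟨x, hx⟩, hx0⟩ := exists_ne (0 : W')
    have hx0' : x ≠ 0 := fun h => hx0 (Subtype.ext h)
    obtain ⟨hx1, hx2⟩ := (hW' x).mp hx
    have h7 : (rf q w₁ * rf q w₂) x = x := by
      change rf q w₁ (rf q w₂ x) = _
      rw [rf_orth hx2, rf_orth hx1]
    rw [h6] at h7
    change -x = x at h7
    have h8 : (2 : L) • x = 0 := by
      rw [two_smul]
      nth_rewrite 1 [← h7]
      exact neg_add_cancel _
    rcases smul_eq_zero.mp h8 with h9 | h9
    · exact h2 h9
    · exact hx0' h9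

lemma merge {w₁ w₂ v : U} (hw₂₀ : q w₂ ≠ 0) (hv0 : q v ≠ 0) {P : Type*} [Group P] {ρ : P →* Module.End L U}
    {p₁ p₂ : P} (hp₁ : ρ p₁ = rf q w₁ * rf q v) (hp₂ : ρ p₂ = rf q w₂ * rf q v) :
    ρ (p₁ * p₂⁻¹) = rf q w₁ * rf q w₂ := by
  have hρi : ∀ p, ρ p * ρ p⁻¹ = 1 := fun p => by rw [← map_mul, mul_inv_cancel, map_one]
  have h3 : rf q v * ρ p₂⁻¹ = rf q w₂ := by
    have h5 : rf q w₂ * (rf q w₂ * rf q v) = rf q v := by rw [← mul_assoc, rf_mul_self hw₂₀, one_mul]
    calc rf q v * ρ p₂⁻¹ = rf q w₂ * (rf q w₂ * rf q v) * ρ p₂⁻¹ := by rw [h5]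
      _ = rf q w₂ * (ρ p₂ * ρ p₂⁻¹) := by rw [hp₂]; simp only [mul_assoc]
      _ = _ := by rw [hρi, mul_one]
  rw [map_mul, hp₁, mul_assoc, h3]

/-- **subgroups normalized by the reflections of one norm** -/
theorem refl_bal (hQ : ND q) (h2 : (2 : L) ≠ 0) (hd : 5 ≤ Module.finrank L U) {c : L} (hc : c ≠ 0)
    {P : Type*} [Group P] (ρ : P →* Module.End L U) (hρ : ∀ p x, q (ρ p x) = q x)
    (hb : ∀ v, q v = c → ∀ p, ∃ p', ρ p' = rf q v * ρ p * rf q v)
    (hinv : ∀ p, ρ p * ρ p = 1 → ρ p = 1 ∨ ρ p = -1) : ∀ p, ρ p = 1 ∨ ρ p = -1 := by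
  have hρi : ∀ p, ρ p * ρ p⁻¹ = 1 := fun p => by rw [← map_mul, mul_inv_cancel, map_one]
  -- all vectors of norm `c` are mapped to `±`
  have key : ∀ p v, q v = c → ρ p v = v ∨ ρ p v = -v := by
    intro p v hv
    have hv0 : q v ≠ 0 := by rw [hv]; exact hc
    by_contra hcon
    push Not at hcon
    obtain ⟨hcon1, hcon2⟩ := hcon
    set v' := ρ p v with hv'
    have hqv' : q v' = c := by rw [hv', hρ, hv]
    obtain ⟨W, hW, hnd, hfr⟩ := perp1 hQ h2 hv0
    -- the component of `v'`
    set l := polar q v v' / (2 * c) with hl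
    have h2c : 2 * c ≠ 0 := mul_ne_zero h2 hc
    have hz1 : polar q v (v' - l • v) = 0 := by
      rw [polar_sub_right, polar_smul_right, polar_self', hv, hl, smul_eq_mul]
      field_simp
      ring
    have hz0 : (⟨v' - l • v, (hW _).mpr hz1⟩ : W) ≠ 0 := by
      intro h
      have h1 : v' - l • v = 0 := congrArg Subtype.val h
      rw [sub_eq_zero] at h1
      have h3 := hqv'
      rw [h1, QuadraticMap.map_smul, hv, smul_eq_mul] at h3
      have h4 : (l - 1) * (l + 1) = 0 := by
        have h5 : (l * l - 1) * c = 0 := by linear_combination h3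
        have h6 := (mul_eq_zero.mp h5).resolve_right hc
        linear_combination h6
      rcases mul_eq_zero.mp h4 with h5 | h5
      · apply hcon1
        rw [h1, sub_eq_zero.mp h5, one_smul]
      · apply hcon2
        rw [h1, eq_neg_of_add_eq_zero_left h5, neg_smul, one_smul]
    obtain ⟨u₁, u₂, hu₁, hu₂, hu₁₂, hu₁z, hu₂z⟩ := exists_pair hnd h2 (by omega) hz0 hc
    -- basic facts for the two vectors
    have hu : ∀ u : W, q.restrict W u = c → polar (q.restrict W) u ⟨v' - l • v, (hW _).mpr hz1⟩ = c →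
        q (u : U) = c ∧ polar q (u : U) v = 0 ∧ polar q (u : U) v' = c := by
      intro u hu1 hu2
      have h3 : polar q (u : U) v = 0 := by rw [polar_comm]; exact (hW _).mp u.2
      refine ⟨hu1, h3, ?_⟩
      rw [polar_restrict] at hu2
      change polar q (u : U) (v' - l • v) = c at hu2
      rw [polar_sub_right, polar_smul_right, h3, smul_zero, sub_zero] at hu2
      exact hu2
    obtain ⟨ha1, ha2, ha3⟩ := hu u₁ hu₁ hu₁z
    obtain ⟨hb1, hb2, hb3⟩ := hu u₂ hu₂ hu₂z
    have hab : polar q (u₁ : U) (u₂ : U) = 0 := hu₁₂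
    -- the claim
    have claim : ∀ u : U, q u = c → polar q u v = 0 → polar q u v' = c → ∃ p', ρ p' = rf q (v' - u) * rf q v := by
      intro u hu1 hu2 hu3
      have hu0 : q u ≠ 0 := by rw [hu1]; exact hc
      obtain ⟨p₁, hp₁⟩ := hb u hu1 p
      obtain ⟨p₂, hp₂⟩ := hb v hv p⁻¹
      obtain ⟨p₃, hp₃⟩ := hb u hu1 p₂
      refine ⟨p₁ * p₃, ?_⟩
      have hcm := rf_comm hu2 hu0
      rw [map_mul, hp₁, hp₃, hp₂, rf_sub hc hu1 hu3, hv', ← rf_conj (T := ρ p) (T' := ρ p⁻¹) (hρ p) (hρi p) v]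
      simp only [mul_assoc]
      have e1 : rf q u * (rf q u * (rf q v * (ρ p⁻¹ * (rf q v * rf q u)))) = rf q v * (ρ p⁻¹ * (rf q v * rf q u)) := by
        rw [← mul_assoc (rf q u) (rf q u), rf_mul_self hu0, one_mul]
      rw [e1, hcm]
    obtain ⟨p₁, hp₁⟩ := claim u₁ ha1 ha2 ha3
    obtain ⟨p₂, hp₂⟩ := claim u₂ hb1 hb2 hb3
    -- the involution
    set w₁ := v' - (u₁ : U) with hw₁
    set w₂ := v' - (u₂ : U) with hw₂
    have hqw₁ : q w₁ = c := q_sub_of ha1 hqv' ha3
    have hqw₂ : q w₂ = c := q_sub_of hb1 hqv' hb3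
    have hw₁₀ : q w₁ ≠ 0 := by rw [hqw₁]; exact hc
    have hw₂₀ : q w₂ ≠ 0 := by rw [hqw₂]; exact hc
    have hww : polar q w₁ w₂ = 0 := by
      rw [hw₁, hw₂, polar_sub_left, polar_sub_right, polar_sub_right, polar_self', hqv', hab, ha3, polar_comm q v' (u₂ : U), hb3]
      ring
    exact no_pair hQ h2 (by omega) hw₁₀ hw₂₀ hww hinv (merge hw₂₀ hv0 hp₁ hp₂)
  intro p
  apply hinv
  apply ext_norm hQ h2 (by omega) (c := c)
  intro v hv
  change ρ p (ρ p v) = v
  rcases key p v hv with h | h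
  · rw [h, h]
  · rw [h, map_neg, h, neg_neg]

/-- **semisimilarities preserving the lines of one norm** -/
theorem line_bal (hQ : ND q) (h2 : (2 : L) ≠ 0) (hd : 3 ≤ Module.finrank L U) {c : L} (hc : c ≠ 0)
    {z : U → U} {σ : L →+* L} {μ : L} (hμ : μ ≠ 0) (hadd : ∀ x y, z (x + y) = z x + z y)
    (hsmul : ∀ (a : L) x, z (a • x) = σ a • z x) (hq : ∀ x, q (z x) = μ * σ (q x))
    (hline : ∀ v, q v = c → ∃ a : L, z v = a • v) : (∀ a, σ a = a) ∧ ∀ x, z (z x) = μ • x := by
  have hpol : ∀ x y, polar q (z x) (z y) = μ * σ (polar q x y) := by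
    intro x y
    rw [polar, polar, ← hadd, hq, hq, hq, map_sub, map_sub]; ring
  have hσc : σ c ≠ 0 := (map_ne_zero σ).mpr hc
  have hsq : ∀ v, q v = c → ∀ a : L, z v = a • v → a ^ 2 = μ * σ c / c := by
    intro v hv a ha
    have h1 := hq v
    rw [ha, QuadraticMap.map_smul, hv, smul_eq_mul] at h1
    rw [eq_div_iff hc, ← h1]; ring
  -- squares are fixed
  have hfix : ∀ x : L, σ (x ^ 2) = x ^ 2 := by
    intro x
    obtain ⟨v, hv⟩ := exists_val hQ (by omega) c
    have hv0 : q v ≠ 0 := by rw [hv]; exact hc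
    obtain ⟨W, hW, hnd, hfr⟩ := perp1 hQ h2 hv0
    obtain ⟨y, hy⟩ := exists_val hnd (by omega) (c - x ^ 2 * c)
    have hy' : q (y : U) = c - x ^ 2 * c := hy
    have hyv : polar q v (y : U) = 0 := (hW _).mp y.2
    have hw : q (x • v + (y : U)) = c := by
      rw [QuadraticMap.map_add q, QuadraticMap.map_smul, polar_smul_left, hyv, smul_zero, add_zero, hy', hv, smul_eq_mul]
      ring
    obtain ⟨a, ha⟩ := hline v hv
    obtain ⟨b, hb⟩ := hline _ hw
    have ha2 := hsq v hv a ha
    have hb2 := hsq _ hw b hb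
    have h1 : a * b * (x * (2 * c)) = μ * (σ x * (2 * σ c)) := by
      have h3 := hpol v (x • v + (y : U))
      rw [hb, ha, polar_smul_left, polar_smul_right, polar_add_right, polar_smul_right, hyv, polar_self', hv] at h3
      simp only [smul_eq_mul, add_zero, map_mul, map_ofNat] at h3
      rw [← h3]; ring
    have h3 : (a * b * (x * (2 * c))) ^ 2 = (μ * (σ x * (2 * σ c))) ^ 2 := by rw [h1]
    have h4 : μ ^ 2 * (σ c) ^ 2 * 4 * (x ^ 2 - (σ x) ^ 2) = 0 := by
      have h5 : (a * b * (x * (2 * c))) ^ 2 = a ^ 2 * b ^ 2 * (x ^ 2 * (4 * c ^ 2)) := by ring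
      rw [h5, ha2, hb2] at h3
      have h6 : μ * σ c / c * (μ * σ c / c) * (x ^ 2 * (4 * c ^ 2)) = μ ^ 2 * (σ c) ^ 2 * 4 * x ^ 2 := by
        field_simp
      rw [h6] at h3
      linear_combination h3
    have h44 : (4 : L) ≠ 0 := by
      have : (4 : L) = 2 * 2 := by norm_num
      rw [this]; exact mul_ne_zero h2 h2
    have h5 := (mul_eq_zero.mp h4).resolve_left (mul_ne_zero (mul_ne_zero (pow_ne_zero 2 hμ) (pow_ne_zero 2 hσc)) h44)
    rw [map_pow]
    exact (sub_eq_zero.mp h5).symm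
  have hσ : ∀ a, σ a = a := by
    intro a
    have h1 : (4 : L) * a = (a + 1) ^ 2 - (a - 1) ^ 2 := by ring
    have h44 : (4 : L) ≠ 0 := by
      have : (4 : L) = 2 * 2 := by norm_num
      rw [this]; exact mul_ne_zero h2 h2
    have h3 : σ (4 * a) = 4 * a := by rw [h1, map_sub, hfix, hfix]
    rw [map_mul, map_ofNat] at h3
    exact mul_left_cancel₀ h44 h3
  refine ⟨hσ, ?_⟩
  let T : Module.End L U := { toFun := z, map_add' := hadd, map_smul' := fun a x => by rw [hsmul, hσ]; rfl }
  have hT : T * T = μ • (1 : Module.End L U) := by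
    apply ext_norm hQ h2 hd (c := c)
    intro v hv
    change z (z v) = μ • v
    obtain ⟨a, ha⟩ := hline v hv
    have ha2 := hsq v hv a ha
    rw [hσ, mul_div_assoc, div_self hc, mul_one] at ha2
    rw [ha, hsmul, ha, hσ, smul_smul, ← pow_two, ha2]
  intro x
  exact congrArg (fun S : Module.End L U => S x) hT

end perp

end H50.ReflBal
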