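import Cfsg.Agent.Lib.H50.SpBal
import Cfsg.Agent.S0247

/-!
Local balance for `PSp_{2m}(F)`: the main theorem.
-/

set_option autoImplicit false
set_option linter.unusedSectionVars false
set_option maxHeartbeats 400000

namespace H50.SpBal

open Matrix H50.PSLBasic H50.PSLSylow H50.PSLPure H50.AutPSL H50.PSLField H50.PSLUniq H50.SpBasic H50.SpSylow H50.SpRoot
  H50.SpRootTwo H50.AutPSp H50.H90 H50.ClassCount H50.PSLCount H50.SpField H50.SpFieldClass H6.Symp

variable {m : ℕ} {F : Type*} [Field F]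

/-- normal subgroups of `S₆` -/
lemma perm_six {p : ℕ} (hp : p.Prime) (hp2 : p ≠ 2) (hd : p ∣ Nat.card (Equiv.Perm (Fin 6)))
    (M : Subgroup (Equiv.Perm (Fin 6))) (hM : M.Normal) (hc : (Nat.card M).Coprime p) : M = ⊥ := by
  by_contra hne
  have hnt : Nontrivial M := (Subgroup.nontrivial_iff_ne_bot M).mpr hne
  have h1 : alternatingGroup (Fin 6) ≤ M :=
    Equiv.Perm.alternatingGroup_le_of_normal (by rw [Nat.card_eq_fintype_card, Fintype.card_fin]; norm_num) hnt
  have h2 : p ∣ Nat.card (alternatingGroup (Fin 6)) := by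
    rw [← two_mul_nat_card_alternatingGroup] at hd
    exact ((Nat.coprime_primes hp Nat.prime_two).mpr hp2).dvd_of_dvd_mul_left hd
  have h3 := h2.trans (Subgroup.card_dvd_of_le h1)
  have h4 := Nat.Coprime.eq_one_of_dvd hc.symm h3
  exact hp.one_lt.ne' h4

lemma normal_trivial [Finite F] {r : ℕ} [Fact r.Prime] [CharP F r] (hm : 2 ≤ m) {p : ℕ} (hp : p.Prime) (hpr : p ≠ r)
    (hd : p ∣ Nat.card (Cfsg.PSp m F)) (M : Subgroup (Cfsg.PSp m F)) (hM : M.Normal)
    (hc : (Nat.card M).Coprime p) : M = ⊥ := by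
  classical
  have := Fintype.ofFinite F
  by_cases h22 : m = 2 → 3 ≤ Fintype.card F
  · have hs : IsSimpleGroup (Cfsg.PSp m F) := by
      refine H6.SympSimple.isSimpleGroup (by simpa using hm) (H6.SympPerfect.commutator_eq_top ?_)
      rw [Fintype.card_fin]
      by_cases h2 : m = 2
      · exact Or.inr (Or.inl ⟨hm, h22 h2⟩)
      · exact Or.inl (by omega)
    rcases hM.eq_bot_or_eq_top with h | h
    · exact h
    · exfalso
      rw [h, Subgroup.card_top] at hc
      exact hp.one_lt.ne' (Nat.Coprime.eq_one_of_dvd hc.symm hd)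
  · push Not at h22
    obtain ⟨rfl, hF⟩ := h22
    have hF2 : Fintype.card F = 2 := by
      have := Fintype.one_lt_card (α := F)
      omega
    have hr : r = 2 := by
      obtain ⟨k, hk, hk'⟩ := FiniteField.card F r
      have h2 : r ∣ 2 := by
        rw [← hF2, hk']
        exact dvd_pow_self r k.pos.ne'
      exact (Nat.prime_dvd_prime_iff_eq Fact.out Nat.prime_two).mp h2
    subst hr
    obtain ⟨e⟩ := Cfsg.Agent.S0247.result hF2
    let e' : Cfsg.PSp 2 F ≃* Equiv.Perm (Fin 6) := (H17.SpGraph4.mkE F).symm.trans e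
    have h1 := perm_six hp hpr (by rw [← Nat.card_congr e'.toEquiv]; exact hd) (M.map e'.toMonoidHom)
      (hM.map e'.toMonoidHom e'.surjective) (by
        rw [Subgroup.card_map_of_injective e'.injective]
        exact hc)
    rwa [Subgroup.map_eq_bot_iff_of_injective _ e'.injective] at h1

/-! ### an involution -/

/-- `-1` on a hyperbolic plane -/
def dInv (hm : 1 ≤ m) : SG m F :=
  ⟨Matrix.diagonal (Sum.elim (fun i => if i = (⟨0, hm⟩ : Fin m) then (-1 : F) else 1)
      (fun i => if i = (⟨0, hm⟩ : Fin m) then (-1 : F) else 1)), by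
    rw [mem_iff_bf]
    intro u v
    rw [bf_eq_sum, bf_eq_sum]
    refine Finset.sum_congr rfl fun i _ => ?_
    simp only [Matrix.mulVec_diagonal, Sum.elim_inl, Sum.elim_inr]
    split_ifs <;> ring⟩

lemma dInv_sq (hm : 1 ≤ m) : (dInv hm : SG m F) * dInv hm = 1 := by
  apply Subtype.ext
  change Matrix.diagonal _ * Matrix.diagonal _ = (1 : Matrix _ _ F)
  rw [Matrix.diagonal_mul_diagonal, ← Matrix.diagonal_one]
  congr 1
  ext i
  rcases i with i | i <;> simp only [Sum.elim_inl, Sum.elim_inr] <;> split_ifs <;> simp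

lemma two_dvd_card [Finite F] (hm : 2 ≤ m) (h2 : (2 : F) ≠ 0) : 2 ∣ Nat.card (Cfsg.PSp m F) := by
  have h1 : orderOf (QuotientGroup.mk (dInv (F := F) (m := m) (by omega)) : Cfsg.PSp m F) = 2 := by
    apply orderOf_eq_prime
    · rw [pow_two]
      change (QuotientGroup.mk (dInv (F := F) (m := m) (by omega) * dInv (F := F) (m := m) (by omega)) : Cfsg.PSp m F) = 1
      rw [dInv_sq]; rfl
    · intro h
      obtain ⟨c, hc⟩ := (mk_eq_mk_iff (m := m) (by omega) (s := 1) (s' := dInv (by omega))).mp h.symm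
      have e1 := congrFun (congrFun hc (Sum.inl ⟨0, by omega⟩)) (Sum.inl ⟨0, by omega⟩)
      have e2 := congrFun (congrFun hc (Sum.inl ⟨1, by omega⟩)) (Sum.inl ⟨1, by omega⟩)
      change Matrix.diagonal _ _ _ = c * (1 : Matrix (Fin m ⊕ Fin m) (Fin m ⊕ Fin m) F) _ _ at e1 e2
      simp only [Matrix.diagonal_apply_eq, Sum.elim_inl, Matrix.one_apply_eq, mul_one, if_true, Fin.mk.injEq,
        one_ne_zero, if_false] at e1 e2
      apply h2
      have : (2 : F) = 1 - (-1) := by ring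
      rw [this, e1, e2, sub_self]
  rw [← h1]
  exact orderOf_dvd_natCard _

/-! ### the order of the subfield group -/

variable {F₀ : Type*} [Field F₀] {σ : F ≃+* F} {j : F₀ →+* F}

lemma dvd_card_L [Finite F] [Finite F₀] {r : ℕ} [Fact r.Prime] [CharP F r] (hm : 2 ≤ m) (hσ1 : 0 < orderOf σ)
    (hj : ∀ x, (∃ c, j c = x) ↔ σ x = x) {p : ℕ} (hp : p.Prime) (hpr : p ≠ r) {k : Cfsg.PSp m F}
    (hk : psiSp (1 : Cfsg.GSp m F) σ k = k) (hord : orderOf k = p) : p ∣ Nat.card (Cfsg.PSp m F₀) := by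
  by_cases hp2 : p = 2
  · subst hp2
    apply two_dvd_card hm
    intro h0
    apply hpr
    have h1 : (2 : F) = 0 := by
      rw [← map_ofNat j 2]
      rw [h0, map_zero]
    have h2 : ((2 : ℕ) : F) = 0 := by exact_mod_cast h1
    rw [CharP.cast_eq_zero_iff F r] at h2
    exact ((Nat.prime_dvd_prime_iff_eq Fact.out Nat.prime_two).mp h2).symm
  · obtain ⟨u, rfl⟩ := QuotientGroup.mk_surjective k
    obtain ⟨l, hl⟩ := sq_mem_L hm hσ1 hj hk
    have h1 : orderOf ((QuotientGroup.mk u : Cfsg.PSp m F) ^ 2) = p := by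
      rw [Nat.Coprime.orderOf_pow, hord]
      rw [hord]
      exact (Nat.coprime_primes hp Nat.prime_two).mpr hp2
    rw [hl, orderOf_injective _ (pspHom_injective (by omega) j)] at h1
    rw [← h1]
    exact orderOf_dvd_natCard _

/-! ### the main theorem -/

theorem main [Finite F] {r : ℕ} [Fact r.Prime] [CharP F r] (hm : 2 ≤ m) (hK : IsSimpleGroup (Cfsg.PSp m F))
    (A : Subgroup (MulAut (Cfsg.PSp m F))) (hinn : ∀ k : Cfsg.PSp m F, MulAut.conj k ∈ A) {p : ℕ} (hp : p.Prime)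
    (hpr : p ≠ r) (x : MulAut (Cfsg.PSp m F)) (hord : orderOf x = p) (hnot : ¬ Cfsg.IsInnerDiagonalAutPSp x) :
    Cfsg.pPrimeCore p ↥(A ⊓ Subgroup.centralizer {x}) ≠ ⊥ ↔ (Cfsg.IsFieldAutClassPSp x ∧
      Nat.Coprime p (Nat.card ↥(MonoidHom.eqLocus x.toMonoidHom (MonoidHom.id (Cfsg.PSp m F))))) := by
  classical
  have hfinM : Finite (MulAut (Cfsg.PSp m F)) := H17.SpCount.finite_mulAut _
  have hZ := center_psp (m := m) (F := F) hm
  have hInnA : Cfsg.Inn (Cfsg.PSp m F) ≤ A := by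
    rintro _ ⟨k, rfl⟩
    exact hinn k
  obtain ⟨h, σ, hσ, hx⟩ := field_of_not_inn hm hp hpr hord hnot
  have hσ1 : σ ≠ 1 := by
    rintro rfl
    rw [orderOf_one] at hσ
    exact hp.one_lt.ne hσ
  have hσpos : 0 < orderOf σ := by rw [hσ]; exact hp.pos
  constructor
  · intro hcore
    refine ⟨fieldClass_iff.mpr ⟨(psiSp h 1)⁻¹, σ, hσ1, by rw [hx]; group⟩, ?_⟩
    by_contra hnc
    apply hcore
    -- an element of order `p` fixed by `x`
    rw [Nat.Prime.coprime_iff_not_dvd hp, not_not] at hnc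
    have := Fact.mk hp
    obtain ⟨k, hk⟩ := exists_prime_orderOf_dvd_card' p hnc
    have hkx : x (k : Cfsg.PSp m F) = k := k.2
    have hko : orderOf (k : Cfsg.PSp m F) = p := by rw [Subgroup.orderOf_coe, hk]
    have hk0 : psiSp (1 : Cfsg.GSp m F) σ ((psiSp h 1)⁻¹ (k : Cfsg.PSp m F)) = (psiSp h 1)⁻¹ (k : Cfsg.PSp m F) := by
      have h1 : psiSp (1 : Cfsg.GSp m F) σ * (psiSp h 1)⁻¹ = (psiSp h 1)⁻¹ * x := by rw [hx]; group
      have h2 := congrArg (fun β : MulAut (Cfsg.PSp m F) => β (k : Cfsg.PSp m F)) h1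
      simp only [MulAut.mul_apply] at h2
      rw [h2, hkx]
    have hko0 : orderOf ((psiSp h 1)⁻¹ (k : Cfsg.PSp m F)) = p := by
      rw [← hko]
      exact MulEquiv.orderOf_eq (psiSp h 1)⁻¹ (k : Cfsg.PSp m F)
    -- the subfield group
    let F₀ := H49.FixedField.fixedField σ
    obtain ⟨j, hj⟩ := exists_embedding (F₀ := F₀) σ rfl
    have hdvd := dvd_card_L (r := r) hm hσpos hj hp hpr hk0 hko0
    have hchar : CharP F₀ r := by
      refine (j.charP_iff j.injective r).mpr inferInstance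
    refine Bal.no_core' (Cfsg.Inn (Cfsg.PSp m F)) A hInnA (x₀ := psiSp (1 : Cfsg.GSp m F) σ) (γ := psiSp h 1)
      (by rw [orderOf_psiSp_std hm, hσ]) (MulAut.conj.comp (pspHom (m := m) (by omega) j)) ?_ ?_ ?_ ?_ ?_ ?_ hx
    · exact (Bal.conj_injective hZ).comp (pspHom_injective _ j)
    · intro l
      exact ⟨_, rfl⟩
    · intro l
      obtain ⟨s, rfl⟩ := QuotientGroup.mk_surjective l
      change MulAut.conj (pspHom _ j (QuotientGroup.mk s)) * _ = _ * MulAut.conj (pspHom _ j (QuotientGroup.mk s))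
      rw [Bal.conj_comm_iff _ _ hZ, pspHom_mk, psiSp_mk, map_one, MulAut.one_apply, spHom_fix hj]
    · rintro _ ⟨k, rfl⟩ hk l
      obtain ⟨u, rfl⟩ := QuotientGroup.mk_surjective k
      rw [Bal.conj_comm_iff _ _ hZ] at hk
      obtain ⟨l', hl'⟩ := conj_mem_L hm hσpos hj hk l
      refine ⟨l', ?_⟩
      change MulAut.conj _ * MulAut.conj (pspHom _ j l) * (MulAut.conj _)⁻¹ = MulAut.conj (pspHom _ j l')
      rw [← map_inv, ← map_mul, ← map_mul, hl']
    · intro M hM hMc
      exact normal_trivial (r := r) hm hp hpr hdvd M hM hMc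
    · intro α _ hα
      apply mem_zpowers_of_fix hm
      intro s hs
      obtain ⟨s₀, rfl⟩ := exists_spHom hj hs
      have h1 := hα (QuotientGroup.mk s₀)
      change α * MulAut.conj (pspHom _ j (QuotientGroup.mk s₀)) = MulAut.conj (pspHom _ j (QuotientGroup.mk s₀)) * α at h1
      rw [eq_comm, Bal.conj_comm_iff _ _ hZ] at h1
      exact h1
  · rintro ⟨-, hcop⟩
    exact Bal.core_ne_bot hZ inferInstance A hinn hp hord hcop

end H50.SpBal
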